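import Mathlib

/-! Facts on `A₆`. -/

set_option autoImplicit false
set_option linter.unusedSectionVars false
set_option linter.unusedVariables false
set_option linter.style.haveILetI false
set_option linter.unusedSimpArgs false

namespace CfsgLib.H9.A6Meet

open Equiv Equiv.Perm
open scoped Pointwise Nat

section A6

set_option maxRecDepth 100000 in
theorem count3 : (Finset.univ.filter (fun c : Perm (Fin 6) => Perm.sign c = 1 ∧ c ^ 3 = 1 ∧ c ≠ 1)).card ≤ 80 := by
  decide +kernel

set_option maxRecDepth 100000 in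
theorem count5 : (Finset.univ.filter (fun c : Perm (Fin 6) => Perm.sign c = 1 ∧ c ^ 5 = 1 ∧ c ≠ 1)).card ≤ 144 := by
  decide +kernel

set_option maxRecDepth 100000 in
theorem orders : ∀ a : Perm (Fin 6), Perm.sign a = 1 → a ^ 2 = 1 ∨ a ^ 3 = 1 ∨ a ^ 4 = 1 ∨ a ^ 5 = 1 := by
  decide +kernel

theorem type_of_prime {r : ℕ} (hr : r.Prime) {g : Perm (Fin 6)} (h : g ^ r = 1) (h1 : g ≠ 1) :
    ∃ k, 1 ≤ k ∧ k * r ≤ 6 ∧ g.cycleType = Multiset.replicate k r := by
  haveI := Fact.mk hr
  have ho : orderOf g = r := orderOf_eq_prime h h1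
  obtain ⟨n, hn⟩ := cycleType_prime_order (σ := g) (by rw [ho]; exact hr)
  rw [ho] at hn
  refine ⟨n + 1, by omega, ?_, hn⟩
  have h2 := sum_cycleType g
  rw [hn, Multiset.sum_replicate] at h2
  have h3 : g.support.card ≤ 6 := by
    simpa using Finset.card_le_univ g.support
  rw [smul_eq_mul] at h2
  omega

theorem cent_replicate {g : Perm (Fin 6)} {k r : ℕ} (hk : 1 ≤ k) (h : g.cycleType = Multiset.replicate k r) :
    Nat.card (Subgroup.centralizer ({g} : Set (Perm (Fin 6)))) = (6 - k * r)! * r ^ k * k ! := by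
  rw [nat_card_centralizer, h]
  have h1 : (Multiset.replicate k r).toFinset = {r} := by
    ext a
    simp only [Multiset.mem_toFinset, Multiset.mem_replicate, Finset.mem_singleton]
    constructor
    · exact fun h => h.2
    · exact fun h => ⟨by omega, h⟩
  rw [h1, Finset.prod_singleton, Multiset.count_replicate_self, Multiset.sum_replicate, Multiset.prod_replicate]
  simp

theorem cent2 (z : Perm (Fin 6)) (h2 : z ^ 2 = 1) (h1 : z ≠ 1) (hs : Perm.sign z = 1) :
    Nat.card (Subgroup.centralizer ({z} : Set (Perm (Fin 6)))) = 16 := by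
  obtain ⟨k, hk, hk2, ht⟩ := type_of_prime Nat.prime_two h2 h1
  have h3 := sign_of_cycleType z
  rw [hs, ht, Multiset.sum_replicate, Multiset.card_replicate] at h3
  have hk3 : k = 1 ∨ k = 2 ∨ k = 3 := by omega
  rcases hk3 with rfl | rfl | rfl
  · simp at h3
    exact absurd h3 (by decide)
  · rw [cent_replicate hk ht]
    rfl
  · simp at h3
    exact absurd h3 (by decide)

theorem cent3 (z : Perm (Fin 6)) (h2 : z ^ 3 = 1) (h1 : z ≠ 1) :
    Nat.card (Subgroup.centralizer ({z} : Set (Perm (Fin 6)))) = 18 := by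
  obtain ⟨k, hk, hk2, ht⟩ := type_of_prime Nat.prime_three h2 h1
  have hk3 : k = 1 ∨ k = 2 := by omega
  rcases hk3 with rfl | rfl
  · rw [cent_replicate hk ht]
    rfl
  · rw [cent_replicate hk ht]
    rfl

theorem cent5 (z : Perm (Fin 6)) (h2 : z ^ 5 = 1) (h1 : z ≠ 1) :
    Nat.card (Subgroup.centralizer ({z} : Set (Perm (Fin 6)))) = 5 := by
  obtain ⟨k, hk, hk2, ht⟩ := type_of_prime Nat.prime_five h2 h1
  have hk3 : k = 1 := by omega
  subst hk3
  rw [cent_replicate hk ht]
  rfl

end A6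

end CfsgLib.H9.A6Meet
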