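import Mathlib
import Cfsg.Agent.Lib.H9.A6Facts

/-! Any two Sylow 2-subgroups of a group with a normal subgroup `A₆` of index 4 meet. -/

set_option autoImplicit false
set_option linter.unusedSectionVars false
set_option linter.unusedVariables false
set_option linter.style.haveILetI false
set_option linter.unusedSimpArgs false

namespace CfsgLib.H9.A6Meet

open Equiv Equiv.Perm
open scoped Pointwise Nat


section general

variable {G : Type*} [Group G] [Finite G]

theorem fac2 {k o : ℕ} (ho : Odd o) : (2 ^ k * o).factorization 2 = k := by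
  have h0 : o ≠ 0 := ho.pos.ne'
  rw [Nat.factorization_mul (by positivity) h0]
  simp [Nat.factorization_eq_zero_of_not_dvd (show ¬ 2 ∣ o from ho.not_two_dvd_nat), Nat.Prime.factorization_self Nat.prime_two]

theorem card_le_inf (K N : Subgroup G) [hN : N.Normal] : Nat.card K ≤ Nat.card (K ⊓ N : Subgroup G) * N.index := by
  have h1 : N.relIndex K ∣ N.index := Subgroup.relIndex_dvd_index_of_normal _ _
  have h2 : Nat.card (N.subgroupOf K) * N.relIndex K = Nat.card K := Subgroup.card_mul_index _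
  have h3 : Nat.card (N.subgroupOf K) = Nat.card (K ⊓ N : Subgroup G) := by
    apply Nat.card_congr
    exact ⟨fun a => ⟨a.1.1, a.1.2, a.2⟩, fun b => ⟨⟨b.1, b.2.1⟩, b.2.2⟩, fun a => rfl, fun b => rfl⟩
  rw [h3] at h2
  rw [← h2]
  apply Nat.mul_le_mul_left
  exact Nat.le_of_dvd (Nat.pos_of_ne_zero Subgroup.index_ne_zero_of_finite) h1

theorem exists_central (hP : IsPGroup 2 G) (M : Subgroup G) [hM : M.Normal] (hne : M ≠ ⊥) :
    ∃ z ∈ M, z ≠ 1 ∧ ∀ h : G, h * z = z * h := by
  classical
  haveI : Fintype M := Fintype.ofFinite _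
  have hP' : IsPGroup 2 (ConjAct G) := hP
  have h1 := hP'.card_modEq_card_fixedPoints M
  have h2 : Even (Nat.card M) := by
    obtain ⟨n, hn⟩ := IsPGroup.iff_card.mp hP
    have hdvd := Subgroup.card_subgroup_dvd_card M
    rw [hn] at hdvd
    obtain ⟨a, ha, hc⟩ := (Nat.dvd_prime_pow Nat.prime_two).mp hdvd
    rw [hc]
    have ha0 : a ≠ 0 := by
      rintro rfl
      apply hne
      rw [Subgroup.eq_bot_iff_card]
      simpa using hc
    exact (Nat.even_pow.mpr ⟨even_two, ha0⟩)
  have h3 : Even (Nat.card (MulAction.fixedPoints (ConjAct G) M)) := by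
    have : Nat.card M % 2 = Nat.card (MulAction.fixedPoints (ConjAct G) M) % 2 := h1
    rw [Nat.even_iff] at h2 ⊢
    omega
  have h4 : (1 : M) ∈ MulAction.fixedPoints (ConjAct G) M := by
    intro a
    simp
  obtain ⟨z, hz, hz1⟩ : ∃ z ∈ MulAction.fixedPoints (ConjAct G) M, z ≠ 1 := by
    by_contra hcon
    simp only [not_exists, not_and, not_not] at hcon
    have : Nat.card (MulAction.fixedPoints (ConjAct G) M) = 1 := by
      rw [Nat.card_eq_one_iff_unique]
      exact ⟨⟨fun a b => Subtype.ext (by rw [hcon a.1 a.2, hcon b.1 b.2])⟩, ⟨⟨1, h4⟩⟩⟩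
    rw [this] at h3
    exact absurd h3 (by decide)
  refine ⟨z.1, z.2, fun h => hz1 (Subtype.ext h), ?_⟩
  intro h
  have h5 := hz (ConjAct.toConjAct h)
  have h6 := congrArg Subtype.val h5
  have h7 : h * z.1 * h⁻¹ = z.1 := h6
  rw [mul_inv_eq_iff_eq_mul] at h7
  exact h7

/-- The class equation bound. -/
theorem card_le_cent_mul (y : G) (t : Finset G) (ht : ∀ g : G, g * y * g⁻¹ ∈ t) :
    Nat.card G ≤ Nat.card (Subgroup.centralizer ({y} : Set G)) * t.card := by
  classical
  haveI := Fintype.ofFinite G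
  have hfib : ∀ b ∈ t, (Finset.univ.filter (fun g : G => g * y * g⁻¹ = b)).card ≤
      Nat.card (Subgroup.centralizer ({y} : Set G)) := by
    intro b hb
    by_cases hne : (Finset.univ.filter (fun g : G => g * y * g⁻¹ = b)).Nonempty
    · obtain ⟨g₀, hg₀⟩ := hne
      have hg₀' := (Finset.mem_filter.mp hg₀).2
      haveI : Fintype (Subgroup.centralizer ({y} : Set G)) := Fintype.ofFinite _
      rw [Nat.card_eq_fintype_card, ← Finset.card_univ]
      refine le_trans (Finset.card_le_card (t := (Finset.univ : Finset (Subgroup.centralizer ({y} : Set G))).image (fun c => g₀ * c.1)) ?_) Finset.card_image_le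
      intro g hg
      have hg' := (Finset.mem_filter.mp hg).2
      rw [Finset.mem_image]
      refine ⟨⟨g₀⁻¹ * g, ?_⟩, Finset.mem_univ _, by simp⟩
      rw [Subgroup.mem_centralizer_singleton_iff]
      have e : g * y * g⁻¹ = g₀ * y * g₀⁻¹ := hg'.trans hg₀'.symm
      have e1 : g * y = g₀ * y * g₀⁻¹ * g := by
        rw [← e]
        group
      calc g₀⁻¹ * g * y = g₀⁻¹ * (g * y) := by group
        _ = g₀⁻¹ * (g₀ * y * g₀⁻¹ * g) := by rw [e1]
        _ = y * (g₀⁻¹ * g) := by group
    · rw [Finset.not_nonempty_iff_eq_empty] at hne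
      rw [hne]
      simp
  have h := Finset.card_le_mul_card_image_of_maps_to (s := Finset.univ) (t := t) (f := fun g : G => g * y * g⁻¹)
    (fun g _ => ht g) _ hfib
  rw [Nat.card_eq_fintype_card]
  simpa using h

end general

section main

variable {G : Type*} [Group G] [Finite G]

theorem main_2488 (N : Subgroup G) [hNn : N.Normal] (e : N ≃* alternatingGroup (Fin 6)) (hidx : N.index = 4)
    (H : Sylow 2 G) (x : G) :
    (H : Subgroup G) ⊓ MulAut.conj x • (H : Subgroup G) ≠ ⊥ := by
  classical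
  haveI := Fintype.ofFinite G
  have hA : Nat.card (alternatingGroup (Fin 6)) = 360 := by
    have h := two_mul_nat_card_alternatingGroup (α := Fin 6)
    rw [Nat.card_eq_fintype_card (α := Perm (Fin 6)), Fintype.card_perm] at h
    simp only [Fintype.card_fin] at h
    have h6 : (6 : ℕ)! = 720 := rfl
    omega
  have hN : Nat.card N = 360 := by rw [Nat.card_congr e.toEquiv, hA]
  have hG : Nat.card G = 1440 := by
    rw [← Subgroup.card_mul_index N, hN, hidx]
  have hH : Nat.card (H : Subgroup G) = 32 := by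
    rw [H.card_eq_multiplicity, hG, show (1440 : ℕ) = 2 ^ 5 * 45 from rfl, fac2 (by decide)]
    rfl
  -- the map to permutations
  let ph : N →* Perm (Fin 6) := (alternatingGroup (Fin 6)).subtype.comp e.toMonoidHom
  have hphinj : Function.Injective ph := by
    intro a b h
    exact e.injective (Subtype.ext h)
  have hphs : ∀ a : N, Perm.sign (ph a) = 1 := fun a => (e a).2
  -- centraliser bound
  have hcentN : ∀ a : N, Nat.card (Subgroup.centralizer ({(a : G)} : Set G) ⊓ N : Subgroup G) ≤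
      Nat.card (Subgroup.centralizer ({ph a} : Set (Perm (Fin 6)))) := by
    intro a
    apply Nat.card_le_card_of_injective
      (fun c : (Subgroup.centralizer ({(a : G)} : Set G) ⊓ N : Subgroup G) =>
        (⟨ph ⟨c.1, c.2.2⟩, by
          rw [Subgroup.mem_centralizer_singleton_iff, ← map_mul, ← map_mul]
          congr 1
          apply Subtype.ext
          exact Subgroup.mem_centralizer_singleton_iff.mp c.2.1⟩ : Subgroup.centralizer ({ph a} : Set (Perm (Fin 6)))))
    intro c d h
    have h1 := congrArg Subtype.val h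
    have h2 := hphinj h1
    exact Subtype.ext (congrArg (fun w : N => (w : G)) h2)
  -- the central involution
  have hHp : IsPGroup 2 (H : Subgroup G) := H.isPGroup'
  have hMne : N.subgroupOf (H : Subgroup G) ≠ ⊥ := by
    intro hbot
    have h1 := card_le_inf (H : Subgroup G) N
    have h3 : Nat.card (N.subgroupOf (H : Subgroup G)) = Nat.card ((H : Subgroup G) ⊓ N : Subgroup G) := by
      apply Nat.card_congr
      exact ⟨fun a => ⟨a.1.1, a.1.2, a.2⟩, fun b => ⟨⟨b.1, b.2.1⟩, b.2.2⟩, fun a => rfl, fun b => rfl⟩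
    rw [← h3, hbot, Subgroup.card_bot, hH, hidx] at h1
    omega
  haveI : (N.subgroupOf (H : Subgroup G)).Normal := Subgroup.Normal.subgroupOf hNn _
  obtain ⟨z, hzM, hz1, hzc⟩ := exists_central hHp (N.subgroupOf (H : Subgroup G)) hMne
  have hzN : (z : G) ∈ N := Subgroup.mem_subgroupOf.mp hzM
  -- pass to an involution
  obtain ⟨k, hk⟩ := (IsPGroup.iff_orderOf.mp hHp) z
  have hk0 : k ≠ 0 := by
    rintro rfl
    rw [pow_zero, orderOf_eq_one_iff] at hk
    exact hz1 hk
  have hdvd2 : 2 ∣ orderOf z := by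
    rw [hk]
    exact dvd_pow_self 2 hk0
  have hord0 : orderOf z ≠ 0 := orderOf_pos z |>.ne'
  set z₀' : (H : Subgroup G) := z ^ (orderOf z / 2) with hz₀'
  have hz₀o : orderOf z₀' = 2 := orderOf_pow_orderOf_div hord0 hdvd2
  set z₀ : G := (z₀' : G) with hz₀
  have hz₀o' : orderOf z₀ = 2 := by
    rw [hz₀, Subgroup.orderOf_coe, hz₀o]
  have hz₀sq : z₀ * z₀ = 1 := by
    rw [← pow_two, ← hz₀o']
    exact pow_orderOf_eq_one _
  have hz₀1 : z₀ ≠ 1 := by
    intro h
    rw [h, orderOf_one] at hz₀o'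
    omega
  have hz₀N : z₀ ∈ N := by
    have : z₀ = (z : G) ^ (orderOf z / 2) := by
      rw [hz₀, hz₀']
      simp
    rw [this]
    exact N.pow_mem hzN _
  have hz₀H : ∀ h ∈ (H : Subgroup G), h * z₀ = z₀ * h := by
    intro h hh
    have h1 : (⟨h, hh⟩ : (H : Subgroup G)) * z₀' = z₀' * ⟨h, hh⟩ := by
      rw [hz₀']
      exact ((Commute.pow_right (show Commute (⟨h, hh⟩ : (H : Subgroup G)) z from hzc _) _))
    exact congrArg Subtype.val h1
  -- `H` is the centraliser of `z₀`
  have hphinv : ∀ a : N, (a : G) ^ 2 = 1 → a ≠ 1 → ph a ^ 2 = 1 ∧ ph a ≠ 1 := by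
    intro a h1 h2
    refine ⟨?_, ?_⟩
    · rw [← map_pow]
      have : a ^ 2 = 1 := Subtype.ext (by simpa using h1)
      rw [this, map_one]
    · intro h
      apply h2
      apply hphinj
      rw [h, map_one]
  have hHeq : ∀ g : G, g ∈ (H : Subgroup G) ↔ g * z₀ = z₀ * g := by
    have hC16 := cent2 (ph ⟨z₀, hz₀N⟩) (hphinv ⟨z₀, hz₀N⟩ (by rw [pow_two]; exact hz₀sq) (fun h => hz₀1 (congrArg Subtype.val h))).1
      (hphinv ⟨z₀, hz₀N⟩ (by rw [pow_two]; exact hz₀sq) (fun h => hz₀1 (congrArg Subtype.val h))).2 (hphs _)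
    have h1 := hcentN ⟨z₀, hz₀N⟩
    rw [hC16] at h1
    have h2 := card_le_inf (Subgroup.centralizer ({z₀} : Set G)) N
    rw [hidx] at h2
    have hle : (H : Subgroup G) ≤ Subgroup.centralizer ({z₀} : Set G) := by
      intro g hg
      rw [Subgroup.mem_centralizer_singleton_iff]
      exact hz₀H g hg
    have h3 := Subgroup.card_dvd_of_le hle
    rw [hH] at h3
    have h4 := Subgroup.card_subgroup_dvd_card (Subgroup.centralizer ({z₀} : Set G))
    rw [hG] at h4
    have h5 : Nat.card (Subgroup.centralizer ({z₀} : Set G)) ≤ 64 := by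
      have : Nat.card (Subgroup.centralizer ({z₀} : Set G)) ≤
        Nat.card (Subgroup.centralizer ({z₀} : Set G) ⊓ N : Subgroup G) * 4 := h2
      have h6 : Nat.card (Subgroup.centralizer ({z₀} : Set G) ⊓ N : Subgroup G) ≤ 16 := h1
      omega
    have h6 : Nat.card (Subgroup.centralizer ({z₀} : Set G)) = 32 := by
      obtain ⟨c, hc⟩ := h3
      have hc1 : c = 1 := by
        have h7 : c ≤ 2 := by
          by_contra hcon
          have : 32 * 3 ≤ 32 * c := Nat.mul_le_mul_left _ (by omega)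
          omega
        have h8 : c ≠ 0 := by
          rintro rfl
          have := Nat.card_pos (α := Subgroup.centralizer ({z₀} : Set G))
          omega
        have h9 : c ≠ 2 := by
          rintro rfl
          rw [hc] at h4
          omega
        omega
      rw [hc, hc1]
    have heq := Subgroup.eq_of_le_of_card_ge hle (by rw [h6, hH])
    intro g
    rw [heq, Subgroup.mem_centralizer_singleton_iff]
  -- the other involution
  set z₁ := x * z₀ * x⁻¹ with hz₁
  have hz₁N : z₁ ∈ N := hNn.conj_mem z₀ hz₀N x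
  have hz₁sq : z₁ * z₁ = 1 := by
    rw [hz₁]
    calc x * z₀ * x⁻¹ * (x * z₀ * x⁻¹) = x * (z₀ * z₀) * x⁻¹ := by group
      _ = 1 := by rw [hz₀sq]; group
  suffices hs : ∃ t : G, t ≠ 1 ∧ t * z₀ = z₀ * t ∧ t * z₁ = z₁ * t by
    obtain ⟨t, ht1, ht0, ht⟩ := hs
    intro hbot
    have hmem : t ∈ (H : Subgroup G) ⊓ MulAut.conj x • (H : Subgroup G) := by
      refine Subgroup.mem_inf.mpr ⟨(hHeq t).mpr ht0, ?_⟩
      rw [Subgroup.mem_pointwise_smul_iff_inv_smul_mem]
      have : (MulAut.conj x)⁻¹ • t = x⁻¹ * t * x := by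
        show (MulAut.conj x)⁻¹ t = _
        rw [MulAut.conj_inv_apply]
      rw [this, hHeq]
      calc x⁻¹ * t * x * z₀ = x⁻¹ * (t * z₁) * x := by rw [hz₁]; group
        _ = x⁻¹ * (z₁ * t) * x := by rw [ht]
        _ = z₀ * (x⁻¹ * t * x) := by rw [hz₁]; group
    rw [hbot, Subgroup.mem_bot] at hmem
    exact ht1 hmem
  set y := z₀ * z₁ with hy
  have hyN : y ∈ N := N.mul_mem hz₀N hz₁N
  have hz₀inv : z₀⁻¹ = z₀ := inv_eq_of_mul_eq_one_left hz₀sq
  have hz₁inv : z₁⁻¹ = z₁ := inv_eq_of_mul_eq_one_left hz₁sq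
  have hyinv : y⁻¹ = z₁ * z₀ := by
    rw [hy, mul_inv_rev, hz₀inv, hz₁inv]
  have hz₀y : z₀ * y * z₀ = y⁻¹ := by
    rw [hyinv, hy]
    calc z₀ * (z₀ * z₁) * z₀ = (z₀ * z₀) * z₁ * z₀ := by group
      _ = z₁ * z₀ := by rw [hz₀sq, one_mul]
  have hz₁y : z₁ * y * z₁ = y⁻¹ := by
    rw [hyinv, hy]
    calc z₁ * (z₀ * z₁) * z₁ = z₁ * z₀ * (z₁ * z₁) := by group
      _ = z₁ * z₀ := by rw [hz₁sq, mul_one]
  have hpowN : ∀ a : N, ∀ r : ℕ, (a : G) ^ r = 1 ↔ ph a ^ r = 1 := by
    intro a r
    constructor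
    · intro h
      rw [← map_pow]
      have : a ^ r = 1 := Subtype.ext (by simpa using h)
      rw [this, map_one]
    · intro h
      rw [← map_pow] at h
      have h2 : a ^ r = 1 := hphinj (by rw [h, map_one])
      simpa using congrArg Subtype.val h2
  -- a common commuting element in the commuting case
  have hcommcase : y ^ 2 = 1 → ∃ t : G, t ≠ 1 ∧ t * z₀ = z₀ * t ∧ t * z₁ = z₁ * t := by
    intro h
    refine ⟨z₀, hz₀1, rfl, ?_⟩
    have h1 : z₀ * z₁ * (z₀ * z₁) = 1 := by
      rw [← pow_two]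
      exact h
    calc z₀ * z₁ = z₀ * z₁ * (z₀ * z₁) * (z₁ * z₀) := by
          calc z₀ * z₁ = z₀ * z₁ * ((z₀ * (z₁ * z₁) * z₀)) := by
                rw [hz₁sq, mul_one, hz₀sq, mul_one]
            _ = _ := by group
      _ = z₁ * z₀ := by rw [h1, one_mul]
  -- the odd case
  have hoddcase : ∀ r : ℕ, (r = 3 ∨ r = 5) → y ^ r = 1 → y ≠ 1 → ∃ t : G, t ≠ 1 ∧ t * z₀ = z₀ * t ∧ t * z₁ = z₁ * t := by
    intro r hr hyr hy1
    set C := Subgroup.centralizer ({y} : Set G) with hC
    have hCeven : Even (Nat.card C) := by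
      by_contra hodd
      rw [Nat.not_even_iff_odd] at hodd
      have hle : C ≤ N := by
        intro c hc
        have hw : ((c : G) : G ⧸ N) ^ 4 = 1 := by
          have h1 : Nat.card (G ⧸ N) = 4 := by rw [← Subgroup.index_eq_card, hidx]
          have := pow_card_eq_one' (x := ((c : G) : G ⧸ N))
          rwa [h1] at this
        have hw2 : ((c : G) : G ⧸ N) ^ (Nat.card C) = 1 := by
          have := pow_card_eq_one' (x := (⟨c, hc⟩ : C))
          have h2 := congrArg Subtype.val this
          have h3 : c ^ Nat.card C = 1 := h2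
          rw [← QuotientGroup.mk_pow, h3]
          rfl
        have h4 := orderOf_dvd_of_pow_eq_one hw
        have h5 := orderOf_dvd_of_pow_eq_one hw2
        have hcop : Nat.Coprime 4 (Nat.card C) := by
          have : Nat.Coprime (2 ^ 2) (Nat.card C) := Nat.Coprime.pow_left 2 (Nat.coprime_two_left.mpr hodd)
          simpa using this
        have h6 := Nat.Coprime.eq_one_of_dvd (hcop.coprime_dvd_left h4) h5
        rw [orderOf_eq_one_iff] at h6
        exact (QuotientGroup.eq_one_iff c).mp h6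
      have hinfeq : C ⊓ N = C := inf_eq_left.mpr hle
      have h1 := hcentN ⟨y, hyN⟩
      rw [show Subgroup.centralizer ({((⟨y, hyN⟩ : N) : G)} : Set G) = C from rfl, hinfeq] at h1
      have hphy : ph ⟨y, hyN⟩ ^ r = 1 := (hpowN ⟨y, hyN⟩ r).mp hyr
      have hphy1 : ph ⟨y, hyN⟩ ≠ 1 := by
        intro h
        apply hy1
        have := hphinj (h.trans (map_one ph).symm)
        exact congrArg (fun w : N => (w : G)) this
      let t : Finset G := Finset.univ.filter (fun g : G => g ∈ N ∧ g ^ r = 1 ∧ g ≠ 1)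
      have ht : ∀ g : G, g * y * g⁻¹ ∈ t := by
        intro g
        simp only [t, Finset.mem_filter, Finset.mem_univ, true_and]
        refine ⟨hNn.conj_mem y hyN g, ?_, ?_⟩
        · rw [conj_pow, hyr]
          group
        · intro h
          apply hy1
          have : y = g⁻¹ * (g * y * g⁻¹) * g := by group
          rw [this, h]
          group
      have hcl := card_le_cent_mul y t ht
      rw [hG, ← hC] at hcl
      have htcard : t.card ≤ (Finset.univ.filter (fun c : Perm (Fin 6) => Perm.sign c = 1 ∧ c ^ r = 1 ∧ c ≠ 1)).card := by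
        apply Finset.card_le_card_of_injOn (fun g => if h : g ∈ N then ph ⟨g, h⟩ else 1)
        · intro g hg
          have hg' : g ∈ N ∧ g ^ r = 1 ∧ g ≠ 1 := by simpa [t] using hg
          obtain ⟨g1, g2, g3⟩ := hg'
          simp only [dif_pos g1, Finset.coe_filter, Finset.mem_univ, true_and]
          refine ⟨hphs _, (hpowN ⟨g, g1⟩ r).mp g2, ?_⟩
          intro h
          apply g3
          have := hphinj (h.trans (map_one ph).symm)
          exact congrArg (fun w : N => (w : G)) this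
        · intro g hg g' hg' h
          have hg1 : g ∈ N ∧ g ^ r = 1 ∧ g ≠ 1 := by simpa [t] using hg
          have hg1' : g' ∈ N ∧ g' ^ r = 1 ∧ g' ≠ 1 := by simpa [t] using hg'
          simp only [dif_pos hg1.1, dif_pos hg1'.1] at h
          have := hphinj h
          exact congrArg (fun w : N => (w : G)) this
      rw [Nat.odd_iff] at hodd
      rcases hr with rfl | rfl
      · rw [cent3 _ hphy hphy1] at h1
        have h2 := htcard.trans count3
        have h3 : Nat.card C ≤ 17 := by omega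
        have := Nat.mul_le_mul h3 h2
        omega
      · rw [cent5 _ hphy hphy1] at h1
        have h2 := htcard.trans count5
        have := Nat.mul_le_mul h1 h2
        omega
    -- the involution on the centraliser
    haveI : Fintype C := Fintype.ofFinite _
    have hmemC : ∀ c : G, c ∈ C ↔ c * y = y * c := fun c => Subgroup.mem_centralizer_singleton_iff
    have hσ : ∀ c : C, z₀ * c.1 * z₀ ∈ C := by
      intro c
      rw [hmemC]
      have hc := (hmemC c.1).mp c.2
      have e1 : y * z₀ = z₀ * y⁻¹ := by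
        have : z₀ * y⁻¹ = z₀ * (z₀ * y * z₀) := by rw [hz₀y]
        rw [this, ← mul_assoc, ← mul_assoc, hz₀sq, one_mul]
      have hc' : c.1 * y⁻¹ = y⁻¹ * c.1 := by
        have : (c.1 * y⁻¹) = y⁻¹ * (y * c.1) * y⁻¹ := by group
        rw [this, ← hc]
        group
      have e2 : z₀ * y = y⁻¹ * z₀ := by
        have : y⁻¹ * z₀ = (z₀ * y * z₀) * z₀ := by rw [hz₀y]
        rw [this, mul_assoc, hz₀sq, mul_one]
      calc z₀ * c.1 * z₀ * y = z₀ * c.1 * (z₀ * y) := by group
        _ = z₀ * c.1 * (y⁻¹ * z₀) := by rw [e2]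
        _ = z₀ * (c.1 * y⁻¹) * z₀ := by group
        _ = z₀ * (y⁻¹ * c.1) * z₀ := by rw [hc']
        _ = (z₀ * y⁻¹) * c.1 * z₀ := by group
        _ = (y * z₀) * c.1 * z₀ := by rw [e1]
        _ = y * (z₀ * c.1 * z₀) := by group
    let f : Function.End C := fun c => ⟨z₀ * c.1 * z₀, hσ c⟩
    have hf : f ^ 2 ^ 1 = 1 := by
      funext c
      apply Subtype.ext
      show z₀ * (z₀ * c.1 * z₀) * z₀ = c.1
      calc z₀ * (z₀ * c.1 * z₀) * z₀ = (z₀ * z₀) * c.1 * (z₀ * z₀) := by group
        _ = c.1 := by rw [hz₀sq]; group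
    haveI : Fact (Nat.Prime 2) := ⟨Nat.prime_two⟩
    have hmod := Equiv.Perm.card_fixedPoints_modEq (p := 2) (n := 1) hf
    have h1fix : (1 : C) ∈ Function.fixedPoints f := by
      apply Subtype.ext
      show z₀ * 1 * z₀ = 1
      rw [mul_one, hz₀sq]
    obtain ⟨t, ht, ht1⟩ : ∃ t ∈ Function.fixedPoints f, t ≠ 1 := by
      by_contra hcon
      simp only [not_exists, not_and, not_not] at hcon
      have hone : Fintype.card (Function.fixedPoints f) = 1 := by
        rw [Fintype.card_eq_one_iff]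
        exact ⟨⟨1, h1fix⟩, fun a => Subtype.ext (hcon a.1 a.2)⟩
      have h2 : Fintype.card C % 2 = 1 := by
        have : Fintype.card C % 2 = Fintype.card (Function.fixedPoints f) % 2 := hmod
        rw [this, hone]
      rw [← Nat.card_eq_fintype_card, ← Nat.odd_iff] at h2
      exact (Nat.not_even_iff_odd.mpr h2) hCeven
    refine ⟨t.1, fun h => ht1 (Subtype.ext h), ?_, ?_⟩
    · have h1 : z₀ * t.1 * z₀ = t.1 := congrArg Subtype.val ht
      calc t.1 * z₀ = (z₀ * t.1 * z₀) * z₀ := by rw [h1]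
        _ = z₀ * t.1 * (z₀ * z₀) := by group
        _ = z₀ * t.1 := by rw [hz₀sq, mul_one]
    · have h1 : z₀ * t.1 * z₀ = t.1 := congrArg Subtype.val ht
      have h2 : t.1 * z₀ = z₀ * t.1 := by
        calc t.1 * z₀ = (z₀ * t.1 * z₀) * z₀ := by rw [h1]
          _ = z₀ * t.1 * (z₀ * z₀) := by group
          _ = z₀ * t.1 := by rw [hz₀sq, mul_one]
      have h3 : z₁ = z₀ * y := by
        rw [hy, ← mul_assoc, hz₀sq, one_mul]
      have hc := (hmemC t.1).mp t.2
      rw [h3]
      calc t.1 * (z₀ * y) = (t.1 * z₀) * y := by group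
        _ = z₀ * (t.1 * y) := by rw [h2]; group
        _ = z₀ * (y * t.1) := by rw [hc]
        _ = _ := by group
  have hord := orders (ph ⟨y, hyN⟩) (hphs _)
  rcases hord with h | h | h | h
  · exact hcommcase ((hpowN ⟨y, hyN⟩ 2).mpr h)
  · by_cases hy1 : y = 1
    · exact hcommcase (by rw [hy1]; simp)
    · exact hoddcase 3 (Or.inl rfl) ((hpowN ⟨y, hyN⟩ 3).mpr h) hy1
  · by_cases hy2 : y ^ 2 = 1
    · exact hcommcase hy2
    · have h4 : y ^ 4 = 1 := (hpowN ⟨y, hyN⟩ 4).mpr h
      have hinv2 : (y ^ 2)⁻¹ = y ^ 2 := by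
        apply inv_eq_of_mul_eq_one_left
        rw [← pow_add]
        exact h4
      refine ⟨y ^ 2, hy2, ?_, ?_⟩
      · have e1 : z₀ * y ^ 2 * z₀ = y ^ 2 := by
          have : z₀ * y ^ 2 * z₀⁻¹ = (z₀ * y * z₀⁻¹) ^ 2 := by
            rw [conj_pow]
          rw [hz₀inv] at this
          rw [this, hz₀y, inv_pow, hinv2]
        calc y ^ 2 * z₀ = z₀ * (z₀ * y ^ 2 * z₀) := by
              calc y ^ 2 * z₀ = (z₀ * z₀) * y ^ 2 * z₀ := by rw [hz₀sq, one_mul]
                _ = _ := by group
          _ = z₀ * y ^ 2 := by rw [e1]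
      · have e1 : z₁ * y ^ 2 * z₁ = y ^ 2 := by
          have : z₁ * y ^ 2 * z₁⁻¹ = (z₁ * y * z₁⁻¹) ^ 2 := by
            rw [conj_pow]
          rw [hz₁inv] at this
          rw [this, hz₁y, inv_pow, hinv2]
        calc y ^ 2 * z₁ = z₁ * (z₁ * y ^ 2 * z₁) := by
              calc y ^ 2 * z₁ = (z₁ * z₁) * y ^ 2 * z₁ := by rw [hz₁sq, one_mul]
                _ = _ := by group
          _ = z₁ * y ^ 2 := by rw [e1]
  · by_cases hy1 : y = 1
    · exact hcommcase (by rw [hy1]; simp)
    · exact hoddcase 5 (Or.inr rfl) ((hpowN ⟨y, hyN⟩ 5).mpr h) hy1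

end main

end CfsgLib.H9.A6Meet
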