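import Mathlib

/-! Abelian Sylow subgroups of alternating groups: `N(P)/C(P)` has even order unless `P` is cyclic. -/

set_option autoImplicit false
set_option linter.unusedVariables false
set_option linter.unusedSectionVars false
set_option linter.unusedSimpArgs false
set_option linter.style.haveILetI false

namespace CfsgLib.H9.AbSyl

open Equiv Equiv.Perm
open scoped Pointwise

/-- Burnside's fusion lemma for abelian Sylow subgroups. -/
theorem fusion {G : Type*} [Group G] [Finite G] {p : ℕ} [Fact p.Prime] (P : Sylow p G)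
    (hP : ∀ a ∈ (P : Subgroup G), ∀ b ∈ (P : Subgroup G), a * b = b * a)
    (c d τ : G) (hc : c ∈ (P : Subgroup G)) (hd : d ∈ (P : Subgroup G)) (hτ : τ * c * τ⁻¹ = d) :
    ∃ t ∈ Subgroup.normalizer ((P : Subgroup G) : Set G), t * c * t⁻¹ = d := by
  classical
  let C : Subgroup G := Subgroup.centralizer {d}
  have h1 : (P : Subgroup G) ≤ C := by
    intro a ha
    rw [Subgroup.mem_centralizer_iff]
    intro h hh
    rw [Set.mem_singleton_iff] at hh
    rw [hh]
    exact hP _ hd _ ha
  let Q : Sylow p G := τ • P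
  have hmemQ : ∀ x, x ∈ (Q : Subgroup G) ↔ τ⁻¹ * x * τ ∈ (P : Subgroup G) := by
    intro x
    have h2 : x ∈ (Q : Subgroup G) ↔ x ∈ MulAut.conj τ • (P : Subgroup G) := Iff.rfl
    rw [h2, Subgroup.mem_pointwise_smul_iff_inv_smul_mem]
    simp [MulAut.smul_def, MulAut.conj_inv_apply]
  have h2 : (Q : Subgroup G) ≤ C := by
    intro x hx
    have hx' := (hmemQ x).1 hx
    rw [Subgroup.mem_centralizer_iff]
    intro h hh
    rw [Set.mem_singleton_iff] at hh
    rw [hh, ← hτ]
    have h3 := hP _ hc _ hx'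
    calc (τ * c * τ⁻¹) * x = τ * (c * (τ⁻¹ * x * τ)) * τ⁻¹ := by group
      _ = τ * ((τ⁻¹ * x * τ) * c) * τ⁻¹ := by rw [h3]
      _ = x * (τ * c * τ⁻¹) := by group
  obtain ⟨s, hs⟩ := MulAction.exists_smul_eq C (Q.subtype h2) (P.subtype h1)
  have hs2 : ∀ x ∈ (Q : Subgroup G), (s : G) * x * (s : G)⁻¹ ∈ (P : Subgroup G) := by
    intro x hx
    have h3 : (⟨x, h2 hx⟩ : C) ∈ ((Q.subtype h2 : Sylow p C) : Subgroup C) := by
      rw [Sylow.coe_subtype]
      exact hx
    have h4 : s * (⟨x, h2 hx⟩ : C) * s⁻¹ ∈ ((s • Q.subtype h2 : Sylow p C) : Subgroup C) := by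
      change s * (⟨x, h2 hx⟩ : C) * s⁻¹ ∈ MulAut.conj s • ((Q.subtype h2 : Sylow p C) : Subgroup C)
      rw [Subgroup.mem_pointwise_smul_iff_inv_smul_mem]
      simpa [MulAut.smul_def, MulAut.conj_inv_apply, mul_assoc] using h3
    rw [hs, Sylow.coe_subtype] at h4
    exact h4
  refine ⟨(s : G) * τ, ?_, ?_⟩
  · have h3 : (((s : G) * τ) • P : Sylow p G) = P := by
      apply Sylow.ext
      have hle : (((((s : G) * τ) • P : Sylow p G)) : Subgroup G) ≤ (P : Subgroup G) := by
        intro x hx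
        have h4 : x ∈ MulAut.conj ((s : G) * τ) • (P : Subgroup G) := hx
        rw [Subgroup.mem_pointwise_smul_iff_inv_smul_mem] at h4
        have h5 : ((s : G) * τ)⁻¹ * x * ((s : G) * τ) ∈ (P : Subgroup G) := by
          simpa [MulAut.smul_def, MulAut.conj_inv_apply, mul_assoc] using h4
        have h6 : τ * (((s : G) * τ)⁻¹ * x * ((s : G) * τ)) * τ⁻¹ ∈ (Q : Subgroup G) := by
          rw [hmemQ]
          simpa [mul_assoc] using h5
        have h7 := hs2 _ h6
        have h8 : (s : G) * (τ * (((s : G) * τ)⁻¹ * x * ((s : G) * τ)) * τ⁻¹) * (s : G)⁻¹ = x := by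
          group
        rwa [h8] at h7
      exact ((((s : G) * τ) • P : Sylow p G).is_maximal' P.2 hle).symm
    exact (Sylow.smul_eq_iff_mem_normalizer).1 h3
  · have h3 : (s : G) * d * (s : G)⁻¹ = d := by
      have := (Subgroup.mem_centralizer_iff.1 s.2) d (Set.mem_singleton d)
      rw [← this]
      group
    calc (s : G) * τ * c * ((s : G) * τ)⁻¹ = (s : G) * (τ * c * τ⁻¹) * (s : G)⁻¹ := by group
      _ = d := by rw [hτ, h3]

theorem conj_pow_alt {G : Type*} [Group G] (t c : G) (h : t * c * t⁻¹ = c⁻¹) (k : ℕ) :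
    t ^ k * c * (t ^ k)⁻¹ = if Even k then c else c⁻¹ := by
  induction k with
  | zero => simp
  | succ k ih =>
    have h1 : t * c⁻¹ * t⁻¹ = c := by
      have := congrArg (·⁻¹) h
      simpa [mul_assoc] using this
    have h2 : t ^ (k + 1) * c * (t ^ (k + 1))⁻¹ = t * (t ^ k * c * (t ^ k)⁻¹) * t⁻¹ := by
      rw [pow_succ']; group
    rw [h2, ih]
    by_cases hk : Even k
    · have : ¬ Even (k + 1) := by simpa [Nat.even_add_one] using hk
      simp [hk, this, h]
    · have : Even (k + 1) := by simpa [Nat.even_add_one] using hk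
      simp [hk, this, h1]

theorem two_dvd_index {G : Type*} [Group G] [Finite G] (P : Subgroup G) (t c : G)
    (ht : t ∈ Subgroup.normalizer (P : Set G)) (hc : c ∈ P) (htc : t * c * t⁻¹ = c⁻¹) (hne : c ≠ c⁻¹) :
    2 ∣ ((Subgroup.centralizer (P : Set G)).subgroupOf (Subgroup.normalizer (P : Set G))).index := by
  classical
  set N := Subgroup.normalizer (P : Set G) with hN
  set C' := (Subgroup.centralizer (P : Set G)).subgroupOf N with hC'
  haveI hnor : C'.Normal := by
    constructor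
    intro z hz g
    rw [hC', Subgroup.mem_subgroupOf] at hz ⊢
    rw [Subgroup.mem_centralizer_iff] at hz ⊢
    intro a ha
    have h1 : (g : G)⁻¹ * a * (g : G) ∈ P := by
      have h2 := (Subgroup.mem_normalizer_iff.1 (Subgroup.inv_mem _ g.2) a).1 ha
      simpa using h2
    have h3 := hz _ h1
    push_cast
    calc a * ((g : G) * (z : G) * (g : G)⁻¹) = (g : G) * (((g : G)⁻¹ * a * (g : G)) * (z : G)) * (g : G)⁻¹ := by group
      _ = (g : G) * ((z : G) * ((g : G)⁻¹ * a * (g : G))) * (g : G)⁻¹ := by rw [h3]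
      _ = _ := by group
  let x : N ⧸ C' := QuotientGroup.mk ⟨t, ht⟩
  have h1 : orderOf x ∣ C'.index := by
    rw [Subgroup.index]
    exact orderOf_dvd_natCard x
  have h2 : 2 ∣ orderOf x := by
    by_contra hodd
    have hodd' : ¬ Even (orderOf x) := fun h => hodd h.two_dvd
    have h3 : x ^ orderOf x = 1 := pow_orderOf_eq_one x
    have h4 : (⟨t, ht⟩ : N) ^ orderOf x ∈ C' := by
      rw [← QuotientGroup.eq_one_iff]
      rw [QuotientGroup.mk_pow]
      exact h3
    have h4' := Subgroup.mem_subgroupOf.1 h4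
    rw [Subgroup.mem_centralizer_iff] at h4'
    have h5 := h4' c hc
    have h6 : t ^ orderOf x * c * (t ^ orderOf x)⁻¹ = c := by
      have h7 : (((⟨t, ht⟩ : N) ^ orderOf x : N) : G) = t ^ orderOf x := by simp
      rw [h7] at h5
      rw [← h5]
      group
    rw [conj_pow_alt t c htc, if_neg hodd'] at h6
    exact hne h6.symm
  exact h2.trans h1

/-- commuting with a cycle having at most one fixed point. -/
theorem mem_zpowers_of_commute {α : Type*} [Fintype α] [DecidableEq α] (g a : Perm α) (hg : g.IsCycle)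
    (hfix : ∀ y y', g y = y → g y' = y' → y = y') (hcomm : a * g = g * a) :
    a ∈ Subgroup.zpowers g := by
  obtain ⟨x₀, hx₀, -⟩ := id hg
  have hax : g (a x₀) ≠ a x₀ := by
    intro h
    apply hx₀
    have h1 : a (g x₀) = g (a x₀) := congrArg (fun f : Perm α => f x₀) hcomm
    exact a.injective (by rw [h1]; exact h)
  obtain ⟨i, hi⟩ := hg.exists_zpow_eq hx₀ hax
  have hcomm' : Commute a g := hcomm
  let b : Perm α := (g ^ i)⁻¹ * a
  have hbg : Commute b g := by
    exact ((Commute.refl g).zpow_left i).inv_left.mul_left hcomm'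
  have hb0 : b x₀ = x₀ := by
    simp only [b, Perm.mul_apply]
    rw [Perm.inv_eq_iff_eq]
    exact hi.symm
  have hb : b = 1 := by
    ext y
    rw [Perm.one_apply]
    by_cases hy : g y = y
    · have h1 : g (b y) = b y := by
        have h2 : b (g y) = g (b y) := congrArg (fun f : Perm α => f y) hbg
        rw [← h2, hy]
      exact hfix _ _ h1 hy
    · obtain ⟨j, hj⟩ := hg.exists_zpow_eq hx₀ hy
      rw [← hj]
      have h3 : Commute b (g ^ j) := hbg.zpow_right j
      have h4 : b ((g ^ j) x₀) = (g ^ j) (b x₀) := congrArg (fun f : Perm α => f x₀) h3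
      rw [h4, hb0]
  have h5 : a = g ^ i := by
    have : (g ^ i)⁻¹ * a = 1 := hb
    exact inv_mul_eq_one.1 this |>.symm
  rw [h5]
  exact Subgroup.zpow_mem_zpowers g i


/-- The case of odd primes. -/
theorem odd_case (n : ℕ) {p : ℕ} [Fact p.Prime] (hp2 : p ≠ 2)
    (P : Sylow p (alternatingGroup (Fin n)))
    (hP : ∀ a ∈ (P : Subgroup (alternatingGroup (Fin n))), ∀ b ∈ (P : Subgroup (alternatingGroup (Fin n))), a * b = b * a) :
    2 ∣ ((Subgroup.centralizer ((P : Subgroup (alternatingGroup (Fin n))) : Set (alternatingGroup (Fin n)))).subgroupOf (Subgroup.normalizer ((P : Subgroup (alternatingGroup (Fin n))) : Set (alternatingGroup (Fin n))))).index ∨ IsCyclic (P : Subgroup (alternatingGroup (Fin n))) := by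
  classical
  have hpp : p.Prime := Fact.out
  rcases (IsPGroup.card_eq_or_dvd P.2) with h1 | hdvd
  · right
    haveI : Subsingleton (P : Subgroup (alternatingGroup (Fin n))) :=
      (Nat.card_eq_one_iff_unique.1 h1).1
    exact isCyclic_of_subsingleton
  obtain ⟨c₀, hc₀⟩ := exists_prime_orderOf_dvd_card' p hdvd
  set c : alternatingGroup (Fin n) := (c₀ : alternatingGroup (Fin n)) with hc
  have hcP : c ∈ (P : Subgroup (alternatingGroup (Fin n))) := c₀.2
  have hoc : orderOf c = p := by rw [hc, Subgroup.orderOf_coe, hc₀]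
  set g : Perm (Fin n) := (c : Perm (Fin n)) with hg
  have hog : orderOf g = p := by rw [hg, Subgroup.orderOf_coe, hoc]
  have hcne : c ≠ c⁻¹ := by
    intro h
    have h2 : c ^ 2 = 1 := by
      rw [pow_two]
      nth_rewrite 2 [h]
      simp
    have h3 := orderOf_dvd_of_pow_eq_one h2
    rw [hoc] at h3
    have := (Nat.prime_dvd_prime_iff_eq hpp Nat.prime_two).1 h3
    exact hp2 this
  by_cases hcen : Subgroup.centralizer {g} ≤ alternatingGroup (Fin n)
  · -- `g` is a cycle with at most one fixed point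
    right
    obtain ⟨-, hcard, hcount⟩ := Equiv.Perm.centralizer_le_alternating_iff.1 hcen
    obtain ⟨m, hm⟩ := Equiv.Perm.cycleType_prime_order (σ := g) (by rw [hog]; exact hpp)
    have hm0 : m = 0 := by
      have := hcount (orderOf g)
      rw [hm, Multiset.count_replicate_self] at this
      omega
    have hcyc : g.IsCycle := by
      rw [← Equiv.Perm.card_cycleType_eq_one, hm, hm0]
      simp
    have hfix : ∀ y y', g y = y → g y' = y' → y = y' := by
      intro y y' hy hy'
      by_contra hne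
      have hsum : g.cycleType.sum = g.support.card := Equiv.Perm.sum_cycleType g
      have hsub : insert y {y'} ⊆ (g.support)ᶜ := by
        intro z hz
        simp only [Finset.mem_insert, Finset.mem_singleton] at hz
        rw [Finset.mem_compl, Equiv.Perm.mem_support]
        rcases hz with rfl | rfl
        · simpa using hy
        · simpa using hy'
      have h2 := Finset.card_le_card hsub
      rw [Finset.card_compl, Finset.card_pair hne] at h2
      have h3 : g.support.card ≤ Fintype.card (Fin n) := Finset.card_le_univ _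
      omega
    have hle : (P : Subgroup (alternatingGroup (Fin n))) ≤ Subgroup.zpowers c := by
      intro a ha
      have h1 := hP a ha c hcP
      have h2 : (a : Perm (Fin n)) * g = g * (a : Perm (Fin n)) := congrArg Subtype.val h1
      obtain ⟨i, hi⟩ := Subgroup.mem_zpowers_iff.1 (mem_zpowers_of_commute g _ hcyc hfix h2)
      refine Subgroup.mem_zpowers_iff.2 ⟨i, ?_⟩
      apply Subtype.ext
      rw [← hi]
      simp [hg]
    exact Subgroup.isCyclic_of_le hle
  · left
    obtain ⟨s, hs, hsodd⟩ := SetLike.not_le_iff_exists.1 hcen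
    have hsc : s * g = g * s := by
      rw [Subgroup.mem_centralizer_iff] at hs
      exact (hs g (Set.mem_singleton g)).symm
    have hconj : IsConj g g⁻¹ := by
      rw [Equiv.Perm.isConj_iff_cycleType_eq, Equiv.Perm.cycleType_inv]
    obtain ⟨τ₀, hτ₀⟩ := isConj_iff.1 hconj
    have hsign1 : ∀ x : Perm (Fin n), Perm.sign x = 1 ∨ Perm.sign x = -1 := fun x =>
      Int.units_eq_one_or _
    have hssign : Perm.sign s = -1 := by
      rcases hsign1 s with h | h
      · exact absurd (Equiv.Perm.mem_alternatingGroup.2 h) hsodd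
      · exact h
    obtain ⟨τ, hτs, hτ⟩ : ∃ τ : Perm (Fin n), Perm.sign τ = 1 ∧ τ * g * τ⁻¹ = g⁻¹ := by
      rcases hsign1 τ₀ with h | h
      · exact ⟨τ₀, h, hτ₀⟩
      · refine ⟨τ₀ * s, by rw [Perm.sign_mul, h, hssign]; rfl, ?_⟩
        calc τ₀ * s * g * (τ₀ * s)⁻¹ = τ₀ * (s * g) * s⁻¹ * τ₀⁻¹ := by group
          _ = τ₀ * (g * s) * s⁻¹ * τ₀⁻¹ := by rw [hsc]
          _ = τ₀ * g * τ₀⁻¹ := by group
          _ = g⁻¹ := hτ₀
    let τ' : alternatingGroup (Fin n) := ⟨τ, Equiv.Perm.mem_alternatingGroup.2 hτs⟩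
    have hτ' : τ' * c * τ'⁻¹ = c⁻¹ := by
      apply Subtype.ext
      exact hτ
    obtain ⟨t, ht, htc⟩ := fusion P hP c c⁻¹ τ' hcP (Subgroup.inv_mem _ hcP) hτ'
    exact two_dvd_index _ t c ht hcP htc hcne


/-- A dihedral pair in a common `2`-subgroup forbids abelian Sylow `2`-subgroups. -/
theorem not_ab_of_dihedral {G : Type*} [Group G] [Finite G] (X Y : G) (hX : X ^ 4 = 1) (hY : Y ^ 2 = 1)
    (hXY : Y * X * Y⁻¹ = X⁻¹) (hne : X * Y ≠ Y * X) (P : Sylow 2 G)
    (hP : ∀ a ∈ (P : Subgroup G), ∀ b ∈ (P : Subgroup G), a * b = b * a) : False := by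
  have h1 : IsPGroup 2 (Subgroup.zpowers X) := by
    rintro ⟨g, hg⟩
    obtain ⟨m, rfl⟩ := Subgroup.mem_zpowers_iff.1 hg
    refine ⟨2, Subtype.ext ?_⟩
    simp only [SubmonoidClass.coe_pow, Subgroup.coe_one]
    rw [← zpow_natCast, ← zpow_mul, mul_comm, zpow_mul]
    have : X ^ ((2 ^ 2 : ℕ) : ℤ) = 1 := by
      rw [zpow_natCast]; exact hX
    rw [this, one_zpow]
  have h2 : IsPGroup 2 (Subgroup.zpowers Y) := by
    rintro ⟨g, hg⟩
    obtain ⟨m, rfl⟩ := Subgroup.mem_zpowers_iff.1 hg
    refine ⟨1, Subtype.ext ?_⟩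
    simp only [SubmonoidClass.coe_pow, Subgroup.coe_one]
    rw [← zpow_natCast, ← zpow_mul, mul_comm, zpow_mul]
    have : Y ^ ((2 ^ 1 : ℕ) : ℤ) = 1 := by
      rw [zpow_natCast]; exact hY
    rw [this, one_zpow]
  have hYinv : Y⁻¹ = Y := by
    apply inv_eq_of_mul_eq_one_left
    rw [← pow_two, hY]
  have hfwd : ∀ h ∈ Subgroup.zpowers X, Y * h * Y⁻¹ ∈ Subgroup.zpowers X := by
    intro h hh
    obtain ⟨m, rfl⟩ := Subgroup.mem_zpowers_iff.1 hh
    have : Y * X ^ m * Y⁻¹ = (Y * X * Y⁻¹) ^ m := (conj_zpow).symm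
    rw [this, hXY]
    exact Subgroup.zpow_mem _ (Subgroup.inv_mem _ (Subgroup.mem_zpowers X)) m
  have h3 : Subgroup.zpowers Y ≤ Subgroup.normalizer (Subgroup.zpowers X : Set G) := by
    rw [Subgroup.zpowers_le, Subgroup.mem_normalizer_iff]
    intro h
    refine ⟨hfwd h, fun hh => ?_⟩
    have := hfwd _ hh
    have hYY : Y * Y = 1 := by rw [← pow_two, hY]
    have e : Y * (Y * h * Y⁻¹) * Y⁻¹ = h := by
      calc Y * (Y * h * Y⁻¹) * Y⁻¹ = (Y * Y) * h * (Y * Y)⁻¹ := by group
        _ = h := by rw [hYY]; simp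
    rwa [e] at this
  have h4 := IsPGroup.to_sup_of_normal_right' h2 h1 h3
  obtain ⟨Q, hQ⟩ := h4.exists_le_sylow
  obtain ⟨g, hg⟩ := MulAction.exists_smul_eq G Q P
  have hX' : X ∈ (Q : Subgroup G) := hQ (Subgroup.mem_sup_right (Subgroup.mem_zpowers X))
  have hY' : Y ∈ (Q : Subgroup G) := hQ (Subgroup.mem_sup_left (Subgroup.mem_zpowers Y))
  have hconj : ∀ z ∈ (Q : Subgroup G), g * z * g⁻¹ ∈ (P : Subgroup G) := by
    intro z hz
    rw [← hg]
    change g * z * g⁻¹ ∈ MulAut.conj g • (Q : Subgroup G)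
    rw [Subgroup.mem_pointwise_smul_iff_inv_smul_mem]
    simpa [MulAut.smul_def, MulAut.conj_inv_apply, mul_assoc] using hz
  have h5 := hP _ (hconj X hX') _ (hconj Y hY')
  apply hne
  have h6 : g * (X * Y) * g⁻¹ = g * (Y * X) * g⁻¹ := by
    calc g * (X * Y) * g⁻¹ = (g * X * g⁻¹) * (g * Y * g⁻¹) := by group
      _ = (g * Y * g⁻¹) * (g * X * g⁻¹) := h5
      _ = _ := by group
  exact mul_left_cancel (mul_right_cancel h6)

/-- `(0 1 2 3)(4 5)`. -/
def x6 : Perm (Fin 6) := swap 0 1 * swap 1 2 * swap 2 3 * swap 4 5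

/-- `(1 3)(4 5)`. -/
def y6 : Perm (Fin 6) := swap 1 3 * swap 4 5

theorem not_ab_two (n : ℕ) (hn : 6 ≤ n) (P : Sylow 2 (alternatingGroup (Fin n)))
    (hP : ∀ a ∈ (P : Subgroup (alternatingGroup (Fin n))), ∀ b ∈ (P : Subgroup (alternatingGroup (Fin n))), a * b = b * a) :
    False := by
  let ι : Fin 6 ↪ Fin n := Fin.castLEEmb hn
  let φ : Perm (Fin 6) →* Perm (Fin n) := Perm.viaEmbeddingHom ι
  have hφ : Function.Injective φ := Perm.viaEmbeddingHom_injective ι
  have hsign : ∀ z : Perm (Fin 6), Perm.sign (φ z) = Perm.sign z := by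
    intro z
    rw [Perm.viaEmbeddingHom_apply]
    unfold Perm.viaEmbedding
    rw [Perm.sign_extendDomain]
  have hsx : Perm.sign x6 = 1 := by decide +kernel
  have hsy : Perm.sign y6 = 1 := by decide +kernel
  let X : alternatingGroup (Fin n) := ⟨φ x6, Equiv.Perm.mem_alternatingGroup.2 (by rw [hsign, hsx])⟩
  let Y : alternatingGroup (Fin n) := ⟨φ y6, Equiv.Perm.mem_alternatingGroup.2 (by rw [hsign, hsy])⟩
  have e1 : x6 ^ 4 = 1 := by decide +kernel
  have e2 : y6 ^ 2 = 1 := by decide +kernel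
  have e3 : y6 * x6 * y6⁻¹ = x6⁻¹ := by decide +kernel
  have e4 : x6 * y6 ≠ y6 * x6 := by decide +kernel
  refine not_ab_of_dihedral X Y ?_ ?_ ?_ ?_ P hP
  · apply Subtype.ext
    change φ x6 ^ 4 = 1
    rw [← map_pow, e1, map_one]
  · apply Subtype.ext
    change φ y6 ^ 2 = 1
    rw [← map_pow, e2, map_one]
  · apply Subtype.ext
    change φ y6 * φ x6 * (φ y6)⁻¹ = (φ x6)⁻¹
    rw [← map_inv, ← map_inv, ← map_mul, ← map_mul, e3]
  · intro h
    apply e4
    apply hφ
    rw [map_mul, map_mul]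
    exact congrArg Subtype.val h

/-! ### `A₅` -/

/-- `(0 1)(2 3)`. -/
def a5 : Perm (Fin 5) := swap 0 1 * swap 2 3

/-- `(0 2)(1 3)`. -/
def b5 : Perm (Fin 5) := swap 0 2 * swap 1 3

/-- `(0 3)(1 2)`. -/
def c5 : Perm (Fin 5) := swap 0 3 * swap 1 2

/-- the Klein four group. -/
def inV (g : Perm (Fin 5)) : Prop := g = 1 ∨ g = a5 ∨ g = b5 ∨ g = c5

instance : DecidablePred inV := fun g => by unfold inV; infer_instance

theorem inV_mul (x y : Perm (Fin 5)) (hx : inV x) (hy : inV y) : inV (x * y) := by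
  rcases hx with rfl | rfl | rfl | rfl <;> rcases hy with rfl | rfl | rfl | rfl <;> decide +kernel

theorem inV_comm (x y : Perm (Fin 5)) (hx : inV x) (hy : inV y) : x * y = y * x := by
  rcases hx with rfl | rfl | rfl | rfl <;> rcases hy with rfl | rfl | rfl | rfl <;> decide +kernel

theorem inV_inv (x : Perm (Fin 5)) (hx : inV x) : inV x⁻¹ := by
  rcases hx with rfl | rfl | rfl | rfl <;> decide +kernel

theorem inV_sign (x : Perm (Fin 5)) (hx : inV x) : Perm.sign x = 1 := by
  rcases hx with rfl | rfl | rfl | rfl <;> decide +kernel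

theorem d_conj_a : ∀ g : Perm (Fin 5), g 4 = 4 → inV (g * a5 * g⁻¹) := by decide +kernel
theorem d_conj_b : ∀ g : Perm (Fin 5), g 4 = 4 → inV (g * b5 * g⁻¹) := by decide +kernel
theorem d_conj_c : ∀ g : Perm (Fin 5), g 4 = 4 → inV (g * c5 * g⁻¹) := by decide +kernel
theorem d_back : ∀ g : Perm (Fin 5), inV (g * a5 * g⁻¹) → g 4 = 4 := by decide +kernel
theorem d_cent : ∀ x : Perm (Fin 5), Perm.sign x = 1 → x * a5 = a5 * x → x * b5 = b5 * x → inV x := by
  decide +kernel
theorem d_exp : ∀ g : Perm (Fin 5), Perm.sign g = 1 → g ^ 4 = 1 → g ^ 2 = 1 := by decide +kernel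
theorem d_card_N : (Finset.univ.filter (fun g : alternatingGroup (Fin 5) => (g : Perm (Fin 5)) 4 = 4)).card = 12 := by
  decide +kernel
theorem d_card_V : (Finset.univ.filter (fun g : alternatingGroup (Fin 5) => inV (g : Perm (Fin 5)))).card = 4 := by
  decide +kernel
theorem d_fact : (60 : ℕ).factorization 2 = 2 := by decide +kernel

/-- the Klein subgroup of `A₅`. -/
def P₀ : Subgroup (alternatingGroup (Fin 5)) where
  carrier := {g | inV (g : Perm (Fin 5))}
  mul_mem' := fun {a b} ha hb => inV_mul _ _ ha hb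
  one_mem' := Or.inl rfl
  inv_mem' := fun {a} ha => inV_inv _ ha

theorem mem_P₀ (g : alternatingGroup (Fin 5)) : g ∈ P₀ ↔ inV (g : Perm (Fin 5)) := Iff.rfl

theorem card_A5 : Nat.card (alternatingGroup (Fin 5)) = 60 := by
  rw [nat_card_alternatingGroup, Nat.card_fin]
  rfl

theorem card_P₀ : Nat.card P₀ = 4 := by
  rw [← d_card_V]
  apply Nat.subtype_card
  intro x
  simp [mem_P₀]

theorem card_sylow5 (P : Sylow 2 (alternatingGroup (Fin 5))) : Nat.card (P : Subgroup (alternatingGroup (Fin 5))) = 4 := by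
  rw [Sylow.card_eq_multiplicity, card_A5, d_fact]
  rfl

/-- the centralizer of the Klein group. -/
theorem mem_cent_P₀ (x : alternatingGroup (Fin 5)) :
    x ∈ Subgroup.centralizer (P₀ : Set (alternatingGroup (Fin 5))) ↔ x ∈ P₀ := by
  rw [Subgroup.mem_centralizer_iff]
  constructor
  · intro h
    have ha : inV a5 := Or.inr (Or.inl rfl)
    have hb : inV b5 := Or.inr (Or.inr (Or.inl rfl))
    have h1 := h ⟨a5, Equiv.Perm.mem_alternatingGroup.2 (inV_sign _ ha)⟩ ha
    have h2 := h ⟨b5, Equiv.Perm.mem_alternatingGroup.2 (inV_sign _ hb)⟩ hb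
    have h1' : a5 * (x : Perm (Fin 5)) = (x : Perm (Fin 5)) * a5 := congrArg Subtype.val h1
    have h2' : b5 * (x : Perm (Fin 5)) = (x : Perm (Fin 5)) * b5 := congrArg Subtype.val h2
    exact d_cent _ (Equiv.Perm.mem_alternatingGroup.1 x.2) h1'.symm h2'.symm
  · intro hx h hh
    apply Subtype.ext
    exact inV_comm _ _ hh hx

theorem conj_V (g : Perm (Fin 5)) (hg : g 4 = 4) (h : Perm (Fin 5)) (hh : inV h) : inV (g * h * g⁻¹) := by
  rcases hh with rfl | rfl | rfl | rfl
  · left; simp
  · exact d_conj_a g hg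
  · exact d_conj_b g hg
  · exact d_conj_c g hg

theorem mem_norm_P₀ (x : alternatingGroup (Fin 5)) :
    x ∈ Subgroup.normalizer (P₀ : Set (alternatingGroup (Fin 5))) ↔ (x : Perm (Fin 5)) 4 = 4 := by
  rw [Subgroup.mem_normalizer_iff]
  constructor
  · intro h
    have ha : inV a5 := Or.inr (Or.inl rfl)
    have h1 := (h ⟨a5, Equiv.Perm.mem_alternatingGroup.2 (inV_sign _ ha)⟩).1 ha
    exact d_back _ h1
  · intro hx h
    constructor
    · exact fun hh => conj_V _ hx _ hh
    · intro hh
      have hx' : ((x : Perm (Fin 5)))⁻¹ 4 = 4 := by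
        rw [Perm.inv_eq_iff_eq]; exact hx.symm
      have h1 := conj_V _ hx' _ hh
      have h2 : ((x : Perm (Fin 5)))⁻¹ * ((x * h * x⁻¹ : alternatingGroup (Fin 5)) : Perm (Fin 5)) * ((x : Perm (Fin 5)))⁻¹⁻¹ = (h : Perm (Fin 5)) := by
        push_cast
        group
      rw [h2] at h1
      exact h1

theorem card_norm_P₀ : Nat.card (Subgroup.normalizer (P₀ : Set (alternatingGroup (Fin 5)))) = 12 := by
  rw [← d_card_N]
  apply Nat.subtype_card
  intro x
  simp [mem_norm_P₀]

theorem card_cent_P₀ : Nat.card (Subgroup.centralizer (P₀ : Set (alternatingGroup (Fin 5)))) = 4 := by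
  rw [← card_P₀]
  apply Nat.card_congr
  exact Equiv.subtypeEquivRight mem_cent_P₀

theorem index_of_card {G : Type*} [Group G] [Finite G] (H K : Subgroup G) (h : H ≤ K) :
    Nat.card H * (H.subgroupOf K).index = Nat.card K := by
  have h1 := Subgroup.card_mul_index (H.subgroupOf K)
  rwa [Nat.card_congr (Subgroup.subgroupOfEquivOfLe h).toEquiv] at h1

theorem five_case (P : Sylow 2 (alternatingGroup (Fin 5)))
    (hP : ∀ a ∈ (P : Subgroup (alternatingGroup (Fin 5))), ∀ b ∈ (P : Subgroup (alternatingGroup (Fin 5))), a * b = b * a) :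
    ((Subgroup.centralizer ((P : Subgroup (alternatingGroup (Fin 5))) : Set (alternatingGroup (Fin 5)))).subgroupOf (Subgroup.normalizer ((P : Subgroup (alternatingGroup (Fin 5))) : Set (alternatingGroup (Fin 5))))).index = 3 ∧ IsKleinFour (P : Subgroup (alternatingGroup (Fin 5))) := by
  classical
  have hc := card_sylow5 P
  constructor
  · have hfac : Nat.card P₀ = 2 ^ (Nat.card (alternatingGroup (Fin 5))).factorization 2 := by
      rw [card_P₀, card_A5, d_fact]
      rfl
    let P₁ : Sylow 2 (alternatingGroup (Fin 5)) := Sylow.ofCard P₀ hfac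
    have hP₁ : (P₁ : Subgroup (alternatingGroup (Fin 5))) = P₀ := Sylow.coe_ofCard P₀ hfac
    obtain ⟨g, hg⟩ := MulAction.exists_smul_eq (alternatingGroup (Fin 5)) P₁ P
    have hmem : ∀ x, x ∈ (P : Subgroup (alternatingGroup (Fin 5))) ↔ g⁻¹ * x * g ∈ P₀ := by
      intro x
      rw [← hg]
      change x ∈ MulAut.conj g • (P₁ : Subgroup (alternatingGroup (Fin 5))) ↔ _
      rw [Subgroup.mem_pointwise_smul_iff_inv_smul_mem, hP₁]
      simp [MulAut.smul_def, MulAut.conj_inv_apply]
    have hmem' : ∀ u, u ∈ P₀ ↔ g * u * g⁻¹ ∈ (P : Subgroup (alternatingGroup (Fin 5))) := by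
      intro u
      rw [hmem]
      simp [mul_assoc]
    have hC : Nat.card (Subgroup.centralizer ((P : Subgroup (alternatingGroup (Fin 5))) : Set (alternatingGroup (Fin 5)))) = 4 := by
      rw [← card_cent_P₀]
      symm
      apply Nat.card_congr
      refine Equiv.subtypeEquiv (MulAut.conj g).toEquiv ?_
      intro x
      change x ∈ _ ↔ g * x * g⁻¹ ∈ _
      rw [Subgroup.mem_centralizer_iff, Subgroup.mem_centralizer_iff]
      constructor
      · intro h y hy
        have h1 := h _ ((hmem y).1 hy)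
        calc y * (g * x * g⁻¹) = g * ((g⁻¹ * y * g) * x) * g⁻¹ := by group
          _ = g * (x * (g⁻¹ * y * g)) * g⁻¹ := by rw [h1]
          _ = _ := by group
      · intro h u hu
        have h1 := h _ ((hmem' u).1 hu)
        have h2 : g * (u * x) * g⁻¹ = g * (x * u) * g⁻¹ := by
          calc g * (u * x) * g⁻¹ = (g * u * g⁻¹) * (g * x * g⁻¹) := by group
            _ = (g * x * g⁻¹) * (g * u * g⁻¹) := h1
            _ = _ := by group
        exact mul_left_cancel (mul_right_cancel h2)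
    have hN : Nat.card (Subgroup.normalizer ((P : Subgroup (alternatingGroup (Fin 5))) : Set (alternatingGroup (Fin 5)))) = 12 := by
      rw [← card_norm_P₀]
      symm
      apply Nat.card_congr
      refine Equiv.subtypeEquiv (MulAut.conj g).toEquiv ?_
      intro x
      change x ∈ _ ↔ g * x * g⁻¹ ∈ _
      rw [Subgroup.mem_normalizer_iff, Subgroup.mem_normalizer_iff]
      constructor
      · intro h y
        rw [hmem y, hmem (g * x * g⁻¹ * y * (g * x * g⁻¹)⁻¹), h (g⁻¹ * y * g)]
        have : g⁻¹ * (g * x * g⁻¹ * y * (g * x * g⁻¹)⁻¹) * g = x * (g⁻¹ * y * g) * x⁻¹ := by group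
        rw [this]
      · intro h u
        have h1 := h (g * u * g⁻¹)
        rw [hmem' u, h1, hmem (g * x * g⁻¹ * (g * u * g⁻¹) * (g * x * g⁻¹)⁻¹), hmem' (x * u * x⁻¹)]
        have e1 : g⁻¹ * (g * x * g⁻¹ * (g * u * g⁻¹) * (g * x * g⁻¹)⁻¹) * g = x * u * x⁻¹ := by group
        rw [e1, hmem']
    have hle : Subgroup.centralizer ((P : Subgroup (alternatingGroup (Fin 5))) : Set (alternatingGroup (Fin 5))) ≤ Subgroup.normalizer ((P : Subgroup (alternatingGroup (Fin 5))) : Set (alternatingGroup (Fin 5))) := by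
      exact Subgroup.centralizer_le_normalizer _
    have h1 := index_of_card _ _ hle
    rw [hC, hN] at h1
    omega
  · refine ⟨hc, ?_⟩
    have hsq : ∀ x : (P : Subgroup (alternatingGroup (Fin 5))), x ^ 2 = 1 := by
      intro x
      have h1 : x ^ 4 = 1 := by
        have := pow_card_eq_one' (x := x)
        rwa [hc] at this
      have h2 : ((x : alternatingGroup (Fin 5)) : Perm (Fin 5)) ^ 4 = 1 := by
        have := congrArg (fun y : (P : Subgroup (alternatingGroup (Fin 5))) => ((y : alternatingGroup (Fin 5)) : Perm (Fin 5))) h1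
        simpa using this
      have h3 := d_exp _ (Equiv.Perm.mem_alternatingGroup.1 (x : alternatingGroup (Fin 5)).2) h2
      apply Subtype.ext
      apply Subtype.ext
      simpa using h3
    have hdvd : Monoid.exponent (P : Subgroup (alternatingGroup (Fin 5))) ∣ 2 :=
      Monoid.exponent_dvd_of_forall_pow_eq_one hsq
    rcases (Nat.dvd_prime Nat.prime_two).1 hdvd with h | h
    · exfalso
      rw [Monoid.exp_eq_one_iff] at h
      have := Nat.card_of_subsingleton (1 : (P : Subgroup (alternatingGroup (Fin 5))))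
      omega
    · exact h


/-- The statement. -/
theorem main (n : ℕ) (hn : 5 ≤ n) {p : ℕ} [Fact p.Prime]
    (P : Sylow p (alternatingGroup (Fin n))) (hP : IsMulCommutative (P : Subgroup (alternatingGroup (Fin n)))) :
    (¬ (n = 5 ∧ p = 2) → 2 ∣ ((Subgroup.centralizer ((P : Subgroup (alternatingGroup (Fin n))) : Set (alternatingGroup (Fin n)))).subgroupOf (Subgroup.normalizer ((P : Subgroup (alternatingGroup (Fin n))) : Set (alternatingGroup (Fin n))))).index ∨ IsCyclic (P : Subgroup (alternatingGroup (Fin n)))) ∧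
    ((n = 5 ∧ p = 2) → ((Subgroup.centralizer ((P : Subgroup (alternatingGroup (Fin n))) : Set (alternatingGroup (Fin n)))).subgroupOf (Subgroup.normalizer ((P : Subgroup (alternatingGroup (Fin n))) : Set (alternatingGroup (Fin n))))).index = 3 ∧ IsKleinFour (P : Subgroup (alternatingGroup (Fin n)))) := by
  have hcomm : ∀ a ∈ (P : Subgroup (alternatingGroup (Fin n))), ∀ b ∈ (P : Subgroup (alternatingGroup (Fin n))), a * b = b * a := by
    intro a ha b hb
    have := hP.is_comm.comm ⟨a, ha⟩ ⟨b, hb⟩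
    exact congrArg Subtype.val this
  constructor
  · intro hne
    by_cases hp2 : p = 2
    · subst hp2
      have hn6 : 6 ≤ n := by
        by_contra h
        exact hne ⟨by omega, rfl⟩
      exact (not_ab_two n hn6 P hcomm).elim
    · exact odd_case n hp2 P hcomm
  · rintro ⟨rfl, rfl⟩
    exact five_case P hcomm

end CfsgLib.H9.AbSyl
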