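import Mathlib
import Cfsg.Agent.Lib.ClassGeo.Alt
import Cfsg.Prelude.Def_ClassicalGeometry

/-! Alternating matrices have even rank; the form `f(v, t v)` for an involution `t` of `Sp`. -/

set_option autoImplicit false
set_option linter.unusedVariables false
set_option linter.unusedSectionVars false
set_option linter.unusedSimpArgs false

namespace CfsgLib.H9.AltRank

open Matrix Module

variable {F : Type*} [Field F]

/-- The radical of an alternating form has the dimension complementary to an even number. -/
theorem even_finrank_sub_ker {V : Type*} [AddCommGroup V] [Module F V] [FiniteDimensional F V]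
    {B : LinearMap.BilinForm F V} (hA : B.IsAlt) :
    Even (finrank F (LinearMap.range B)) := by
  classical
  obtain ⟨m, k, b, hef, hee, hff, hr, hdim⟩ := CfsgLib.ClassGeo.exists_alt_basis hA
  have hskew : ∀ a c, B a c = - B c a := fun a c => (hA.neg_eq c a).symm
  -- the kernel is the span of the radical vectors
  let R : Submodule F V := Submodule.span F (Set.range (fun j : Fin k => b (Sum.inr j)))
  have hker : LinearMap.ker B = R := by
    apply le_antisymm
    · intro v hv
      have hv' : ∀ u, B v u = 0 := fun u => by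
        have : B v = 0 := hv
        rw [this]
        rfl
      rw [← b.sum_repr v] at hv' ⊢
      simp only [Fintype.sum_sum_type] at hv' ⊢
      have h1 : ∀ i, b.repr v (Sum.inl (Sum.inl i)) = 0 := by
        intro i
        have := hv' (b (Sum.inl (Sum.inr i)))
        simp only [map_add, map_sum, map_smul, LinearMap.add_apply, LinearMap.sum_apply, LinearMap.smul_apply,
          smul_eq_mul, hef, hr, mul_zero, Finset.sum_const_zero, add_zero] at this
        have h5 : ∀ x : Fin m, B (b (Sum.inl (Sum.inr x))) (b (Sum.inl (Sum.inr i))) = 0 := fun x => hff x i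
        simp only [h5, mul_zero, Finset.sum_const_zero, add_zero, mul_ite, mul_one, Finset.sum_ite_eq', Finset.mem_univ, if_true] at this
        exact this
      have h2 : ∀ i, b.repr v (Sum.inl (Sum.inr i)) = 0 := by
        intro i
        have := hv' (b (Sum.inl (Sum.inl i)))
        have h5 : ∀ x : Fin m, B (b (Sum.inl (Sum.inr x))) (b (Sum.inl (Sum.inl i))) = - (if i = x then 1 else 0) := fun x => by
          rw [hskew, hef]
        have h6 : ∀ x : Fin m, B (b (Sum.inl (Sum.inl x))) (b (Sum.inl (Sum.inl i))) = 0 := fun x => hee x i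
        simp only [map_add, map_sum, map_smul, LinearMap.add_apply, LinearMap.sum_apply, LinearMap.smul_apply,
          smul_eq_mul, hr, h5, h6, mul_zero, Finset.sum_const_zero, add_zero, zero_add, mul_neg, mul_ite, mul_one, Finset.sum_neg_distrib, Finset.sum_ite_eq, Finset.mem_univ, if_true, neg_eq_zero] at this
        exact this
      simp only [h1, h2, zero_smul, Finset.sum_const_zero, zero_add]
      apply Submodule.sum_mem
      intro j _
      exact Submodule.smul_mem _ _ (Submodule.subset_span ⟨j, rfl⟩)
    · rw [Submodule.span_le]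
      rintro _ ⟨j, rfl⟩
      show B (b (Sum.inr j)) = 0
      ext u
      exact hr j u
  have hR : finrank F R = k := by
    have hli : LinearIndependent F (fun j : Fin k => b (Sum.inr j)) :=
      b.linearIndependent.comp _ Sum.inr_injective
    have := finrank_span_eq_card hli
    simpa using this
  have h3 := LinearMap.finrank_range_add_finrank_ker B
  rw [hker, hR, ← hdim] at h3
  have h4 : finrank F (LinearMap.range B) = 2 * m := by omega
  rw [h4]
  exact even_two_mul m

/-- An alternating square matrix has even rank. -/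
theorem even_rank {ι : Type*} [Fintype ι] [DecidableEq ι] (S : Matrix ι ι F) (hS : ∀ v : ι → F, v ⬝ᵥ (S *ᵥ v) = 0) :
    Even S.rank := by
  classical
  let B : LinearMap.BilinForm F (ι → F) := Matrix.toBilin' Sᵀ
  have hA : B.IsAlt := by
    intro v
    have := hS v
    simp only [B, Matrix.toBilin'_apply', Matrix.mulVec_transpose]
    rw [← this]
    simp only [Matrix.dotProduct_mulVec, dotProduct_comm]
  have h1 := even_finrank_sub_ker hA
  have h2 : LinearMap.ker B = LinearMap.ker S.mulVecLin := by
    ext u
    simp only [LinearMap.mem_ker, Matrix.mulVecLin_apply]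
    constructor
    · intro h
      have h3 : ∀ v, (S *ᵥ u) ⬝ᵥ v = 0 := by
        intro v
        have h4 := congrArg (fun x => x v) h
        simp only [B, Matrix.toBilin'_apply', LinearMap.zero_apply] at h4
        rw [Matrix.dotProduct_mulVec, Matrix.vecMul_transpose] at h4
        exact h4
      exact dotProduct_eq_zero_iff.mp h3 |> fun h => h
    · intro h
      apply LinearMap.ext
      intro v
      simp only [B, Matrix.toBilin'_apply', LinearMap.zero_apply]
      rw [Matrix.dotProduct_mulVec, Matrix.vecMul_transpose, h, zero_dotProduct]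
  have h3 := LinearMap.finrank_range_add_finrank_ker B
  have h4 := LinearMap.finrank_range_add_finrank_ker S.mulVecLin
  rw [h2] at h3
  have h5 : S.rank = finrank F (LinearMap.range B) := by
    show finrank F (LinearMap.range S.mulVecLin) = _
    omega
  rw [h5]
  exact h1

section Symp

variable {m : ℕ} [Fintype F] [CharP F 2]

theorem symp_apply (u v : Fin m ⊕ Fin m → F) :
    Cfsg.sympForm m F u v = ∑ i, (- (u (Sum.inl i) * v (Sum.inr i)) + u (Sum.inr i) * v (Sum.inl i)) := by
  simp only [Cfsg.sympForm, Matrix.J, dotProduct, Fintype.sum_sum_type, Matrix.mulVec, Matrix.fromBlocks_apply₁₁, Matrix.fromBlocks_apply₁₂,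
    Matrix.fromBlocks_apply₂₁, Matrix.fromBlocks_apply₂₂, Matrix.zero_apply, zero_mul, Finset.sum_const_zero, zero_add, add_zero,
    Matrix.neg_apply, Matrix.one_apply, neg_mul, ite_mul, one_mul, Finset.sum_neg_distrib, Finset.sum_ite_eq, Finset.mem_univ, if_true, Finset.mul_sum]
  rw [← Finset.sum_add_distrib]
  simp [mul_neg]

theorem symp_self (v : Fin m ⊕ Fin m → F) : Cfsg.sympForm m F v v = 0 := by
  rw [symp_apply]
  apply Finset.sum_eq_zero
  intro i _
  ring

theorem symp_skew (u v : Fin m ⊕ Fin m → F) : Cfsg.sympForm m F u v = - Cfsg.sympForm m F v u := by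
  rw [symp_apply, symp_apply, ← Finset.sum_neg_distrib]
  apply Finset.sum_congr rfl
  intro i _
  ring

theorem symp_inv {A : Matrix (Fin m ⊕ Fin m) (Fin m ⊕ Fin m) F} (hA : A ∈ Matrix.symplecticGroup (Fin m) F)
    (u v : Fin m ⊕ Fin m → F) : Cfsg.sympForm m F (A *ᵥ u) (A *ᵥ v) = Cfsg.sympForm m F u v := by
  have h := SymplecticGroup.mem_iff'.mp hA
  simp only [Cfsg.sympForm]
  rw [← Matrix.vecMul_transpose, ← Matrix.dotProduct_mulVec, Matrix.mulVec_mulVec, Matrix.mulVec_mulVec, h]

theorem main_2167 (hm : 2 ≤ m) (a : ↥(Matrix.symplecticGroup (Fin m) F)) (ha : orderOf a = 2) :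
    (Nat.card {v : Fin m ⊕ Fin m → F // Cfsg.sympForm m F v (Matrix.mulVec ((a : ↥(Matrix.symplecticGroup (Fin m) F)) : Matrix (Fin m ⊕ Fin m) (Fin m ⊕ Fin m) F) v) = 0} = Fintype.card F ^ (2 * m) ∨ Nat.card {v : Fin m ⊕ Fin m → F // Cfsg.sympForm m F v (Matrix.mulVec ((a : ↥(Matrix.symplecticGroup (Fin m) F)) : Matrix (Fin m ⊕ Fin m) (Fin m ⊕ Fin m) F) v) = 0} * Fintype.card F = Fintype.card F ^ (2 * m)) ∧
    ((∀ v : Fin m ⊕ Fin m → F, Cfsg.sympForm m F v (Matrix.mulVec ((a : ↥(Matrix.symplecticGroup (Fin m) F)) : Matrix (Fin m ⊕ Fin m) (Fin m ⊕ Fin m) F) v) = 0) → Even (((a : ↥(Matrix.symplecticGroup (Fin m) F)) : Matrix (Fin m ⊕ Fin m) (Fin m ⊕ Fin m) F) - 1).rank) := by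
  classical
  set A : Matrix (Fin m ⊕ Fin m) (Fin m ⊕ Fin m) F := ((a : ↥(Matrix.symplecticGroup (Fin m) F)) : Matrix (Fin m ⊕ Fin m) (Fin m ⊕ Fin m) F) with hAdef
  have hA : A ∈ Matrix.symplecticGroup (Fin m) F := a.2
  have hsq : A * A = 1 := by
    have h1 : a ^ 2 = 1 := by rw [← ha]; exact pow_orderOf_eq_one a
    have h2 := congrArg (fun x : ↥(Matrix.symplecticGroup (Fin m) F) => (x : Matrix (Fin m ⊕ Fin m) (Fin m ⊕ Fin m) F)) h1
    simpa [sq] using h2
  have hadd1 : ∀ u v w : Fin m ⊕ Fin m → F, Cfsg.sympForm m F (u + v) w = Cfsg.sympForm m F u w + Cfsg.sympForm m F v w := by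
    intro u v w
    simp only [Cfsg.sympForm, add_dotProduct]
  have hadd2 : ∀ u v w : Fin m ⊕ Fin m → F, Cfsg.sympForm m F u (v + w) = Cfsg.sympForm m F u v + Cfsg.sympForm m F u w := by
    intro u v w
    simp only [Cfsg.sympForm, Matrix.mulVec_add, dotProduct_add]
  have hsm1 : ∀ (c : F) (u w : Fin m ⊕ Fin m → F), Cfsg.sympForm m F (c • u) w = c * Cfsg.sympForm m F u w := by
    intro c u w
    simp only [Cfsg.sympForm, smul_dotProduct, smul_eq_mul]
  have hsm2 : ∀ (c : F) (u w : Fin m ⊕ Fin m → F), Cfsg.sympForm m F u (c • w) = c * Cfsg.sympForm m F u w := by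
    intro c u w
    simp only [Cfsg.sympForm, Matrix.mulVec_smul, dotProduct_smul, smul_eq_mul]
  let g : (Fin m ⊕ Fin m → F) → F := fun v => Cfsg.sympForm m F v (A *ᵥ v)
  have hg : ∀ u v, g (u + v) = g u + g v := by
    intro u v
    simp only [g, Matrix.mulVec_add, hadd1, hadd2]
    have h1 : Cfsg.sympForm m F v (A *ᵥ u) = - Cfsg.sympForm m F u (A *ᵥ v) := by
      rw [← symp_inv hA v (A *ᵥ u), Matrix.mulVec_mulVec, hsq, Matrix.one_mulVec, symp_skew]
    rw [h1]
    ring
  have hgs : ∀ (c : F) v, g (c • v) = c ^ 2 * g v := by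
    intro c v
    simp only [g, Matrix.mulVec_smul, hsm1, hsm2]
    ring
  constructor
  · let φ : F ≃+* F := frobeniusEquiv F 2
    have hφ : ∀ x : F, φ x = x ^ 2 := fun x => rfl
    let h : (Fin m ⊕ Fin m → F) →ₗ[F] F :=
      { toFun := fun v => φ.symm (g v)
        map_add' := fun u v => by rw [hg, map_add]
        map_smul' := fun c v => by
          rw [hgs, map_mul, RingHom.id_apply, smul_eq_mul]
          congr 1
          rw [← hφ, RingEquiv.symm_apply_apply] }
    have hcard : Nat.card {v : Fin m ⊕ Fin m → F // Cfsg.sympForm m F v (A *ᵥ v) = 0} = Nat.card (LinearMap.ker h) := by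
      apply Nat.card_congr
      apply Equiv.subtypeEquivRight
      intro v
      rw [LinearMap.mem_ker]
      show g v = 0 ↔ φ.symm (g v) = 0
      simp
    rw [hcard]
    have h1 := LinearMap.finrank_range_add_finrank_ker h
    have hdim : Module.finrank F (Fin m ⊕ Fin m → F) = 2 * m := by
      simp [two_mul]
    have hle : Module.finrank F (LinearMap.range h) ≤ 1 := by
      have := Submodule.finrank_le (LinearMap.range h)
      simpa using this
    have hq : ∀ (W : Submodule F (Fin m ⊕ Fin m → F)), Nat.card W = Fintype.card F ^ Module.finrank F W := by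
      intro W
      rw [Module.natCard_eq_pow_finrank (K := F), Nat.card_eq_fintype_card]
    rw [hq]
    by_cases h0 : Module.finrank F (LinearMap.range h) = 0
    · left
      congr 1
      omega
    · right
      rw [← pow_succ]
      congr 1
      omega
  · intro hall
    have hS : ∀ v : Fin m ⊕ Fin m → F, v ⬝ᵥ ((J (Fin m) F * (A - 1)) *ᵥ v) = 0 := by
      intro v
      rw [← Matrix.mulVec_mulVec, Matrix.sub_mulVec, Matrix.one_mulVec, Matrix.mulVec_sub, dotProduct_sub]
      have h1 := hall v
      have h2 := symp_self v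
      simp only [Cfsg.sympForm] at h1 h2
      rw [h1, h2, sub_zero]
    have h3 := even_rank _ hS
    rwa [Matrix.rank_mul_eq_right_of_isUnit_det _ _ (Matrix.isUnit_det_J _ _)] at h3

end Symp

end CfsgLib.H9.AltRank
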