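import Mathlib

/-! `Aut(A_n) = S_n` for `n ≥ 4`, `n ≠ 6`. -/

set_option autoImplicit false
set_option linter.unusedVariables false
set_option linter.unusedSectionVars false
set_option linter.unusedSimpArgs false
set_option linter.style.haveILetI false

namespace CfsgLib.H9.AutAlt

open Equiv Equiv.Perm

variable {α : Type*} [DecidableEq α]

/-- The 3-cycle `a → b → c → a`. -/
def cyc (a b c : α) : Perm α := swap a b * swap b c

theorem cyc_a {a b c : α} (hab : a ≠ b) (hac : a ≠ c) : cyc a b c a = b := by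
  simp only [cyc, Perm.mul_apply]
  rw [swap_apply_of_ne_of_ne hab hac, swap_apply_left]

theorem cyc_b {a b c : α} (hbc : b ≠ c) (hac : a ≠ c) : cyc a b c b = c := by
  simp only [cyc, Perm.mul_apply]
  rw [swap_apply_left, swap_apply_of_ne_of_ne hac.symm hbc.symm]

theorem cyc_c (a b c : α) : cyc a b c c = a := by
  simp only [cyc, Perm.mul_apply]
  rw [swap_apply_right, swap_apply_right]

theorem cyc_o {a b c p : α} (ha : p ≠ a) (hb : p ≠ b) (hc : p ≠ c) : cyc a b c p = p := by
  simp only [cyc, Perm.mul_apply]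
  rw [swap_apply_of_ne_of_ne hb hc, swap_apply_of_ne_of_ne ha hb]

theorem cyc_ext {a b c : α} (hab : a ≠ b) (hbc : b ≠ c) (hac : a ≠ c) {x : Perm α}
    (h1 : x a = b) (h2 : x b = c) (h3 : x c = a)
    (h4 : ∀ p, p ≠ a → p ≠ b → p ≠ c → x p = p) : x = cyc a b c := by
  ext p
  by_cases pa : p = a
  · subst pa; rw [h1, cyc_a hab hac]
  by_cases pb : p = b
  · subst pb; rw [h2, cyc_b hbc hac]
  by_cases pc : p = c
  · subst pc; rw [h3, cyc_c]
  rw [h4 p pa pb pc, cyc_o pa pb pc]

theorem cyc_rot {a b c : α} (hab : a ≠ b) (hbc : b ≠ c) (hac : a ≠ c) : cyc a b c = cyc b c a := by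
  symm
  apply cyc_ext hab hbc hac
  · rw [cyc_c]
  · rw [cyc_a hbc hab.symm]
  · rw [cyc_b hac.symm hab.symm]
  · intro p h1 h2 h3
    exact cyc_o h2 h3 h1

theorem cyc_inv {a b c : α} (hab : a ≠ b) (hbc : b ≠ c) (hac : a ≠ c) : (cyc a b c)⁻¹ = cyc b a c := by
  have h : cyc a b c * cyc b a c = 1 := by
    ext p
    by_cases pa : p = a
    · subst pa; simp only [Perm.mul_apply, Perm.one_apply]
      rw [cyc_b hac hbc, cyc_c]
    by_cases pb : p = b
    · subst pb; simp only [Perm.mul_apply, Perm.one_apply]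
      rw [cyc_a hab.symm hbc, cyc_a hab hac]
    by_cases pc : p = c
    · subst pc; simp only [Perm.mul_apply, Perm.one_apply]
      rw [cyc_c, cyc_b hbc hac]
    simp only [Perm.mul_apply, Perm.one_apply]
    rw [cyc_o pb pa pc, cyc_o pa pb pc]
  exact inv_eq_of_mul_eq_one_right h

theorem cyc_isThreeCycle [Fintype α] {a b c : α} (hab : a ≠ b) (hbc : b ≠ c) (hac : a ≠ c) :
    IsThreeCycle (cyc a b c) := by
  unfold cyc
  rw [swap_comm a b]
  exact isThreeCycle_swap_mul_swap_same hab.symm hbc hac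

theorem cyc_conj (σ : Perm α) (a b c : α) : σ * cyc a b c * σ⁻¹ = cyc (σ a) (σ b) (σ c) := by
  simp only [cyc, swap_apply_apply]
  group

theorem exists_cyc [Fintype α] {x : Perm α} (hx : IsThreeCycle x) :
    ∃ a b c, a ≠ b ∧ b ≠ c ∧ a ≠ c ∧ x = cyc a b c := by
  have hc : x.support.card = 3 := hx.card_support
  have h3 : x ^ 3 = 1 := by
    have := pow_orderOf_eq_one x
    rwa [hx.orderOf] at this
  have hne : x.support.Nonempty := by
    rw [← Finset.card_pos]; omega
  obtain ⟨a, ha⟩ := hne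
  have ha' : x a ≠ a := mem_support.mp ha
  have h33 : ∀ p, x (x (x p)) = p := by
    intro p
    have := congrArg (fun g : Perm α => g p) h3
    simpa [pow_succ, Perm.mul_apply] using this
  have hb' : x (x a) ≠ x a := fun h => ha' (x.injective h)
  have hc' : x (x a) ≠ a := by
    intro h
    have h1 := h33 a
    rw [h] at h1
    exact ha' h1
  have hs : ({a, x a, x (x a)} : Finset α) = x.support := by
    apply Finset.eq_of_subset_of_card_le
    · intro p hp
      simp only [Finset.mem_insert, Finset.mem_singleton] at hp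
      rw [mem_support]
      rcases hp with rfl | rfl | rfl
      · exact ha'
      · exact hb'
      · intro h
        exact hb' (x.injective h)
    · rw [hc, Finset.card_insert_of_notMem, Finset.card_insert_of_notMem, Finset.card_singleton]
      · simpa using hb'.symm
      · simp only [Finset.mem_insert, Finset.mem_singleton, not_or]
        exact ⟨ha'.symm, hc'.symm⟩
  refine ⟨a, x a, x (x a), ha'.symm, hb'.symm, hc'.symm, ?_⟩
  apply cyc_ext ha'.symm hb'.symm hc'.symm rfl rfl (h33 a)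
  intro p h1 h2 h3
  by_contra hp
  have : p ∈ x.support := mem_support.mpr hp
  rw [← hs] at this
  simp only [Finset.mem_insert, Finset.mem_singleton] at this
  tauto

/-- A nonfixed point of `cyc d e f` can be rotated to the front. -/
theorem rot_to {d e f a : α} (hde : d ≠ e) (hef : e ≠ f) (hdf : d ≠ f)
    (h : cyc d e f a ≠ a) : ∃ e' f', a ≠ e' ∧ e' ≠ f' ∧ a ≠ f' ∧ cyc d e f = cyc a e' f' := by
  by_cases h1 : a = d
  · subst h1
    exact ⟨e, f, hde, hef, hdf, rfl⟩
  by_cases h2 : a = e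
  · subst h2
    exact ⟨f, d, hef, hdf.symm, hde.symm, cyc_rot hde hef hdf⟩
  by_cases h3 : a = f
  · subst h3
    refine ⟨d, e, hdf.symm, hde, hef.symm, ?_⟩
    rw [cyc_rot hde hef hdf, cyc_rot hef hdf.symm hde.symm]
  exact absurd (cyc_o h1 h2 h3) h

theorem moved {d e f p : α} (h : cyc d e f p ≠ p) : p = d ∨ p = e ∨ p = f := by
  by_contra hcon
  simp only [not_or] at hcon
  exact h (cyc_o hcon.1 hcon.2.1 hcon.2.2)

theorem cyc_rel {a b c d : α} (hab : a ≠ b) (hac : a ≠ c) (had : a ≠ d) (hbc : b ≠ c) (hbd : b ≠ d)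
    (hcd : c ≠ d) : (cyc a b c * cyc a b d) ^ 2 = 1 ∧ cyc a b c * cyc a b d ≠ 1 := by
  have e1 : (cyc a b c * cyc a b d) a = c := by
    rw [Perm.mul_apply, cyc_a hab had, cyc_b hbc hac]
  have e2 : (cyc a b c * cyc a b d) c = a := by
    rw [Perm.mul_apply, cyc_o hac.symm hbc.symm hcd, cyc_c]
  have e3 : (cyc a b c * cyc a b d) b = d := by
    rw [Perm.mul_apply, cyc_b hbd had, cyc_o had.symm hbd.symm hcd.symm]
  have e4 : (cyc a b c * cyc a b d) d = b := by
    rw [Perm.mul_apply, cyc_c, cyc_a hab hac]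
  constructor
  · ext p
    rw [pow_two, Perm.mul_apply, Perm.one_apply]
    by_cases pa : p = a
    · subst pa; rw [e1, e2]
    by_cases pb : p = b
    · subst pb; rw [e3, e4]
    by_cases pc : p = c
    · subst pc; rw [e2, e1]
    by_cases pd : p = d
    · subst pd; rw [e4, e3]
    have : (cyc a b c * cyc a b d) p = p := by
      rw [Perm.mul_apply, cyc_o pa pb pd, cyc_o pa pb pc]
    rw [this, this]
  · intro h
    rw [h] at e1
    exact hac e1

section key

variable [Fintype α]

/-- Two 3-cycles whose product is an involution share an oriented pair. -/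
theorem key {x y : Perm α} (hx : IsThreeCycle x) (hy : IsThreeCycle y) (h2 : (x * y) ^ 2 = 1)
    (h1 : x * y ≠ 1) : ∃ a b c d, a ≠ b ∧ a ≠ c ∧ a ≠ d ∧ b ≠ c ∧ b ≠ d ∧ c ≠ d ∧
      x = cyc a b c ∧ y = cyc a b d := by
  obtain ⟨a, b, c, hab, hbc, hac, rfl⟩ := exists_cyc hx
  obtain ⟨d, e, f, hde, hef, hdf, rfl⟩ := exists_cyc hy
  set y := cyc d e f with hy_def
  have h2' : ∀ p, cyc a b c (y (cyc a b c (y p))) = p := by
    intro p
    have := congrArg (fun g : Perm α => g p) h2
    simpa [pow_two, Perm.mul_apply] using this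
  have R : ∀ {a b c : α}, a ≠ b → b ≠ c → a ≠ c → (∀ p, cyc a b c (y (cyc a b c (y p))) = p) →
      y a = a → y b ≠ b := by
    intro a b c hab hbc hac h2' h3 h4
    have h5 := h2' a
    rw [h3, cyc_a hab hac, h4, cyc_b hbc hac] at h5
    exact hac h5.symm
  have main : ∀ {a b c : α}, a ≠ b → b ≠ c → a ≠ c → (∀ p, cyc a b c (y (cyc a b c (y p))) = p) →
      y a ≠ a → y b ≠ b → y c = c → ∃ a' b' c' d', a' ≠ b' ∧ a' ≠ c' ∧ a' ≠ d' ∧ b' ≠ c' ∧ b' ≠ d' ∧ c' ≠ d' ∧
      cyc a b c = cyc a' b' c' ∧ y = cyc a' b' d' := by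
    intro a b c hab hbc hac h2' ma mb mc
    obtain ⟨e', f', h3, h4, h5, h6⟩ := rot_to hde hef hdf ma
    rw [← hy_def] at h6
    have hb1 : b = a ∨ b = e' ∨ b = f' := moved (by rw [← h6]; exact mb)
    rcases hb1 with hb1 | rfl | rfl
    · exact absurd hb1.symm hab
    · refine ⟨a, b, c, f', hab, hac, h5, hbc, h4, ?_, rfl, h6⟩
      rintro rfl
      rw [h6, cyc_c] at mc
      exact hac mc
    · exfalso
      have he : e' ≠ c := by
        rintro rfl
        rw [h6, cyc_b h4 h5] at mc
        exact h4 mc.symm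
      have h7 := h2' a
      rw [h6, cyc_a h3 h5, cyc_o h3.symm h4 he, cyc_b h4 h5, cyc_b hbc hac] at h7
      exact hac h7.symm
  by_cases ma : y a = a
  · have mb := R hab hbc hac h2' ma
    by_cases mc : y c = c
    · -- `R` for `c`
      have := R (a := c) (b := a) (c := b) hac.symm hab hbc.symm (by
        rw [cyc_rot hab hbc hac, cyc_rot hbc hac.symm hab.symm] at h2'
        exact h2') mc
      exact absurd ma this
    · have h3 := main (a := b) (b := c) (c := a) hbc hac.symm hab.symm (by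
        rw [cyc_rot hab hbc hac] at h2'
        exact h2') mb mc ma
      rw [← cyc_rot hab hbc hac] at h3
      exact h3
  by_cases mb : y b = b
  · have mc := R hbc hac.symm hab.symm (by
        rw [cyc_rot hab hbc hac] at h2'
        exact h2') mb
    have h3 := main (a := c) (b := a) (c := b) hac.symm hab hbc.symm (by
        rw [cyc_rot hab hbc hac, cyc_rot hbc hac.symm hab.symm] at h2'
        exact h2') mc ma mb
    rw [← cyc_rot hbc hac.symm hab.symm, ← cyc_rot hab hbc hac] at h3
    exact h3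
  by_cases mc : y c = c
  · exact main hab hbc hac h2' ma mb mc
  · exfalso
    obtain ⟨e', f', h3, h4, h5, h6⟩ := rot_to hde hef hdf ma
    rw [← hy_def] at h6
    have hb1 : b = a ∨ b = e' ∨ b = f' := moved (by rw [← h6]; exact mb)
    have hc1 : c = a ∨ c = e' ∨ c = f' := moved (by rw [← h6]; exact mc)
    rcases hb1 with hb1 | rfl | rfl
    · exact hab hb1.symm
    · rcases hc1 with hc1 | rfl | rfl
      · exact hac hc1.symm
      · exact hbc rfl
      · -- `y = x`
        have h7 := h2' a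
        rw [h6, cyc_a h3 h5, cyc_b hbc hac, cyc_c, cyc_a hab hac] at h7
        exact hab h7.symm
    · rcases hc1 with hc1 | rfl | rfl
      · exact hac hc1.symm
      · -- `y = x⁻¹`
        apply h1
        rw [h6]
        have : cyc a c b = (cyc a b c)⁻¹ := by
          rw [cyc_inv hab hbc hac]
          exact (cyc_rot hab.symm hac hbc).symm
        rw [this, mul_inv_cancel]
      · exact hbc rfl

/-- The star lemma. -/
theorem star {a b c d : α} (hab : a ≠ b) (hac : a ≠ c) (had : a ≠ d) (hbc : b ≠ c) (hbd : b ≠ d)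
    (hcd : c ≠ d) {z : Perm α} (hz : IsThreeCycle z)
    (h1 : (cyc a b c * z) ^ 2 = 1) (h1' : cyc a b c * z ≠ 1)
    (h2 : (cyc a b d * z) ^ 2 = 1) (h2' : cyc a b d * z ≠ 1) :
    ∃ e, e ≠ a ∧ e ≠ b ∧ z = cyc a b e := by
  obtain ⟨a', b', c', e', h3, h4, h5, h6, h7, h8, h9, rfl⟩ :=
    key (cyc_isThreeCycle hab hbc hac) hz h1 h1'
  obtain ⟨a'', b'', c'', e'', k3, k4, k5, k6, k7, k8, k9, k10⟩ :=
    key (cyc_isThreeCycle hab hbd had) hz h2 h2'
  -- `x a' = b'`
  have xa : cyc a b c a' = b' := by rw [h9, cyc_a h3 h4]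
  have xb : cyc a b c b' = c' := by rw [h9, cyc_b h6 h4]
  have xc : cyc a b c c' = a' := by rw [h9, cyc_c]
  have hm : cyc a b c a' ≠ a' := by rw [xa]; exact h3.symm
  -- evaluation in `y` and `z`
  have ya : cyc a b d a'' = b'' := by rw [k9, cyc_a k3 k4]
  have za : cyc a' b' e' a'' = b'' := by rw [k10, cyc_a k3 k5]
  have hmy : cyc a b d a'' ≠ a'' := by rw [ya]; exact k3.symm
  have hmz : cyc a' b' e' a'' ≠ a'' := by rw [za]; exact k3.symm
  rcases moved hm with h | h | h
  · rw [h, cyc_a hab hac] at xa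
    subst h
    subst xa
    exact ⟨e', h5.symm, h7.symm, rfl⟩
  · exfalso
    rw [h, cyc_b hbc hac] at xa
    subst h
    subst xa
    rw [cyc_c] at xb
    subst xb
    -- `z = cyc b c e'`, `e' ≠ a`
    rcases moved hmz with h | h | h
    · rw [h, cyc_b hbd had] at ya
      rw [h, cyc_a h3 h5] at za
      exact hcd (by rw [za, ya])
    · rcases moved hmy with h' | h' | h'
      · exact hac (h'.symm.trans h)
      · exact hbc (h'.symm.trans h)
      · exact hcd (h.symm.trans h')
    · rcases moved hmy with h' | h' | h'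
      · exact h8 (h'.symm.trans h)
      · exact h5 (h'.symm.trans h)
      · rw [h', cyc_c] at ya
        rw [h, cyc_c] at za
        exact hab (by rw [ya, za])
  · exfalso
    rw [h, cyc_c] at xa
    subst h
    subst xa
    rw [cyc_a hab hac] at xb
    subst xb
    -- `z = cyc c a e'`, `e' ≠ b`
    rcases moved hmz with h | h | h
    · rcases moved hmy with h' | h' | h'
      · exact hac (h'.symm.trans h)
      · exact hbc (h'.symm.trans h)
      · exact hcd (h.symm.trans h')
    · rw [h, cyc_a hab had] at ya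
      rw [h, cyc_b h7 h5] at za
      exact h8 (by rw [za, ya])
    · rcases moved hmy with h' | h' | h'
      · exact h7 (h'.symm.trans h)
      · exact h8 (h'.symm.trans h)
      · rw [h', cyc_c] at ya
        rw [h, cyc_c] at za
        exact hac (by rw [ya, za])

end key

section gen

variable {n : ℕ}

/-- The generating 3-cycles generate all 3-cycles. -/
theorem gen {z0 z1 : Fin n} (h01 : z0 ≠ z1) {p q r : Fin n} (hpq : p ≠ q) (hqr : q ≠ r) (hpr : p ≠ r) :
    cyc p q r ∈ Subgroup.closure {g : Perm (Fin n) | ∃ i, i ≠ z0 ∧ i ≠ z1 ∧ g = cyc z0 z1 i} := by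
  set H := Subgroup.closure {g : Perm (Fin n) | ∃ i, i ≠ z0 ∧ i ≠ z1 ∧ g = cyc z0 z1 i} with hH
  have h0 : ∀ i, i ≠ z0 → i ≠ z1 → cyc z0 z1 i ∈ H := fun i h1 h2 =>
    Subgroup.subset_closure ⟨i, h1, h2, rfl⟩
  have h1 : ∀ i j, i ≠ z0 → i ≠ z1 → j ≠ z0 → j ≠ z1 → i ≠ j → cyc z1 i j ∈ H := by
    intro i j hi0 hi1 hj0 hj1 hij
    have := H.mul_mem (H.mul_mem (h0 i hi0 hi1) (h0 j hj0 hj1)) (H.inv_mem (h0 i hi0 hi1))
    rwa [cyc_conj, cyc_a h01 hi0.symm, cyc_b hi1.symm hi0.symm, cyc_o hj0 hj1 hij.symm] at this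
  have h2 : ∀ i j, i ≠ z0 → i ≠ z1 → j ≠ z0 → j ≠ z1 → i ≠ j → cyc z0 i j ∈ H := by
    intro i j hi0 hi1 hj0 hj1 hij
    have := H.mul_mem (H.mul_mem (H.inv_mem (h0 j hj0 hj1)) (h0 i hi0 hi1)) (inv_inv (cyc z0 z1 j) ▸ h0 j hj0 hj1)
    rw [cyc_conj, cyc_inv h01 hj1.symm hj0.symm, cyc_a h01.symm hj1.symm, cyc_b hj0.symm hj1.symm,
      cyc_o hi1 hi0 hij] at this
    rwa [cyc_rot hj0 hi0.symm hij.symm] at this
  have h3 : ∀ i j k, i ≠ z0 → i ≠ z1 → j ≠ z0 → j ≠ z1 → k ≠ z0 → k ≠ z1 → i ≠ j → j ≠ k → i ≠ k → cyc i j k ∈ H := by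
    intro i j k hi0 hi1 hj0 hj1 hk0 hk1 hij hjk hik
    have := H.mul_mem (H.mul_mem (h0 i hi0 hi1) (h1 j k hj0 hj1 hk0 hk1 hjk)) (H.inv_mem (h0 i hi0 hi1))
    rwa [cyc_conj, cyc_b hi1.symm hi0.symm, cyc_o hj0 hj1 hij.symm, cyc_o hk0 hk1 hik.symm] at this
  have h4 : ∀ q r, q ≠ z0 → r ≠ z0 → q ≠ r → cyc z0 q r ∈ H := by
    intro q r hq hr hqr
    by_cases hq1 : q = z1
    · subst hq1
      exact h0 r hr hqr.symm
    by_cases hr1 : r = z1
    · subst hr1
      have := H.inv_mem (h0 q hq hq1)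
      rw [cyc_inv h01 (Ne.symm hq1) hq.symm, cyc_rot h01.symm hq.symm (Ne.symm hq1)] at this
      exact this
    exact h2 q r hq hq1 hr hr1 hqr
  have h5 : ∀ q r, q ≠ z0 → r ≠ z0 → q ≠ z1 → r ≠ z1 → q ≠ r → cyc z1 q r ∈ H := by
    intro q r hq hr hq1 hr1 hqr
    exact h1 q r hq hq1 hr hr1 hqr
  by_cases hp0 : p = z0
  · subst hp0
    exact h4 q r hpq.symm hpr.symm hqr
  by_cases hq0 : q = z0
  · subst hq0
    rw [cyc_rot hpq hqr hpr]
    exact h4 r p hqr.symm hpq (Ne.symm hpr)
  by_cases hr0 : r = z0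
  · subst hr0
    rw [cyc_rot hpq hqr hpr, cyc_rot hqr hpr.symm hpq.symm]
    exact h4 p q hpr hqr hpq
  by_cases hp1 : p = z1
  · subst hp1
    exact h5 q r hq0 hr0 hpq.symm hpr.symm hqr
  by_cases hq1 : q = z1
  · subst hq1
    rw [cyc_rot hpq hqr hpr]
    exact h5 r p hr0 hp0 hqr.symm hpq (Ne.symm hpr)
  by_cases hr1 : r = z1
  · subst hr1
    rw [cyc_rot hpq hqr hpr, cyc_rot hqr hpr.symm hpq.symm]
    exact h5 p q hp0 hq0 hpr hqr hpq
  exact h3 p q r hp0 hp1 hq0 hq1 hr0 hr1 hpq hqr hpr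

theorem ineq3 (j : ℕ) : 2 * (3 ^ (j + 3) * (j + 3).factorial) < 3 * (3 * j + 6).factorial := by
  induction j with
  | zero => decide
  | succ j ih =>
    have h1 : (3 * (j + 1) + 6).factorial = (3 * j + 9) * ((3 * j + 8) * ((3 * j + 7) * (3 * j + 6).factorial)) := by
      have : 3 * (j + 1) + 6 = (3 * j + 8) + 1 := by ring
      rw [this, Nat.factorial_succ, Nat.factorial_succ, Nat.factorial_succ]
    have h2 : (j + 1 + 3).factorial = (j + 4) * (j + 3).factorial := by
      have : j + 1 + 3 = (j + 3) + 1 := by ring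
      rw [this, Nat.factorial_succ]
    rw [h1, h2, pow_succ 3 (j + 3)]
    set A := 3 ^ (j + 3) * (j + 3).factorial with hA
    set B := (3 * j + 6).factorial with hB
    have h3 : 2 * (3 ^ (j + 3) * 3 * ((j + 4) * (j + 3).factorial)) = (3 * (j + 4)) * (2 * A) := by
      rw [hA]; ring
    rw [h3]
    have h4 : (3 * (j + 4)) * (2 * A) < (3 * (j + 4)) * (3 * B) :=
      Nat.mul_lt_mul_of_pos_left ih (by positivity)
    refine lt_of_lt_of_le h4 ?_
    have h5 : 3 * (j + 4) * (3 * B) = 3 * ((3 * (j + 4)) * B) := by ring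
    rw [h5]
    apply Nat.mul_le_mul_left
    have h6 : 3 * (j + 4) ≤ (3 * j + 9) * ((3 * j + 8) * (3 * j + 7)) := by
      have h61 : 8 * 7 ≤ (3 * j + 8) * (3 * j + 7) := Nat.mul_le_mul (by omega) (by omega)
      calc 3 * (j + 4) ≤ (3 * j + 9) * (8 * 7) := by omega
        _ ≤ _ := Nat.mul_le_mul_left _ h61
    calc 3 * (j + 4) * B ≤ (3 * j + 9) * ((3 * j + 8) * (3 * j + 7)) * B := Nat.mul_le_mul_right _ h6
      _ = _ := by ring

theorem ineq {n k : ℕ} (hn : 7 ≤ n) (hk : 2 ≤ k) (h3 : 3 * k ≤ n) :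
    2 * (3 ^ k * k.factorial * (n - 3 * k).factorial) < 3 * (n - 3).factorial := by
  obtain ⟨m, rfl⟩ : ∃ m, n = 3 * k + m := ⟨n - 3 * k, by omega⟩
  have e1 : 3 * k + m - 3 * k = m := by omega
  rw [e1]
  by_cases hk2 : k = 2
  · subst hk2
    have hm : 1 ≤ m := by omega
    have e2 : 3 * 2 + m - 3 = m + 3 := by omega
    rw [e2]
    have e3 : (m + 3).factorial = (m + 3) * ((m + 2) * ((m + 1) * m.factorial)) := by
      rw [Nat.factorial_succ, Nat.factorial_succ, Nat.factorial_succ]
    rw [e3]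
    have hp : 0 < m.factorial := Nat.factorial_pos m
    have h6 : 12 < (m + 3) * ((m + 2) * (m + 1)) := by
      have h61 : 4 * (3 * 2) ≤ (m + 3) * ((m + 2) * (m + 1)) :=
        Nat.mul_le_mul (by omega) (Nat.mul_le_mul (by omega) (by omega))
      omega
    norm_num [Nat.factorial]
    nlinarith
  · obtain ⟨j, rfl⟩ : ∃ j, k = j + 3 := ⟨k - 3, by omega⟩
    have e2 : 3 * (j + 3) + m - 3 = m + (3 * j + 6) := by omega
    rw [e2]
    have h7 := ineq3 j
    have h8 : m.factorial * (3 * j + 6).factorial ≤ (m + (3 * j + 6)).factorial :=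
      Nat.le_of_dvd (Nat.factorial_pos _) (Nat.factorial_mul_factorial_dvd_factorial_add _ _)
    have hp : 0 < m.factorial := Nat.factorial_pos m
    calc 2 * (3 ^ (j + 3) * (j + 3).factorial * m.factorial)
        = (2 * (3 ^ (j + 3) * (j + 3).factorial)) * m.factorial := by ring
      _ < (3 * (3 * j + 6).factorial) * m.factorial := Nat.mul_lt_mul_of_pos_right h7 hp
      _ = 3 * (m.factorial * (3 * j + 6).factorial) := by ring
      _ ≤ _ := Nat.mul_le_mul_left _ h8

end gen

section main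

variable {n : ℕ}

abbrev A (n : ℕ) := alternatingGroup (Fin n)

theorem card_cent_le (x : A n) :
    Nat.card (Subgroup.centralizer {(x : Perm (Fin n))}) ≤ 2 * Nat.card (Subgroup.centralizer {x}) := by
  classical
  set f : (Subgroup.centralizer {(x : Perm (Fin n))}) →* ℤˣ :=
    (Perm.sign (α := Fin n)).comp (Subgroup.subtype _) with hf
  have h1 := f.ker.card_mul_index
  rw [Subgroup.index_ker] at h1
  have h2 : Nat.card f.range ≤ 2 := by
    calc Nat.card f.range ≤ Nat.card ℤˣ := Subgroup.card_le_card_group _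
      _ = 2 := by simp
  have h3 : Nat.card f.ker ≤ Nat.card (Subgroup.centralizer {x}) := by
    let g : f.ker → Subgroup.centralizer {x} := fun y => ⟨⟨y.1.1, by
        have := y.2
        rw [MonoidHom.mem_ker] at this
        exact mem_alternatingGroup.mpr this⟩, by
        rw [Subgroup.mem_centralizer_singleton_iff]
        apply Subtype.ext
        have := y.1.2
        rw [Subgroup.mem_centralizer_singleton_iff] at this
        exact this⟩
    apply Nat.card_le_card_of_injective g
    intro a b hab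
    apply Subtype.ext
    apply Subtype.ext
    exact congrArg (fun z : Subgroup.centralizer {x} => (z.1 : Perm (Fin n))) hab
  calc _ = Nat.card f.ker * Nat.card f.range := h1.symm
    _ ≤ Nat.card (Subgroup.centralizer {x}) * 2 := Nat.mul_le_mul h3 h2
    _ = _ := by ring

theorem card_cent_le' (x : A n) :
    Nat.card (Subgroup.centralizer {x}) ≤ Nat.card (Subgroup.centralizer {(x : Perm (Fin n))}) := by
  let g : Subgroup.centralizer {x} → Subgroup.centralizer {(x : Perm (Fin n))} := fun y => ⟨y.1.1, by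
    rw [Subgroup.mem_centralizer_singleton_iff]
    have := y.2
    rw [Subgroup.mem_centralizer_singleton_iff] at this
    exact congrArg Subtype.val this⟩
  apply Nat.card_le_card_of_injective g
  intro a b hab
  apply Subtype.ext
  apply Subtype.ext
  exact congrArg (fun z : Subgroup.centralizer {(x : Perm (Fin n))} => (z : Perm (Fin n))) hab

theorem card_cent_map (φ : A n ≃* A n) (x : A n) :
    Nat.card (Subgroup.centralizer {φ x}) = Nat.card (Subgroup.centralizer {x}) := by
  apply Nat.card_congr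
  symm
  refine φ.toEquiv.subtypeEquiv ?_
  intro g
  rw [Subgroup.mem_centralizer_singleton_iff, Subgroup.mem_centralizer_singleton_iff]
  constructor
  · intro h
    change φ g * φ x = φ x * φ g
    rw [← map_mul, ← map_mul, h]
  · intro h
    change φ g * φ x = φ x * φ g at h
    rw [← map_mul, ← map_mul] at h
    exact φ.injective h

/-- Automorphisms preserve 3-cycles when `n ≠ 6`. -/
theorem three_of (h6 : n ≠ 6) (φ : A n ≃* A n) {x : A n} (hx : IsThreeCycle (x : Perm (Fin n))) :
    IsThreeCycle ((φ x : A n) : Perm (Fin n)) := by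
  classical
  set y : Perm (Fin n) := ((φ x : A n) : Perm (Fin n)) with hy
  have ho : orderOf y = 3 := by
    rw [hy, Subgroup.orderOf_coe, MulEquiv.orderOf_eq, ← Subgroup.orderOf_coe]
    exact hx.orderOf
  have hc : ∀ c ∈ y.cycleType, c = 3 := by
    intro c hcm
    have h1 : c ∣ 3 := by
      rw [← ho]
      exact dvd_of_mem_cycleType hcm
    have h2 : 2 ≤ c := two_le_of_mem_cycleType hcm
    have h3 := Nat.le_of_dvd (by norm_num) h1
    interval_cases c
    · omega
    · rfl
  obtain ⟨k, hk⟩ : ∃ k, y.cycleType = Multiset.replicate k 3 :=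
    ⟨_, Multiset.eq_replicate_card.mpr hc⟩
  have hsum : y.cycleType.sum = 3 * k := by
    rw [hk]; simp [mul_comm]
  have hle : 3 * k ≤ n := by
    rw [← hsum, sum_cycleType]
    calc y.support.card ≤ Fintype.card (Fin n) := Finset.card_le_univ _
      _ = n := by simp
  have hk0 : k ≠ 0 := by
    rintro rfl
    have : y.cycleType = 0 := by rw [hk]; simp
    rw [cycleType_eq_zero] at this
    rw [this] at ho
    simp at ho
  by_cases hk1 : k = 1
  · subst hk1
    rw [IsThreeCycle, hk]
    simp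
  exfalso
  have hk2 : 2 ≤ k := by omega
  have hn : 7 ≤ n := by omega
  have h1 := card_cent_le x
  have h2 := card_cent_le' (φ x)
  rw [card_cent_map] at h2
  have h3 := nat_card_centralizer (x : Perm (Fin n))
  have h4 := nat_card_centralizer y
  have hxt : (x : Perm (Fin n)).cycleType = {3} := hx
  rw [hxt] at h3
  have h3' : Nat.card (Subgroup.centralizer {(x : Perm (Fin n))}) = (n - 3).factorial * 3 := by
    rw [h3]
    simp
  have h4' : Nat.card (Subgroup.centralizer {y}) = (n - 3 * k).factorial * 3 ^ k * k.factorial := by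
    rw [h4, hsum, hk]
    have h41 : (Multiset.replicate k 3).toFinset = {3} := by
      ext a
      simp only [Multiset.mem_toFinset, Multiset.mem_replicate, Finset.mem_singleton]
      constructor
      · exact fun h => h.2
      · exact fun h => ⟨hk0, h⟩
    rw [h41]
    simp
  have h5 := ineq hn hk2 hle
  rw [h3'] at h1
  rw [h4'] at h2
  have h7 : (n - 3).factorial * 3 ≤ 2 * ((n - 3 * k).factorial * 3 ^ k * k.factorial) :=
    h1.trans (Nat.mul_le_mul_left _ h2)
  have h8 : 2 * (3 ^ k * k.factorial * (n - 3 * k).factorial) = 2 * ((n - 3 * k).factorial * 3 ^ k * k.factorial) := by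
    ring
  rw [h8] at h5
  have h9 : (n - 3).factorial * 3 = 3 * (n - 3).factorial := by ring
  rw [h9] at h7
  exact absurd h5 (not_lt.mpr h7)

/-- Main theorem. -/
theorem main (n : ℕ) (hn : 4 ≤ n) (h6 : n ≠ 6) :
    Function.Bijective (MulAut.conjNormal : Perm (Fin n) →* MulAut (alternatingGroup (Fin n))) := by
  classical
  have z0 : Fin n := ⟨0, by omega⟩
  set a0 : Fin n := ⟨0, by omega⟩ with ha0
  set a1 : Fin n := ⟨1, by omega⟩ with ha1
  set a2 : Fin n := ⟨2, by omega⟩ with ha2
  set a3 : Fin n := ⟨3, by omega⟩ with ha3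
  have h01 : a0 ≠ a1 := by simp [ha0, ha1, Fin.ext_iff]
  have h02 : a0 ≠ a2 := by simp [ha0, ha2, Fin.ext_iff]
  have h03 : a0 ≠ a3 := by simp [ha0, ha3, Fin.ext_iff]
  have h12 : a1 ≠ a2 := by simp [ha1, ha2, Fin.ext_iff]
  have h13 : a1 ≠ a3 := by simp [ha1, ha3, Fin.ext_iff]
  have h23 : a2 ≠ a3 := by simp [ha2, ha3, Fin.ext_iff]
  constructor
  · -- injectivity
    rw [injective_iff_map_eq_one]
    intro σ hσ
    have hc : ∀ g : A n, σ * g.1 * σ⁻¹ = g.1 := by
      intro g
      have := congrArg (fun f : MulAut (alternatingGroup (Fin n)) => ((f g : alternatingGroup (Fin n)) : Perm (Fin n))) hσ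
      simpa [MulAut.conjNormal_apply] using this
    by_contra hne
    obtain ⟨p, hp⟩ : ∃ p, σ p ≠ p := by
      by_contra hcon
      simp only [not_exists, not_not] at hcon
      exact hne (Equiv.ext hcon)
    -- choose `q, r` different from `p, σ p`
    obtain ⟨q, r, h1, h2, h3, h4, h5⟩ : ∃ q r : Fin n, q ≠ p ∧ q ≠ σ p ∧ r ≠ p ∧ r ≠ σ p ∧ q ≠ r := by
      have hcard : ({p, σ p} : Finset (Fin n)).card + 2 ≤ Fintype.card (Fin n) := by
        have : ({p, σ p} : Finset (Fin n)).card ≤ 2 := Finset.card_le_two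
        simp only [Fintype.card_fin]
        omega
      have h := Finset.card_compl ({p, σ p} : Finset (Fin n))
      have h' : 1 < (({p, σ p} : Finset (Fin n))ᶜ).card := by omega
      obtain ⟨q, hq, r, hr, hqr⟩ := Finset.one_lt_card.mp h'
      simp only [Finset.mem_compl, Finset.mem_insert, Finset.mem_singleton, not_or] at hq hr
      exact ⟨q, r, hq.1, hq.2, hr.1, hr.2, hqr⟩
    have hm : cyc p q r ∈ alternatingGroup (Fin n) := (cyc_isThreeCycle h1.symm h5 h3.symm).mem_alternatingGroup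
    have h7 := hc ⟨cyc p q r, hm⟩
    simp only at h7
    rw [cyc_conj] at h7
    -- `σ p` is moved by the conjugate, so it lies in the support of `cyc p q r`
    have h8 : cyc (σ p) (σ q) (σ r) (σ p) ≠ σ p := by
      rw [cyc_a (σ.injective.ne h1.symm) (σ.injective.ne h3.symm)]
      exact σ.injective.ne h1
    rw [h7] at h8
    rcases moved h8 with h9 | h9 | h9
    · exact hp h9
    · exact h2 h9.symm
    · exact h4 h9.symm
  · -- surjectivity
    intro φ
    have hgen : ∀ i, i ≠ a0 → i ≠ a1 → cyc a0 a1 i ∈ alternatingGroup (Fin n) := fun i h0 h1 =>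
      (cyc_isThreeCycle h01 h1.symm h0.symm).mem_alternatingGroup
    let C : ∀ i (h0 : i ≠ a0) (h1 : i ≠ a1), A n := fun i h0 h1 => ⟨cyc a0 a1 i, hgen i h0 h1⟩
    let X : ∀ i (h0 : i ≠ a0) (h1 : i ≠ a1), Perm (Fin n) :=
      fun i h0 h1 => ((φ (C i h0 h1) : A n) : Perm (Fin n))
    have hX3 : ∀ i h0 h1, IsThreeCycle (X i h0 h1) := fun i h0 h1 =>
      three_of h6 φ (cyc_isThreeCycle h01 h1.symm h0.symm)
    have hrel : ∀ i h0 h1 j k0 k1, i ≠ j →
        (X i h0 h1 * X j k0 k1) ^ 2 = 1 ∧ X i h0 h1 * X j k0 k1 ≠ 1 := by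
      intro i h0 h1 j k0 k1 hij
      obtain ⟨r1, r2⟩ := cyc_rel (a := a0) (b := a1) (c := i) (d := j) h01 h0.symm k0.symm h1.symm k1.symm hij
      constructor
      · have h3 : (C i h0 h1 * C j k0 k1) ^ 2 = 1 := Subtype.ext r1
        have h2 := congrArg (fun g => ((φ g : A n) : Perm (Fin n))) h3
        simpa [X, map_pow, map_mul] using h2
      · intro h
        apply r2
        have h3 : φ (C i h0 h1 * C j k0 k1) = 1 := by
          rw [map_mul]
          exact Subtype.ext h
        have h4 := φ.injective (h3.trans (map_one φ).symm)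
        exact congrArg Subtype.val h4
    have r23 := hrel a2 h02.symm h12.symm a3 h03.symm h13.symm h23
    obtain ⟨a, b, c, d, hab, hac, had, hbc, hbd, hcd, hx, hy⟩ :=
      key (hX3 a2 h02.symm h12.symm) (hX3 a3 h03.symm h13.symm) r23.1 r23.2
    have hE : ∀ i, ∃ e, (i = a0 → e = a) ∧ (i = a1 → e = b) ∧
        ∀ (h0 : i ≠ a0) (h1 : i ≠ a1), e ≠ a ∧ e ≠ b ∧ X i h0 h1 = cyc a b e := by
      intro i
      by_cases h0 : i = a0
      · exact ⟨a, fun _ => rfl, fun h => absurd (h0.symm.trans h) h01, fun h => absurd h0 h⟩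
      by_cases h1 : i = a1
      · exact ⟨b, fun h => absurd (h1.symm.trans h) h01.symm, fun _ => rfl, fun _ h => absurd h1 h⟩
      by_cases h2 : i = a2
      · refine ⟨c, fun h => absurd h h0, fun h => absurd h h1, fun k0 k1 => ⟨hac.symm, hbc.symm, ?_⟩⟩
        rw [← hx]
        simp only [X, C, h2]
      by_cases h3 : i = a3
      · refine ⟨d, fun h => absurd h h0, fun h => absurd h h1, fun k0 k1 => ⟨had.symm, hbd.symm, ?_⟩⟩
        rw [← hy]
        simp only [X, C, h3]
      have r1 := hrel a2 h02.symm h12.symm i h0 h1 (Ne.symm h2)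
      have r2 := hrel a3 h03.symm h13.symm i h0 h1 (Ne.symm h3)
      rw [hx] at r1
      rw [hy] at r2
      obtain ⟨e, he1, he2, he3⟩ := star hab hac had hbc hbd hcd (hX3 i h0 h1) r1.1 r1.2 r2.1 r2.2
      exact ⟨e, fun h => absurd h h0, fun h => absurd h h1, fun _ _ => ⟨he1, he2, he3⟩⟩
    choose f hf using hE
    have fa0 : f a0 = a := (hf a0).1 rfl
    have fa1 : f a1 = b := (hf a1).2.1 rfl
    have finj : Function.Injective f := by
      intro i j hij
      by_cases i0 : i = a0
      · by_cases j0 : j = a0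
        · rw [i0, j0]
        by_cases j1 : j = a1
        · rw [i0, j1, fa0, fa1] at hij
          exact absurd hij hab
        · have := ((hf j).2.2 j0 j1).1
          rw [← hij, i0, fa0] at this
          exact absurd rfl this
      by_cases i1 : i = a1
      · by_cases j0 : j = a0
        · rw [i1, j0, fa0, fa1] at hij
          exact absurd hij.symm hab
        by_cases j1 : j = a1
        · rw [i1, j1]
        · have := ((hf j).2.2 j0 j1).2.1
          rw [← hij, i1, fa1] at this
          exact absurd rfl this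
      by_cases j0 : j = a0
      · have := ((hf i).2.2 i0 i1).1
        rw [hij, j0, fa0] at this
        exact absurd rfl this
      by_cases j1 : j = a1
      · have := ((hf i).2.2 i0 i1).2.1
        rw [hij, j1, fa1] at this
        exact absurd rfl this
      have e1 := ((hf i).2.2 i0 i1).2.2
      have e2 := ((hf j).2.2 j0 j1).2.2
      rw [hij, ← e2] at e1
      have e3 : C i i0 i1 = C j j0 j1 := φ.injective (Subtype.ext e1)
      have e4 : cyc a0 a1 i = cyc a0 a1 j := congrArg Subtype.val e3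
      have e5 : cyc a0 a1 i a1 = cyc a0 a1 j a1 := by rw [e4]
      rwa [cyc_b (Ne.symm i1) (Ne.symm i0), cyc_b (Ne.symm j1) (Ne.symm j0)] at e5
    let σ : Perm (Fin n) := Equiv.ofBijective f (Finite.injective_iff_bijective.mp finj)
    have hσ : ∀ p, σ p = f p := fun p => rfl
    refine ⟨σ, ?_⟩
    have hagree : ∀ i h0 h1, ((MulAut.conjNormal σ (C i h0 h1) : A n) : Perm (Fin n)) = X i h0 h1 := by
      intro i h0 h1
      rw [MulAut.conjNormal_apply]
      change σ * cyc a0 a1 i * σ⁻¹ = _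
      rw [cyc_conj, hσ, hσ, hσ, fa0, fa1, ((hf i).2.2 h0 h1).2.2]
    -- the locus of agreement
    set E : Subgroup (A n) := MonoidHom.eqLocus (MulAut.conjNormal σ : A n ≃* A n).toMonoidHom φ.toMonoidHom with hE'
    have hK : Subgroup.closure {g : Perm (Fin n) | ∃ i, i ≠ a0 ∧ i ≠ a1 ∧ g = cyc a0 a1 i} ≤ E.map (alternatingGroup (Fin n)).subtype := by
      rw [Subgroup.closure_le]
      rintro g ⟨i, h0, h1, rfl⟩
      refine ⟨C i h0 h1, ?_, rfl⟩
      exact Subtype.ext (hagree i h0 h1)
    have hall : ∀ g : A n, g ∈ E := by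
      intro g
      have h3 : (g : Perm (Fin n)) ∈ Subgroup.closure {σ : Perm (Fin n) | IsThreeCycle σ} := by
        rw [closure_three_cycles_eq_alternating]
        exact g.2
      have h4 : Subgroup.closure {σ : Perm (Fin n) | IsThreeCycle σ} ≤ E.map (alternatingGroup (Fin n)).subtype := by
        rw [Subgroup.closure_le]
        intro t ht
        obtain ⟨p, q, r, hpq, hqr, hpr, rfl⟩ := exists_cyc ht
        exact hK (gen h01 hpq hqr hpr)
      obtain ⟨g', hg', hgg⟩ := h4 h3
      have : g' = g := Subtype.ext hgg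
      rwa [this] at hg'
    ext g : 1
    exact hall g

end main

end CfsgLib.H9.AutAlt
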