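import Mathlib
import Cfsg.Agent.Lib.H9.CoxA

/-! Carmichael's presentation of the alternating group. -/

set_option autoImplicit false
set_option linter.unusedVariables false
set_option linter.unusedSectionVars false
set_option linter.unusedSimpArgs false
set_option linter.style.haveILetI false

namespace CfsgLib.H9.Carm

abbrev rels (m : ℕ) : Set (FreeGroup (Fin (m + 1))) :=
  {g | ∃ i : Fin (m + 1), i.val = 0 ∧ g = FreeGroup.of i ^ 3} ∪
  {g | ∃ i : Fin (m + 1), 1 ≤ i.val ∧ g = FreeGroup.of i ^ 2} ∪
  {g | ∃ i j : Fin (m + 1), j.val = i.val + 1 ∧ g = (FreeGroup.of i * FreeGroup.of j) ^ 3} ∪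
  {g | ∃ i j : Fin (m + 1), i.val + 1 < j.val ∧ g = (FreeGroup.of i * FreeGroup.of j) ^ 2}

abbrev P (m : ℕ) := PresentedGroup (rels m)

variable {m : ℕ}

def x (j : Fin (m + 1)) : P m := PresentedGroup.of j

theorem rel0 (i : Fin (m + 1)) (h : i.val = 0) : x i ^ 3 = 1 := by
  have := PresentedGroup.one_of_mem (rels := rels m) (x := FreeGroup.of i ^ 3) (Or.inl (Or.inl (Or.inl ⟨i, h, rfl⟩)))
  rwa [map_pow] at this

theorem rel1 (i : Fin (m + 1)) (h : 1 ≤ i.val) : x i ^ 2 = 1 := by
  have := PresentedGroup.one_of_mem (rels := rels m) (x := FreeGroup.of i ^ 2) (Or.inl (Or.inl (Or.inr ⟨i, h, rfl⟩)))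
  rwa [map_pow] at this

theorem rel2 (i j : Fin (m + 1)) (h : j.val = i.val + 1) : (x i * x j) ^ 3 = 1 := by
  have := PresentedGroup.one_of_mem (rels := rels m) (x := (FreeGroup.of i * FreeGroup.of j) ^ 3)
    (Or.inl (Or.inr ⟨i, j, h, rfl⟩))
  rwa [map_pow, map_mul] at this

theorem rel3 (i j : Fin (m + 1)) (h : i.val + 1 < j.val) : (x i * x j) ^ 2 = 1 := by
  have := PresentedGroup.one_of_mem (rels := rels m) (x := (FreeGroup.of i * FreeGroup.of j) ^ 2)
    (Or.inr ⟨i, j, h, rfl⟩)
  rwa [map_pow, map_mul] at this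

theorem liftCond {H : Type*} [Group H] (y : Fin (m + 1) → H)
    (h0 : ∀ i : Fin (m + 1), i.val = 0 → y i ^ 3 = 1) (h1 : ∀ i : Fin (m + 1), 1 ≤ i.val → y i ^ 2 = 1)
    (h2 : ∀ i j : Fin (m + 1), j.val = i.val + 1 → (y i * y j) ^ 3 = 1)
    (h3 : ∀ i j : Fin (m + 1), i.val + 1 < j.val → (y i * y j) ^ 2 = 1) :
    ∀ r ∈ rels m, FreeGroup.lift y r = 1 := by
  rintro r (((⟨i, h, rfl⟩ | ⟨i, h, rfl⟩) | ⟨i, j, h, rfl⟩) | ⟨i, j, h, rfl⟩)
  · simpa using h0 i h
  · simpa using h1 i h
  · simpa using h2 i j h
  · simpa using h3 i j h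

theorem swap_pow {G : Type*} [Group G] {a b : G} {k : ℕ} (h : (a * b) ^ k = 1) : (b * a) ^ k = 1 := by
  have h1 : b * a = a⁻¹ * (a * b) * a⁻¹⁻¹ := by group
  rw [h1, conj_pow, h]
  group

theorem inv_mul_pow {G : Type*} [Group G] {a b : G} {k : ℕ} (hb : b ^ 2 = 1) (h : (a * b) ^ k = 1) :
    (a⁻¹ * b) ^ k = 1 := by
  have hb' : b⁻¹ = b := by
    rw [inv_eq_iff_mul_eq_one, ← pow_two, hb]
  have h1 : a⁻¹ * b = (b * a)⁻¹ := by rw [mul_inv_rev, hb']
  rw [h1, inv_pow, swap_pow h, inv_one]

/-- The involutory automorphism. -/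
noncomputable def tauHom : P m →* P m :=
  PresentedGroup.toGroup (f := fun j => if j.val = 0 then (x j)⁻¹ else x j) (by
    apply liftCond
    · intro i h
      simp only [h, if_true]
      rw [inv_pow, rel0 i h, inv_one]
    · intro i h
      have h' : i.val ≠ 0 := by omega
      simp only [h', if_false]
      exact rel1 i h
    · intro i j h
      have hj : j.val ≠ 0 := by omega
      simp only [hj, if_false]
      by_cases hi : i.val = 0
      · simp only [hi, if_true]
        exact inv_mul_pow (rel1 j (by omega)) (rel2 i j h)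
      · simp only [hi, if_false]
        exact rel2 i j h
    · intro i j h
      have hj : j.val ≠ 0 := by omega
      simp only [hj, if_false]
      by_cases hi : i.val = 0
      · simp only [hi, if_true]
        exact inv_mul_pow (rel1 j (by omega)) (rel3 i j h)
      · simp only [hi, if_false]
        exact rel3 i j h)

theorem tau_x (j : Fin (m + 1)) : tauHom (x j) = if j.val = 0 then (x j)⁻¹ else x j :=
  PresentedGroup.toGroup.of _

theorem tau_tau : (tauHom (m := m)).comp tauHom = MonoidHom.id _ := by
  apply PresentedGroup.ext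
  intro j
  change tauHom (tauHom (x j)) = x j
  rw [tau_x]
  by_cases hj : j.val = 0
  · simp only [hj, if_true, map_inv, tau_x, inv_inv]
  · simp only [hj, if_false, tau_x]

noncomputable def tau : MulAut (P m) := tauHom.toMulEquiv tauHom tau_tau tau_tau

theorem tau_apply (p : P m) : tau p = tauHom p := rfl

theorem tau_mul_tau : (tau (m := m)) * tau = 1 := by
  ext p
  have : tauHom (tauHom p) = p := DFunLike.congr_fun tau_tau p
  exact this

abbrev C2 := Multiplicative (ZMod 2)

def t : C2 := Multiplicative.ofAdd 1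

theorem C2_cases : ∀ a : C2, a = 1 ∨ a = t := by decide

theorem t_mul_t : t * t = 1 := by decide

theorem t_ne_one : t ≠ 1 := by decide

noncomputable def phi : C2 →* MulAut (P m) :=
  MonoidHom.mk' (fun a => if a = 1 then 1 else tau) (by
    intro a b
    rcases C2_cases a with rfl | rfl <;> rcases C2_cases b with rfl | rfl
    · simp
    · simp [t_ne_one]
    · simp [t_ne_one]
    · rw [t_mul_t]
      simp [t_ne_one, tau_mul_tau])

theorem phi_t : phi (m := m) t = tau := by
  change (if t = 1 then 1 else tau) = tau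
  rw [if_neg t_ne_one]

abbrev Q (m : ℕ) := SemidirectProduct (P m) C2 phi

open SemidirectProduct

noncomputable def T : Q m := inr t

theorem T_mul_T : (T : Q m) * T = 1 := by
  rw [T, ← map_mul, t_mul_t, map_one]

theorem T_conj (p : P m) : (T : Q m) * inl p * T = inl (tauHom p) := by
  have h := inl_aut (φ := phi (m := m)) t p
  rw [phi_t] at h
  have h2 : t⁻¹ = t := by decide
  rw [h2] at h
  rw [← tau_apply, h, T]

/-- The images of the simple reflections. -/
noncomputable def g : Fin (m + 2) → Q m := Fin.cases T (fun j => T * inl (x j))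

theorem g_zero : (g 0 : Q m) = T := rfl

theorem g_succ (j : Fin (m + 1)) : (g j.succ : Q m) = T * inl (x j) := rfl

theorem gg_ss (i j : Fin (m + 1)) : (g i.succ * g j.succ : Q m) = inl (tauHom (x i) * x j) := by
  rw [g_succ, g_succ, map_mul, ← T_conj]
  have h := T_mul_T (m := m)
  calc T * inl (x i) * (T * inl (x j)) = T * inl (x i) * T * inl (x j) := by rw [mul_assoc (T * inl (x i))]
    _ = _ := rfl

theorem gg_0s (j : Fin (m + 1)) : (g 0 * g j.succ : Q m) = inl (x j) := by
  rw [g_zero, g_succ, ← mul_assoc, T_mul_T, one_mul]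

theorem gg_s0 (j : Fin (m + 1)) : (g j.succ * g 0 : Q m) = inl (tauHom (x j)) := by
  rw [g_zero, g_succ, T_conj]

theorem A_apply (i j : Fin (m + 2)) : (CoxeterMatrix.A (m + 2)) i j =
    if i = j then 1 else (if (j : ℕ) + 1 = i ∨ (i : ℕ) + 1 = j then 3 else 2) := rfl

theorem g_liftable : (CoxeterMatrix.A (m + 2)).IsLiftable (g (m := m)) := by
  intro i j
  rw [A_apply]
  refine Fin.cases ?_ (fun i' => ?_) i
  · refine Fin.cases ?_ (fun j' => ?_) j
    · simp only [if_true, pow_one]
      rw [g_zero, T_mul_T]
    · have hne : (0 : Fin (m + 2)) ≠ j'.succ := (Fin.succ_ne_zero j').symm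
      rw [if_neg hne, gg_0s, ← map_pow]
      by_cases hj : j'.val = 0
      · have : ((j'.succ : Fin (m + 2)) : ℕ) + 1 = ((0 : Fin (m + 2)) : ℕ) ∨ ((0 : Fin (m + 2)) : ℕ) + 1 = (j'.succ : Fin (m + 2)) := by
          right
          simp [hj]
        rw [if_pos this, rel0 j' hj, map_one]
      · have : ¬ (((j'.succ : Fin (m + 2)) : ℕ) + 1 = ((0 : Fin (m + 2)) : ℕ) ∨ ((0 : Fin (m + 2)) : ℕ) + 1 = (j'.succ : Fin (m + 2))) := by
          have hval : ((j'.succ : Fin (m + 2)) : ℕ) = j'.val + 1 := rfl
          have h00 : ((0 : Fin (m + 2)) : ℕ) = 0 := rfl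
          rw [hval, h00]
          omega
        rw [if_neg this, rel1 j' (by omega), map_one]
  · refine Fin.cases ?_ (fun j' => ?_) j
    · have hne : i'.succ ≠ (0 : Fin (m + 2)) := Fin.succ_ne_zero i'
      rw [if_neg hne, gg_s0, ← map_pow, tau_x]
      by_cases hi : i'.val = 0
      · have : (((0 : Fin (m + 2)) : ℕ) + 1 = (i'.succ : Fin (m + 2)) ∨ ((i'.succ : Fin (m + 2)) : ℕ) + 1 = ((0 : Fin (m + 2)) : ℕ)) := by
          left
          simp [hi]
        rw [if_pos this, if_pos hi, inv_pow, rel0 i' hi, inv_one, map_one]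
      · have : ¬ (((0 : Fin (m + 2)) : ℕ) + 1 = (i'.succ : Fin (m + 2)) ∨ ((i'.succ : Fin (m + 2)) : ℕ) + 1 = ((0 : Fin (m + 2)) : ℕ)) := by
          have hval : ((i'.succ : Fin (m + 2)) : ℕ) = i'.val + 1 := rfl
          have h00 : ((0 : Fin (m + 2)) : ℕ) = 0 := rfl
          rw [hval, h00]
          omega
        rw [if_neg this, if_neg hi, rel1 i' (by omega), map_one]
    · rw [gg_ss, ← map_pow, tau_x]
      by_cases hij : i' = j'
      · subst hij
        rw [if_pos rfl, pow_one]
        by_cases hi : i'.val = 0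
        · rw [if_pos hi, inv_mul_cancel, map_one]
        · rw [if_neg hi, ← pow_two, rel1 i' (by omega), map_one]
      · have hne : i'.succ ≠ j'.succ := fun h => hij (Fin.succ_injective _ h)
        rw [if_neg hne]
        have hv : i'.val ≠ j'.val := fun h => hij (Fin.ext h)
        simp only [Fin.val_succ, Nat.add_right_cancel_iff]
        by_cases h1 : i'.val + 1 = j'.val
        · rw [if_pos (Or.inr h1)]
          by_cases hi : i'.val = 0
          · rw [if_pos hi]
            rw [inv_mul_pow (rel1 j' (by omega)) (rel2 i' j' h1.symm), map_one]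
          · rw [if_neg hi, rel2 i' j' h1.symm, map_one]
        · by_cases h2 : j'.val + 1 = i'.val
          · have hi : i'.val ≠ 0 := by omega
            rw [if_pos (Or.inl h2), if_neg hi, swap_pow (rel2 j' i' h2.symm), map_one]
          · have h4 : ¬ (j'.val + 1 = i'.val ∨ i'.val + 1 = j'.val) := by omega
            rw [if_neg h4]
            by_cases h3 : i'.val < j'.val
            · by_cases hi : i'.val = 0
              · rw [if_pos hi, inv_mul_pow (rel1 j' (by omega)) (rel3 i' j' (by omega)), map_one]
              · rw [if_neg hi, rel3 i' j' (by omega), map_one]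
            · have hi : i'.val ≠ 0 := by omega
              rw [if_neg hi, swap_pow (rel3 j' i' (by omega)), map_one]

section Sys

variable {W : Type*} [Group W] (cs : CoxeterSystem (CoxeterMatrix.A (m + 2)) W)

theorem far_comm (a b : W) (ha : a ^ 2 = 1) (hb : b ^ 2 = 1) (h : (a * b) ^ 2 = 1) : a * b = b * a := by
  have ha' : a⁻¹ = a := by rw [inv_eq_iff_mul_eq_one, ← pow_two, ha]
  have hb' : b⁻¹ = b := by rw [inv_eq_iff_mul_eq_one, ← pow_two, hb]
  have h1 : (a * b)⁻¹ = a * b := by rw [inv_eq_iff_mul_eq_one, ← pow_two, h]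
  rw [mul_inv_rev, ha', hb'] at h1
  exact h1.symm

theorem s0_comm (j : Fin (m + 1)) (hj : 1 ≤ j.val) : cs.simple 0 * cs.simple j.succ = cs.simple j.succ * cs.simple 0 := by
  apply far_comm _ _ (cs.simple_sq _) (cs.simple_sq _)
  have := cs.simple_mul_simple_pow 0 j.succ
  rw [A_apply, if_neg (Fin.succ_ne_zero j).symm, if_neg] at this
  · exact this
  · have hval : ((j.succ : Fin (m + 2)) : ℕ) = j.val + 1 := rfl
    have h00 : ((0 : Fin (m + 2)) : ℕ) = 0 := rfl
    rw [hval, h00]
    omega

theorem rho_cond : ∀ r ∈ rels m, FreeGroup.lift (fun j : Fin (m + 1) => cs.simple 0 * cs.simple j.succ) r = 1 := by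
  apply liftCond
  · intro i h
    have := cs.simple_mul_simple_pow 0 i.succ
    rw [A_apply, if_neg (Fin.succ_ne_zero i).symm, if_pos] at this
    · exact this
    · right
      simp [h]
  · intro i h
    have := cs.simple_mul_simple_pow 0 i.succ
    rw [A_apply, if_neg (Fin.succ_ne_zero i).symm, if_neg] at this
    · exact this
    · have hval : ((i.succ : Fin (m + 2)) : ℕ) = i.val + 1 := rfl
      have h00 : ((0 : Fin (m + 2)) : ℕ) = 0 := rfl
      rw [hval, h00]
      omega
  · intro i j h
    have h1 := cs.simple_mul_simple_pow i.succ j.succ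
    have hne : i.succ ≠ j.succ := by
      intro e
      have := congrArg Fin.val e
      simp [Fin.val_succ] at this
      omega
    rw [A_apply, if_neg hne, if_pos] at h1
    · have h2 : cs.simple 0 * cs.simple i.succ * (cs.simple 0 * cs.simple j.succ) =
          cs.simple 0 * (cs.simple i.succ * cs.simple j.succ) * (cs.simple 0)⁻¹ := by
        rw [s0_comm cs j (by omega), cs.inv_simple]
        group
      rw [h2, conj_pow, h1]
      group
    · right
      simp [Fin.val_succ, h]
  · intro i j h
    have h1 := cs.simple_mul_simple_pow i.succ j.succ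
    have hne : i.succ ≠ j.succ := by
      intro e
      have := congrArg Fin.val e
      simp [Fin.val_succ] at this
      omega
    rw [A_apply, if_neg hne, if_neg] at h1
    · have h2 : cs.simple 0 * cs.simple i.succ * (cs.simple 0 * cs.simple j.succ) =
          cs.simple 0 * (cs.simple i.succ * cs.simple j.succ) * (cs.simple 0)⁻¹ := by
        rw [s0_comm cs j (by omega), cs.inv_simple]
        group
      rw [h2, conj_pow, h1]
      group
    · simp [Fin.val_succ]
      omega

noncomputable def rho : P m →* W := PresentedGroup.toGroup (rho_cond cs)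

theorem rho_x (j : Fin (m + 1)) : rho cs (x j) = cs.simple 0 * cs.simple j.succ :=
  PresentedGroup.toGroup.of _

theorem rho_inj : Function.Injective (rho cs) := by
  let f : W →* Q m := cs.lift ⟨g, g_liftable⟩
  have hf : ∀ i, f (cs.simple i) = g i := fun i => cs.lift_apply_simple g_liftable i
  have hcomp : f.comp (rho cs) = inl := by
    apply PresentedGroup.ext
    intro j
    change f (rho cs (x j)) = inl (x j)
    rw [rho_x, map_mul, hf, hf, gg_0s]
  intro p q hpq
  apply inl_injective (φ := phi (m := m)) (G := C2)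
  have h1 := DFunLike.congr_fun hcomp p
  have h2 := DFunLike.congr_fun hcomp q
  simp only [MonoidHom.comp_apply] at h1 h2
  rw [← h1, ← h2, hpq]

end Sys

theorem main (m : ℕ) : Nonempty (P m ≃* alternatingGroup (Fin (m + 3))) := by
  classical
  obtain ⟨cs, hs⟩ := CfsgLib.H9.CoxA.main (m + 2)
  have hsign : ∀ i : Fin (m + 2), Equiv.Perm.sign (cs.simple i) = -1 := by
    intro i
    rw [hs, Equiv.Perm.sign_swap]
    intro h
    have := congrArg Fin.val h
    simp at this
  have hK : (rho cs).range = alternatingGroup (Fin (m + 3)) := by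
    apply le_antisymm
    · rintro _ ⟨p, rfl⟩
      rw [Equiv.Perm.mem_alternatingGroup]
      have : (Equiv.Perm.sign.comp (rho cs)) = (1 : P m →* ℤˣ) := by
        apply PresentedGroup.ext
        intro j
        change Equiv.Perm.sign (rho cs (x j)) = 1
        rw [rho_x, map_mul, hsign, hsign]
        rfl
      exact DFunLike.congr_fun this p
    · have hall : ∀ w : Equiv.Perm (Fin (m + 3)), w ∈ (rho cs).range ∨ w * cs.simple 0 ∈ (rho cs).range := by
        intro w
        refine Submonoid.induction_of_closure_eq_top_right (Equiv.Perm.mclosure_swap_castSucc_succ (m + 2)) w ?_ ?_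
        · left
          exact one_mem _
        · rintro w _ ⟨i, rfl⟩ hw
          change w * Equiv.swap i.castSucc i.succ ∈ _ ∨ w * Equiv.swap i.castSucc i.succ * cs.simple 0 ∈ _
          rw [← hs]
          refine Fin.cases ?_ (fun j => ?_) i
          · rcases hw with hw | hw
            · right
              rw [mul_assoc, cs.simple_mul_simple_self, mul_one]
              exact hw
            · left
              exact hw
          · have hj : cs.simple 0 * cs.simple j.succ ∈ (rho cs).range := ⟨x j, rho_x cs j⟩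
            rcases hw with hw | hw
            · right
              have h1 : w * cs.simple j.succ * cs.simple 0 = w * (cs.simple 0 * cs.simple j.succ)⁻¹ := by
                rw [mul_inv_rev, cs.inv_simple, cs.inv_simple, mul_assoc]
              rw [h1]
              exact mul_mem hw (inv_mem hj)
            · left
              have h1 : w * cs.simple j.succ = (w * cs.simple 0) * (cs.simple 0 * cs.simple j.succ) := by
                rw [mul_assoc, cs.simple_mul_simple_cancel_left]
              rw [h1]
              exact mul_mem hw hj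
      intro w hw
      rcases hall w with h | h
      · exact h
      · exfalso
        obtain ⟨p, hp⟩ := h
        have h2 : w * cs.simple 0 ∈ alternatingGroup (Fin (m + 3)) := by
          rw [Equiv.Perm.mem_alternatingGroup, ← hp]
          have : (Equiv.Perm.sign.comp (rho cs)) = (1 : P m →* ℤˣ) := by
            apply PresentedGroup.ext
            intro j
            change Equiv.Perm.sign (rho cs (x j)) = 1
            rw [rho_x, map_mul, hsign, hsign]
            rfl
          exact DFunLike.congr_fun this p
        rw [Equiv.Perm.mem_alternatingGroup, map_mul, hsign, Equiv.Perm.mem_alternatingGroup.1 hw] at h2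
        exact absurd h2 (by decide)
  exact ⟨(MonoidHom.ofInjective (rho_inj cs)).trans (MulEquiv.subgroupCongr hK)⟩

end CfsgLib.H9.Carm
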