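import Cfsg.Agent.Lib.Char.Exceptional
import Cfsg.Agent.Lib.Char.CyclicTI
import Cfsg.Agent.Lib.H9.SylowTools
import Mathlib

/-! Brauer's analysis of a self-centralizing subgroup of prime order, in elementary form. -/

set_option autoImplicit false
set_option linter.style.haveILetI false
set_option linter.unusedSectionVars false
set_option linter.unusedVariables false

namespace CfsgLib.H9.FirstPower

open Cfsg CfsgLib.Char
open scoped ComplexConjugate

universe u

section Basic

variable {G : Type u} [Group G]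

/-- A subgroup of prime order is commutative. -/
theorem P_comm (P : Subgroup G) {p : ℕ} (hpp : p.Prime) (hP : Nat.card P = p) :
    ∀ a b : P, a * b = b * a := by
  haveI : Fact p.Prime := ⟨hpp⟩
  haveI : IsCyclic P := isCyclic_of_prime_card hP
  intro a b
  obtain ⟨g, hg⟩ := IsCyclic.exists_generator (α := P)
  obtain ⟨m, rfl⟩ := Subgroup.mem_zpowers_iff.mp (hg a)
  obtain ⟨n, rfl⟩ := Subgroup.mem_zpowers_iff.mp (hg b)
  rw [← zpow_add, ← zpow_add, add_comm]

/-- Elements carrying a non-identity element of `P` into `P` normalise `P`. -/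
theorem mem_normalizer_of_conj [Finite G] (P : Subgroup G) {p : ℕ} (hpp : p.Prime)
    (hP : Nat.card P = p) {y : G} (hy : y ∈ P) (hy1 : y ≠ 1) {x : G} (h : x⁻¹ * y * x ∈ P) :
    x ∈ Subgroup.normalizer (P : Set G) := by
  have hzp : P = Subgroup.zpowers y :=
    CfsgLib.H9.eq_zpowers_of_card P hP y (CfsgLib.H9.orderOf_eq_of_mem_card_prime hpp P hP y hy hy1) hy
  have h1 : ∀ z ∈ P, x⁻¹ * z * (x⁻¹)⁻¹ ∈ P := by
    intro z hz
    rw [hzp] at hz
    obtain ⟨k, rfl⟩ := Subgroup.mem_zpowers_iff.mp hz
    have e : (x⁻¹ * y * x) ^ k = x⁻¹ * y ^ k * (x⁻¹)⁻¹ := by rw [← conj_zpow, inv_inv]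
    rw [← e]
    exact P.zpow_mem h k
  have h2 := mem_normalizer_of_conj_mem P x⁻¹ h1
  have h3 : x⁻¹ ∈ Subgroup.normalizer (P : Set G) := Subgroup.mem_normalizer_iff.mpr h2
  simpa using Subgroup.inv_mem _ h3

end Basic

section Main

variable {G : Type u} [Group G] [Fintype G] (P : Subgroup G) [Fintype P]

/-- The function `μ - 1`. -/
def tau (μ : P →* ℂˣ) : P → ℂ := fun y => ((μ y : ℂˣ) : ℂ) - 1

/-- The induced class function. -/
noncomputable def alpha (μ : P →* ℂˣ) : G → ℂ := indFun P (tau P μ)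

theorem tau_eq (μ : P →* ℂˣ) : tau P μ = homFun μ - fun _ => 1 := rfl

theorem alpha_isGen (μ : P →* ℂˣ) : IsGeneralizedCharacter G (alpha P μ) := by
  unfold alpha
  rw [tau_eq, indFun_sub]
  exact ⟨_, _, isCharacter_indFun P (isIrr_homFun μ).isCharacter,
    isCharacter_indFun P (isIrrCharacter_one).isCharacter, rfl⟩

theorem alpha_isClass (μ : P →* ℂˣ) : IsClassFunction G (alpha P μ) := indFun_isClass P _

theorem alpha_one (μ : P →* ℂˣ) : alpha P μ 1 = 0 := by
  unfold alpha
  rw [indFun_one]
  simp [tau]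

/-- The conjugation by an element of the normaliser, on `P`. -/
def cx (x : Subgroup.normalizer (P : Set G)) : P →* P where
  toFun y := ⟨(x : G)⁻¹ * y * x, by
    have h := Subgroup.inv_mem _ x.2
    have := (Subgroup.mem_normalizer_iff.mp h y).mp y.2
    simpa using this⟩
  map_one' := by
    apply Subtype.ext
    simp
  map_mul' := by
    intro a b
    apply Subtype.ext
    simp only [Subgroup.coe_mul]
    group

/-- The conjugate of a homomorphism. -/
def conjHom (x : Subgroup.normalizer (P : Set G)) (μ : P →* ℂˣ) : P →* ℂˣ := μ.comp (cx P x)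

theorem conjHom_apply (x : Subgroup.normalizer (P : Set G)) (μ : P →* ℂˣ) (y : P) :
    conjHom P x μ y = μ (cx P x y) := rfl

theorem conjHom_ne_one (x : Subgroup.normalizer (P : Set G)) {μ : P →* ℂˣ} (hμ : μ ≠ 1) :
    conjHom P x μ ≠ 1 := by
  intro h
  apply hμ
  ext y
  have := DFunLike.congr_fun h ⟨(x : G) * y * (x : G)⁻¹, by
    have := (Subgroup.mem_normalizer_iff.mp x.2 y).mp y.2
    exact this⟩
  rw [conjHom_apply] at this
  have e : cx P x ⟨(x : G) * y * (x : G)⁻¹, by
    have := (Subgroup.mem_normalizer_iff.mp x.2 y).mp y.2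
    exact this⟩ = y := by
    apply Subtype.ext
    change (x : G)⁻¹ * ((x : G) * y * (x : G)⁻¹) * x = y
    group
  rw [e] at this
  rw [this]
  simp

theorem sum_hom_ne_one {μ : P →* ℂˣ} (hμ : μ ≠ 1) (hc : ∀ a b : P, a * b = b * a) :
    ∑ y : P, ((μ y : ℂˣ) : ℂ) = 0 := by
  have h := classInner_homFun (A := P) μ 1
  rw [if_neg hμ, classInner_def] at h
  have hne := card_ne_zero_C P
  have h2 : ∑ g : P, homFun μ g * conj (homFun (1 : P →* ℂˣ) g) = 0 := by
    rcases mul_eq_zero.mp h with h3 | h3
    · exact absurd (inv_eq_zero.mp h3) hne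
    · exact h3
  simpa [homFun] using h2

theorem sum_conj_hom_ne_one {μ : P →* ℂˣ} (hμ : μ ≠ 1) (hc : ∀ a b : P, a * b = b * a) :
    ∑ y : P, conj ((μ y : ℂˣ) : ℂ) = 0 := by
  rw [← map_sum, sum_hom_ne_one P hμ hc, map_zero]

/-- The inner product of two `τ`s. -/
theorem sum_tau_tau {μ ν : P →* ℂˣ} (hμ : μ ≠ 1) (hν : ν ≠ 1) (hc : ∀ a b : P, a * b = b * a) :
    ∑ y : P, tau P μ y * conj (tau P ν y) =
      (Nat.card P : ℂ) * ((if μ = ν then 1 else 0) + 1) := by
  have h := classInner_homFun (A := P) μ ν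
  rw [classInner_def] at h
  have hne := card_ne_zero_C P
  have h2 : ∑ y : P, homFun μ y * conj (homFun ν y) = (Nat.card P : ℂ) * (if μ = ν then 1 else 0) := by
    rw [← h]
    field_simp
  have e : ∀ y : P, tau P μ y * conj (tau P ν y) =
      homFun μ y * conj (homFun ν y) - ((μ y : ℂˣ) : ℂ) - conj ((ν y : ℂˣ) : ℂ) + 1 := by
    intro y
    simp only [tau, homFun_apply, map_sub, map_one]
    ring
  simp only [e]
  rw [Finset.sum_add_distrib, Finset.sum_sub_distrib, Finset.sum_sub_distrib, h2,
    sum_hom_ne_one P hμ hc, sum_conj_hom_ne_one P hν hc]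
  simp only [Finset.sum_const, Finset.card_univ, nsmul_eq_mul, mul_one, sub_zero,
    Fintype.card_eq_nat_card]
  ring

/-- The Gram matrix of the `α`s. -/
theorem inner_alpha {p : ℕ} (hpp : p.Prime) (hP : Nat.card P = p) {μ ν : P →* ℂˣ} (hμ : μ ≠ 1)
    (hν : ν ≠ 1) [Fintype (Subgroup.normalizer (P : Set G))] :
    classInner (alpha P μ) (alpha P ν) = (Nat.card P : ℂ)⁻¹ *
      (((Finset.univ.filter (fun x : Subgroup.normalizer (P : Set G) => μ = conjHom P x ν)).card : ℂ) +
        Nat.card (Subgroup.normalizer (P : Set G))) := by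
  classical
  have hc := P_comm P hpp hP
  have hne := card_ne_zero_C P
  conv_lhs => rw [alpha]
  rw [frobenius P (tau P μ) (alpha_isClass P ν), classInner_def]
  congr 1
  have hstep : ∀ y : P, tau P μ y * conj (alpha P ν y) = (Nat.card P : ℂ)⁻¹ *
      ∑ x : Subgroup.normalizer (P : Set G), tau P μ y * conj (tau P ν (cx P x y)) := by
    intro y
    by_cases hy : y = 1
    · subst hy
      simp [tau]
    · have hy' : (y : G) ≠ 1 := fun h => hy (Subtype.ext h)
      rw [alpha, indFun_def, map_mul, map_inv₀, Complex.conj_natCast, map_sum]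
      have h1 : ∑ x : G, conj (extendByZero P (tau P ν) (x⁻¹ * y * x)) =
          ∑ x : Subgroup.normalizer (P : Set G), conj (tau P ν (cx P x y)) := by
        rw [sum_eq_sum_subgroup (Subgroup.normalizer (P : Set G)) _ (fun g hg => by
          rw [extendByZero_of_not_mem P _ (fun h => hg (mem_normalizer_of_conj P hpp hP y.2 hy' h))]
          simp)]
        refine Finset.sum_congr rfl fun x _ => ?_
        congr 1
        have hmem := (cx P x y).2
        exact extendByZero_of_mem P _ hmem
      rw [h1, Finset.mul_sum, Finset.mul_sum, Finset.mul_sum]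
      refine Finset.sum_congr rfl fun x _ => by ring
  simp only [hstep]
  rw [← Finset.mul_sum, Finset.sum_comm]
  have hx : ∀ x : Subgroup.normalizer (P : Set G), ∑ y : P, tau P μ y * conj (tau P ν (cx P x y)) =
      (Nat.card P : ℂ) * ((if μ = conjHom P x ν then 1 else 0) + 1) := by
    intro x
    rw [← sum_tau_tau P hμ (conjHom_ne_one P x hν) hc]
    rfl
  simp only [hx]
  rw [← Finset.mul_sum, Finset.sum_add_distrib, Finset.sum_boole]
  simp only [Finset.sum_const, Finset.card_univ, nsmul_eq_mul, mul_one, Fintype.card_eq_nat_card]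
  field_simp

theorem cx_bijective (x : Subgroup.normalizer (P : Set G)) : Function.Bijective (cx P x) := by
  rw [← Finite.injective_iff_bijective]
  intro a b h
  have h' : (x : G)⁻¹ * a * x = (x : G)⁻¹ * b * x := congrArg Subtype.val h
  apply Subtype.ext
  have := mul_right_cancel h'
  exact mul_left_cancel this

/-- Multiplicities are invariant under conjugation. -/
theorem mult_invariant {χ : G → ℂ} (hχ : IsClassFunction G χ)
    (x : Subgroup.normalizer (P : Set G)) (ν : P →* ℂˣ) :
    classInner (fun y : P => χ y) (homFun (conjHom P x ν)) =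
      classInner (fun y : P => χ y) (homFun ν) := by
  rw [classInner_def, classInner_def]
  congr 1
  rw [← (cx_bijective P x).sum_comp (fun y : P => χ y * conj (homFun ν y))]
  refine Finset.sum_congr rfl fun y _ => ?_
  congr 1
  change χ y = χ ((x : G)⁻¹ * y * x)
  have := hχ y (x : G)⁻¹
  simpa using this.symm

theorem hom_injective {p : ℕ} (hpp : p.Prime) (hP : Nat.card P = p) {ν : P →* ℂˣ} (hν : ν ≠ 1) :
    Function.Injective ν := by
  haveI : Fact (Nat.card P).Prime := ⟨hP ▸ hpp⟩
  rcases Subgroup.eq_bot_or_eq_top_of_prime_card (G := P) (MonoidHom.ker ν) with h | h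
  · exact (MonoidHom.ker_eq_bot_iff ν).mp h
  · exfalso
    apply hν
    ext y
    have : y ∈ MonoidHom.ker ν := by rw [h]; exact Subgroup.mem_top y
    rw [MonoidHom.mem_ker] at this
    rw [this]
    simp

/-- The number of `x` in the normaliser fixing a nontrivial homomorphism. -/
theorem card_fix {p : ℕ} (hpp : p.Prime) (hP : Nat.card P = p)
    (hC : ∀ g : G, (∀ y ∈ P, g * y = y * g) → g ∈ P) {ν : P →* ℂˣ} (hν : ν ≠ 1)
    [Fintype (Subgroup.normalizer (P : Set G))] :
    (Finset.univ.filter (fun x : Subgroup.normalizer (P : Set G) => ν = conjHom P x ν)).card = p := by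
  classical
  have hc := P_comm P hpp hP
  have hinj := hom_injective P hpp hP hν
  have hmem : ∀ x : Subgroup.normalizer (P : Set G), ν = conjHom P x ν ↔ (x : G) ∈ P := by
    intro x
    constructor
    · intro h
      apply hC
      intro y hy
      have h1 := DFunLike.congr_fun h ⟨y, hy⟩
      rw [conjHom_apply] at h1
      have h2 := hinj h1
      have h3 : y = (x : G)⁻¹ * y * x := congrArg Subtype.val h2
      calc (x : G) * y = x * ((x : G)⁻¹ * y * x) := by rw [← h3]
        _ = y * x := by group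
    · intro h
      ext y
      rw [conjHom_apply]
      congr 2
      apply Subtype.ext
      change (y : G) = (x : G)⁻¹ * y * x
      have h1 := hc ⟨x, h⟩ y
      have h2 : (x : G) * y = y * x := congrArg Subtype.val h1
      rw [mul_assoc, ← h2]
      group
  simp only [hmem]
  rw [← hP, Nat.card_eq_fintype_card, ← Fintype.card_subtype]
  refine Fintype.card_congr ?_
  exact {
    toFun := fun x => ⟨x.1.1, x.2⟩
    invFun := fun y => ⟨⟨y.1, (Subgroup.le_normalizer (H := P)) y.2⟩, y.2⟩
    left_inv := fun x => rfl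
    right_inv := fun y => rfl }

/-- The conjugation action on homomorphisms. -/
@[instance_reducible] def homAction : MulAction (Subgroup.normalizer (P : Set G)) (P →* ℂˣ) where
  smul x ν := conjHom P x ν
  one_smul ν := by
    ext y
    change ((conjHom P 1 ν y : ℂˣ) : ℂ) = _
    rw [conjHom_apply]
    congr 2
    apply Subtype.ext
    simp [cx]
  mul_smul x x' ν := by
    ext y
    change ((conjHom P (x * x') ν y : ℂˣ) : ℂ) = ((conjHom P x (conjHom P x' ν) y : ℂˣ) : ℂ)
    rw [conjHom_apply, conjHom_apply, conjHom_apply]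
    congr 2
    apply Subtype.ext
    change ((x : G) * x')⁻¹ * y * (x * x') = (x' : G)⁻¹ * ((x : G)⁻¹ * y * x) * x'
    group

/-- A system of representatives for the conjugation action on non-trivial homomorphisms. -/
theorem exists_reps {p : ℕ} (hpp : p.Prime) (hP : Nat.card P = p)
    (hC : ∀ g : G, (∀ y ∈ P, g * y = y * g) → g ∈ P) (t : ℕ)
    (ht : Nat.card (Subgroup.normalizer (P : Set G)) = p * t) :
    ∃ (n : ℕ) (rep : Fin n → (P →* ℂˣ)), (∀ i, rep i ≠ 1) ∧
      (∀ i j, i ≠ j → ∀ x, rep i ≠ conjHom P x (rep j)) ∧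
      (∀ μ : P →* ℂˣ, μ ≠ 1 → ∃ i x, μ = conjHom P x (rep i)) ∧ p = 1 + n * t := by
  classical
  have hc := P_comm P hpp hP
  letI : Fintype (Subgroup.normalizer (P : Set G)) := Fintype.ofFinite _
  haveI hfin : Finite (P →* ℂˣ) := hom_finite hc
  letI : Fintype (P →* ℂˣ) := Fintype.ofFinite _
  letI act : MulAction (Subgroup.normalizer (P : Set G)) (P →* ℂˣ) := homAction P
  have hsmul : ∀ (x : Subgroup.normalizer (P : Set G)) (ν : P →* ℂˣ), x • ν = conjHom P x ν :=
    fun _ _ => rfl
  let Ω := MulAction.orbitRel.Quotient (Subgroup.normalizer (P : Set G)) (P →* ℂˣ)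
  letI : Fintype Ω := Fintype.ofFinite _
  let ι := {ω : Ω // ω.out ≠ 1}
  letI : Fintype ι := Fintype.ofFinite _
  let e := Fintype.equivFin ι
  have hone : ∀ x : Subgroup.normalizer (P : Set G), conjHom P x (1 : P →* ℂˣ) = 1 := by
    intro x
    ext y
    simp [conjHom_apply]
  refine ⟨Fintype.card ι, fun i => (e.symm i).1.out, fun i => (e.symm i).2, ?_, ?_, ?_⟩
  · intro i j hij x h
    apply hij
    apply e.symm.injective
    apply Subtype.ext
    have h' : (e.symm i).1.out = conjHom P x (e.symm j).1.out := h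
    have h1 : (e.symm i).1.out ∈ MulAction.orbit (Subgroup.normalizer (P : Set G)) (e.symm j).1.out :=
      ⟨x, h'.symm⟩
    have h2 : Quotient.mk (MulAction.orbitRel _ _) (e.symm i).1.out =
        Quotient.mk (MulAction.orbitRel _ _) (e.symm j).1.out := Quotient.sound h1
    rw [Quotient.out_eq, Quotient.out_eq] at h2
    exact h2
  · intro μ hμ
    let ω : Ω := Quotient.mk (MulAction.orbitRel _ _) μ
    have h1 : ω.out ∈ MulAction.orbit (Subgroup.normalizer (P : Set G)) μ :=
      Quotient.mk_out (s := MulAction.orbitRel (Subgroup.normalizer (P : Set G)) (P →* ℂˣ)) μ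
    obtain ⟨x, hx⟩ := h1
    have hx' : conjHom P x μ = ω.out := hx
    have hne : ω.out ≠ 1 := by
      intro h
      rw [h] at hx'
      apply hμ
      have : x⁻¹ • (x • μ) = x⁻¹ • (1 : P →* ℂˣ) := by rw [hsmul x μ, hx']
      rw [inv_smul_smul, hsmul, hone] at this
      exact this
    refine ⟨e ⟨ω, hne⟩, x⁻¹, ?_⟩
    have h3 : (e.symm (e ⟨ω, hne⟩)).1 = ω := by rw [Equiv.symm_apply_apply]
    change μ = conjHom P x⁻¹ (e.symm (e ⟨ω, hne⟩)).1.out
    rw [h3, ← hx', ← hsmul, ← hsmul, inv_smul_smul]
  · -- counting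
    have hcardH : Fintype.card (P →* ℂˣ) = p := by
      have h1 := sum_irr_sq (G := P)
      have h2 : ∀ ψ : IrrCharacter P, ((ψ : P → ℂ) 1) ^ 2 = 1 := by
        intro ψ
        rw [isIrr_degree_one_of_comm hc ψ.2, one_pow]
      simp only [h2, Finset.sum_const, Finset.card_univ, nsmul_eq_mul, mul_one] at h1
      have h3 : Fintype.card (IrrCharacter P) = p := by
        rw [← hP]
        exact_mod_cast h1
      rw [← h3]
      exact Fintype.card_of_bijective (hom_to_irr_bijective hc)
    have horb : ∀ ν : P →* ℂˣ, ν ≠ 1 →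
        Fintype.card (MulAction.orbit (Subgroup.normalizer (P : Set G)) ν) = t := by
      intro ν hν
      have h1 := MulAction.card_orbit_mul_card_stabilizer_eq_card_group
        (Subgroup.normalizer (P : Set G)) ν
      have h2 : Fintype.card (MulAction.stabilizer (Subgroup.normalizer (P : Set G)) ν) = p := by
        rw [← card_fix P hpp hP hC hν, ← Fintype.card_subtype]
        refine Fintype.card_congr (Equiv.subtypeEquivRight fun x => ?_)
        rw [MulAction.mem_stabilizer_iff, hsmul]
        exact eq_comm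
      rw [h2, ← Nat.card_eq_fintype_card (α := Subgroup.normalizer (P : Set G)), ht, mul_comm] at h1
      exact Nat.eq_of_mul_eq_mul_left hpp.pos h1
    have hone' : ∀ ν : P →* ℂˣ, ν = 1 →
        Fintype.card (MulAction.orbit (Subgroup.normalizer (P : Set G)) ν) = 1 := by
      rintro ν rfl
      rw [Fintype.card_eq_one_iff]
      refine ⟨⟨1, MulAction.mem_orbit_self _⟩, ?_⟩
      rintro ⟨_, x, rfl⟩
      apply Subtype.ext
      exact hone x
    have hsig := Fintype.card_congr (MulAction.selfEquivSigmaOrbits (Subgroup.normalizer (P : Set G))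
      (P →* ℂˣ))
    rw [hcardH, Fintype.card_sigma] at hsig
    rw [hsig]
    have hsplit : ∀ ω : Ω, Fintype.card (MulAction.orbit (Subgroup.normalizer (P : Set G)) ω.out) =
        if ω.out = 1 then 1 else t := by
      intro ω
      split_ifs with h
      · exact hone' _ h
      · exact horb _ h
    simp only [hsplit]
    rw [Finset.sum_ite, Finset.sum_const, Finset.sum_const, smul_eq_mul, smul_eq_mul, mul_one]
    have h1 : (Finset.univ.filter (fun ω : Ω => ω.out = 1)).card = 1 := by
      rw [Finset.card_eq_one]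
      refine ⟨Quotient.mk (MulAction.orbitRel _ _) 1, ?_⟩
      ext ω
      simp only [Finset.mem_filter, Finset.mem_univ, true_and, Finset.mem_singleton]
      constructor
      · intro h
        rw [← Quotient.out_eq ω, h]
      · rintro rfl
        have h2 : (Quotient.mk (MulAction.orbitRel _ _) (1 : P →* ℂˣ) : Ω).out ∈
            MulAction.orbit (Subgroup.normalizer (P : Set G)) (1 : P →* ℂˣ) :=
          Quotient.mk_out (s := MulAction.orbitRel (Subgroup.normalizer (P : Set G)) (P →* ℂˣ)) (1 : P →* ℂˣ)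
        obtain ⟨x, hx⟩ := h2
        rw [← hx]
        exact hone x
    rw [h1]
    congr 2
    rw [Fintype.card_subtype]

theorem card_hom {p : ℕ} (hpp : p.Prime) (hP : Nat.card P = p) [Fintype (P →* ℂˣ)] :
    Fintype.card (P →* ℂˣ) = p := by
  classical
  have hc := P_comm P hpp hP
  have h1 := sum_irr_sq (G := P)
  have h2 : ∀ ψ : IrrCharacter P, ((ψ : P → ℂ) 1) ^ 2 = 1 := by
    intro ψ
    rw [isIrr_degree_one_of_comm hc ψ.2, one_pow]
  simp only [h2, Finset.sum_const, Finset.card_univ, nsmul_eq_mul, mul_one] at h1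
  have h3 : Fintype.card (IrrCharacter P) = p := by
    rw [← hP]
    exact_mod_cast h1
  rw [← h3]
  exact Fintype.card_of_bijective (hom_to_irr_bijective hc)

/-- The degree of a character as the sum of the multiplicities of the linear characters of `P`. -/
theorem degree_eq_sum {p : ℕ} (hpp : p.Prime) (hP : Nat.card P = p) [Fintype (P →* ℂˣ)]
    {χ : G → ℂ} (hχ : IsCharacter G χ) :
    χ 1 = ∑ μ : P →* ℂˣ, classInner (fun y : P => χ y) (homFun μ) := by
  classical
  have hc := P_comm P hpp hP
  have h1 := (hχ.restrict P).eq_sum_classInner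
  have h2 := congrFun h1 1
  rw [Finset.sum_apply] at h2
  have h3 : χ 1 = ∑ ψ : IrrCharacter P, classInner (fun y : P => χ y) ψ := by
    have h4 : χ 1 = χ ((1 : P) : G) := rfl
    rw [h4, h2]
    refine Finset.sum_congr rfl fun ψ _ => ?_
    simp only [Pi.smul_apply, smul_eq_mul]
    rw [isIrr_degree_one_of_comm hc ψ.2, mul_one]
  rw [h3]
  exact ((hom_to_irr_bijective hc).sum_comp
    (fun ψ : IrrCharacter P => classInner (fun y : P => χ y) (ψ : P → ℂ))).symm

/-- The inner product with `α` in terms of multiplicities. -/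
theorem inner_alpha_char {χ : G → ℂ} (hχ : IsClassFunction G χ) (μ : P →* ℂˣ) :
    classInner (alpha P μ) χ = conj (classInner (fun y : P => χ y) (homFun μ)) -
      conj (classInner (fun y : P => χ y) (homFun (1 : P →* ℂˣ))) := by
  rw [alpha, frobenius P (tau P μ) hχ, tau_eq, classInner_sub_left, conj_classInner, conj_classInner]
  rw [homFun_one]

theorem irr_degree_pos {χ : G → ℂ} (hχ : IsIrrCharacter G χ) {d : ℕ} (hd : χ 1 = d) : 0 < d := by
  rcases Nat.eq_zero_or_pos d with h | h
  · exfalso
    have h0 : χ = 0 := by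
      funext g
      have h1 := hχ.isCharacter.norm_le g
      rw [hd, h] at h1
      simp only [Nat.cast_zero, norm_zero, norm_le_zero_iff] at h1
      simpa using h1
    have h2 := classInner_irr_self hχ
    rw [h0] at h2
    simp [classInner_def] at h2
  · exact h

/-- **Brauer's analysis** of a self-centralizing subgroup of prime order. -/
theorem main_data {p : ℕ} (hpp : p.Prime) (hP : Nat.card P = p)
    (hC : ∀ g : G, (∀ y ∈ P, g * y = y * g) → g ∈ P) (t : ℕ)
    (ht : Nat.card (Subgroup.normalizer (P : Set G)) = p * t) (hlarge : t * (t + 1) < p - 1) :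
    ∃ (ε : ℤ) (f : ℕ) (c : IrrCharacter G → ℤ) (d : IrrCharacter G → ℕ),
      (ε = 1 ∨ ε = -1) ∧ 0 < f ∧ f ∣ Nat.card G ∧ (∑ χ, c χ * c χ = t) ∧
      c ⟨fun _ => 1, isIrrCharacter_one⟩ = -1 ∧ (∀ χ : IrrCharacter G, (χ : G → ℂ) 1 = d χ) ∧
      (∀ χ, d χ ∣ Nat.card G) ∧
      (ε * f + ∑ χ, c χ * d χ = 0) ∧ ∀ χ, c χ ≠ 0 → (p : ℤ) ∣ (d χ : ℤ) + c χ := by
  classical
  have hc := P_comm P hpp hP
  letI : Fintype (Subgroup.normalizer (P : Set G)) := Fintype.ofFinite _
  haveI hfin : Finite (P →* ℂˣ) := hom_finite hc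
  letI : Fintype (P →* ℂˣ) := Fintype.ofFinite _
  obtain ⟨n, rep, hne, hdist, hcov, hcount⟩ := exists_reps P hpp hP hC t ht
  have hp0 : (p : ℂ) ≠ 0 := by exact_mod_cast hpp.ne_zero
  have htpos : 0 < t := by
    rcases Nat.eq_zero_or_pos t with h | h
    · rw [h] at hcount
      have := hpp.one_lt
      omega
    · exact h
  have hn : t + 2 ≤ n := by
    have h1 : t * (t + 1) < t * n := by
      have : p - 1 = n * t := by omega
      rw [this, mul_comm n t] at hlarge
      exact hlarge
    have := Nat.lt_of_mul_lt_mul_left h1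
    omega
  let i₀ : Fin n := ⟨0, by omega⟩
  let A : Fin n → G → ℂ := fun i => alpha P (rep i)
  have hGram : ∀ i j, classInner (A i) (A j) = (t : ℂ) + (if i = j then 1 else 0) := by
    intro i j
    rw [inner_alpha P hpp hP (hne i) (hne j), hP, ht]
    by_cases hij : i = j
    · subst hij
      rw [card_fix P hpp hP hC (hne i), if_pos rfl]
      push_cast
      field_simp
      ring
    · have h0 : (Finset.univ.filter (fun x : Subgroup.normalizer (P : Set G) =>
          rep i = conjHom P x (rep j))) = ∅ := by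
        rw [Finset.filter_eq_empty_iff]
        intro x _
        exact hdist i j hij x
      rw [h0, if_neg hij]
      push_cast
      simp only [Finset.card_empty, Nat.cast_zero, zero_add, add_zero]
      field_simp
  have hgen : ∀ i, IsGeneralizedCharacter G (A i) := fun i => alpha_isGen P (rep i)
  obtain ⟨ε', hε', θ, hθ, hθi, hτ⟩ := exceptional_of_gram n i₀ (fun i => A i - A i₀)
    (sub_self _) (fun i => (hgen i).sub (hgen i₀))
    (fun i => by simp [A, alpha_one])
    (fun i j hi hj => by
      simp only [classInner_sub_left, classInner_sub_right, hGram]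
      have h1 : i₀ ≠ j := fun h => hj h.symm
      by_cases hij : i = j
      · simp [hij, hj, h1]
        try ring
      · simp [hij, hi, h1]
        try ring)
  obtain ⟨ε, hε, hεc⟩ : ∃ ε : ℤ, (ε = 1 ∨ ε = -1) ∧ (ε : ℂ) = ε' := by
    rcases hε' with h | h
    · exact ⟨1, Or.inl rfl, by simp [h]⟩
    · exact ⟨-1, Or.inr rfl, by simp [h]⟩
  have hεε : ε * ε = 1 := by
    rcases hε with h | h <;> rw [h] <;> norm_num
  have hconjε : conj ε' = ε' := by
    rw [← hεc]
    simp
  have hβgen : IsGeneralizedCharacter G (A i₀ - ε' • θ i₀) := by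
    refine (hgen i₀).sub ?_
    rw [← hεc]
    exact (hθ i₀).isGeneralized.int_smul ε
  obtain ⟨c, hcβ⟩ := hβgen.exists_int_coeff
  have hA : ∀ i, A i = ε' • θ i + ∑ ψ : IrrCharacter G, (c ψ : ℂ) • (ψ : G → ℂ) := by
    intro i
    rw [← hcβ]
    have := hτ i
    rw [smul_sub] at this
    rw [← sub_eq_iff_eq_add']
    rw [sub_eq_iff_eq_add'] at this
    rw [this]
    abel
  set β := ∑ ψ : IrrCharacter G, (c ψ : ℂ) • (ψ : G → ℂ) with hβ
  let ϑ : Fin n → IrrCharacter G := fun i => ⟨θ i, hθ i⟩
  have hβθ : ∀ i, classInner β (θ i) = c (ϑ i) := fun i => classInner_int_coeff_right c (ϑ i)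
  have hθβ : ∀ i, classInner (θ i) β = c (ϑ i) := by
    intro i
    rw [← conj_classInner, hβθ]
    simp
  have hββ : classInner β β = ((∑ ψ, c ψ * c ψ : ℤ) : ℂ) := classInner_int_coeff c c
  -- the norm equation
  have hnorm : ∀ i, 2 * ε * c (ϑ i) + (∑ ψ, c ψ * c ψ) = t := by
    intro i
    have h1 := hGram i i
    rw [if_pos rfl] at h1
    have h2 : classInner (A i) (A i) = ε' * ε' + ε' * c (ϑ i) + ε' * c (ϑ i) + ((∑ ψ, c ψ * c ψ : ℤ) : ℂ) := by
      rw [hA i, classInner_add_left, classInner_add_right, classInner_add_right, classInner_smul_left,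
        classInner_smul_left, classInner_smul_right, classInner_smul_right, classInner_irr_self (hθ i),
        hθβ, hβθ, hββ, hconjε]
      ring
    rw [h2, ← hεc] at h1
    have h3 : (((2 * ε * c (ϑ i) + (∑ ψ, c ψ * c ψ) + 1 : ℤ)) : ℂ) = ((t + 1 : ℤ) : ℂ) := by
      have h4 : ((ε : ℂ)) * ε = 1 := by exact_mod_cast hεε
      push_cast at h1 ⊢
      rw [h4] at h1
      linear_combination h1
    have h5 : 2 * ε * c (ϑ i) + (∑ ψ, c ψ * c ψ) + 1 = t + 1 := by exact_mod_cast h3
    linarith
  -- the constant `b`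
  have hbconst : ∀ i, c (ϑ i) = c (ϑ i₀) := by
    intro i
    have h1 := hnorm i
    have h2 := hnorm i₀
    have h3 : ε * (c (ϑ i) - c (ϑ i₀)) = 0 := by linarith
    rcases mul_eq_zero.mp h3 with h4 | h4
    · rw [h4] at hεε
      norm_num at hεε
    · linarith
  set b := c (ϑ i₀) with hb
  -- the trivial character
  let one : IrrCharacter G := ⟨fun _ => 1, isIrrCharacter_one⟩
  have hA1 : ∀ i, classInner (A i) (fun _ => 1) = -1 := by
    intro i
    rw [show A i = alpha P (rep i) from rfl, inner_alpha_char P (fun g h => rfl) (rep i)]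
    have h1 : classInner (fun _ : P => (1 : ℂ)) (homFun (rep i)) = 0 := by
      rw [← homFun_one, classInner_homFun, if_neg (hne i).symm]
    have h2 : classInner (fun _ : P => (1 : ℂ)) (homFun (1 : P →* ℂˣ)) = 1 := by
      rw [← homFun_one, classInner_homFun, if_pos rfl]
    rw [h1, h2]
    simp
  have hβ1 : classInner β (fun _ => 1) = c one := classInner_int_coeff_right c one
  have hrow : ∀ (i : Fin n) (χ : IrrCharacter G), classInner (A i) (χ : G → ℂ) =
      ε' * (if θ i = χ then 1 else 0) + c χ := by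
    intro i χ
    rw [hA i, classInner_add_left, classInner_smul_left, classInner_irr (hθ i) χ.2]
    congr 1
    exact classInner_int_coeff_right c χ
  have hθne1 : ∀ i, θ i ≠ fun _ => 1 := by
    intro i hi
    -- another index
    obtain ⟨j, hj⟩ : ∃ j : Fin n, j ≠ i := by
      by_cases h0 : i = i₀
      · refine ⟨⟨1, by omega⟩, ?_⟩
        rw [h0]
        intro h
        have := congrArg Fin.val h
        simp [i₀] at this
      · exact ⟨i₀, fun h => h0 h.symm⟩
    have h1 := hrow i one
    have h2 := hrow j one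
    have h3 := hA1 i
    have h4 := hA1 j
    have h5 : θ j ≠ one := by
      intro h
      exact hj (hθi (h.trans hi.symm))
    rw [if_pos hi] at h1
    rw [if_neg h5] at h2
    have h6 : classInner (A i) (one : G → ℂ) = -1 := h3
    have h7 : classInner (A j) (one : G → ℂ) = -1 := h4
    rw [h6] at h1
    rw [h7] at h2
    have h8 : ε' = 0 := by
      linear_combination h2 - h1
    rcases hε' with h | h <;> rw [h] at h8 <;> norm_num at h8
  have hc1 : c one = -1 := by
    have h1 := hrow i₀ one
    have h3 : classInner (A i₀) (one : G → ℂ) = -1 := hA1 i₀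
    rw [h3, if_neg (hθne1 i₀)] at h1
    simp only [mul_zero, zero_add] at h1
    have : ((c one : ℤ) : ℂ) = ((-1 : ℤ) : ℂ) := by
      push_cast
      exact h1.symm
    exact_mod_cast this
  -- a lower bound for the norm
  have hlower : (n : ℤ) * (b * b) + 1 ≤ ∑ ψ, c ψ * c ψ := by
    let S : Finset (IrrCharacter G) := Finset.univ.image ϑ
    have hone_notin : one ∉ S := by
      intro h
      obtain ⟨i, -, hi⟩ := Finset.mem_image.mp h
      exact hθne1 i (congrArg Subtype.val hi)
    have hinj : Function.Injective ϑ := fun i j h => hθi (congrArg Subtype.val h)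
    have h1 : ∑ ψ ∈ insert one S, c ψ * c ψ = 1 + (n : ℤ) * (b * b) := by
      rw [Finset.sum_insert hone_notin, hc1, Finset.sum_image (fun i _ j _ h => hinj h)]
      simp only [hbconst, Finset.sum_const, Finset.card_univ, Fintype.card_fin, nsmul_eq_mul]
      ring
    have h2 : ∑ ψ ∈ insert one S, c ψ * c ψ ≤ ∑ ψ, c ψ * c ψ :=
      Finset.sum_le_sum_of_subset_of_nonneg (Finset.subset_univ _) (fun ψ _ _ => mul_self_nonneg _)
    linarith
  have hb0 : b = 0 := by
    by_contra hb1
    have h1 := hnorm i₀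
    have h2 : (1 : ℤ) ≤ b * b := by
      have := mul_self_pos.mpr hb1
      omega
    have hn' : ((t : ℤ) + 2) ≤ n := by exact_mod_cast hn
    have h3 : ((t : ℤ) + 2) * (b * b) + 1 ≤ ∑ ψ, c ψ * c ψ := by
      have : ((t : ℤ) + 2) * (b * b) ≤ n * (b * b) :=
        mul_le_mul_of_nonneg_right hn' (mul_self_nonneg b)
      linarith
    have h4 : 2 * ε * b + (((t : ℤ) + 2) * (b * b) + 1) ≤ t := by
      have h5 := hnorm i₀
      linarith
    have ht' : (0 : ℤ) ≤ t := by positivity
    have h6 : b ≤ b * b ∧ -b ≤ b * b := by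
      constructor <;> nlinarith
    rcases hε with he | he
    · rw [he] at h4
      nlinarith [h6.1, h6.2]
    · rw [he] at h4
      nlinarith [h6.1, h6.2]
  have hB : ∑ ψ, c ψ * c ψ = t := by
    have h1 := hnorm i₀
    rw [← hb, hb0] at h1
    simpa using h1
  -- degrees
  have hdeg : ∀ χ : IrrCharacter G, ∃ m : ℕ, (χ : G → ℂ) 1 = m := fun χ => χ.2.isCharacter.map_one
  choose d hd using hdeg
  have hdvd : ∀ χ, d χ ∣ Nat.card G := fun χ => degree_dvd_card χ.2 (hd χ)
  refine ⟨ε, d (ϑ i₀), c, d, hε, irr_degree_pos (ϑ i₀).2 (hd _), hdvd _, hB, hc1, hd, hdvd, ?_, ?_⟩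
  · have h1 : A i₀ 1 = 0 := alpha_one P (rep i₀)
    rw [hA i₀] at h1
    simp only [Pi.add_apply, Pi.smul_apply, smul_eq_mul] at h1
    rw [hβ, Finset.sum_apply] at h1
    simp only [Pi.smul_apply, smul_eq_mul, hd] at h1
    have h2 : θ i₀ 1 = d (ϑ i₀) := hd (ϑ i₀)
    rw [h2, ← hεc] at h1
    exact_mod_cast h1
  · intro χ hχ
    -- `χ` is not exceptional
    have hχθ : ∀ i, θ i ≠ χ := by
      intro i hi
      apply hχ
      have h1 : ϑ i = χ := Subtype.ext hi
      rw [← h1, hbconst]
      exact hb0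
    have hrow' : ∀ i, classInner (A i) (χ : G → ℂ) = c χ := by
      intro i
      rw [hrow, if_neg (hχθ i)]
      simp
    have hcl := χ.2.isClassFunction
    -- multiplicities
    have hmn : ∀ μ : P →* ℂˣ, ∃ m : ℕ, classInner (fun y : P => (χ : G → ℂ) y) (homFun μ) = m :=
      fun μ => (χ.2.isCharacter.restrict P).classInner_nat (isIrr_homFun μ)
    choose m hm using hmn
    have hmc : ∀ μ : P →* ℂˣ, μ ≠ 1 → (m μ : ℤ) = m 1 + c χ := by
      intro μ hμ
      obtain ⟨i, x, rfl⟩ := hcov μ hμ
      have h1 := hrow' i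
      rw [show A i = alpha P (rep i) from rfl, inner_alpha_char P hcl, hm, hm] at h1
      have h2 : classInner (fun y : P => (χ : G → ℂ) y) (homFun (conjHom P x (rep i))) =
          classInner (fun y : P => (χ : G → ℂ) y) (homFun (rep i)) := mult_invariant P hcl x (rep i)
      rw [hm, hm] at h2
      simp only [Complex.conj_natCast] at h1
      have h3 : m (conjHom P x (rep i)) = m (rep i) := by exact_mod_cast h2
      have h4 : (((m (rep i) : ℤ) - m 1 : ℤ) : ℂ) = ((c χ : ℤ) : ℂ) := by
        push_cast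
        exact h1
      have h5 : (m (rep i) : ℤ) - m 1 = c χ := by exact_mod_cast h4
      rw [h3]
      linarith
    have hsum := degree_eq_sum P hpp hP χ.2.isCharacter
    simp only [hm] at hsum
    rw [hd χ] at hsum
    have hsum' : (d χ : ℤ) = ∑ μ : P →* ℂˣ, (m μ : ℤ) := by
      have : ((d χ : ℕ) : ℂ) = ((∑ μ : P →* ℂˣ, m μ : ℕ) : ℂ) := by
        push_cast
        exact hsum
      have h2 : d χ = ∑ μ : P →* ℂˣ, m μ := by exact_mod_cast this
      rw [h2]
      push_cast
      rfl
    rw [hsum', ← Finset.add_sum_erase _ _ (Finset.mem_univ (1 : P →* ℂˣ))]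
    rw [Finset.sum_congr rfl (g := fun _ => (m 1 : ℤ) + c χ) (fun μ hμ =>
      hmc μ (Finset.ne_of_mem_erase hμ))]
    rw [Finset.sum_const, Finset.card_erase_of_mem (Finset.mem_univ _), Finset.card_univ,
      card_hom P hpp hP]
    refine ⟨(m 1 : ℤ) + c χ, ?_⟩
    rw [nsmul_eq_mul]
    have hp1 : ((p - 1 : ℕ) : ℤ) = (p : ℤ) - 1 := by
      have := hpp.one_lt
      push_cast [Nat.cast_sub this.le]
      ring
    rw [hp1]
    ring

end Main

end CfsgLib.H9.FirstPower
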