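import Cfsg.Agent.Lib.H9.FirstPower
import Cfsg.Agent.Lib.H9.SimpleTools
import Mathlib

/-! Numerical consequences of the analysis of a self-centralizing subgroup of prime order in a
non-abelian simple group. -/

set_option autoImplicit false
set_option linter.style.haveILetI false
set_option linter.unusedSectionVars false
set_option linter.unusedVariables false

namespace CfsgLib.H9.FirstPower

open Cfsg CfsgLib.Char

universe u

variable {G : Type u} [Group G]

/-- In a non-abelian simple group the only linear character is the trivial one. -/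
theorem linear_eq_one [Finite G] [IsSimpleGroup G] (hG : ¬ IsMulCommutative G) {χ : G → ℂ}
    (hχ : IsIrrCharacter G χ) (h1 : χ 1 = 1) : χ = fun _ => 1 := by
  obtain ⟨l, rfl⟩ := exists_hom_of_degree_one hχ.isCharacter h1
  rcases IsSimpleGroup.eq_bot_or_eq_top_of_normal l.ker inferInstance with h | h
  · exfalso
    apply hG
    have hinj : Function.Injective l := (MonoidHom.ker_eq_bot_iff l).mp h
    refine ⟨⟨fun a b => hinj ?_⟩⟩
    rw [map_mul, map_mul, mul_comm]
  · funext g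
    have : g ∈ l.ker := by rw [h]; exact Subgroup.mem_top g
    rw [MonoidHom.mem_ker] at this
    simp [this]

/-- The numerical data in a non-abelian simple group. -/
theorem simple_data [Fintype G] [IsSimpleGroup G] (hG : ¬ IsMulCommutative G) (P : Subgroup G)
    [Fintype P] {p : ℕ} (hpp : p.Prime) (hP : Nat.card P = p)
    (hC : ∀ g : G, (∀ y ∈ P, g * y = y * g) → g ∈ P) (t : ℕ)
    (ht : Nat.card (Subgroup.normalizer (P : Set G)) = p * t) (hlarge : t * (t + 1) < p - 1) :
    ∃ (ε : ℤ) (f : ℕ) (S : Finset (IrrCharacter G)) (δ : IrrCharacter G → ℤ)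
      (d : IrrCharacter G → ℕ), (ε = 1 ∨ ε = -1) ∧ 0 < f ∧ f ∣ Nat.card G ∧
      (∀ χ ∈ S, δ χ ≠ 0 ∧ 1 < d χ ∧ d χ ∣ Nat.card G ∧ (p : ℤ) ∣ (d χ : ℤ) + δ χ) ∧
      (∑ χ ∈ S, δ χ * δ χ = (t : ℤ) - 1) ∧ ε * f - 1 + ∑ χ ∈ S, δ χ * d χ = 0 := by
  classical
  obtain ⟨ε, f, c, d, hε, hf, hfd, hsq, hone, hdeg, hdvd, hsum, hcong⟩ :=
    main_data P hpp hP hC t ht hlarge
  let one : IrrCharacter G := ⟨fun _ => 1, isIrrCharacter_one⟩
  have hd1 : d one = 1 := by
    have := hdeg one
    have h2 : (one : G → ℂ) 1 = 1 := rfl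
    rw [h2] at this
    exact_mod_cast this.symm
  let S : Finset (IrrCharacter G) := Finset.univ.filter (fun χ => χ ≠ one ∧ c χ ≠ 0)
  have hsplit : ∀ F : IrrCharacter G → ℤ, (∀ χ, c χ = 0 → F χ = 0) →
      ∑ χ, F χ = F one + ∑ χ ∈ S, F χ := by
    intro F hF
    rw [← Finset.add_sum_erase _ _ (Finset.mem_univ one)]
    congr 1
    symm
    apply Finset.sum_subset
    · intro χ hχ
      simp only [S, Finset.mem_filter, Finset.mem_univ, true_and] at hχ
      exact Finset.mem_erase.mpr ⟨hχ.1, Finset.mem_univ _⟩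
    · intro χ hχ hχ'
      apply hF
      simp only [S, Finset.mem_filter, Finset.mem_univ, true_and, not_and, not_not] at hχ'
      exact hχ' (Finset.ne_of_mem_erase hχ)
  refine ⟨ε, f, S, c, d, hε, hf, hfd, ?_, ?_, ?_⟩
  · intro χ hχ
    simp only [S, Finset.mem_filter, Finset.mem_univ, true_and] at hχ
    refine ⟨hχ.2, ?_, hdvd χ, hcong χ hχ.2⟩
    have h0 := irr_degree_pos χ.2 (hdeg χ)
    by_contra h2
    have h3 : d χ = 1 := by omega
    apply hχ.1
    apply Subtype.ext
    exact linear_eq_one hG χ.2 (by rw [hdeg χ, h3]; simp)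
  · have := hsplit (fun χ => c χ * c χ) (fun χ h => by simp [h])
    rw [hsq, hone] at this
    linarith
  · have := hsplit (fun χ => c χ * d χ) (fun χ h => by simp [h])
    rw [hone, hd1] at this
    rw [this] at hsum
    push_cast at hsum
    linarith

/-- The case `t = 2`. -/
theorem data_two [Fintype G] [IsSimpleGroup G] (hG : ¬ IsMulCommutative G) (P : Subgroup G)
    [Fintype P] {p : ℕ} (hpp : p.Prime) (hP : Nat.card P = p)
    (hC : ∀ g : G, (∀ y ∈ P, g * y = y * g) → g ∈ P)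
    (ht : Nat.card (Subgroup.normalizer (P : Set G)) = p * 2) (hlarge : 6 < p - 1) :
    ∃ (δ : ℤ) (d : ℕ), (δ = 1 ∨ δ = -1) ∧ 1 < d ∧ d ∣ Nat.card G ∧ (p : ℤ) ∣ (d : ℤ) + δ ∧
      (1 - δ * d).natAbs ∣ Nat.card G := by
  classical
  obtain ⟨ε, f, S, δ, d, hε, hf, hfd, hS, hsq, hsum⟩ := simple_data hG P hpp hP hC 2 ht hlarge
  have hsq1 : ∑ χ ∈ S, δ χ * δ χ = 1 := by rw [hsq]; norm_num
  have hpos : ∀ χ ∈ S, 1 ≤ δ χ * δ χ := fun χ hχ => by
    have := mul_self_pos.mpr (hS χ hχ).1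
    omega
  have hne : S.Nonempty := by
    by_contra h
    rw [Finset.not_nonempty_iff_eq_empty] at h
    rw [h] at hsq1
    simp at hsq1
  obtain ⟨χ, hχ⟩ := hne
  have hS1 : S = {χ} := by
    by_contra hne'
    obtain ⟨χ', hχ', hne''⟩ : ∃ χ' ∈ S, χ' ≠ χ := by
      by_contra hcon
      push Not at hcon
      exact hne' (Finset.eq_singleton_iff_unique_mem.mpr ⟨hχ, hcon⟩)
    have h1 : ∑ x ∈ ({χ, χ'} : Finset _), δ x * δ x ≤ ∑ x ∈ S, δ x * δ x :=
      Finset.sum_le_sum_of_subset_of_nonneg (by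
        intro x hx
        simp only [Finset.mem_insert, Finset.mem_singleton] at hx
        rcases hx with rfl | rfl
        · exact hχ
        · exact hχ') (fun x _ _ => mul_self_nonneg _)
    rw [Finset.sum_pair hne''.symm] at h1
    have := hpos χ hχ
    have := hpos χ' hχ'
    omega
  rw [hS1] at hsq1 hsum
  simp only [Finset.sum_singleton] at hsq1 hsum
  obtain ⟨-, h1, h2, h3⟩ := hS χ hχ
  have hδ : δ χ = 1 ∨ δ χ = -1 := by
    have : (δ χ - 1) * (δ χ + 1) = 0 := by linarith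
    rcases mul_eq_zero.mp this with h | h
    · left; omega
    · right; omega
  refine ⟨δ χ, d χ, hδ, h1, h2, h3, ?_⟩
  have e : (1 - δ χ * d χ) = ε * f := by linarith
  rw [e, Int.natAbs_mul]
  rcases hε with h | h <;> rw [h] <;> simpa [Nat.card_eq_fintype_card] using
    (by rw [← Nat.card_eq_fintype_card]; exact hfd : f ∣ Fintype.card G)

/-- The case `t = 3`. -/
theorem data_three [Fintype G] [IsSimpleGroup G] (hG : ¬ IsMulCommutative G) (P : Subgroup G)
    [Fintype P] {p : ℕ} (hpp : p.Prime) (hP : Nat.card P = p)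
    (hC : ∀ g : G, (∀ y ∈ P, g * y = y * g) → g ∈ P)
    (ht : Nat.card (Subgroup.normalizer (P : Set G)) = p * 3) (hlarge : 12 < p - 1) :
    ∃ (δ₁ δ₂ : ℤ) (d₁ d₂ : ℕ), (δ₁ = 1 ∨ δ₁ = -1) ∧ (δ₂ = 1 ∨ δ₂ = -1) ∧ 1 < d₁ ∧ 1 < d₂ ∧
      d₁ ∣ Nat.card G ∧ d₂ ∣ Nat.card G ∧ (p : ℤ) ∣ (d₁ : ℤ) + δ₁ ∧ (p : ℤ) ∣ (d₂ : ℤ) + δ₂ ∧
      (1 - δ₁ * d₁ - δ₂ * d₂).natAbs ∣ Nat.card G := by
  classical
  obtain ⟨ε, f, S, δ, d, hε, hf, hfd, hS, hsq, hsum⟩ := simple_data hG P hpp hP hC 3 ht hlarge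
  have hsq1 : ∑ χ ∈ S, δ χ * δ χ = 2 := by rw [hsq]; norm_num
  have hpos : ∀ χ ∈ S, 1 ≤ δ χ * δ χ := fun χ hχ => by
    have := mul_self_pos.mpr (hS χ hχ).1
    omega
  have hne : S.Nonempty := by
    by_contra h
    rw [Finset.not_nonempty_iff_eq_empty] at h
    rw [h] at hsq1
    simp at hsq1
  obtain ⟨χ, hχ⟩ := hne
  -- a second element
  obtain ⟨χ', hχ', hne'⟩ : ∃ χ' ∈ S, χ' ≠ χ := by
    by_contra hcon
    push Not at hcon
    have hS1 : S = {χ} := Finset.eq_singleton_iff_unique_mem.mpr ⟨hχ, hcon⟩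
    rw [hS1] at hsq1
    simp only [Finset.sum_singleton] at hsq1
    have h2 : δ χ ^ 2 = 2 := by rw [pow_two]; exact hsq1
    have h3 : δ χ ≤ 1 := by nlinarith
    have h4 : -1 ≤ δ χ := by nlinarith
    interval_cases (δ χ) <;> omega
  have hS2 : S = {χ, χ'} := by
    by_contra hne''
    obtain ⟨χ'', hχ'', h5⟩ : ∃ χ'' ∈ S, χ'' ∉ ({χ, χ'} : Finset _) := by
      by_contra hcon
      push Not at hcon
      apply hne''
      apply Finset.Subset.antisymm
      · intro x hx
        exact hcon x hx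
      · intro x hx
        simp only [Finset.mem_insert, Finset.mem_singleton] at hx
        rcases hx with rfl | rfl
        · exact hχ
        · exact hχ'
    have h1 : ∑ x ∈ ({χ'', χ, χ'} : Finset _), δ x * δ x ≤ ∑ x ∈ S, δ x * δ x :=
      Finset.sum_le_sum_of_subset_of_nonneg (by
        intro x hx
        simp only [Finset.mem_insert, Finset.mem_singleton] at hx
        rcases hx with rfl | rfl | rfl
        · exact hχ''
        · exact hχ
        · exact hχ') (fun x _ _ => mul_self_nonneg _)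
    rw [Finset.sum_insert h5, Finset.sum_pair hne'.symm] at h1
    have := hpos χ hχ
    have := hpos χ' hχ'
    have := hpos χ'' hχ''
    omega
  rw [hS2] at hsq1 hsum
  rw [Finset.sum_pair hne'.symm] at hsq1 hsum
  obtain ⟨-, h1, h2, h3⟩ := hS χ hχ
  obtain ⟨-, h1', h2', h3'⟩ := hS χ' hχ'
  have hpp1 := hpos χ hχ
  have hpp2 := hpos χ' hχ'
  have hunit : ∀ z : ℤ, z * z = 1 → z = 1 ∨ z = -1 := by
    intro z hz
    have : (z - 1) * (z + 1) = 0 := by linarith
    rcases mul_eq_zero.mp this with h | h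
    · left; omega
    · right; omega
  refine ⟨δ χ, δ χ', d χ, d χ', hunit _ (by omega), hunit _ (by omega), h1, h1', h2, h2', h3, h3', ?_⟩
  have e : (1 - δ χ * d χ - δ χ' * d χ') = ε * f := by linarith
  rw [e, Int.natAbs_mul]
  rcases hε with h | h <;> rw [h] <;> simpa [Nat.card_eq_fintype_card] using
    (by rw [← Nat.card_eq_fintype_card]; exact hfd : f ∣ Fintype.card G)

/-- The centraliser condition when `t` is prime. -/
theorem hC_of_prime [Finite G] [IsSimpleGroup G] (hG : ¬ IsMulCommutative G) {p : ℕ} [Fact p.Prime]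
    (P : Sylow p G) (hP : Nat.card (P : Subgroup G) = p) {t : ℕ} (ht : t.Prime)
    (hN : Nat.card (Subgroup.normalizer ((P : Subgroup G) : Set G)) = p * t) :
    ∀ g : G, (∀ y ∈ (P : Subgroup G), g * y = y * g) → g ∈ (P : Subgroup G) := by
  have hp : p.Prime := Fact.out
  have hc := P_comm (P : Subgroup G) hp hP
  have hPC : (P : Subgroup G) ≤ Subgroup.centralizer ((P : Subgroup G) : Set G) := by
    intro x hx
    rw [Subgroup.mem_centralizer_iff]
    intro y hy
    exact congrArg Subtype.val (hc ⟨y, hy⟩ ⟨x, hx⟩)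
  have hCN : Subgroup.centralizer ((P : Subgroup G) : Set G) ≤
      Subgroup.normalizer ((P : Subgroup G) : Set G) := Subgroup.centralizer_le_normalizer _
  have h1 : Nat.card (Subgroup.centralizer ((P : Subgroup G) : Set G)) ∣ p * t := by
    rw [← hN]
    exact Subgroup.card_dvd_of_le hCN
  have h2 : p ∣ Nat.card (Subgroup.centralizer ((P : Subgroup G) : Set G)) := by
    have h2' := Subgroup.card_dvd_of_le hPC
    rw [hP] at h2'
    exact h2'
  obtain ⟨c, hc'⟩ := h2
  rw [hc'] at h1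
  have h3 : c ∣ t := Nat.dvd_of_mul_dvd_mul_left hp.pos h1
  rcases (Nat.dvd_prime ht).mp h3 with h4 | h4
  · -- `C = P`
    have heq : (P : Subgroup G) = Subgroup.centralizer ((P : Subgroup G) : Set G) := by
      refine Subgroup.eq_of_le_of_card_ge hPC ?_
      rw [hc', h4, hP, mul_one]
    intro g hg
    rw [heq]
    rw [Subgroup.mem_centralizer_iff]
    intro y hy
    exact (hg y hy).symm
  · exfalso
    have heq : Subgroup.centralizer ((P : Subgroup G) : Set G) =
        Subgroup.normalizer ((P : Subgroup G) : Set G) := by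
      refine Subgroup.eq_of_le_of_card_ge hCN ?_
      rw [hc', h4, hN]
    have hcomm : IsMulCommutative (P : Subgroup G) := ⟨⟨hc⟩⟩
    refine CfsgLib.H9.not_normalizer_le_centralizer hG P hcomm ?_ (le_of_eq heq.symm)
    intro h
    rw [h, Subgroup.card_bot] at hP
    exact hp.one_lt.ne hP

end CfsgLib.H9.FirstPower
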