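import Mathlib
import Cfsg.Agent.Lib.H9.Spec3
import Cfsg.Agent.Lib.H9.USpec5

/-! Element orders of `PSL₃(q)`. -/

set_option autoImplicit false
set_option linter.unusedVariables false
set_option linter.unusedSectionVars false
set_option linter.unusedSimpArgs false

namespace CfsgLib.H9.LSpec

open Polynomial CfsgLib.H9.Spec3

section arith

variable {K : Type*} [Field K]

/-- The target conclusion. -/
def Good (p q e f : ℕ) (a b c : K) : Prop :=
  ∃ m l, (m = q - 1 ∨ m = p * e ∨ m = (q + 1) * e ∨ m = f ∨ (p = 2 ∧ m = 4)) ∧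
    (X - C a) * (X - C b) * (X - C c) ∣ (X ^ m - C l : K[X])

variable {p q d e f k : ℕ} [Fact p.Prime] [CharP K p]

theorem Good.perm1 {a b c : K} (h : Good p q e f a b c) : Good p q e f b c a := by
  obtain ⟨m, l, hm, hd⟩ := h
  refine ⟨m, l, hm, ?_⟩
  rwa [show (X - C b) * (X - C c) * (X - C a) = (X - C a) * (X - C b) * (X - C c) by ring]

theorem Good.perm2 {a b c : K} (h : Good p q e f a b c) : Good p q e f a c b := by
  obtain ⟨m, l, hm, hd⟩ := h
  refine ⟨m, l, hm, ?_⟩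
  rwa [show (X - C a) * (X - C c) * (X - C b) = (X - C a) * (X - C b) * (X - C c) by ring]

/-- Triple root in characteristic two. -/
theorem dvd_triple_two (a : K) (hp : p = 2) :
    (X - C a) * (X - C a) * (X - C a) ∣ (X ^ 4 - C (a ^ 4) : K[X]) := by
  subst hp
  have h1 := pow_char_expand (K := K) 2 2 a
  have h2 := pow_char_expand (K := K) 2 1 a
  simp only [mul_one, pow_one] at h2
  have h3 : (X ^ 4 - C (a ^ 4) : K[X]) = (X - C a) ^ 2 ^ 2 := by
    have : (X ^ (2 * 2) - C (a ^ (2 * 2)) : K[X]) = (X ^ 2 - C (a ^ 2)) ^ 2 := h1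
    simp only [show 2 * 2 = 4 by norm_num] at this
    rw [this, h2]
    ring
  rw [h3]
  exact ⟨X - C a, by ring⟩

/-- All eigenvalues lie in `F`. -/
theorem caseA (hq : 2 ≤ q) (he : 3 * e = k * (q - 1)) {a b c : K}
    (ha : a ^ (q - 1) = 1) (hb : b ^ (q - 1) = 1) (hc : c ^ (q - 1) = 1) (habc : a * b * c = 1) :
    Good p q e f a b c := by
  have h3 : ∀ x : K, x ^ (q - 1) = 1 → (x ^ e) ^ 3 = 1 := by
    intro x hx
    rw [← pow_mul, mul_comm, he, mul_comm, pow_mul, hx, one_pow]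
  have dbl : ∀ a c : K, a ^ (q - 1) = 1 → a * a * c = 1 → a ≠ c →
      (X - C a) * (X - C a) * (X - C c) ∣ (X ^ (p * e) - C (a ^ (p * e)) : K[X]) := by
    intro a c ha h hne
    apply dvd_of_double p e hne
    have e1 : (a ^ e) ^ 2 * c ^ e = 1 := by
      rw [← pow_mul, mul_comm e 2, pow_mul, ← mul_pow, show a ^ 2 * c = a * a * c by ring, h, one_pow]
    have e2 := h3 a ha
    have ha' : a ^ e ≠ 0 := by
      intro h0
      rw [h0] at e2
      simp at e2
    have : (a ^ e) ^ 2 * c ^ e = (a ^ e) ^ 2 * a ^ e := by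
      rw [e1]; linear_combination -e2
    exact mul_left_cancel₀ (pow_ne_zero 2 ha') this
  by_cases hab : a = b
  · subst hab
    by_cases hac : a = c
    · subst hac
      by_cases hp2 : p = 2
      · exact ⟨4, a ^ 4, Or.inr (Or.inr (Or.inr (Or.inr ⟨hp2, rfl⟩))), dvd_triple_two a hp2⟩
      · have hp3 : 3 ≤ p := by
          have := (Fact.out : p.Prime).two_le
          omega
        exact ⟨p * e, a ^ (p * e), Or.inr (Or.inl rfl), dvd_of_triple p hp3 a e⟩
    · exact ⟨p * e, a ^ (p * e), Or.inr (Or.inl rfl), dbl a c ha habc hac⟩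
  · by_cases hac : a = c
    · subst hac
      refine ⟨p * e, a ^ (p * e), Or.inr (Or.inl rfl), ?_⟩
      rw [show (X - C a) * (X - C b) * (X - C a) = (X - C a) * (X - C a) * (X - C b) by ring]
      exact dbl a b ha (by linear_combination habc) hab
    · by_cases hbc : b = c
      · subst hbc
        refine ⟨p * e, b ^ (p * e), Or.inr (Or.inl rfl), ?_⟩
        rw [show (X - C a) * (X - C b) * (X - C b) = (X - C b) * (X - C b) * (X - C a) by ring]
        exact dbl b a hb (by linear_combination habc) (Ne.symm hab)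
      · exact ⟨q - 1, 1, Or.inl rfl, three_dvd hab hac hbc (by simp [ha]) (by simp [hb]) (by simp [hc])⟩

theorem pow_q_eq (hq : 2 ≤ q) {x : K} (hx0 : x ≠ 0) : x ^ q = x ↔ x ^ (q - 1) = 1 := by
  obtain ⟨r, rfl⟩ : ∃ r, q = r + 1 := ⟨q - 1, by omega⟩
  simp only [Nat.add_sub_cancel]
  rw [pow_succ]
  constructor
  · intro h
    exact mul_right_cancel₀ hx0 (by rw [h, one_mul])
  · intro h
    rw [h, one_mul]

theorem finish {a b c x : K} (hq : 2 ≤ q) (m : ℕ) (hx : a ^ m = x) (h1 : a ^ q = b) (habc : a * b * c = 1)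
    (hx1 : x ^ (q - 1) = 1) (hx3 : x ^ 3 = 1) : b ^ m = x ∧ c ^ m = x := by
  have hx0 : x ≠ 0 := fun h => by simp [h] at hx3
  have hb : b ^ m = x := by
    rw [← h1, ← pow_mul, mul_comm, pow_mul, hx]
    exact (pow_q_eq hq hx0).2 hx1
  refine ⟨hb, ?_⟩
  have h3 : x * x * c ^ m = 1 := by
    have : (a * b * c) ^ m = 1 := by rw [habc, one_pow]
    rw [mul_pow, mul_pow, hx, hb] at this
    exact this
  have e : x * x * c ^ m = x * x * x := by
    rw [h3]; linear_combination -hx3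
  exact mul_left_cancel₀ (mul_ne_zero hx0 hx0) e

theorem caseB (hq : 2 ≤ q) (he : 3 * e = k * (q - 1)) {a b c : K}
    (h1 : a ^ q = b) (h2 : b ^ q = a) (h3 : c ^ q = c) (habc : a * b * c = 1) :
    Good p q e f a b c := by
  have ha0 : a ≠ 0 := fun h => by simp [h] at habc
  have hb0 : b ≠ 0 := fun h => by simp [h] at habc
  have hc0 : c ≠ 0 := fun h => by simp [h] at habc
  have hc1 := (pow_q_eq hq hc0).1 h3
  by_cases hab : a = b
  · subst hab
    have := (pow_q_eq hq ha0).1 h1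
    exact caseA hq he this this hc1 habc
  have hq2 : a ^ ((q + 1) * (q - 1)) = 1 := by
    have e1 : a ^ (q * q) = a := by
      rw [pow_mul, h1, h2]
    obtain ⟨r, rfl⟩ : ∃ r, q = r + 1 := ⟨q - 1, by omega⟩
    simp only [Nat.add_sub_cancel] at e1 ⊢
    have e3 : (r + 1) * (r + 1) = (r + 1 + 1) * r + 1 := by ring
    rw [e3, pow_succ] at e1
    exact mul_right_cancel₀ ha0 (by rw [e1, one_mul])
  have hqa : a ^ (q - 1) ≠ 1 := by
    intro h
    exact hab ((pow_q_eq hq ha0).2 h ▸ h1)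
  have hqb : b ^ (q - 1) ≠ 1 := by
    intro h
    exact hab (((pow_q_eq hq hb0).2 h).symm.trans h2 |>.symm)
  have hac : a ≠ c := fun h => hqa (h ▸ hc1)
  have hbc : b ≠ c := fun h => hqb (h ▸ hc1)
  set x := a ^ ((q + 1) * e) with hx
  have hx1 : x ^ (q - 1) = 1 := by
    rw [hx, ← pow_mul, show (q + 1) * e * (q - 1) = (q + 1) * (q - 1) * e by ring, pow_mul, hq2, one_pow]
  have hx3 : x ^ 3 = 1 := by
    rw [hx, ← pow_mul, show (q + 1) * e * 3 = (q + 1) * (3 * e) by ring, he,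
      show (q + 1) * (k * (q - 1)) = (q + 1) * (q - 1) * k by ring, pow_mul, hq2, one_pow]
  obtain ⟨e1, e2⟩ := finish hq ((q + 1) * e) hx.symm h1 habc hx1 hx3
  refine ⟨(q + 1) * e, a ^ ((q + 1) * e), Or.inr (Or.inr (Or.inl rfl)), ?_⟩
  exact dvd_of_distinct _ hab hac hbc (by rw [e1]) (by rw [e2])

theorem caseC (hq : 2 ≤ q) (he : 3 * e = k * (q - 1)) (hde : q - 1 = d * e) (hd : d ∣ 3)
    (hf : q ^ 2 + q + 1 = d * f) {a b c : K}
    (h1 : a ^ q = b) (h2 : b ^ q = c) (h3 : c ^ q = a) (habc : a * b * c = 1) :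
    Good p q e f a b c := by
  have ha0 : a ≠ 0 := fun h => by simp [h] at habc
  have hb0 : b ≠ 0 := fun h => by simp [h] at habc
  have hc0 : c ≠ 0 := fun h => by simp [h] at habc
  have allA : a = b ∧ b = c → Good p q e f a b c := by
    rintro ⟨rfl, rfl⟩
    have := (pow_q_eq hq ha0).1 h1
    exact caseA hq he this this this habc
  by_cases hab : a = b
  · subst hab
    exact allA ⟨rfl, h1.symm.trans h2⟩
  by_cases hbc : b = c
  · subst hbc
    exact absurd (h2.symm.trans h3).symm hab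
  by_cases hac : a = c
  · subst hac
    exact absurd (h3.symm.trans h1).symm.symm hab
  have hN : a ^ (q ^ 2 + q + 1) = 1 := by
    have e1 : a ^ (q ^ 2) = c := by
      rw [show q ^ 2 = q * q by ring, pow_mul, h1, h2]
    rw [pow_succ, pow_add, e1, h1]
    linear_combination habc
  set x := a ^ f with hx
  have hxd : x ^ d = 1 := by
    rw [hx, ← pow_mul, mul_comm, ← hf, hN]
  have hx1 : x ^ (q - 1) = 1 := by
    rw [hde, pow_mul, hxd, one_pow]
  have hx3 : x ^ 3 = 1 := by
    obtain ⟨r, hr⟩ := hd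
    rw [hr, pow_mul, hxd, one_pow]
  obtain ⟨e1, e2⟩ := finish hq f hx.symm h1 habc hx1 hx3
  refine ⟨f, a ^ f, Or.inr (Or.inr (Or.inr (Or.inl rfl))), ?_⟩
  exact dvd_of_distinct _ hab hac hbc (by rw [e1]) (by rw [e2])

theorem good_of_frob (hq : 2 ≤ q) (he : 3 * e = k * (q - 1)) (hde : q - 1 = d * e) (hd : d ∣ 3)
    (hf : q ^ 2 + q + 1 = d * f) {a b c : K} (habc : a * b * c = 1)
    (e1 : a ^ q + b ^ q + c ^ q = a + b + c)
    (e2 : a ^ q * b ^ q + b ^ q * c ^ q + c ^ q * a ^ q = a * b + b * c + c * a)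
    (e3 : a ^ q * b ^ q * c ^ q = a * b * c) : Good p q e f a b c := by
  have ha0 : a ≠ 0 := fun h => by simp [h] at habc
  have hb0 : b ≠ 0 := fun h => by simp [h] at habc
  have hc0 : c ≠ 0 := fun h => by simp [h] at habc
  rcases perm3 e1 e2 e3 with ⟨h1, h2, h3⟩ | ⟨h1, h2, h3⟩ | ⟨h1, h2, h3⟩ | ⟨h1, h2, h3⟩ | ⟨h1, h2, h3⟩ | ⟨h1, h2, h3⟩
  · exact caseA hq he ((pow_q_eq hq ha0).1 h1) ((pow_q_eq hq hb0).1 h2) ((pow_q_eq hq hc0).1 h3) habc
  · -- a^q = a, b^q = c, c^q = b : B(b,c,a)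
    have := caseB (p := p) (e := e) (f := f) (k := k) hq he (a := b) (b := c) (c := a) h2 h3 h1
      (by linear_combination habc)
    exact this.perm1.perm1
  · exact caseB hq he h1 h2 h3 habc
  · exact caseC hq he hde hd hf h1 h2 h3 habc
  · -- a^q = c, b^q = a, c^q = b : C(a,c,b)
    have := caseC (p := p) (e := e) (f := f) (d := d) (k := k) hq he hde hd hf (a := a) (b := c) (c := b) h1 h3 h2
      (by linear_combination habc)
    exact this.perm2
  · -- a^q = c, b^q = b, c^q = a : B(a,c,b)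
    have := caseB (p := p) (e := e) (f := f) (k := k) hq he (a := a) (b := c) (c := b) h1 h3 h2
      (by linear_combination habc)
    exact this.perm2

end arith

end CfsgLib.H9.LSpec
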