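import Mathlib
import Cfsg.Agent.Lib.H9.LSpec1

/-! Upper bound and existence for the element orders of `PSL₃(q)`. -/

set_option autoImplicit false
set_option linter.unusedVariables false
set_option linter.unusedSectionVars false
set_option linter.unusedSimpArgs false

namespace CfsgLib.H9.LSpec

open Polynomial Matrix Module CfsgLib.H9.Spec3

variable {F : Type*} [Field F] [Fintype F] {q p : ℕ} [Fact p.Prime] [CharP F p]

abbrev PSL3 (F : Type*) [Field F] [Fintype F] := Matrix.ProjectiveSpecialLinearGroup (Fin 3) F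

theorem exists_scalar_pow (hF : Fintype.card F = q) (j : ℕ) (hqj : q = p ^ j) (hq : 2 ≤ q)
    {d e f k : ℕ} (he : 3 * e = k * (q - 1)) (hde : q - 1 = d * e) (hd : d ∣ 3)
    (hf : q ^ 2 + q + 1 = d * f) (A : Matrix.SpecialLinearGroup (Fin 3) F) :
    ∃ m, (m = q - 1 ∨ m = p * e ∨ m = (q + 1) * e ∨ m = f ∨ (p = 2 ∧ m = 4)) ∧
      ∃ c : F, (A : Matrix (Fin 3) (Fin 3) F) ^ m = c • (1 : Matrix (Fin 3) (Fin 3) F) := by
  let K := AlgebraicClosure F
  have hK : CharP K p := charP_of_injective_algebraMap (algebraMap F K).injective p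
  obtain ⟨a, b, c, habc⟩ := exists_roots (K := K) (A : Matrix (Fin 3) (Fin 3) F)
  obtain ⟨s1, s2, s3⟩ := sym_of_roots _ habc
  have hdet : a * b * c = 1 := by rw [s3, A.2, map_one]
  have hadd : ∀ x y : K, (x + y) ^ q = x ^ q + y ^ q := by
    intro x y
    rw [hqj]
    exact add_pow_char_pow x y p j
  have hfix : ∀ z : F, (algebraMap F K z) ^ q = algebraMap F K z := by
    intro z
    rw [← map_pow, ← hF, FiniteField.pow_card]
  have e1 : a ^ q + b ^ q + c ^ q = a + b + c := by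
    rw [← hadd, ← hadd, s1, hfix]
  have e2 : a ^ q * b ^ q + b ^ q * c ^ q + c ^ q * a ^ q = a * b + b * c + c * a := by
    rw [← mul_pow, ← mul_pow, ← mul_pow, ← hadd, ← hadd, s2, hfix]
  have e3 : a ^ q * b ^ q * c ^ q = a * b * c := by
    rw [← mul_pow, ← mul_pow, hdet, one_pow]
  obtain ⟨m, l, hm, hdvd⟩ := good_of_frob (p := p) (e := e) (f := f) hq he hde hd hf hdet e1 e2 e3
  refine ⟨m, hm, ?_⟩
  rw [← habc] at hdvd
  exact scalar_of_dvd _ m l hdvd

/-- A matrix of determinant one gives an element of `PSL₃`. -/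
theorem exists_of_mat (M : Matrix (Fin 3) (Fin 3) F) (hdet : M.det = 1) :
    ∃ g : PSL3 F, ∀ n : ℕ, g ^ n = 1 ↔ ∃ c : F, M ^ n = c • (1 : Matrix (Fin 3) (Fin 3) F) := by
  let A : Matrix.SpecialLinearGroup (Fin 3) F := ⟨M, hdet⟩
  have hpow : ∀ n, ((A ^ n : Matrix.SpecialLinearGroup (Fin 3) F) : Matrix (Fin 3) (Fin 3) F) = M ^ n := by
    intro n
    induction n with
    | zero => simp
    | succ n ih =>
      rw [pow_succ, pow_succ, Matrix.SpecialLinearGroup.coe_mul, ih]
  refine ⟨QuotientGroup.mk A, fun n => ?_⟩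
  rw [← QuotientGroup.mk_pow, QuotientGroup.eq_one_iff, Matrix.SpecialLinearGroup.mem_center_iff]
  constructor
  · rintro ⟨r, -, hr⟩
    refine ⟨r, ?_⟩
    rw [← hpow, ← hr]
    ext i j
    simp [Matrix.scalar_apply, Matrix.diagonal, Matrix.one_apply]
  · rintro ⟨c, hc⟩
    have hdc : c ^ 3 = 1 := by
      have : (M ^ n).det = 1 := by rw [Matrix.det_pow, hdet, one_pow]
      rw [hc, Matrix.det_smul, Matrix.det_one, mul_one, Fintype.card_fin] at this
      exact this
    refine ⟨c, by simpa using hdc, ?_⟩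
    rw [hpow, hc]
    ext i j
    simp [Matrix.scalar_apply, Matrix.diagonal, Matrix.one_apply]

/-- A linear endomorphism of determinant one of a `3`-dimensional space gives an element of `PSL₃`. -/
theorem exists_of_lin {V : Type*} [AddCommGroup V] [Module F V] [FiniteDimensional F V] (hV : finrank F V = 3)
    (f : V →ₗ[F] V) (hdet : LinearMap.det f = 1) :
    ∃ g : PSL3 F, ∀ n : ℕ, g ^ n = 1 ↔ ∃ c : F, ∀ v, (f ^ n) v = c • v := by
  classical
  let b := finBasisOfFinrankEq F V hV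
  let φ := LinearMap.toMatrixAlgEquiv b
  obtain ⟨g, hg⟩ := exists_of_mat (φ f) (by
    change (LinearMap.toMatrix b b f).det = 1
    rw [LinearMap.det_toMatrix, hdet])
  refine ⟨g, fun n => (hg n).trans ?_⟩
  have key : ∀ c : F, (φ f) ^ n = c • (1 : Matrix (Fin 3) (Fin 3) F) ↔ f ^ n = c • (1 : V →ₗ[F] V) := by
    intro c
    rw [← map_pow, ← map_one φ, ← map_smul]
    exact φ.injective.eq_iff
  constructor
  · rintro ⟨c, hc⟩
    refine ⟨c, fun v => ?_⟩
    rw [(key c).1 hc]
    simp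
  · rintro ⟨c, hc⟩
    refine ⟨c, (key c).2 ?_⟩
    ext v
    simp [hc]

theorem exists_order_q1 (hF : Fintype.card F = q) : ∃ g : PSL3 F, orderOf g = q - 1 := by
  classical
  obtain ⟨l, hl0, hlk⟩ := CfsgLib.H9.USpec.exists_prim' F
  rw [Nat.card_eq_fintype_card, hF] at hlk
  let M : Matrix (Fin 3) (Fin 3) F := Matrix.diagonal ![l, l⁻¹, 1]
  have hdet : M.det = 1 := by
    simp only [M, Matrix.det_diagonal, Fin.prod_univ_three]
    simp [hl0]
  obtain ⟨g, hg⟩ := exists_of_mat M hdet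
  refine ⟨g, CfsgLib.H9.USpec.orderOf_eq_of_iff fun k => (hg k).trans ?_⟩
  rw [← hlk]
  have hMk : M ^ k = Matrix.diagonal ![l ^ k, l⁻¹ ^ k, 1] := by
    simp only [M, Matrix.diagonal_pow]
    congr 1
    ext i
    fin_cases i <;> simp
  constructor
  · rintro ⟨c, hc⟩
    rw [hMk] at hc
    have h0 := congrFun (congrFun hc 0) 0
    have h2 := congrFun (congrFun hc 2) 2
    simp at h0 h2
    rw [h0, ← h2]
  · intro h
    refine ⟨1, ?_⟩
    rw [hMk, h, one_smul]
    have : l⁻¹ ^ k = 1 := by rw [inv_pow, h, inv_one]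
    rw [this, ← Matrix.diagonal_one]
    congr 1
    ext i
    fin_cases i <;> simp

theorem exists_order_pe (hF : Fintype.card F = q) (hq : 2 ≤ q) {e k : ℕ}
    (hde : q - 1 = Nat.gcd 3 (q - 1) * e) (hk : 3 * e = k * (q - 1)) (hcop : Nat.Coprime p e) :
    ∃ g : PSL3 F, orderOf g = p * e := by
  classical
  obtain ⟨l, hl0, hlk⟩ := CfsgLib.H9.USpec.exists_prim' F
  rw [Nat.card_eq_fintype_card, hF] at hlk
  let M : Matrix (Fin 3) (Fin 3) F := !![l, l, 0; 0, l, 0; 0, 0, (l * l)⁻¹]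
  have hdet : M.det = 1 := by
    simp [M, Matrix.det_fin_three]
    field_simp
  obtain ⟨g, hg⟩ := exists_of_mat M hdet
  refine ⟨g, CfsgLib.H9.USpec.orderOf_eq_of_iff fun n => (hg n).trans ?_⟩
  have hMk : ∀ n : ℕ, M ^ n = !![l ^ n, (n : F) * l ^ n, 0; 0, l ^ n, 0; 0, 0, ((l * l)⁻¹) ^ n] := by
    intro n
    induction n with
    | zero =>
      ext i j
      fin_cases i <;> fin_cases j <;> simp
    | succ n ih =>
      rw [pow_succ, ih]
      ext i j
      fin_cases i <;> fin_cases j <;> simp [M, Matrix.mul_apply, Fin.sum_univ_three, pow_succ] <;> ring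
  have hwn : ((l * l)⁻¹) ^ n = l ^ n ↔ l ^ (3 * n) = 1 := by
    have : l ^ (3 * n) = l ^ n * l ^ n * l ^ n := by ring
    rw [this, inv_pow, mul_pow]
    have h0 : l ^ n ≠ 0 := pow_ne_zero _ hl0
    constructor
    · intro h
      have : l ^ n * l ^ n * (l ^ n * l ^ n)⁻¹ = 1 := by field_simp
      rw [h] at this
      exact this
    · intro h
      rw [inv_eq_iff_eq_inv]
      field_simp
      linear_combination h
  constructor
  · rintro ⟨s, hs⟩
    rw [hMk] at hs
    have h0 : l ^ n = s := by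
      have := congrFun (congrFun hs 0) 0
      simpa using this
    have h1 : (n : F) * l ^ n = 0 := by
      have := congrFun (congrFun hs 0) 1
      simpa using this
    have h2 : ((l * l)⁻¹) ^ n = s := by
      have := congrFun (congrFun hs 2) 2
      simpa using this
    have hn : (n : F) = 0 := by
      rcases mul_eq_zero.1 h1 with h | h
      · exact h
      · exact absurd h (pow_ne_zero _ hl0)
    have hpn : p ∣ n := (CharP.cast_eq_zero_iff F p n).1 hn
    have h3 : l ^ (3 * n) = 1 := hwn.1 (by rw [h2, h0])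
    have h4 : q - 1 ∣ 3 * n := (hlk _).1 h3
    have h5 : q - 1 ∣ Nat.gcd 3 (q - 1) * n := by
      rw [← Nat.gcd_mul_right]
      exact Nat.dvd_gcd h4 (Nat.dvd_mul_right _ _)
    have hd : 0 < Nat.gcd 3 (q - 1) := Nat.gcd_pos_of_pos_left _ (by norm_num)
    have h6 : e ∣ n := by
      have h7 : Nat.gcd 3 (q - 1) * e ∣ Nat.gcd 3 (q - 1) * n := by rwa [← hde]
      exact (Nat.mul_dvd_mul_iff_left hd).1 h7
    exact hcop.mul_dvd_of_dvd_of_dvd hpn h6
  · rintro ⟨t, rfl⟩
    have hn : (((p * e * t : ℕ)) : F) = 0 := by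
      rw [CharP.cast_eq_zero_iff F p]
      exact ⟨e * t, by ring⟩
    have h3 : l ^ (3 * (p * e * t)) = 1 := by
      rw [hlk]
      refine ⟨k * p * t, ?_⟩
      calc 3 * (p * e * t) = (3 * e) * p * t := by ring
        _ = _ := by rw [hk]; ring
    refine ⟨l ^ (p * e * t), ?_⟩
    rw [hMk, hn, hwn.2 h3]
    ext i j
    fin_cases i <;> fin_cases j <;> simp

/-- Element of order `4` in characteristic two. -/
theorem exists_order_four (hp : p = 2) : ∃ g : PSL3 F, orderOf g = 4 := by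
  classical
  subst hp
  have h2 : (2 : F) = 0 := by exact_mod_cast CharP.cast_eq_zero F 2
  let M : Matrix (Fin 3) (Fin 3) F := !![1, 1, 0; 0, 1, 1; 0, 0, 1]
  have hdet : M.det = 1 := by
    simp [M, Matrix.det_fin_three]
  obtain ⟨g, hg⟩ := exists_of_mat M hdet
  have hM2 : M ^ 2 = !![1, 0, 1; 0, 1, 0; 0, 0, 1] := by
    rw [pow_two]
    ext i j
    fin_cases i <;> fin_cases j <;> simp [M, Matrix.mul_apply, Fin.sum_univ_three, h2, one_add_one_eq_two]
  have hM4 : M ^ (2 ^ 2) = 1 := by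
    rw [show 2 ^ 2 = 2 * 2 by norm_num, pow_mul, hM2, pow_two]
    ext i j
    fin_cases i <;> fin_cases j <;> simp [Matrix.mul_apply, Fin.sum_univ_three, h2, one_add_one_eq_two]
  refine ⟨g, ?_⟩
  have := orderOf_eq_prime_pow (p := 2) (n := 1) (x := g) ?_ ?_
  · simpa using this
  · rw [pow_one, hg]
    rintro ⟨c, hc⟩
    rw [hM2] at hc
    have h02 := congrFun (congrFun hc 0) 2
    simp at h02
  · rw [hg]
    exact ⟨1, by rw [show 1 + 1 = 2 by norm_num, hM4, one_smul]⟩

/-- Element of order `(q+1)e`: the torus of order `q² - 1`. -/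
theorem exists_order_q1e (p : ℕ) [Fact p.Prime] [CharP F p] (hF : Fintype.card F = q) (hq : 2 ≤ q) {e k : ℕ}
    (hde : q - 1 = Nat.gcd 3 (q - 1) * e) (h3 : 3 = Nat.gcd 3 (q - 1) * k) :
    ∃ g : PSL3 F, orderOf g = (q + 1) * e := by
  classical
  have hd0 : 0 < Nat.gcd 3 (q - 1) := Nat.gcd_pos_of_pos_left _ (by norm_num)
  set d := Nat.gcd 3 (q - 1) with hdg
  let L := FiniteField.Extension F p 2
  have hfin : finrank F L = 2 := FiniteField.finrank_extension F p 2
  have hcard : Nat.card L = q ^ 2 := by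
    rw [FiniteField.natCard_extension, Nat.card_eq_fintype_card, hF]
  have hcardF : Nat.card F = q := by rw [Nat.card_eq_fintype_card, hF]
  obtain ⟨a, ha0, hak⟩ := CfsgLib.H9.USpec.exists_prim' L
  rw [hcard] at hak
  set ν := Algebra.norm F a with hν
  have hν0 : ν ≠ 0 := Algebra.norm_ne_zero_iff.2 ha0
  have hνa : algebraMap F L ν = a ^ (q + 1) := by
    have := FiniteField.algebraMap_norm_eq_pow_sum F L a
    rw [hfin, hcardF, Finset.sum_range_succ, Finset.sum_range_one] at this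
    rw [hν, this]
    congr 1
    ring
  let f : (L × F) →ₗ[F] (L × F) := LinearMap.prodMap (LinearMap.mulLeft F a) (LinearMap.mulLeft F ν⁻¹)
  have hfk : ∀ (n : ℕ) (v : L) (z : F), (f ^ n) (v, z) = (a ^ n * v, (ν⁻¹) ^ n * z) := by
    intro n
    induction n with
    | zero => intro v z; simp
    | succ n ih =>
      intro v z
      rw [pow_succ, Module.End.mul_apply]
      have : f (v, z) = (a * v, ν⁻¹ * z) := rfl
      rw [this, ih]
      simp only [pow_succ, mul_assoc]
  have hdet : LinearMap.det f = 1 := by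
    rw [LinearMap.det_prodMap]
    have h1 : LinearMap.mulLeft F a = Algebra.lmul F L a := rfl
    have h2 : LinearMap.mulLeft F ν⁻¹ = Algebra.lmul F F ν⁻¹ := rfl
    rw [h1, h2, ← Algebra.norm_apply, ← Algebra.norm_apply]
    have h3 : Algebra.norm F ν⁻¹ = ν⁻¹ := by
      have := Algebra.norm_algebraMap_of_basis (Module.Basis.singleton (Fin 1) F) ν⁻¹
      simpa using this
    rw [h3]
    exact mul_inv_cancel₀ hν0
  have hV : finrank F (L × F) = 3 := by
    rw [Module.finrank_prod, hfin, Module.finrank_self]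
  obtain ⟨g, hg⟩ := exists_of_lin hV f hdet
  refine ⟨g, CfsgLib.H9.USpec.orderOf_eq_of_iff fun n => (hg n).trans ?_⟩
  have hq21 : q ^ 2 - 1 = (q + 1) * (q - 1) := by
    obtain ⟨r, rfl⟩ : ∃ r, q = r + 1 := ⟨q - 1, by omega⟩
    simp only [Nat.add_sub_cancel]
    have : (r + 1) ^ 2 = (r + 1 + 1) * r + 1 := by ring
    omega
  have hq2e : q + 2 = d * (e + k) := by
    rw [mul_add, ← hde, ← h3]
    omega
  have cond : (∃ c : F, ∀ v, (f ^ n) v = c • v) ↔ a ^ ((q + 2) * n) = 1 := by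
    have e1 : a ^ ((q + 2) * n) = a ^ n * (a ^ (q + 1)) ^ n := by
      rw [show (q + 2) * n = n + (q + 1) * n by ring, pow_add, pow_mul]
    rw [e1, ← hνa, ← map_pow]
    constructor
    · rintro ⟨c, hc⟩
      have h1 := hc (1, 0)
      have h2 := hc (0, 1)
      rw [hfk] at h1 h2
      simp only [mul_one, mul_zero, Prod.smul_mk, smul_zero, Prod.mk.injEq] at h1 h2
      have h3' : (ν⁻¹) ^ n = c := by simpa using h2.2
      have h4 : a ^ n = algebraMap F L c := by
        rw [h1.1, Algebra.smul_def, mul_one]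
      rw [h4, ← map_mul, ← h3', ← mul_pow, inv_mul_cancel₀ hν0, one_pow, map_one]
    · intro h
      refine ⟨(ν⁻¹) ^ n, ?_⟩
      rintro ⟨v, z⟩
      rw [hfk, Prod.smul_mk, smul_eq_mul]
      congr 1
      rw [Algebra.smul_def]
      congr 1
      have hh : algebraMap F L ν ^ n ≠ 0 := by
        apply pow_ne_zero
        rw [Ne, map_eq_zero]
        exact hν0
      rw [map_pow, map_inv₀, inv_pow]
      exact eq_inv_of_mul_eq_one_left (by rw [map_pow] at h; exact h)
  rw [cond, hak, hq21]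
  have hke : Nat.Coprime e k := by
    have : Nat.gcd (d * k) (d * e) = d * Nat.gcd k e := Nat.gcd_mul_left _ _ _
    rw [← h3, ← hde, ← hdg] at this
    have h2 : d * 1 = d * Nat.gcd k e := by rw [mul_one]; exact this
    have := (Nat.eq_of_mul_eq_mul_left hd0 h2).symm
    exact Nat.Coprime.symm this
  have hcop : Nat.Coprime ((q + 1) * e) (e + k) := by
    apply Nat.Coprime.mul_left
    · have h1 : Nat.gcd (q + 1) (e + k) ∣ q + 2 := by
        rw [hq2e]
        exact (Nat.gcd_dvd_right _ _).trans (Nat.dvd_mul_left _ _)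
      have h2 : Nat.gcd (q + 1) (e + k) ∣ q + 1 := Nat.gcd_dvd_left _ _
      have h3'' : Nat.gcd (q + 1) (e + k) ∣ 1 := by
        exact (Nat.dvd_add_right h2).1 (show _ ∣ (q + 1) + 1 from h1)
      exact Nat.dvd_one.1 h3''
    · have := (Nat.coprime_add_self_right (m := e) (n := k)).2
      simpa [Nat.Coprime, Nat.gcd_comm, add_comm] using hke
  constructor
  · intro h
    have h1 : d * ((q + 1) * e) ∣ d * ((e + k) * n) := by
      have e1 : (q + 1) * (q - 1) = d * ((q + 1) * e) := by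
        rw [hde]; ring
      have e2 : (q + 2) * n = d * ((e + k) * n) := by
        rw [hq2e]; ring
      rwa [← e1, ← e2]
    have h2 := (Nat.mul_dvd_mul_iff_left hd0).1 h1
    exact hcop.dvd_of_dvd_mul_left h2
  · rintro ⟨t, rfl⟩
    refine ⟨(e + k) * t, ?_⟩
    rw [hq2e]
    have e1 : q - 1 = d * e := hde
    rw [e1]
    ring

/-- Element of order `f = (q²+q+1)/d`. -/
theorem exists_order_f (p : ℕ) [Fact p.Prime] [CharP F p] (hF : Fintype.card F = q) (hq : 2 ≤ q) {e f k : ℕ}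
    (hde : q - 1 = Nat.gcd 3 (q - 1) * e) (h3 : 3 = Nat.gcd 3 (q - 1) * k)
    (hf : q ^ 2 + q + 1 = Nat.gcd 3 (q - 1) * f) (hff : f = e * (q + 2) + k) :
    ∃ g : PSL3 F, orderOf g = f := by
  classical
  have hd0 : 0 < Nat.gcd 3 (q - 1) := Nat.gcd_pos_of_pos_left _ (by norm_num)
  set d := Nat.gcd 3 (q - 1) with hdg
  let L := FiniteField.Extension F p 3
  have hfin : finrank F L = 3 := FiniteField.finrank_extension F p 3
  have hcard : Nat.card L = q ^ 3 := by
    rw [FiniteField.natCard_extension, Nat.card_eq_fintype_card, hF]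
  obtain ⟨ζ, hζ0, hζ⟩ := CfsgLib.H9.USpec.exists_prim' L
  rw [hcard] at hζ
  set a := ζ ^ (q - 1) with ha
  have ha0 : a ≠ 0 := pow_ne_zero _ hζ0
  have hq3 : q ^ 3 - 1 = (q - 1) * (q ^ 2 + q + 1) := by
    obtain ⟨r, rfl⟩ : ∃ r, q = r + 1 := ⟨q - 1, by omega⟩
    simp only [Nat.add_sub_cancel]
    have : (r + 1) ^ 3 = r * ((r + 1) ^ 2 + (r + 1) + 1) + 1 := by ring
    omega
  have hak : ∀ n, a ^ n = 1 ↔ q ^ 2 + q + 1 ∣ n := by
    intro n
    rw [ha, ← pow_mul, hζ, hq3]
    exact Nat.mul_dvd_mul_iff_left (by omega)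
  let f₀ : L →ₗ[F] L := LinearMap.mulLeft F a
  have hfk : ∀ (n : ℕ) (v : L), (f₀ ^ n) v = a ^ n * v := by
    intro n
    induction n with
    | zero => intro v; simp
    | succ n ih =>
      intro v
      rw [pow_succ, Module.End.mul_apply]
      have : f₀ v = a * v := rfl
      rw [this, ih, pow_succ, mul_assoc]
  have hdet : LinearMap.det f₀ = 1 := by
    have h1 : f₀ = Algebra.lmul F L a := rfl
    rw [h1, ← Algebra.norm_apply, ha, map_pow]
    have := FiniteField.pow_card_sub_one_eq_one _ (Algebra.norm_ne_zero_iff.2 hζ0 : Algebra.norm F ζ ≠ 0)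
    rwa [hF] at this
  obtain ⟨g, hg⟩ := exists_of_lin hfin f₀ hdet
  refine ⟨g, CfsgLib.H9.USpec.orderOf_eq_of_iff fun n => (hg n).trans ?_⟩
  have hcop : Nat.Coprime f e := by
    have hke : Nat.gcd k e = 1 := by
      have : Nat.gcd (d * k) (d * e) = d * Nat.gcd k e := Nat.gcd_mul_left _ _ _
      rw [← h3, ← hde, ← hdg] at this
      have h2 : d * 1 = d * Nat.gcd k e := by rw [mul_one]; exact this
      exact (Nat.eq_of_mul_eq_mul_left hd0 h2).symm
    have : Nat.gcd f e ∣ Nat.gcd k e := by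
      apply Nat.dvd_gcd _ (Nat.gcd_dvd_right _ _)
      have a1 : Nat.gcd f e ∣ e * (q + 2) := (Nat.gcd_dvd_right _ _).trans (Nat.dvd_mul_right _ _)
      have a2 : Nat.gcd f e ∣ e * (q + 2) + k := hff ▸ Nat.gcd_dvd_left _ _
      exact (Nat.dvd_add_right a1).1 a2
    rw [hke] at this
    exact Nat.dvd_one.1 this
  constructor
  · rintro ⟨c, hc⟩
    have h1 := hc 1
    rw [hfk, mul_one, Algebra.smul_def, mul_one] at h1
    have hc0 : c ≠ 0 := by
      rintro rfl
      rw [map_zero] at h1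
      exact pow_ne_zero _ ha0 h1
    have h2 : (a ^ n) ^ (q - 1) = 1 := by
      rw [h1, ← map_pow]
      have := FiniteField.pow_card_sub_one_eq_one c hc0
      rw [hF] at this
      rw [this, map_one]
    rw [← pow_mul, hak] at h2
    have h3' : d * f ∣ d * (n * e) := by
      rw [← hf]
      refine h2.trans ⟨1, ?_⟩
      rw [hde]
      ring
    have h4 : f ∣ n * e := (Nat.mul_dvd_mul_iff_left hd0).1 h3'
    exact hcop.dvd_of_dvd_mul_right h4
  · rintro ⟨t, rfl⟩
    have h2 : a ^ (f * t * (q - 1)) = 1 := by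
      rw [hak, hf, hde]
      exact ⟨e * t, by ring⟩
    have hx0 : a ^ (f * t) ≠ 0 := pow_ne_zero _ ha0
    have h3' : (a ^ (f * t)) ^ (Fintype.card F) = a ^ (f * t) := by
      rw [hF]
      have e1 : q = (q - 1) + 1 := by omega
      calc (a ^ (f * t)) ^ q = (a ^ (f * t)) ^ ((q - 1) + 1) := by rw [← e1]
        _ = a ^ (f * t * (q - 1)) * a ^ (f * t) := by rw [pow_succ, ← pow_mul]
        _ = _ := by rw [h2, one_mul]
    obtain ⟨c, hc⟩ := CfsgLib.H9.USpec.mem_range_of_pow_card (a ^ (f * t)) h3'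
    refine ⟨c, fun v => ?_⟩
    rw [hfk, ← hc, Algebra.smul_def]

theorem numsL (q : ℕ) (hq : 2 ≤ q) : ∃ e f k : ℕ, q - 1 = Nat.gcd 3 (q - 1) * e ∧
    q ^ 2 + q + 1 = Nat.gcd 3 (q - 1) * f ∧ 3 = Nat.gcd 3 (q - 1) * k ∧ f = e * (q + 2) + k := by
  obtain ⟨e, he⟩ := Nat.gcd_dvd_right 3 (q - 1)
  obtain ⟨k, hk⟩ := Nat.gcd_dvd_left 3 (q - 1)
  set d := Nat.gcd 3 (q - 1) with hd
  refine ⟨e, e * (q + 2) + k, k, he, ?_, hk, rfl⟩
  rw [mul_add, ← hk, ← mul_assoc, ← he]
  obtain ⟨r, rfl⟩ : ∃ r, q = r + 1 := ⟨q - 1, by omega⟩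
  simp only [Nat.add_sub_cancel]
  ring

end CfsgLib.H9.LSpec
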