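import Mathlib

/-! Largest abelian subgroups of symmetric groups: orbit product bound and regular constructions. -/

namespace CfsgLib.H9.MaxAbelian

open Equiv

universe u

/-- An abelian group acting faithfully embeds into the product of its orbits. -/
theorem card_le_prod_orbits {X : Type u} [Fintype X] (A : Subgroup (Perm X))
    (hA : IsMulCommutative A) :
    ∃ (Ω : Type u) (_ : Fintype Ω) (d : Ω → ℕ), (∀ ω, 0 < d ω) ∧ ∑ ω, d ω = Fintype.card X ∧
      Nat.card A ≤ ∏ ω, d ω := by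
  classical
  let Ω := MulAction.orbitRel.Quotient A X
  haveI : Fintype Ω := Fintype.ofFinite _
  let O : Ω → Type u := fun ω => MulAction.orbit A (Quotient.out ω)
  haveI : ∀ ω, Fintype (O ω) := fun ω => Fintype.ofFinite _
  refine ⟨Ω, inferInstance, fun ω => Fintype.card (O ω), ?_, ?_, ?_⟩
  · intro ω
    exact Fintype.card_pos_iff.2 ⟨⟨_, MulAction.mem_orbit_self _⟩⟩
  · have e := MulAction.selfEquivSigmaOrbits A X
    have := Fintype.card_congr e
    rw [Fintype.card_sigma] at this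
    rw [this]
  · -- the evaluation map on representatives
    let Φ : A → ∀ ω : Ω, O ω := fun a ω => ⟨a • Quotient.out ω, MulAction.mem_orbit _ a⟩
    have hΦ : Function.Injective Φ := by
      intro a b hab
      apply Subtype.ext
      ext x
      -- x lies in some orbit
      let ω : Ω := Quotient.mk'' x
      obtain ⟨c, hc⟩ : ∃ c : A, (c : Perm X) (Quotient.out ω) = x := by
        have h2 : (Quotient.out ω) ∈ MulAction.orbit A x :=
          MulAction.orbitRel_apply.1 (Quotient.mk_out (s := MulAction.orbitRel A X) x)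
        obtain ⟨c, hc⟩ := h2
        refine ⟨c⁻¹, ?_⟩
        have hc' : (c : Perm X) x = Quotient.out ω := hc
        rw [← hc']
        simp
      have h1 : (a : Perm X) (Quotient.out ω) = (b : Perm X) (Quotient.out ω) :=
        congrArg Subtype.val (congrFun hab ω)
      rw [← hc]
      have ca : ((a : Perm X) * (c : Perm X)) = (c : Perm X) * (a : Perm X) :=
        congrArg Subtype.val (hA.is_comm.comm a c)
      have cb : ((b : Perm X) * (c : Perm X)) = (c : Perm X) * (b : Perm X) :=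
        congrArg Subtype.val (hA.is_comm.comm b c)
      have e1 : (a : Perm X) ((c : Perm X) (Quotient.out ω)) = (c : Perm X) ((a : Perm X) (Quotient.out ω)) :=
        congrArg (fun f : Perm X => f (Quotient.out ω)) ca
      have e2 : (b : Perm X) ((c : Perm X) (Quotient.out ω)) = (c : Perm X) ((b : Perm X) (Quotient.out ω)) :=
        congrArg (fun f : Perm X => f (Quotient.out ω)) cb
      rw [e1, e2, h1]
    have := Nat.card_le_card_of_injective Φ hΦ
    refine this.trans ?_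
    rw [Nat.card_pi]
    refine le_of_eq (Finset.prod_congr rfl fun ω _ => ?_)
    exact Nat.card_eq_fintype_card

/-- The maximal product function. -/
def f (n : ℕ) : ℕ :=
  if n % 3 = 0 then 3 ^ (n / 3)
  else if n % 3 = 1 then (if n = 1 then 1 else 4 * 3 ^ (n / 3 - 1))
  else 2 * 3 ^ (n / 3)

theorem f_3k (k : ℕ) : f (3 * k) = 3 ^ k := by
  have h1 : (3 * k) % 3 = 0 := by omega
  have h2 : (3 * k) / 3 = k := by omega
  simp [f, h1, h2]

theorem f_3k1 (k : ℕ) (hk : 1 ≤ k) : f (3 * k + 1) = 4 * 3 ^ (k - 1) := by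
  have h1 : (3 * k + 1) % 3 = 1 := by omega
  have h2 : (3 * k + 1) / 3 = k := by omega
  have h3 : k ≠ 0 := by omega
  simp [f, h1, h2, h3]

theorem f_3k2 (k : ℕ) : f (3 * k + 2) = 2 * 3 ^ k := by
  have h1 : (3 * k + 2) % 3 = 2 := by omega
  have h2 : (3 * k + 2) / 3 = k := by omega
  simp [f, h1, h2]

theorem f_one : f 1 = 1 := by simp [f]
theorem f_zero : f 0 = 1 := by simp [f]

theorem f_mono_succ (n : ℕ) : f n ≤ f (n + 1) := by
  obtain ⟨k, h | h | h⟩ : ∃ k, n = 3 * k ∨ n = 3 * k + 1 ∨ n = 3 * k + 2 :=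
    ⟨n / 3, by omega⟩
  · subst h
    rcases Nat.eq_zero_or_pos k with rfl | hk
    · simp [f]
    · rw [f_3k, f_3k1 _ hk]
      obtain ⟨j, rfl⟩ : ∃ j, k = j + 1 := ⟨k - 1, by omega⟩
      simp [pow_succ]
      omega
  · subst h
    rcases Nat.eq_zero_or_pos k with rfl | hk
    · simp [f]
    · rw [f_3k1 _ hk, show 3 * k + 1 + 1 = 3 * k + 2 by omega, f_3k2]
      obtain ⟨j, rfl⟩ : ∃ j, k = j + 1 := ⟨k - 1, by omega⟩
      simp [pow_succ]
      omega
  · subst h
    rw [show 3 * k + 2 + 1 = 3 * (k + 1) by omega, f_3k2, f_3k, pow_succ]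
    omega

theorem f_mono {a b : ℕ} (h : a ≤ b) : f a ≤ f b := monotone_nat_of_le_succ f_mono_succ h

theorem le_f (n : ℕ) (hn : 0 < n) : n ≤ f n := by
  have hA : ∀ j : ℕ, 2 * j + 1 ≤ 3 ^ j := by
    intro j
    induction j with
    | zero => simp
    | succ i ih =>
      rw [pow_succ]
      omega
  obtain ⟨k, h | h | h⟩ : ∃ k, n = 3 * k ∨ n = 3 * k + 1 ∨ n = 3 * k + 2 :=
    ⟨n / 3, by omega⟩
  · subst h
    rw [f_3k]
    obtain ⟨j, rfl⟩ : ∃ j, k = j + 1 := ⟨k - 1, by omega⟩
    rw [pow_succ]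
    have := hA j
    omega
  · subst h
    rcases Nat.eq_zero_or_pos k with rfl | hk
    · simp [f]
    · rw [f_3k1 _ hk]
      obtain ⟨j, rfl⟩ : ∃ j, k = j + 1 := ⟨k - 1, by omega⟩
      simp only [Nat.add_sub_cancel]
      have := hA j
      omega
  · subst h
    rw [f_3k2]
    have := hA k
    omega

theorem f_add (a b : ℕ) : f a * f b ≤ f (a + b) := by
  rcases Nat.eq_zero_or_pos a with rfl | ha
  · simp [f_zero]
  rcases Nat.eq_zero_or_pos b with rfl | hb
  · simp [f_zero]
  by_cases ha1 : a = 1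
  · subst ha1
    rw [f_one, one_mul, add_comm]
    exact f_mono_succ b
  by_cases hb1 : b = 1
  · subst hb1
    rw [f_one, mul_one]
    exact f_mono_succ a
  obtain ⟨k, hk⟩ : ∃ k, a = 3 * k ∨ a = 3 * k + 1 ∨ a = 3 * k + 2 := ⟨a / 3, by omega⟩
  obtain ⟨l, hl⟩ : ∃ l, b = 3 * l ∨ b = 3 * l + 1 ∨ b = 3 * l + 2 := ⟨b / 3, by omega⟩
  rcases hk with rfl | rfl | rfl <;> rcases hl with rfl | rfl | rfl
  · rw [f_3k, f_3k, show 3 * k + 3 * l = 3 * (k + l) by ring, f_3k, pow_add]
  · obtain ⟨j, rfl⟩ : ∃ j, l = j + 1 := ⟨l - 1, by omega⟩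
    rw [f_3k, f_3k1 _ (by omega), show 3 * k + (3 * (j + 1) + 1) = 3 * (k + (j + 1)) + 1 by ring,
      f_3k1 _ (by omega), show k + (j + 1) - 1 = k + j by omega, pow_add]
    simp only [Nat.add_sub_cancel]
    exact le_of_eq (by ring)
  · rw [f_3k, f_3k2, show 3 * k + (3 * l + 2) = 3 * (k + l) + 2 by ring, f_3k2, pow_add]
    exact le_of_eq (by ring)
  · obtain ⟨j, rfl⟩ : ∃ j, k = j + 1 := ⟨k - 1, by omega⟩
    rw [f_3k1 _ (by omega), f_3k, show 3 * (j + 1) + 1 + 3 * l = 3 * (j + 1 + l) + 1 by ring,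
      f_3k1 _ (by omega), show j + 1 + l - 1 = j + l by omega, pow_add]
    simp only [Nat.add_sub_cancel]
    exact le_of_eq (by ring)
  · obtain ⟨j, rfl⟩ : ∃ j, k = j + 1 := ⟨k - 1, by omega⟩
    obtain ⟨i, rfl⟩ : ∃ i, l = i + 1 := ⟨l - 1, by omega⟩
    rw [f_3k1 _ (by omega), f_3k1 _ (by omega),
      show 3 * (j + 1) + 1 + (3 * (i + 1) + 1) = 3 * (j + i + 2) + 2 by ring, f_3k2]
    simp only [Nat.add_sub_cancel]
    have : (3:ℕ) ^ (j + i + 2) = 3 ^ j * 3 ^ i * 9 := by ring
    rw [this]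
    have h1 : 0 < 3 ^ j * 3 ^ i := by positivity
    nlinarith
  · obtain ⟨j, rfl⟩ : ∃ j, k = j + 1 := ⟨k - 1, by omega⟩
    rw [f_3k1 _ (by omega), f_3k2,
      show 3 * (j + 1) + 1 + (3 * l + 2) = 3 * (j + l + 2) by ring, f_3k]
    simp only [Nat.add_sub_cancel]
    have : (3:ℕ) ^ (j + l + 2) = 3 ^ j * 3 ^ l * 9 := by ring
    rw [this]
    have h1 : 0 < 3 ^ j * 3 ^ l := by positivity
    nlinarith
  · rw [f_3k2, f_3k, show 3 * k + 2 + 3 * l = 3 * (k + l) + 2 by ring, f_3k2, pow_add]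
    exact le_of_eq (by ring)
  · obtain ⟨i, rfl⟩ : ∃ i, l = i + 1 := ⟨l - 1, by omega⟩
    rw [f_3k2, f_3k1 _ (by omega),
      show 3 * k + 2 + (3 * (i + 1) + 1) = 3 * (k + i + 2) by ring, f_3k]
    simp only [Nat.add_sub_cancel]
    have : (3:ℕ) ^ (k + i + 2) = 3 ^ k * 3 ^ i * 9 := by ring
    rw [this]
    have h1 : 0 < 3 ^ k * 3 ^ i := by positivity
    nlinarith
  · rw [f_3k2, f_3k2, show 3 * k + 2 + (3 * l + 2) = 3 * (k + l + 1) + 1 by ring,
      f_3k1 _ (by omega), show k + l + 1 - 1 = k + l by omega, pow_add]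
    exact le_of_eq (by ring)

theorem prod_le_f {Ω : Type*} (s : Finset Ω) (d : Ω → ℕ) (hd : ∀ ω ∈ s, 0 < d ω) :
    ∏ ω ∈ s, d ω ≤ f (∑ ω ∈ s, d ω) := by
  classical
  induction s using Finset.induction_on with
  | empty => simp [f_zero]
  | insert a s ha ih =>
    rw [Finset.prod_insert ha, Finset.sum_insert ha]
    have h1 := ih (fun ω hω => hd ω (Finset.mem_insert_of_mem hω))
    have h2 := le_f (d a) (hd a (Finset.mem_insert_self _ _))
    exact (Nat.mul_le_mul h2 h1).trans (f_add _ _)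

/-- Upper bound for abelian subgroups of symmetric groups. -/
theorem card_le_f {X : Type u} [Fintype X] (A : Subgroup (Perm X)) (hA : IsMulCommutative A) :
    Nat.card A ≤ f (Fintype.card X) := by
  obtain ⟨Ω, _, d, hd, hs, hc⟩ := card_le_prod_orbits A hA
  rw [← hs]
  exact hc.trans (prod_le_f _ d (fun ω _ => hd ω))

/-- Regular product actions: existence of abelian subgroup from orbit sizes. -/
theorem exists_regular {ι : Type} [Fintype ι] (d : ι → ℕ) (hd : ∀ i, 0 < d i) (n : ℕ)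
    (hn : ∑ i, d i = n) :
    ∃ A : Subgroup (Perm (Fin n)), IsMulCommutative A ∧ Nat.card A = ∏ i, d i := by
  classical
  haveI : ∀ i, NeZero (d i) := fun i => ⟨(hd i).ne'⟩
  let X := Σ i, ZMod (d i)
  haveI : ∀ i, Fintype (ZMod (d i)) := fun i => ZMod.fintype _
  have hX : Fintype.card X = n := by
    rw [← hn, Fintype.card_sigma]
    exact Finset.sum_congr rfl fun i _ => ZMod.card _
  let φ : Multiplicative (∀ i, ZMod (d i)) →* Perm X :=
    { toFun := fun h =>
        { toFun := fun x => ⟨x.1, x.2 + (Multiplicative.toAdd h) x.1⟩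
          invFun := fun x => ⟨x.1, x.2 - (Multiplicative.toAdd h) x.1⟩
          left_inv := fun x => by
            cases x; simp
          right_inv := fun x => by
            cases x; simp }
      map_one' := by
        ext x
        · rfl
        · simp [toAdd_one]
      map_mul' := fun a b => by
        ext x
        · rfl
        · simp only [toAdd_mul, Pi.add_apply, Equiv.Perm.coe_mul, Function.comp_apply, Equiv.coe_fn_mk]
          abel_nf
          rfl }
  have hφ : Function.Injective φ := by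
    intro a b hab
    apply Multiplicative.toAdd.injective
    funext i
    have := congrArg (fun f : Perm X => f ⟨i, 0⟩) hab
    have h2 : (⟨i, 0 + (Multiplicative.toAdd a) i⟩ : X) = ⟨i, 0 + (Multiplicative.toAdd b) i⟩ := this
    have h3 := eq_of_heq (Sigma.mk.inj_iff.1 h2).2
    simpa using h3
  let e : X ≃ Fin n := Fintype.equivFinOfCardEq hX
  let ψ : Perm X ≃* Perm (Fin n) := e.permCongrHom
  let A : Subgroup (Perm (Fin n)) := (φ.range).map ψ.toMonoidHom
  refine ⟨A, ?_, ?_⟩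
  · refine ⟨⟨?_⟩⟩
    rintro ⟨x, hx⟩ ⟨y, hy⟩
    obtain ⟨_, ⟨a, rfl⟩, rfl⟩ := hx
    obtain ⟨_, ⟨b, rfl⟩, rfl⟩ := hy
    apply Subtype.ext
    change ψ (φ a) * ψ (φ b) = ψ (φ b) * ψ (φ a)
    rw [← map_mul, ← map_mul, ← map_mul, ← map_mul, mul_comm]
  · have h1 : Nat.card A = Nat.card (φ.range) := by
      refine Nat.card_congr (Subgroup.equivMapOfInjective _ _ ψ.injective).symm.toEquiv
    rw [h1, Nat.card_congr (MonoidHom.ofInjective hφ).symm.toEquiv]
    rw [Nat.card_congr Multiplicative.toAdd, Nat.card_pi]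
    refine Finset.prod_congr rfl fun i _ => ?_
    rw [Nat.card_eq_fintype_card, ZMod.card]

end CfsgLib.H9.MaxAbelian
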