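import Cfsg.Agent.Lib.H9.MaxAbelian

/-! Largest abelian subgroups of alternating groups. -/

namespace CfsgLib.H9.MaxAbelian

open Equiv Equiv.Perm

universe u

/-- The property defining the local model: even, and trivial or fixed point free. -/
def EvenReg {d : ℕ} (g : Perm (Fin d)) : Prop := sign g = 1 ∧ (g = 1 ∨ ∀ x, g x ≠ x)

instance {d : ℕ} : DecidablePred (EvenReg (d := d)) := fun g => by
  unfold EvenReg; infer_instance

/-- Regular even model on three points. -/
def U3 : Subgroup (Perm (Fin 3)) where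
  carrier := {g | EvenReg g}
  mul_mem' := by
    have : ∀ a b : Perm (Fin 3), EvenReg a → EvenReg b → EvenReg (a * b) := by decide +kernel
    exact fun {a b} ha hb => this a b ha hb
  one_mem' := by
    have : EvenReg (1 : Perm (Fin 3)) := by decide +kernel
    exact this
  inv_mem' := by
    have : ∀ a : Perm (Fin 3), EvenReg a → EvenReg a⁻¹ := by decide +kernel
    exact fun {a} ha => this a ha

/-- Regular even model on four points. -/
def U4 : Subgroup (Perm (Fin 4)) where
  carrier := {g | EvenReg g}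
  mul_mem' := by
    have : ∀ a b : Perm (Fin 4), EvenReg a → EvenReg b → EvenReg (a * b) := by decide +kernel
    exact fun {a b} ha hb => this a b ha hb
  one_mem' := by
    have : EvenReg (1 : Perm (Fin 4)) := by decide +kernel
    exact this
  inv_mem' := by
    have : ∀ a : Perm (Fin 4), EvenReg a → EvenReg a⁻¹ := by decide +kernel
    exact fun {a} ha => this a ha

theorem comm_U3 (a b : U3) : a * b = b * a := by
  have : ∀ a b : Perm (Fin 3), EvenReg a → EvenReg b → a * b = b * a := by decide +kernel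
  exact Subtype.ext (this a.1 b.1 a.2 b.2)

theorem comm_U4 (a b : U4) : a * b = b * a := by
  have : ∀ a b : Perm (Fin 4), EvenReg a → EvenReg b → a * b = b * a := by decide +kernel
  exact Subtype.ext (this a.1 b.1 a.2 b.2)

theorem card_U3 : Nat.card U3 = 3 := by
  have : Nat.card U3 = (Finset.univ.filter (EvenReg (d := 3))).card :=
    Nat.subtype_card _ (fun x => by simp; rfl)
  rw [this]
  decide +kernel

theorem card_U4 : Nat.card U4 = 4 := by
  have : Nat.card U4 = (Finset.univ.filter (EvenReg (d := 4))).card :=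
    Nat.subtype_card _ (fun x => by simp; rfl)
  rw [this]
  decide +kernel

/-- Model group. -/
theorem exists_model (a b n : ℕ) (hn : 3 * a + 4 * b = n) :
    ∃ A : Subgroup (alternatingGroup (Fin n)), IsMulCommutative A ∧ Nat.card A = 3 ^ a * 4 ^ b := by
  classical
  let X := (Fin a × Fin 3) ⊕ (Fin b × Fin 4)
  have hX : Fintype.card X = n := by
    simp [X, ← hn]; ring
  let e : X ≃ Fin n := Fintype.equivFinOfCardEq hX
  let H := (Fin a → U3) × (Fin b → U4)
  let φ : H →* Perm X :=
    { toFun := fun h => Equiv.Perm.sumCongr (prodCongrRight fun i => (h.1 i : Perm (Fin 3)))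
        (prodCongrRight fun j => (h.2 j : Perm (Fin 4)))
      map_one' := by
        ext x
        rcases x with ⟨i, x⟩ | ⟨j, x⟩ <;> rfl
      map_mul' := fun h h' => by
        ext x
        rcases x with ⟨i, x⟩ | ⟨j, x⟩ <;> rfl }
  have hφinj : Function.Injective φ := by
    intro h h' hh
    have h1 : ∀ i x, (h.1 i : Perm (Fin 3)) x = (h'.1 i : Perm (Fin 3)) x := by
      intro i x
      have h3 : (Sum.inl (i, (h.1 i : Perm (Fin 3)) x) : X) = Sum.inl (i, (h'.1 i : Perm (Fin 3)) x) :=
        congrArg (fun f : Perm X => f (Sum.inl (i, x))) hh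
      simpa using h3
    have h2 : ∀ j x, (h.2 j : Perm (Fin 4)) x = (h'.2 j : Perm (Fin 4)) x := by
      intro j x
      have h3 : (Sum.inr (j, (h.2 j : Perm (Fin 4)) x) : X) = Sum.inr (j, (h'.2 j : Perm (Fin 4)) x) :=
        congrArg (fun f : Perm X => f (Sum.inr (j, x))) hh
      simpa using h3
    refine Prod.ext (funext fun i => Subtype.ext (Equiv.ext (h1 i)))
      (funext fun j => Subtype.ext (Equiv.ext (h2 j)))
  have hsign : ∀ h, sign (φ h) = 1 := by
    intro h
    change sign (Equiv.Perm.sumCongr _ _) = 1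
    rw [sign_sumCongr, sign_prodCongrRight, sign_prodCongrRight]
    have h1 : ∀ i, sign (h.1 i : Perm (Fin 3)) = 1 := fun i => (h.1 i).2.1
    have h2 : ∀ j, sign (h.2 j : Perm (Fin 4)) = 1 := fun j => (h.2 j).2.1
    simp [h1, h2]
  let ψ : Perm X ≃* Perm (Fin n) := e.permCongrHom
  let χ : H →* alternatingGroup (Fin n) :=
    MonoidHom.codRestrict (ψ.toMonoidHom.comp φ) (alternatingGroup (Fin n)) (fun h => by
      rw [mem_alternatingGroup]
      change sign (e.permCongr (φ h)) = 1
      rw [sign_permCongr]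
      exact hsign h)
  have hχ : Function.Injective χ := by
    intro h h' hh
    have : ψ (φ h) = ψ (φ h') := congrArg Subtype.val hh
    exact hφinj (ψ.injective this)
  refine ⟨χ.range, ⟨⟨?_⟩⟩, ?_⟩
  · rintro ⟨_, ⟨x, rfl⟩⟩ ⟨_, ⟨y, rfl⟩⟩
    apply Subtype.ext
    change χ x * χ y = χ y * χ x
    rw [← map_mul, ← map_mul]
    congr 1
    refine Prod.ext (funext fun i => comm_U3 _ _) (funext fun j => comm_U4 _ _)
  · rw [Nat.card_congr (MonoidHom.ofInjective hχ).symm.toEquiv]
    change Nat.card ((Fin a → U3) × (Fin b → U4)) = _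
    rw [Nat.card_prod, Nat.card_fun, Nat.card_fun, card_U3, card_U4]
    simp

/-- An alternating subgroup seen as a subgroup of the symmetric group. -/
theorem card_le_f_alt {n : ℕ} (A : Subgroup (alternatingGroup (Fin n))) (hA : IsMulCommutative A) :
    Nat.card A ≤ f n := by
  let A' : Subgroup (Perm (Fin n)) := A.map (alternatingGroup (Fin n)).subtype
  have h1 : Nat.card A' = Nat.card A :=
    Nat.card_congr (Subgroup.equivMapOfInjective A _ (Subgroup.subtype_injective _)).symm.toEquiv
  have h2 : IsMulCommutative A' := by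
    refine ⟨⟨?_⟩⟩
    rintro ⟨_, ⟨x, hx, rfl⟩⟩ ⟨_, ⟨y, hy, rfl⟩⟩
    apply Subtype.ext
    have := congrArg Subtype.val (hA.is_comm.comm ⟨x, hx⟩ ⟨y, hy⟩)
    change (x : Perm (Fin n)) * y = y * x
    exact congrArg Subtype.val this
  have := card_le_f A' h2
  rw [h1] at this
  simpa using this

/-- Numeric part for degree `3k+2`. -/
theorem key_x (k x : ℕ) (hk : 2 ≤ k) (hx : 1 ≤ x) (hxn : x ≤ 3 * k + 2) (h2 : x ≠ 2) (h3 : x ≠ 3) :
    x * f (3 * k + 2 - x) ≤ 16 * 3 ^ (k - 2) := by
  obtain ⟨j, rfl⟩ : ∃ j, k = j + 2 := ⟨k - 2, by omega⟩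
  simp only [Nat.add_sub_cancel]
  have h4 : f (3 * (j + 2) + 2 - 4) = 4 * 3 ^ j := by
    rw [show 3 * (j + 2) + 2 - 4 = 3 * (j + 1) + 1 by omega, f_3k1 _ (by omega)]
    simp
  by_cases h1 : x = 1
  · subst h1
    rw [show 3 * (j + 2) + 2 - 1 = 3 * (j + 2) + 1 by omega, f_3k1 _ (by omega)]
    rw [show j + 2 - 1 = j + 1 by omega, pow_succ]
    nlinarith [Nat.one_le_pow j 3 (by norm_num)]
  by_cases h4' : x = 4
  · subst h4'
    rw [h4]; ring_nf; rfl
  by_cases h5 : x = 5
  · subst h5
    rw [show 3 * (j + 2) + 2 - 5 = 3 * (j + 1) by omega, f_3k, pow_succ]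
    nlinarith [Nat.one_le_pow j 3 (by norm_num)]
  have hx6 : 6 ≤ x := by omega
  have h6 : x ≤ 4 * f (x - 4) := by
    have := le_f (x - 4) (by omega)
    omega
  calc x * f (3 * (j + 2) + 2 - x) ≤ 4 * f (x - 4) * f (3 * (j + 2) + 2 - x) :=
        Nat.mul_le_mul_right _ h6
    _ = 4 * (f (x - 4) * f (3 * (j + 2) + 2 - x)) := by ring
    _ ≤ 4 * f (x - 4 + (3 * (j + 2) + 2 - x)) := Nat.mul_le_mul_left _ (f_add _ _)
    _ = 16 * 3 ^ j := by
        rw [show x - 4 + (3 * (j + 2) + 2 - x) = 3 * (j + 2) + 2 - 4 by omega, h4]; ring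

theorem prod_numeric {Ω : Type*} [Fintype Ω] [DecidableEq Ω] (d : Ω → ℕ) (hd : ∀ ω, 0 < d ω) (k : ℕ)
    (hk : 2 ≤ k) (hs : ∑ ω, d ω = 3 * k + 2) :
    ∏ ω, d ω ≤ 16 * 3 ^ (k - 2) ∨ ∃ ω₀, d ω₀ = 2 ∧ ∀ ω, ω ≠ ω₀ → d ω = 3 := by
  have herase : ∀ ω, d ω * f (3 * k + 2 - d ω) ≥ ∏ ω', d ω' := by
    intro ω
    rw [← Finset.mul_prod_erase _ _ (Finset.mem_univ ω)]
    refine Nat.mul_le_mul_left _ ?_
    have h1 := prod_le_f (Finset.univ.erase ω) d (fun _ _ => hd _)
    refine h1.trans (f_mono ?_)
    have := Finset.add_sum_erase Finset.univ d (Finset.mem_univ ω)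
    omega
  by_cases h1 : ∃ ω, d ω ≠ 2 ∧ d ω ≠ 3
  · obtain ⟨ω, h2, h3⟩ := h1
    left
    refine (herase ω).trans (key_x k _ hk (hd ω) ?_ h2 h3)
    rw [← hs]
    exact Finset.single_le_sum (f := d) (fun _ _ => Nat.zero_le _) (Finset.mem_univ ω)
  push Not at h1
  by_cases h4 : ∃ ω ω', ω ≠ ω' ∧ d ω = 2 ∧ d ω' = 2
  · obtain ⟨ω, ω', hne, h2, h2'⟩ := h4
    left
    have e1 : ∏ ω, d ω = d ω * (d ω' * ∏ x ∈ (Finset.univ.erase ω).erase ω', d x) := by
      rw [Finset.mul_prod_erase _ _ (Finset.mem_erase.2 ⟨hne.symm, Finset.mem_univ _⟩),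
        Finset.mul_prod_erase _ _ (Finset.mem_univ ω)]
    have e2 : ∑ ω, d ω = d ω + (d ω' + ∑ x ∈ (Finset.univ.erase ω).erase ω', d x) := by
      rw [Finset.add_sum_erase _ _ (Finset.mem_erase.2 ⟨hne.symm, Finset.mem_univ _⟩),
        Finset.add_sum_erase _ _ (Finset.mem_univ ω)]
    have h5 := prod_le_f ((Finset.univ.erase ω).erase ω') d (fun _ _ => hd _)
    have e3 : ∑ x ∈ (Finset.univ.erase ω).erase ω', d x = 3 * k + 2 - 4 := by
      rw [h2, h2', hs] at e2
      omega
    rw [e3] at h5
    obtain ⟨j, rfl⟩ : ∃ j, k = j + 2 := ⟨k - 2, by omega⟩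
    rw [show 3 * (j + 2) + 2 - 4 = 3 * (j + 1) + 1 by omega, f_3k1 _ (by omega)] at h5
    simp only [Nat.add_sub_cancel] at h5 ⊢
    rw [e1, h2, h2']
    nlinarith
  push Not at h4
  right
  by_cases h5 : ∃ ω, d ω = 2
  · obtain ⟨ω₀, h0⟩ := h5
    refine ⟨ω₀, h0, fun ω hω => ?_⟩
    have h6 := h1 ω
    by_contra h7
    have h8 : d ω = 2 := by
      by_contra h9
      exact h7 (h6 h9)
    exact h4 ω ω₀ hω h8 h0
  · push Not at h5
    exfalso
    have h6 : ∀ ω, d ω = 3 := fun ω => h1 ω (h5 ω)
    simp only [h6, Finset.sum_const, smul_eq_mul] at hs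
    omega

/-- Orbit size. -/
noncomputable def D {X : Type u} (A : Subgroup (Perm X)) (z : X) : ℕ := (MulAction.orbit A z).ncard

theorem D_pos {X : Type u} [Finite X] (A : Subgroup (Perm X)) (z : X) : 0 < D A z :=
  (Set.ncard_pos (Set.toFinite _)).2 ⟨z, MulAction.mem_orbit_self z⟩

theorem D_congr {X : Type u} (A : Subgroup (Perm X)) {y z : X} (h : y ∈ MulAction.orbit A z) :
    D A y = D A z := by
  unfold D
  rw [MulAction.orbit_eq_iff.2 h]

theorem D_out {X : Type u} (A : Subgroup (Perm X)) (z : X) :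
    D A (Quotient.out (Quotient.mk'' z : MulAction.orbitRel.Quotient A X)) = D A z :=
  D_congr A (MulAction.orbitRel_apply.1 (Quotient.mk_out (s := MulAction.orbitRel A X) z))

theorem sum_D {X : Type u} [Fintype X] (A : Subgroup (Perm X))
    [Fintype (MulAction.orbitRel.Quotient A X)] :
    ∑ ω : MulAction.orbitRel.Quotient A X, D A (Quotient.out ω) = Fintype.card X := by
  classical
  have e := MulAction.selfEquivSigmaOrbits A X
  have h1 : Nat.card X = Nat.card (Σ ω : MulAction.orbitRel.Quotient A X,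
      MulAction.orbit A (Quotient.out ω)) := Nat.card_congr e
  rw [Nat.card_sigma] at h1
  rw [← Nat.card_eq_fintype_card, h1]
  rfl

/-- The evaluation map on representatives. -/
noncomputable def evalRep {X : Type u} (A : Subgroup (Perm X)) :
    A → ∀ ω : MulAction.orbitRel.Quotient A X, MulAction.orbit A (Quotient.out ω) :=
  fun a ω => ⟨a • Quotient.out ω, MulAction.mem_orbit _ a⟩

theorem evalRep_injective {X : Type u} (A : Subgroup (Perm X)) (hA : IsMulCommutative A) :
    Function.Injective (evalRep A) := by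
  intro a b hab
  apply Subtype.ext
  ext x
  let ω : MulAction.orbitRel.Quotient A X := Quotient.mk'' x
  obtain ⟨c, hc⟩ : ∃ c : A, (c : Perm X) (Quotient.out ω) = x := by
    have h2 : (Quotient.out ω) ∈ MulAction.orbit A x :=
      MulAction.orbitRel_apply.1 (Quotient.mk_out (s := MulAction.orbitRel A X) x)
    obtain ⟨c, hc⟩ := h2
    refine ⟨c⁻¹, ?_⟩
    have hc' : (c : Perm X) x = Quotient.out ω := hc
    rw [← hc']
    simp
  have h1 : (a : Perm X) (Quotient.out ω) = (b : Perm X) (Quotient.out ω) :=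
    congrArg Subtype.val (congrFun hab ω)
  rw [← hc]
  have ca : ((a : Perm X) * (c : Perm X)) = (c : Perm X) * (a : Perm X) :=
    congrArg Subtype.val (hA.is_comm.comm a c)
  have cb : ((b : Perm X) * (c : Perm X)) = (c : Perm X) * (b : Perm X) :=
    congrArg Subtype.val (hA.is_comm.comm b c)
  have e1 : (a : Perm X) ((c : Perm X) (Quotient.out ω)) = (c : Perm X) ((a : Perm X) (Quotient.out ω)) :=
    congrArg (fun f : Perm X => f (Quotient.out ω)) ca
  have e2 : (b : Perm X) ((c : Perm X) (Quotient.out ω)) = (c : Perm X) ((b : Perm X) (Quotient.out ω)) :=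
    congrArg (fun f : Perm X => f (Quotient.out ω)) cb
  rw [e1, e2, h1]

theorem card_le_prod_D {X : Type u} [Fintype X] (A : Subgroup (Perm X)) (hA : IsMulCommutative A)
    [Fintype (MulAction.orbitRel.Quotient A X)] :
    Nat.card A ≤ ∏ ω : MulAction.orbitRel.Quotient A X, D A (Quotient.out ω) := by
  have := Nat.card_le_card_of_injective _ (evalRep_injective A hA)
  refine this.trans (le_of_eq ?_)
  rw [Nat.card_pi]
  rfl

/-- In an abelian group, the power given by the orbit size fixes the point. -/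
theorem pow_D_fix {X : Type u} [Finite X] (A : Subgroup (Perm X)) (hA : IsMulCommutative A) (a : A) (z : X) :
    ((a ^ D A z : A) : Perm X) z = z := by
  have hN : (MulAction.stabilizer A z).Normal := by
    refine ⟨fun n hn g => ?_⟩
    have : g * n * g⁻¹ = n := by
      rw [hA.is_comm.comm g n, mul_inv_cancel_right]
    rw [this]
    exact hn
  have h1 := Subgroup.pow_index_mem (MulAction.stabilizer A z) a
  rw [MulAction.index_stabilizer] at h1
  exact h1

/-- The pattern `(2, 3, 3, …)` does not occur for an even abelian group. -/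
theorem no_pattern {X : Type u} [Fintype X] [DecidableEq X] (A : Subgroup (Perm X))
    (hA : IsMulCommutative A) (hs : ∀ a ∈ A, sign a = 1)
    (ω₀ : MulAction.orbitRel.Quotient A X) (h2 : D A (Quotient.out ω₀) = 2)
    (h3 : ∀ ω, ω ≠ ω₀ → D A (Quotient.out ω) = 3) : False := by
  set x := Quotient.out ω₀ with hx
  have hDx : (MulAction.orbit A x).ncard = 2 := h2
  obtain ⟨y, hy, hyx⟩ : ∃ y ∈ MulAction.orbit A x, y ≠ x :=
    Set.exists_ne_of_one_lt_ncard (by omega) x
  have horb : MulAction.orbit A x = {x, y} := by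
    symm
    refine Set.eq_of_subset_of_ncard_le ?_ ?_ (Set.toFinite _)
    · rintro w (rfl | rfl)
      · exact MulAction.mem_orbit_self _
      · exact hy
    · rw [hDx, Set.ncard_pair hyx.symm]
  obtain ⟨a, ha⟩ := hy
  have ha' : (a : Perm X) x = y := ha
  have hDy : D A y = 2 := by
    rw [D_congr A (show y ∈ MulAction.orbit A x from ⟨a, ha⟩)]
    exact h2
  have fx := pow_D_fix A hA a x
  have fy := pow_D_fix A hA a y
  rw [show D A x = 2 from h2] at fx
  rw [hDy] at fy
  have hb : ((a ^ 3 : A) : Perm X) = swap x y := by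
    ext z
    by_cases hz : z ∈ MulAction.orbit A x
    · rw [horb] at hz
      rcases hz with rfl | hz
      · rw [swap_apply_left, pow_succ']
        change (a : Perm X) ((a ^ 2 : A) • x) = y
        rw [show (a ^ 2 : A) • x = x from fx]
        exact ha'
      · have hz : z = y := hz
        subst hz
        rw [swap_apply_right, pow_succ']
        change (a : Perm X) ((a ^ 2 : A) • z) = x
        rw [show (a ^ 2 : A) • z = z from fy]
        have h5 : (a : Perm X) z ∈ MulAction.orbit A x := by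
          rw [MulAction.mem_orbit_iff]
          refine ⟨a * a, ?_⟩
          rw [mul_smul]
          exact congrArg _ ha
        rw [horb] at h5
        rcases h5 with h5 | h5
        · exact h5
        · exfalso
          have h6 : (a : Perm X) z = z := h5
          exact hyx ((a : Perm X).injective (h6.trans ha'.symm))
    · have hne : (Quotient.mk'' z : MulAction.orbitRel.Quotient A X) ≠ ω₀ := by
        intro h
        apply hz
        have h7 : (Quotient.out ω₀) = Quotient.out (Quotient.mk'' z : MulAction.orbitRel.Quotient A X) := by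
          rw [h]
        have h8 : Quotient.out (Quotient.mk'' z : MulAction.orbitRel.Quotient A X) ∈ MulAction.orbit A z :=
          MulAction.orbitRel_apply.1 (Quotient.mk_out (s := MulAction.orbitRel A X) z)
        have h9 : x ∈ MulAction.orbit A z := by
          rw [hx, h7]; exact h8
        exact MulAction.mem_orbit_symm.1 h9
      have h10 : D A z = 3 := by
        rw [← D_out, h3 _ hne]
      have fz := pow_D_fix A hA a z
      rw [h10] at fz
      rw [fz]
      have hzx : z ≠ x := fun h => hz (h ▸ MulAction.mem_orbit_self _)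
      have hzy : z ≠ y := fun h => hz (h ▸ ⟨a, ha⟩)
      rw [swap_apply_of_ne_of_ne hzx hzy]
  have := hs ((a ^ 3 : A) : Perm X) (a ^ 3).2
  rw [hb, sign_swap hyx.symm] at this
  exact absurd this (by decide)

/-- The upper bound for degree `3k+2`. -/
theorem card_le_alt {X : Type u} [Fintype X] [DecidableEq X] (A : Subgroup (Perm X))
    (hA : IsMulCommutative A) (hs : ∀ a ∈ A, sign a = 1) (k : ℕ) (hk : 2 ≤ k)
    (hX : Fintype.card X = 3 * k + 2) : Nat.card A ≤ 16 * 3 ^ (k - 2) := by
  classical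
  haveI : Fintype (MulAction.orbitRel.Quotient A X) := Fintype.ofFinite _
  rcases prod_numeric (fun ω : MulAction.orbitRel.Quotient A X => D A (Quotient.out ω))
    (fun ω => D_pos A _) k hk (by rw [sum_D, hX]) with h | ⟨ω₀, h2, h3⟩
  · exact (card_le_prod_D A hA).trans h
  · exact (no_pattern A hA hs ω₀ h2 h3).elim

theorem card_le_alt' {n : ℕ} (A : Subgroup (alternatingGroup (Fin n))) (hA : IsMulCommutative A)
    (k : ℕ) (hk : 2 ≤ k) (hn : n = 3 * k + 2) : Nat.card A ≤ 16 * 3 ^ (k - 2) := by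
  let A' : Subgroup (Perm (Fin n)) := A.map (alternatingGroup (Fin n)).subtype
  have h1 : Nat.card A' = Nat.card A :=
    Nat.card_congr (Subgroup.equivMapOfInjective A _ (Subgroup.subtype_injective _)).symm.toEquiv
  have h2 : IsMulCommutative A' := by
    refine ⟨⟨?_⟩⟩
    rintro ⟨_, ⟨x, hx, rfl⟩⟩ ⟨_, ⟨y, hy, rfl⟩⟩
    apply Subtype.ext
    have := congrArg Subtype.val (hA.is_comm.comm ⟨x, hx⟩ ⟨y, hy⟩)
    change (x : Perm (Fin n)) * y = y * x
    exact congrArg Subtype.val this
  rw [← h1]
  refine card_le_alt A' h2 ?_ k hk (by simp [hn])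
  rintro _ ⟨x, _, rfl⟩
  exact x.2

end CfsgLib.H9.MaxAbelian
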