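import Cfsg.Agent.Lib.H9.MaxAbelianAlt

/-! Conjugacy of the largest abelian subgroups of alternating groups. -/

namespace CfsgLib.H9.MaxAbelian

open Equiv Equiv.Perm
open scoped Pointwise

universe u

section Local

variable {X : Type u}

/-- Localisation property: the action on one orbit is realised by an element supported on it. -/
def Loc (A : Subgroup (Perm X)) : Prop :=
  ∀ a ∈ A, ∀ r : X, ∃ a' ∈ A, a' r = a r ∧ ∀ x, x ∉ MulAction.orbit A r → a' x = x

theorem fix_all (A : Subgroup (Perm X)) (hA : IsMulCommutative A) (g : A) (z : X) (hz : (g : Perm X) z = z)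
    (y : X) (hy : y ∈ MulAction.orbit A z) : (g : Perm X) y = y := by
  obtain ⟨c, rfl⟩ := hy
  have h1 : (g : Perm X) * c = c * g := congrArg Subtype.val (hA.is_comm.comm g c)
  change (g : Perm X) ((c : Perm X) z) = (c : Perm X) z
  have h2 : (g : Perm X) ((c : Perm X) z) = (c : Perm X) ((g : Perm X) z) :=
    congrArg (fun f : Perm X => f z) h1
  rw [h2, hz]

/-- From the product formula to localisation. -/
theorem loc_of_full [Fintype X] (A : Subgroup (Perm X)) (hA : IsMulCommutative A)
    [Fintype (MulAction.orbitRel.Quotient A X)]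
    (hfull : Nat.card A = ∏ ω : MulAction.orbitRel.Quotient A X, D A (Quotient.out ω)) : Loc A := by
  classical
  have hbij : Function.Bijective (evalRep A) := by
    refine ⟨evalRep_injective A hA, ?_⟩
    have hc : Nat.card A = Nat.card (∀ ω : MulAction.orbitRel.Quotient A X,
        MulAction.orbit A (Quotient.out ω)) := by
      rw [Nat.card_pi, hfull]
      rfl
    haveI : Finite A := inferInstance
    exact (Nat.bijective_iff_injective_and_card _).2 ⟨evalRep_injective A hA, hc⟩ |>.2
  intro a ha r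
  let ω₀ : MulAction.orbitRel.Quotient A X := Quotient.mk'' r
  have hr₀ : Quotient.out ω₀ ∈ MulAction.orbit A r :=
    MulAction.orbitRel_apply.1 (Quotient.mk_out (s := MulAction.orbitRel A X) r)
  let fam : ∀ ω : MulAction.orbitRel.Quotient A X, MulAction.orbit A (Quotient.out ω) := fun ω =>
    if h : ω = ω₀ then
      ⟨(⟨a, ha⟩ : A) • Quotient.out ω, MulAction.mem_orbit _ _⟩
    else ⟨Quotient.out ω, MulAction.mem_orbit_self _⟩
  obtain ⟨b, hb⟩ := hbij.2 fam
  have hb' : ∀ ω, (b : Perm X) (Quotient.out ω) = (fam ω).1 := fun ω =>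
    congrArg Subtype.val (congrFun hb ω)
  refine ⟨b, b.2, ?_, ?_⟩
  · -- agreement on the whole orbit
    have h1 : (b : Perm X) (Quotient.out ω₀) = a (Quotient.out ω₀) := by
      rw [hb']
      simp only [fam, dif_pos rfl]
      rfl
    let c : A := (⟨a, ha⟩ : A)⁻¹ * b
    have h2 : (c : Perm X) (Quotient.out ω₀) = Quotient.out ω₀ := by
      change a⁻¹ ((b : Perm X) (Quotient.out ω₀)) = _
      rw [h1]
      simp
    have h3 := fix_all A hA c _ h2 r (MulAction.mem_orbit_symm.1 hr₀)
    have h4 : a⁻¹ ((b : Perm X) r) = r := h3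
    rw [Equiv.Perm.inv_eq_iff_eq] at h4
    exact h4
  · intro x hx
    let ω : MulAction.orbitRel.Quotient A X := Quotient.mk'' x
    have hne : ω ≠ ω₀ := by
      intro h
      apply hx
      have h5 : (MulAction.orbitRel A X).r x r := Quotient.exact h
      exact MulAction.orbitRel_apply.1 h5
    have h1 : (b : Perm X) (Quotient.out ω) = Quotient.out ω := by
      rw [hb']
      simp only [fam, dif_neg hne]
    have hx₀ : Quotient.out ω ∈ MulAction.orbit A x :=
      MulAction.orbitRel_apply.1 (Quotient.mk_out (s := MulAction.orbitRel A X) x)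
    exact fix_all A hA b _ h1 x (MulAction.mem_orbit_symm.1 hx₀)

/-- Two regular even elements on a small set. -/
theorem evenReg_eq3 : ∀ g h : Perm (Fin 3), EvenReg g → EvenReg h → ∀ i, g i = h i → g = h := by
  decide +kernel

theorem evenReg_eq4 : ∀ g h : Perm (Fin 4), EvenReg g → EvenReg h → ∀ i, g i = h i → g = h := by
  decide +kernel

variable [Fintype X] [DecidableEq X]

/-- Restriction of a permutation supported on a set. -/
theorem u34 (O : Set X) (d : ℕ) (hO : O.ncard = d) (hd : d = 3 ∨ d = 4) (g h : Perm X)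
    (hg : ∀ x, x ∉ O → g x = x) (hh : ∀ x, x ∉ O → h x = x) (sg : sign g = 1) (sh : sign h = 1)
    (rg : (∀ x ∈ O, g x = x) ∨ ∀ x ∈ O, g x ≠ x) (rh : (∀ x ∈ O, h x = x) ∨ ∀ x ∈ O, h x ≠ x)
    (r : X) (hr : r ∈ O) (hgh : g r = h r) : g = h := by
  classical
  have hcard : Fintype.card O = d := by
    rw [← Nat.card_coe_set_eq] at hO
    rw [← hO, Nat.card_eq_fintype_card]
  let e : O ≃ Fin d := Fintype.equivFinOfCardEq hcard
  have himg : ∀ (f : Perm X), (∀ x, x ∉ O → f x = x) → ∀ x, f x ∈ O ↔ x ∈ O := by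
    intro f hf x
    constructor
    · intro h1
      by_contra h2
      apply h2
      have := hf x h2
      rw [this] at h1
      exact h1
    · intro h1
      by_contra h2
      have h3 := hf (f x) h2
      have := f.injective h3
      rw [this] at h2
      exact h2 h1
  let G : Perm (Fin d) := e.permCongr (g.subtypePerm (himg g hg))
  let H : Perm (Fin d) := e.permCongr (h.subtypePerm (himg h hh))
  have hmk : ∀ (f : Perm X) (hf : ∀ x, x ∉ O → f x = x), sign f = 1 →
      ((∀ x ∈ O, f x = x) ∨ ∀ x ∈ O, f x ≠ x) → EvenReg (e.permCongr (f.subtypePerm (himg f hf))) := by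
    intro f hf s1 s2
    constructor
    · rw [sign_permCongr, sign_subtypePerm f (himg f hf)]
      · exact s1
      · intro x hx
        by_contra h3
        exact hx (hf x h3)
    · rcases s2 with s2 | s2
      · left
        ext i
        have h1 : ((f.subtypePerm (himg f hf)) (e.symm i)) = e.symm i := by
          apply Subtype.ext
          exact s2 _ (e.symm i).2
        change ((e ((f.subtypePerm (himg f hf)) (e.symm i))) : ℕ) = _
        rw [h1]
        simp
      · right
        intro i hi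
        have h1 : e ((f.subtypePerm (himg f hf)) (e.symm i)) = i := hi
        have h2 : (f.subtypePerm (himg f hf)) (e.symm i) = e.symm i :=
          (Equiv.apply_eq_iff_eq_symm_apply e).1 h1
        have h3 : f (e.symm i).1 = (e.symm i).1 := congrArg Subtype.val h2
        exact s2 _ (e.symm i).2 h3
  have hG := hmk g hg sg rg
  have hH := hmk h hh sh rh
  have hpt : G (e ⟨r, hr⟩) = H (e ⟨r, hr⟩) := by
    change e ((g.subtypePerm (himg g hg)) (e.symm (e ⟨r, hr⟩))) = e ((h.subtypePerm (himg h hh)) (e.symm (e ⟨r, hr⟩)))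
    rw [Equiv.symm_apply_apply]
    congr 1
    apply Subtype.ext
    exact hgh
  have hGH : G = H := by
    rcases hd with rfl | rfl
    · exact evenReg_eq3 G H hG hH _ hpt
    · exact evenReg_eq4 G H hG hH _ hpt
  have h5 : g.subtypePerm (himg g hg) = h.subtypePerm (himg h hh) := e.permCongr.injective hGH
  ext x
  by_cases hx : x ∈ O
  · have := congrArg (fun f : Perm O => (f ⟨x, hx⟩ : X)) h5
    exact this
  · rw [hg x hx, hh x hx]

/-- Two elements agreeing at a point of an orbit agree on the orbit. -/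
theorem agree_on_orbit (A B : Subgroup (Perm X)) (hA : IsMulCommutative A) (hB : IsMulCommutative B)
    (sA : ∀ a ∈ A, sign a = 1) (sB : ∀ a ∈ B, sign a = 1) (lA : Loc A) (lB : Loc B)
    (a b : Perm X) (ha : a ∈ A) (hb : b ∈ B) (r : X)
    (hO : MulAction.orbit A r = MulAction.orbit B r) (hd : D A r = 3 ∨ D A r = 4) (hab : a r = b r) :
    ∀ x ∈ MulAction.orbit A r, a x = b x := by
  obtain ⟨a', ha', h1, h2⟩ := lA a ha r
  obtain ⟨b', hb', h3, h4⟩ := lB b hb r
  have hfpf : ∀ (C : Subgroup (Perm X)), IsMulCommutative C → ∀ g ∈ C,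
      (∀ x ∈ MulAction.orbit C r, g x = x) ∨ ∀ x ∈ MulAction.orbit C r, g x ≠ x := by
    intro C hC g hg
    by_cases h : ∃ x ∈ MulAction.orbit C r, g x = x
    · left
      obtain ⟨z, hz, hz'⟩ := h
      intro y hy
      refine fix_all C hC ⟨g, hg⟩ z hz' y ?_
      have e : MulAction.orbit C z = MulAction.orbit C r := MulAction.orbit_eq_iff.2 hz
      rw [e]
      exact hy
    · right
      push Not at h
      exact h
  have h5 : a' = b' := by
    refine u34 (MulAction.orbit A r) (D A r) rfl hd a' b' h2 ?_ (sA a' ha') (sB b' hb') (hfpf A hA a' ha') ?_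
      r (MulAction.mem_orbit_self r) (by rw [h1, h3, hab])
    · rw [hO]; exact h4
    · rw [hO]; exact hfpf B hB b' hb'
  intro x hx
  -- `a` and `a'` agree on the orbit
  have e1 : a x = a' x := by
    let c : A := (⟨a', ha'⟩ : A)⁻¹ * ⟨a, ha⟩
    have h6 : (c : Perm X) r = r := by
      change a'⁻¹ (a r) = r
      rw [Equiv.Perm.inv_eq_iff_eq, h1]
    have h7 : (c : Perm X) x = x := fix_all A hA c r h6 x hx
    have h8 : a'⁻¹ (a x) = x := h7
    rwa [Equiv.Perm.inv_eq_iff_eq] at h8
  have e2 : b x = b' x := by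
    let c : B := (⟨b', hb'⟩ : B)⁻¹ * ⟨b, hb⟩
    have h6 : (c : Perm X) r = r := by
      change b'⁻¹ (b r) = r
      rw [Equiv.Perm.inv_eq_iff_eq, h3]
    have h7 : (c : Perm X) x = x := fix_all B hB c r h6 x (hO ▸ hx)
    have h8 : b'⁻¹ (b x) = x := h7
    rwa [Equiv.Perm.inv_eq_iff_eq] at h8
  rw [e1, e2, h5]

/-- Subgroups with the same orbits coincide. -/
theorem eq_of_same_orbits (A B : Subgroup (Perm X)) (hA : IsMulCommutative A) (hB : IsMulCommutative B)
    (sA : ∀ a ∈ A, sign a = 1) (sB : ∀ a ∈ B, sign a = 1) (lA : Loc A)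
    [Fintype (MulAction.orbitRel.Quotient B X)]
    (hfull : Nat.card B = ∏ ω : MulAction.orbitRel.Quotient B X, D B (Quotient.out ω))
    (hO : ∀ z : X, MulAction.orbit A z = MulAction.orbit B z) (hd : ∀ z : X, D B z = 3 ∨ D B z = 4)
    (hcard : Nat.card A = Nat.card B) : A = B := by
  classical
  have lB := loc_of_full B hB hfull
  have hbij : Function.Bijective (evalRep B) := by
    have hc : Nat.card B = Nat.card (∀ ω : MulAction.orbitRel.Quotient B X,
        MulAction.orbit B (Quotient.out ω)) := by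
      rw [Nat.card_pi, hfull]
      rfl
    exact (Nat.bijective_iff_injective_and_card _).2 ⟨evalRep_injective B hB, hc⟩
  have hle : A ≤ B := by
    intro a ha
    let fam : ∀ ω : MulAction.orbitRel.Quotient B X, MulAction.orbit B (Quotient.out ω) := fun ω =>
      ⟨a (Quotient.out ω), by
        rw [← hO]
        exact ⟨⟨a, ha⟩, rfl⟩⟩
    obtain ⟨b, hb⟩ := hbij.2 fam
    have hb' : ∀ ω, (b : Perm X) (Quotient.out ω) = a (Quotient.out ω) := fun ω =>
      congrArg Subtype.val (congrFun hb ω)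
    have : a = (b : Perm X) := by
      ext x
      let ω : MulAction.orbitRel.Quotient B X := Quotient.mk'' x
      have hx₀ : Quotient.out ω ∈ MulAction.orbit B x :=
        MulAction.orbitRel_apply.1 (Quotient.mk_out (s := MulAction.orbitRel B X) x)
      have hx : x ∈ MulAction.orbit A (Quotient.out ω) := by
        rw [hO]
        exact MulAction.mem_orbit_symm.1 hx₀
      have hDA : D A (Quotient.out ω) = D B (Quotient.out ω) := by
        unfold D
        rw [hO]
      have := agree_on_orbit A B hA hB sA sB lA lB a b ha b.2 (Quotient.out ω) (hO _)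
        (by rw [hDA]; exact hd _) (hb' ω).symm x hx
      rw [this]
    rw [this]
    exact b.2
  refine Subgroup.eq_of_le_of_card_ge hle (le_of_eq hcard.symm)

end Local

section Numeric

/-- The maximal order in the alternating group. -/
def M (n : ℕ) : ℕ :=
  if n % 3 = 0 then 3 ^ (n / 3)
  else if n % 3 = 1 then 4 * 3 ^ (n / 3 - 1)
  else 16 * 3 ^ (n / 3 - 2)

theorem M_3k (k : ℕ) : M (3 * k) = 3 ^ k := by
  have h1 : (3 * k) % 3 = 0 := by omega
  have h2 : (3 * k) / 3 = k := by omega
  simp [M, h1, h2]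

theorem M_3k1 (k : ℕ) : M (3 * k + 1) = 4 * 3 ^ (k - 1) := by
  have h1 : (3 * k + 1) % 3 = 1 := by omega
  have h2 : (3 * k + 1) / 3 = k := by omega
  simp [M, h1, h2]

theorem M_3k2 (k : ℕ) : M (3 * k + 2) = 16 * 3 ^ (k - 2) := by
  have h1 : (3 * k + 2) % 3 = 2 := by omega
  have h2 : (3 * k + 2) / 3 = k := by omega
  simp [M, h1, h2]

theorem lt_f (x : ℕ) (hx : 5 ≤ x) : x < f x := by
  have hA : ∀ j : ℕ, 2 * j + 1 ≤ 3 ^ j := by
    intro j
    induction j with
    | zero => simp
    | succ i ih =>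
      rw [pow_succ]
      omega
  obtain ⟨k, h | h | h⟩ : ∃ k, x = 3 * k ∨ x = 3 * k + 1 ∨ x = 3 * k + 2 :=
    ⟨x / 3, by omega⟩
  · subst h
    rw [f_3k]
    obtain ⟨j, rfl⟩ : ∃ j, k = j + 1 := ⟨k - 1, by omega⟩
    rw [pow_succ]
    have := hA j
    have hj : 1 ≤ j := by omega
    omega
  · subst h
    rw [f_3k1 _ (by omega)]
    obtain ⟨j, rfl⟩ : ∃ j, k = j + 1 := ⟨k - 1, by omega⟩
    simp only [Nat.add_sub_cancel]
    have := hA j
    have hj : 1 ≤ j := by omega
    omega
  · subst h
    rw [f_3k2]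
    have := hA k
    have hj : 1 ≤ k := by omega
    omega

theorem f_pos (n : ℕ) : 0 < f n := by
  rcases Nat.eq_zero_or_pos n with rfl | h
  · simp [f_zero]
  · exact lt_of_lt_of_le h (le_f n h)

/-- Strict numeric bound. -/
theorem strict_x (n x : ℕ) (hn : 6 ≤ n) (hx : 1 ≤ x) (hxn : x ≤ n) (h2 : x ≠ 2) (h3 : x ≠ 3) (h4 : x ≠ 4) :
    x * f (n - x) < M n := by
  obtain ⟨k, h | h | h⟩ : ∃ k, n = 3 * k ∨ n = 3 * k + 1 ∨ n = 3 * k + 2 :=
    ⟨n / 3, by omega⟩
  · subst h
    rw [M_3k]
    by_cases h1 : x = 1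
    · subst h1
      obtain ⟨j, rfl⟩ : ∃ j, k = j + 1 := ⟨k - 1, by omega⟩
      rw [show 3 * (j + 1) - 1 = 3 * j + 2 by omega, f_3k2, pow_succ]
      have : 0 < 3 ^ j := by positivity
      omega
    · have hx5 : 5 ≤ x := by omega
      calc x * f (3 * k - x) < f x * f (3 * k - x) :=
            Nat.mul_lt_mul_of_pos_right (lt_f x hx5) (f_pos _)
        _ ≤ f (x + (3 * k - x)) := f_add _ _
        _ = 3 ^ k := by rw [show x + (3 * k - x) = 3 * k by omega, f_3k]
  · subst h
    rw [M_3k1]
    by_cases h1 : x = 1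
    · subst h1
      obtain ⟨j, rfl⟩ : ∃ j, k = j + 1 := ⟨k - 1, by omega⟩
      rw [show 3 * (j + 1) + 1 - 1 = 3 * (j + 1) by omega, f_3k, pow_succ]
      simp only [Nat.add_sub_cancel]
      have : 0 < 3 ^ j := by positivity
      omega
    · have hx5 : 5 ≤ x := by omega
      calc x * f (3 * k + 1 - x) < f x * f (3 * k + 1 - x) :=
            Nat.mul_lt_mul_of_pos_right (lt_f x hx5) (f_pos _)
        _ ≤ f (x + (3 * k + 1 - x)) := f_add _ _
        _ = 4 * 3 ^ (k - 1) := by rw [show x + (3 * k + 1 - x) = 3 * k + 1 by omega, f_3k1 _ (by omega)]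
  · subst h
    rw [M_3k2]
    obtain ⟨j, rfl⟩ : ∃ j, k = j + 2 := ⟨k - 2, by omega⟩
    simp only [Nat.add_sub_cancel]
    have h4' : f (3 * (j + 2) + 2 - 4) = 4 * 3 ^ j := by
      rw [show 3 * (j + 2) + 2 - 4 = 3 * (j + 1) + 1 by omega, f_3k1 _ (by omega)]
      simp
    by_cases h1 : x = 1
    · subst h1
      rw [show 3 * (j + 2) + 2 - 1 = 3 * (j + 2) + 1 by omega, f_3k1 _ (by omega)]
      rw [show j + 2 - 1 = j + 1 by omega, pow_succ]
      have : 0 < 3 ^ j := by positivity
      omega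
    by_cases h5 : x = 5
    · subst h5
      rw [show 3 * (j + 2) + 2 - 5 = 3 * (j + 1) by omega, f_3k, pow_succ]
      have : 0 < 3 ^ j := by positivity
      omega
    have hx6 : 6 ≤ x := by omega
    have h6 : x < 4 * f (x - 4) := by
      have := le_f (x - 4) (by omega)
      omega
    calc x * f (3 * (j + 2) + 2 - x) < 4 * f (x - 4) * f (3 * (j + 2) + 2 - x) :=
          Nat.mul_lt_mul_of_pos_right h6 (f_pos _)
      _ = 4 * (f (x - 4) * f (3 * (j + 2) + 2 - x)) := by ring
      _ ≤ 4 * f (x - 4 + (3 * (j + 2) + 2 - x)) := Nat.mul_le_mul_left _ (f_add _ _)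
      _ = 16 * 3 ^ j := by
          rw [show x - 4 + (3 * (j + 2) + 2 - x) = 3 * (j + 2) + 2 - 4 by omega, h4']; ring

/-- Existence of the model of order `M n`. -/
theorem exists_M (n : ℕ) (hn : 6 ≤ n) :
    ∃ C : Subgroup (alternatingGroup (Fin n)), IsMulCommutative C ∧ Nat.card C = M n := by
  obtain ⟨k, h | h | h⟩ : ∃ k, n = 3 * k ∨ n = 3 * k + 1 ∨ n = 3 * k + 2 :=
    ⟨n / 3, by omega⟩
  · subst h
    obtain ⟨C, hC, hc⟩ := exists_model k 0 (3 * k) (by ring)
    exact ⟨C, hC, by rw [hc, M_3k]; simp⟩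
  · subst h
    obtain ⟨j, rfl⟩ : ∃ j, k = j + 1 := ⟨k - 1, by omega⟩
    obtain ⟨C, hC, hc⟩ := exists_model j 1 (3 * (j + 1) + 1) (by ring)
    exact ⟨C, hC, by rw [hc, M_3k1]; simp [mul_comm]⟩
  · subst h
    obtain ⟨j, rfl⟩ : ∃ j, k = j + 2 := ⟨k - 2, by omega⟩
    obtain ⟨C, hC, hc⟩ := exists_model j 2 (3 * (j + 2) + 2) (by ring)
    exact ⟨C, hC, by rw [hc, M_3k2]; simp only [Nat.add_sub_cancel]; ring⟩

end Numeric

section Nice

variable {X : Type u} [Fintype X] [DecidableEq X]

/-- The structure of a largest subgroup. -/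
theorem nice_of_max (A : Subgroup (Perm X)) (hA : IsMulCommutative A) (hs : ∀ a ∈ A, sign a = 1)
    [Fintype (MulAction.orbitRel.Quotient A X)]
    (hn : 6 ≤ Fintype.card X) (hM : M (Fintype.card X) ≤ Nat.card A) :
    Nat.card A = M (Fintype.card X) ∧
    Nat.card A = ∏ ω : MulAction.orbitRel.Quotient A X, D A (Quotient.out ω) ∧
    ∀ z : X, D A z = 3 ∨ D A z = 4 := by
  classical
  set n := Fintype.card X with hndef
  have hsum : ∑ ω : MulAction.orbitRel.Quotient A X, D A (Quotient.out ω) = n := sum_D A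
  have hle := card_le_prod_D A hA
  set P := ∏ ω : MulAction.orbitRel.Quotient A X, D A (Quotient.out ω) with hP
  have hPf : P ≤ f n := by
    rw [← hsum]
    exact prod_le_f _ _ (fun ω _ => D_pos A _)
  have hPM : P ≤ M n := by
    obtain ⟨k, h | h | h⟩ : ∃ k, n = 3 * k ∨ n = 3 * k + 1 ∨ n = 3 * k + 2 :=
      ⟨n / 3, by omega⟩
    · rw [h, M_3k, ← f_3k, ← h]
      exact hPf
    · rw [h, M_3k1, ← f_3k1 _ (by omega), ← h]
      exact hPf
    · rw [h, M_3k2]
      rcases prod_numeric (fun ω : MulAction.orbitRel.Quotient A X => D A (Quotient.out ω))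
        (fun ω => D_pos A _) k (by omega) (by rw [hsum]; exact h) with h1 | ⟨ω₀, h2, h3⟩
      · exact h1
      · exact (no_pattern A hA hs ω₀ h2 h3).elim
  have hcardM : Nat.card A = M n := le_antisymm (hle.trans hPM) hM
  have hfull : Nat.card A = P := le_antisymm hle (hPM.trans hM)
  refine ⟨hcardM, hfull, ?_⟩
  have hloc := loc_of_full A hA hfull
  intro z
  by_contra hz
  push Not at hz
  have hz2 : D A z ≠ 2 := by
    intro h2
    obtain ⟨y, hy, hyz⟩ : ∃ y ∈ MulAction.orbit A z, y ≠ z :=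
      Set.exists_ne_of_one_lt_ncard (by
        have : (MulAction.orbit A z).ncard = 2 := h2
        omega) z
    obtain ⟨a₀, ha₀⟩ := hy
    obtain ⟨a, ha, h3, h4⟩ := hloc a₀ a₀.2 z
    have h3' : a z = y := h3.trans ha₀
    have horb : MulAction.orbit A z = {z, y} := by
      symm
      refine Set.eq_of_subset_of_ncard_le ?_ ?_ (Set.toFinite _)
      · rintro w (rfl | rfl)
        · exact MulAction.mem_orbit_self _
        · exact ⟨a₀, ha₀⟩
      · have : (MulAction.orbit A z).ncard = 2 := h2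
        rw [this, Set.ncard_pair hyz.symm]
    have hb : a = swap z y := by
      ext w
      by_cases hw : w ∈ MulAction.orbit A z
      · rw [horb] at hw
        rcases hw with rfl | hw
        · rw [swap_apply_left, h3']
        · have hw' : w = y := hw
          subst hw'
          rw [swap_apply_right]
          have h5 : a w ∈ MulAction.orbit A z := by
            refine ⟨⟨a, ha⟩ * ⟨a, ha⟩, ?_⟩
            change a (a z) = a w
            rw [h3']
          rw [horb] at h5
          rcases h5 with h5 | h5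
          · exact h5
          · exfalso
            have h6 : a w = w := h5
            exact hyz (a.injective (h6.trans h3'.symm))
      · rw [h4 w hw]
        have hwz : w ≠ z := fun h => hw (h ▸ MulAction.mem_orbit_self _)
        have hwy : w ≠ y := fun h => hw (h ▸ ⟨a₀, ha₀⟩)
        rw [swap_apply_of_ne_of_ne hwz hwy]
    have := hs a ha
    rw [hb, sign_swap hyz.symm] at this
    exact absurd this (by decide)
  -- the numeric bound
  let ω : MulAction.orbitRel.Quotient A X := Quotient.mk'' z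
  have hDω : D A (Quotient.out ω) = D A z := D_out A z
  have hx1 : 1 ≤ D A z := D_pos A z
  have hsplit : P = D A (Quotient.out ω) * ∏ ω' ∈ Finset.univ.erase ω, D A (Quotient.out ω') :=
    (Finset.mul_prod_erase _ _ (Finset.mem_univ ω)).symm
  have hsum2 : D A (Quotient.out ω) + ∑ ω' ∈ Finset.univ.erase ω, D A (Quotient.out ω') = n := by
    rw [Finset.add_sum_erase Finset.univ (fun ω' => D A (Quotient.out ω')) (Finset.mem_univ ω)]
    exact hsum
  have hxn : D A z ≤ n := by omega
  have h5 : ∏ ω' ∈ Finset.univ.erase ω, D A (Quotient.out ω') ≤ f (n - D A z) := by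
    refine (prod_le_f _ _ (fun ω' _ => D_pos A _)).trans (f_mono ?_)
    omega
  have h6 := strict_x n (D A z) hn hx1 hxn hz2 hz.1 hz.2
  have h7 : P ≤ D A z * f (n - D A z) := by
    rw [hsplit, hDω]
    exact Nat.mul_le_mul_left _ h5
  omega

end Nice

section Conj

variable {X : Type u} [Fintype X] [DecidableEq X]

/-- Equal fibre sizes give a permutation. -/
theorem exists_fiber_equiv {Y Y' : Type u} [DecidableEq Y] [DecidableEq Y'] (f : X → Y) (g : X → Y') (ε : Y ≃ Y')
    (h : ∀ y, Nat.card {x // f x = y} = Nat.card {x // g x = ε y}) :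
    ∃ τ : Perm X, ∀ x, g (τ x) = ε (f x) := by
  have e : ∀ y, {x // f x = y} ≃ {x // g x = ε y} := fun y =>
    (Finite.equivFinOfCardEq rfl).trans (Finite.equivFinOfCardEq (h y).symm).symm
  refine ⟨(Equiv.sigmaFiberEquiv f).symm.trans ((Equiv.sigmaCongr ε e).trans (Equiv.sigmaFiberEquiv g)), ?_⟩
  intro x
  exact (e (f x) ⟨x, rfl⟩).2

theorem pow_unique {s t s' t' : ℕ} (h : 3 ^ s * 4 ^ t = 3 ^ s' * 4 ^ t') : s = s' ∧ t = t' := by
  have hc : ∀ a b : ℕ, Nat.Coprime (3 ^ a) (4 ^ b) := fun a b =>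
    Nat.Coprime.pow _ _ (by norm_num)
  have h1 : 3 ^ s ∣ 3 ^ s' := by
    refine (hc s t').dvd_of_dvd_mul_right ?_
    rw [← h]
    exact Dvd.intro _ rfl
  have h2 : 3 ^ s' ∣ 3 ^ s := by
    refine (hc s' t).dvd_of_dvd_mul_right ?_
    rw [h]
    exact Dvd.intro _ rfl
  have h3 : s = s' := by
    have := Nat.dvd_antisymm h1 h2
    exact Nat.pow_right_injective (le_refl 2 |>.trans (by norm_num)) this
  subst h3
  have h4 : 4 ^ t = 4 ^ t' := Nat.eq_of_mul_eq_mul_left (by positivity) h
  exact ⟨rfl, Nat.pow_right_injective (by norm_num) h4⟩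

/-- The conjugate subgroup. -/
def conjS (τ : Perm X) (A : Subgroup (Perm X)) : Subgroup (Perm X) :=
  A.map (MulAut.conj τ).toMonoidHom

theorem mem_conjS (τ : Perm X) (A : Subgroup (Perm X)) (g : Perm X) :
    g ∈ conjS τ A ↔ τ⁻¹ * g * τ ∈ A := by
  constructor
  · rintro ⟨a, ha, rfl⟩
    have : τ⁻¹ * (MulAut.conj τ).toMonoidHom a * τ = a := by
      simp [MulAut.conj_apply]
      group
    rw [this]
    exact ha
  · intro h
    refine ⟨_, h, ?_⟩
    simp [MulAut.conj_apply]
    group

theorem conjS_mul (τ ν : Perm X) (A : Subgroup (Perm X)) : conjS (τ * ν) A = conjS τ (conjS ν A) := by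
  ext g
  rw [mem_conjS, mem_conjS, mem_conjS]
  have : ν⁻¹ * (τ⁻¹ * g * τ) * ν = (τ * ν)⁻¹ * g * (τ * ν) := by group
  rw [this]

theorem comm_conjS (τ : Perm X) (A : Subgroup (Perm X)) (hA : IsMulCommutative A) :
    IsMulCommutative (conjS τ A) := by
  refine ⟨⟨?_⟩⟩
  rintro ⟨x, a, ha, rfl⟩ ⟨y, b, hb, rfl⟩
  apply Subtype.ext
  change (MulAut.conj τ) a * (MulAut.conj τ) b = (MulAut.conj τ) b * (MulAut.conj τ) a
  rw [← map_mul, ← map_mul]
  congr 1
  exact congrArg Subtype.val (hA.is_comm.comm ⟨a, ha⟩ ⟨b, hb⟩)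

theorem sign_conjS (τ : Perm X) (A : Subgroup (Perm X)) (hs : ∀ a ∈ A, sign a = 1) :
    ∀ g ∈ conjS τ A, sign g = 1 := by
  rintro _ ⟨a, ha, rfl⟩
  change sign ((MulAut.conj τ) a) = 1
  rw [MulAut.conj_apply, map_mul, map_mul, map_inv, hs a ha, mul_one]
  simp

theorem card_conjS (τ : Perm X) (A : Subgroup (Perm X)) : Nat.card (conjS τ A) = Nat.card A :=
  Nat.card_congr (Subgroup.equivMapOfInjective A _ (MulAut.conj τ).injective).symm.toEquiv

theorem mem_orbit_conjS (τ : Perm X) (A : Subgroup (Perm X)) (z y : X) :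
    y ∈ MulAction.orbit (conjS τ A) (τ z) ↔ τ⁻¹ y ∈ MulAction.orbit A z := by
  constructor
  · rintro ⟨⟨g, hg⟩, rfl⟩
    refine ⟨⟨_, (mem_conjS τ A g).1 hg⟩, ?_⟩
    change (τ⁻¹ * g * τ) z = τ⁻¹ (g (τ z))
    rfl
  · rintro ⟨⟨a, ha⟩, h⟩
    have h' : a z = τ⁻¹ y := h
    refine ⟨⟨τ * a * τ⁻¹, (mem_conjS τ A _).2 (by simpa [mul_assoc] using ha)⟩, ?_⟩
    change (τ * a * τ⁻¹) (τ z) = y
    simp [h']

theorem loc_conjS (τ : Perm X) (A : Subgroup (Perm X)) (h : Loc A) : Loc (conjS τ A) := by
  intro g hg r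
  have ha := (mem_conjS τ A g).1 hg
  obtain ⟨a', ha', h1, h2⟩ := h _ ha (τ⁻¹ r)
  refine ⟨τ * a' * τ⁻¹, (mem_conjS τ A _).2 (by simpa [mul_assoc] using ha'), ?_, ?_⟩
  · have h3 : a' (τ⁻¹ r) = τ⁻¹ (g r) := by
      rw [h1]; simp [Equiv.Perm.mul_apply]
    change τ (a' (τ⁻¹ r)) = g r
    rw [h3]
    simp
  · intro x hx
    have h3 : τ⁻¹ x ∉ MulAction.orbit A (τ⁻¹ r) := by
      intro h4
      apply hx
      have h5 : τ (τ⁻¹ r) = r := by simp
      rw [← h5]
      exact (mem_orbit_conjS τ A _ x).2 h4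
    change τ (a' (τ⁻¹ x)) = x
    rw [h2 _ h3]
    simp

/-- Fibre sizes of the orbit map. -/
theorem card_fiber (A : Subgroup (Perm X)) (ω : MulAction.orbitRel.Quotient A X) :
    Nat.card {x : X // (Quotient.mk'' x : MulAction.orbitRel.Quotient A X) = ω} = D A (Quotient.out ω) := by
  unfold D
  rw [← Nat.card_coe_set_eq]
  refine Nat.card_congr (Equiv.subtypeEquivRight fun x => ?_)
  constructor
  · intro h
    have h1 : (Quotient.mk'' x : MulAction.orbitRel.Quotient A X) =
        Quotient.mk'' (Quotient.out ω) := by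
      rw [h]; exact (Quotient.out_eq' ω).symm
    exact MulAction.orbitRel_apply.1 (Quotient.exact h1)
  · intro h
    have h1 : (MulAction.orbitRel A X).r x (Quotient.out ω) := MulAction.orbitRel_apply.2 h
    have h2 : (Quotient.mk'' x : MulAction.orbitRel.Quotient A X) = Quotient.mk'' (Quotient.out ω) :=
      Quotient.sound h1
    rw [h2]
    exact Quotient.out_eq' ω

/-- The product in terms of the number of orbits of size `3`. -/
theorem prod_split {Ω : Type*} [Fintype Ω] [DecidableEq Ω] (d : Ω → ℕ) (hd : ∀ ω, d ω = 3 ∨ d ω = 4) :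
    ∏ ω, d ω = 3 ^ (Finset.univ.filter fun ω => d ω = 3).card *
      4 ^ (Finset.univ.filter fun ω => ¬ d ω = 3).card := by
  rw [← Finset.prod_filter_mul_prod_filter_not Finset.univ (fun ω => d ω = 3)]
  congr 1
  · rw [Finset.prod_congr rfl (fun ω hω => (Finset.mem_filter.1 hω).2), Finset.prod_const]
  · rw [Finset.prod_congr rfl (g := fun _ => 4) (fun ω hω =>
      ((hd ω).resolve_left (Finset.mem_filter.1 hω).2)), Finset.prod_const]

/-- Conjugacy in the symmetric group respecting orbits. -/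
theorem exists_tau (A B : Subgroup (Perm X))
    [Fintype (MulAction.orbitRel.Quotient A X)] [Fintype (MulAction.orbitRel.Quotient B X)]
    (hfA : Nat.card A = ∏ ω : MulAction.orbitRel.Quotient A X, D A (Quotient.out ω))
    (hfB : Nat.card B = ∏ ω : MulAction.orbitRel.Quotient B X, D B (Quotient.out ω))
    (hdA : ∀ z : X, D A z = 3 ∨ D A z = 4) (hdB : ∀ z : X, D B z = 3 ∨ D B z = 4)
    (hcard : Nat.card A = Nat.card B) :
    ∃ τ : Perm X, ∀ x y : X, y ∈ MulAction.orbit A x ↔ τ y ∈ MulAction.orbit B (τ x) := by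
  classical
  have h1 := prod_split (fun ω : MulAction.orbitRel.Quotient A X => D A (Quotient.out ω)) (fun ω => hdA _)
  have h2 := prod_split (fun ω : MulAction.orbitRel.Quotient B X => D B (Quotient.out ω)) (fun ω => hdB _)
  rw [← hfA] at h1
  rw [← hfB, ← hcard, h1] at h2
  obtain ⟨hs, ht⟩ := pow_unique h2
  have e₁ : {ω : MulAction.orbitRel.Quotient A X // D A (Quotient.out ω) = 3} ≃
      {ω : MulAction.orbitRel.Quotient B X // D B (Quotient.out ω) = 3} :=
    Fintype.equivOfCardEq (by rw [Fintype.card_subtype, Fintype.card_subtype]; exact hs)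
  have e₂ : {ω : MulAction.orbitRel.Quotient A X // ¬ D A (Quotient.out ω) = 3} ≃
      {ω : MulAction.orbitRel.Quotient B X // ¬ D B (Quotient.out ω) = 3} :=
    Fintype.equivOfCardEq (by rw [Fintype.card_subtype, Fintype.card_subtype]; exact ht)
  let ε : MulAction.orbitRel.Quotient A X ≃ MulAction.orbitRel.Quotient B X :=
    (Equiv.sumCompl _).symm.trans ((Equiv.sumCongr e₁ e₂).trans (Equiv.sumCompl _))
  have hε : ∀ ω, D B (Quotient.out (ε ω)) = D A (Quotient.out ω) := by
    intro ω
    by_cases h : D A (Quotient.out ω) = 3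
    · have : ε ω = (e₁ ⟨ω, h⟩).1 := by
        simp only [ε, Equiv.trans_apply]
        rw [show (Equiv.sumCompl fun a => D A (Quotient.out a) = 3).symm ω = Sum.inl ⟨ω, h⟩ from
          Equiv.sumCompl_symm_apply_of_pos (p := fun a => D A (Quotient.out a) = 3) (a := ω) h]
        rfl
      rw [this, h]
      exact (e₁ ⟨ω, h⟩).2
    · have : ε ω = (e₂ ⟨ω, h⟩).1 := by
        simp only [ε, Equiv.trans_apply]
        rw [show (Equiv.sumCompl fun a => D A (Quotient.out a) = 3).symm ω = Sum.inr ⟨ω, h⟩ from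
          Equiv.sumCompl_symm_apply_of_neg (p := fun a => D A (Quotient.out a) = 3) (a := ω) h]
        rfl
      rw [this]
      have h3 := (e₂ ⟨ω, h⟩).2
      have h4 := (hdB (Quotient.out (e₂ ⟨ω, h⟩).1)).resolve_left h3
      have h5 := (hdA (Quotient.out ω)).resolve_left h
      rw [h4, h5]
  obtain ⟨τ, hτ⟩ := exists_fiber_equiv
    (fun x : X => (Quotient.mk'' x : MulAction.orbitRel.Quotient A X))
    (fun x : X => (Quotient.mk'' x : MulAction.orbitRel.Quotient B X)) ε (fun ω => by
      rw [card_fiber A ω, card_fiber B (ε ω), hε])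
  refine ⟨τ, fun x y => ?_⟩
  have h3 : (y ∈ MulAction.orbit A x) ↔
      (Quotient.mk'' y : MulAction.orbitRel.Quotient A X) = Quotient.mk'' x := by
    rw [Quotient.eq'']
    exact MulAction.orbitRel_apply.symm
  have h4 : (τ y ∈ MulAction.orbit B (τ x)) ↔
      (Quotient.mk'' (τ y) : MulAction.orbitRel.Quotient B X) = Quotient.mk'' (τ x) := by
    rw [Quotient.eq'']
    exact MulAction.orbitRel_apply.symm
  rw [h3, h4, hτ, hτ, ε.apply_eq_iff_eq]

/-- The key conjugacy statement in the symmetric group. -/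
theorem conj_max (A B : Subgroup (Perm X)) (hA : IsMulCommutative A) (hB : IsMulCommutative B)
    (sA : ∀ a ∈ A, sign a = 1) (sB : ∀ a ∈ B, sign a = 1) (hn : 6 ≤ Fintype.card X)
    (mA : M (Fintype.card X) ≤ Nat.card A) (mB : M (Fintype.card X) ≤ Nat.card B) :
    ∃ τ : Perm X, sign τ = 1 ∧ conjS τ A = B := by
  classical
  haveI : Fintype (MulAction.orbitRel.Quotient A X) := Fintype.ofFinite _
  haveI : Fintype (MulAction.orbitRel.Quotient B X) := Fintype.ofFinite _
  obtain ⟨cA, fA, dA⟩ := nice_of_max A hA sA hn mA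
  obtain ⟨cB, fB, dB⟩ := nice_of_max B hB sB hn mB
  have hcard : Nat.card A = Nat.card B := cA.trans cB.symm
  have lA := loc_of_full A hA fA
  obtain ⟨τ₀, hτ₀⟩ := exists_tau A B fA fB dA dB hcard
  have h1 : conjS τ₀ A = B := by
    refine eq_of_same_orbits _ B (comm_conjS τ₀ A hA) hB (sign_conjS τ₀ A sA) sB (loc_conjS τ₀ A lA) fB ?_ dB
      (by rw [card_conjS, hcard])
    intro z
    ext y
    have hz : z = τ₀ (τ₀⁻¹ z) := by simp
    rw [hz, mem_orbit_conjS, hτ₀ (τ₀⁻¹ z) (τ₀⁻¹ y)]
    simp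
  by_cases hs : sign τ₀ = 1
  · exact ⟨τ₀, hs, h1⟩
  -- correct the sign by a transposition inside an orbit
  have hne : Nonempty X := by
    apply Fintype.card_pos_iff.1
    omega
  obtain ⟨z⟩ := hne
  obtain ⟨u, hu, huz⟩ : ∃ u ∈ MulAction.orbit A z, u ≠ z :=
    Set.exists_ne_of_one_lt_ncard (by
      have h2 : (MulAction.orbit A z).ncard = D A z := rfl
      rcases dA z with h3 | h3 <;> omega) z
  let ν : Perm X := swap z u
  have hνinv : ν⁻¹ = ν := swap_inv _ _
  have hνsame : ∀ a : X, ν a ∈ MulAction.orbit A a := by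
    intro a
    by_cases h2 : a = z
    · subst h2
      have : ν a = u := swap_apply_left _ _
      rw [this]
      exact hu
    by_cases h3 : a = u
    · subst h3
      have : ν a = z := swap_apply_right _ _
      rw [this]
      exact MulAction.mem_orbit_symm.1 hu
    · have : ν a = a := swap_apply_of_ne_of_ne h2 h3
      rw [this]
      exact MulAction.mem_orbit_self _
  have h2 : conjS ν A = A := by
    refine eq_of_same_orbits _ A (comm_conjS ν A hA) hA (sign_conjS ν A sA) sA (loc_conjS ν A lA) fA ?_ dA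
      (card_conjS ν A)
    intro w
    ext y
    have key : ∀ w₀ : X, y ∈ MulAction.orbit (conjS ν A) (ν w₀) ↔ y ∈ MulAction.orbit A (ν w₀) := by
      intro w₀
      rw [mem_orbit_conjS, hνinv]
      have e2 : MulAction.orbit A (ν w₀) = MulAction.orbit A w₀ := MulAction.orbit_eq_iff.2 (hνsame w₀)
      rw [e2]
      constructor
      · intro h3
        have e3 : MulAction.orbit A (ν y) = MulAction.orbit A w₀ := MulAction.orbit_eq_iff.2 h3
        rw [← e3]
        exact MulAction.mem_orbit_symm.1 (hνsame y)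
      · intro h3
        have e3 : MulAction.orbit A y = MulAction.orbit A w₀ := MulAction.orbit_eq_iff.2 h3
        rw [← e3]
        exact hνsame y
    have h4 := key (ν⁻¹ w)
    have hw : ν (ν⁻¹ w) = w := by simp
    rw [hw] at h4
    exact h4
  refine ⟨τ₀ * ν, ?_, ?_⟩
  · rw [map_mul]
    have h3 : sign ν = -1 := sign_swap huz.symm
    rw [h3]
    rcases Int.units_eq_one_or (sign τ₀) with h4 | h4
    · exact absurd h4 hs
    · rw [h4]; rfl
  · rw [conjS_mul, h2, h1]

/-- Conjugacy for subgroups of the alternating group of degree at least six. -/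
theorem main_large (n : ℕ) (hn : 6 ≤ n)
    (A B : Subgroup (alternatingGroup (Fin n))) (hA : IsMulCommutative A) (hB : IsMulCommutative B)
    (hAmax : ∀ C : Subgroup (alternatingGroup (Fin n)), IsMulCommutative C → Nat.card C ≤ Nat.card A)
    (hBmax : ∀ C : Subgroup (alternatingGroup (Fin n)), IsMulCommutative C → Nat.card C ≤ Nat.card B) :
    ∃ g : alternatingGroup (Fin n), B = MulAut.conj g • A := by
  classical
  obtain ⟨C, hC, hc⟩ := exists_M n hn
  have mA := hAmax C hC
  have mB := hBmax C hC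
  rw [hc] at mA mB
  let lift : ∀ S : Subgroup (alternatingGroup (Fin n)), Subgroup (Perm (Fin n)) :=
    fun S => S.map (alternatingGroup (Fin n)).subtype
  have hcard : ∀ S, Nat.card (lift S) = Nat.card S := fun S =>
    Nat.card_congr (Subgroup.equivMapOfInjective S _ (Subgroup.subtype_injective _)).symm.toEquiv
  have hcomm : ∀ S : Subgroup (alternatingGroup (Fin n)), IsMulCommutative S → IsMulCommutative (lift S) := by
    intro S hS
    refine ⟨⟨?_⟩⟩
    rintro ⟨_, ⟨x, hx, rfl⟩⟩ ⟨_, ⟨y, hy, rfl⟩⟩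
    apply Subtype.ext
    have := congrArg Subtype.val (hS.is_comm.comm ⟨x, hx⟩ ⟨y, hy⟩)
    change (x : Perm (Fin n)) * y = y * x
    exact congrArg Subtype.val this
  have hsign : ∀ S : Subgroup (alternatingGroup (Fin n)), ∀ a ∈ lift S, sign a = 1 := by
    rintro S _ ⟨x, _, rfl⟩
    exact x.2
  have hcardX : Fintype.card (Fin n) = n := Fintype.card_fin n
  obtain ⟨τ, hτ, hconj⟩ := conj_max (lift A) (lift B) (hcomm A hA) (hcomm B hB) (hsign A) (hsign B)
    (by rw [hcardX]; exact hn) (by rw [hcardX, hcard]; exact mA) (by rw [hcardX, hcard]; exact mB)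
  refine ⟨⟨τ, hτ⟩, ?_⟩
  ext x
  rw [Subgroup.mem_pointwise_smul_iff_inv_smul_mem]
  have h1 : x ∈ B ↔ (x : Perm (Fin n)) ∈ lift B := by
    constructor
    · intro h
      exact ⟨x, h, rfl⟩
    · rintro ⟨y, hy, hxy⟩
      have : y = x := Subtype.ext hxy
      rwa [← this]
  rw [h1, ← hconj, mem_conjS]
  have h2 : ∀ y : alternatingGroup (Fin n), y ∈ A ↔ (y : Perm (Fin n)) ∈ lift A := by
    intro y
    constructor
    · intro h
      exact ⟨y, h, rfl⟩
    · rintro ⟨z, hz, hzy⟩
      have : z = y := Subtype.ext hzy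
      rwa [← this]
  rw [h2]
  simp [MulAut.smul_def, MulAut.conj_apply, MulAut.conj_symm_apply]

end Conj

/-- Sylow conjugacy. -/
theorem conj_of_sylow {G : Type*} [Group G] [Finite G] (p : ℕ) [hp : Fact p.Prime] (A B : Subgroup G)
    (a m : ℕ) (hG : Nat.card G = p ^ a * m) (hm : ¬ p ∣ m) (hA : Nat.card A = p ^ a) (hB : Nat.card B = p ^ a) :
    ∃ g : G, B = MulAut.conj g • A := by
  have hm0 : m ≠ 0 := by
    rintro rfl
    exact hm (dvd_zero _)
  have hfac : (Nat.card G).factorization p = a := by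
    rw [hG, Nat.factorization_mul (pow_ne_zero _ hp.out.ne_zero) hm0, Nat.factorization_pow,
      Finsupp.add_apply, Finsupp.smul_apply, hp.out.factorization_self, Nat.factorization_eq_zero_of_not_dvd hm]
    simp
  let PA : Sylow p G := Sylow.ofCard A (by rw [hA, hfac])
  let PB : Sylow p G := Sylow.ofCard B (by rw [hB, hfac])
  obtain ⟨g, hg⟩ := MulAction.exists_smul_eq G PA PB
  refine ⟨g, ?_⟩
  have h1 : ((g • PA : Sylow p G) : Subgroup G) = MulAut.conj g • (PA : Subgroup G) := Sylow.coe_subgroup_smul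
  rw [hg] at h1
  exact h1

theorem no_order_six : ∀ g : alternatingGroup (Fin 5), g ^ 6 = 1 → g ^ 2 = 1 ∨ g ^ 3 = 1 := by
  decide +kernel

/-- An abelian group of order six has an element of order six. -/
theorem abelian_six {A : Type*} [Group A] [IsMulCommutative A] (h : Nat.card A = 6) :
    ∃ g : A, g ^ 6 = 1 ∧ g ^ 2 ≠ 1 ∧ g ^ 3 ≠ 1 := by
  haveI : Finite A := Nat.finite_of_card_ne_zero (by omega)
  haveI : Fact (Nat.Prime 2) := ⟨by norm_num⟩
  haveI : Fact (Nat.Prime 3) := ⟨by norm_num⟩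
  obtain ⟨x, hx⟩ := exists_prime_orderOf_dvd_card' 2 (by rw [h]; norm_num)
  obtain ⟨y, hy⟩ := exists_prime_orderOf_dvd_card' 3 (by rw [h]; norm_num)
  have hcomm : x * y = y * x := IsMulCommutative.is_comm.comm x y
  refine ⟨x * y, ?_, ?_, ?_⟩
  · rw [(show Commute x y from hcomm).mul_pow]
    have h1 : x ^ 6 = 1 := by
      rw [show 6 = orderOf x * 3 by rw [hx], pow_mul, pow_orderOf_eq_one, one_pow]
    have h2 : y ^ 6 = 1 := by
      rw [show 6 = orderOf y * 2 by rw [hy], pow_mul, pow_orderOf_eq_one, one_pow]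
    rw [h1, h2, one_mul]
  · intro h1
    rw [(show Commute x y from hcomm).mul_pow] at h1
    have h2 : x ^ 2 = 1 := by rw [← hx]; exact pow_orderOf_eq_one x
    rw [h2, one_mul] at h1
    have h3 := orderOf_dvd_of_pow_eq_one h1
    rw [hy] at h3
    omega
  · intro h1
    rw [(show Commute x y from hcomm).mul_pow] at h1
    have h2 : y ^ 3 = 1 := by rw [← hy]; exact pow_orderOf_eq_one y
    rw [h2, mul_one] at h1
    have h3 := orderOf_dvd_of_pow_eq_one h1
    rw [hx] at h3
    omega

/-- The main theorem. -/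
theorem main_2506 (n : ℕ)
    (A B : Subgroup (alternatingGroup (Fin n))) (hA : IsMulCommutative A) (hB : IsMulCommutative B)
    (hAmax : ∀ C : Subgroup (alternatingGroup (Fin n)), IsMulCommutative C → Nat.card C ≤ Nat.card A)
    (hBmax : ∀ C : Subgroup (alternatingGroup (Fin n)), IsMulCommutative C → Nat.card C ≤ Nat.card B) :
    ∃ g : alternatingGroup (Fin n), B = MulAut.conj g • A := by
  by_cases hn : 6 ≤ n
  · exact main_large n hn A B hA hB hAmax hBmax
  have hfA : Nat.card A ≤ f n := card_le_f_alt A hA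
  have hfB : Nat.card B ≤ f n := card_le_f_alt B hB
  have hn' : n = 0 ∨ n = 1 ∨ n = 2 ∨ n = 3 ∨ n = 4 ∨ n = 5 := by omega
  rcases hn' with rfl | rfl | rfl | rfl | rfl | rfl
  · exact ⟨1, Subsingleton.elim _ _⟩
  · exact ⟨1, Subsingleton.elim _ _⟩
  · refine ⟨1, ?_⟩
    haveI : Subsingleton (alternatingGroup (Fin 2)) := by
      constructor
      intro a b
      have h : ∀ a b : alternatingGroup (Fin 2), a = b := by decide
      exact h a b
    exact Subsingleton.elim _ _
  · -- degree three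
    obtain ⟨C, hC, hc⟩ := exists_model 1 0 3 (by norm_num)
    have h1 := hAmax C hC
    have h2 := hBmax C hC
    have e3 : f 3 = 3 := by simp [f]
    have hG : Nat.card (alternatingGroup (Fin 3)) = 3 ^ 1 * 1 := by
      rw [Nat.card_eq_fintype_card]; decide +kernel
    haveI : Fact (Nat.Prime 3) := ⟨by norm_num⟩
    exact conj_of_sylow 3 A B 1 1 hG (by norm_num) (by simp at hc; omega) (by simp at hc; omega)
  · -- degree four
    obtain ⟨C, hC, hc⟩ := exists_model 0 1 4 (by norm_num)
    have h1 := hAmax C hC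
    have h2 := hBmax C hC
    have e4 : f 4 = 4 := by simp [f]
    have hG : Nat.card (alternatingGroup (Fin 4)) = 2 ^ 2 * 3 := by
      rw [Nat.card_eq_fintype_card]; decide +kernel
    haveI : Fact (Nat.Prime 2) := ⟨by norm_num⟩
    exact conj_of_sylow 2 A B 2 3 hG (by norm_num) (by simp at hc; omega) (by simp at hc; omega)
  · -- degree five
    have hG : Nat.card (alternatingGroup (Fin 5)) = 5 ^ 1 * 12 := by
      rw [Nat.card_eq_fintype_card]; decide +kernel
    haveI : Fact (Nat.Prime 5) := ⟨by norm_num⟩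
    obtain ⟨C, hc⟩ := Sylow.exists_subgroup_card_pow_prime (G := alternatingGroup (Fin 5)) 5 (n := 1)
      (by rw [hG]; exact Dvd.intro _ rfl)
    have hC : IsMulCommutative C := by
      haveI : IsCyclic C := isCyclic_of_prime_card (p := 5) (by rw [hc]; norm_num)
      exact IsCyclic.isMulCommutative
    have h1 := hAmax C hC
    have h2 := hBmax C hC
    rw [hc] at h1 h2
    have e5 : f 5 = 6 := by simp [f]
    rw [e5] at hfA hfB
    have hsix : ∀ S : Subgroup (alternatingGroup (Fin 5)), IsMulCommutative S → Nat.card S ≠ 6 := by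
      intro S hS h6
      haveI := hS
      obtain ⟨g, hg1, hg2, hg3⟩ := abelian_six h6
      rcases no_order_six g (by exact_mod_cast congrArg Subtype.val hg1) with h | h
      · exact hg2 (Subtype.ext (by simpa using h))
      · exact hg3 (Subtype.ext (by simpa using h))
    have hA5 : Nat.card A = 5 ^ 1 := by
      have := hsix A hA
      omega
    have hB5 : Nat.card B = 5 ^ 1 := by
      have := hsix B hB
      omega
    exact conj_of_sylow 5 A B 1 12 hG (by norm_num) hA5 hB5

end CfsgLib.H9.MaxAbelian
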