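import Mathlib

/-! Products of groups of equal order are not B-groups. -/

set_option autoImplicit false
set_option linter.unusedVariables false
set_option linter.unusedSectionVars false
set_option linter.unusedSimpArgs false
set_option linter.style.haveILetI false

namespace CfsgLib.H9.NotB

open Equiv Finset MulAction
open scoped Pointwise

variable {ι : Type*} [Fintype ι] {m : ℕ}

open Classical in
/-- Hamming distance. -/
noncomputable def dd (y z : ι → Fin m) : ℕ := (univ.filter fun i => y i ≠ z i).card

/-- The Hamming isometries. -/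
noncomputable def isoSub (ι : Type*) [Fintype ι] (m : ℕ) : Subgroup (Perm (ι → Fin m)) where
  carrier := {g | ∀ y z, dd (g y) (g z) = dd y z}
  mul_mem' := by
    intro g h hg hh y z
    change dd (g (h y)) (g (h z)) = _
    rw [hg, hh]
  one_mem' := fun y z => rfl
  inv_mem' := by
    intro g hg y z
    have := hg (g⁻¹ y) (g⁻¹ z)
    simpa using this.symm

theorem dd_eq (y z : ι → Fin m) [DecidablePred fun i => y i ≠ z i] :
    dd y z = (univ.filter fun i => y i ≠ z i).card := by
  simp only [dd]
  congr!

theorem mem_isoSub (g : Perm (ι → Fin m)) : g ∈ isoSub ι m ↔ ∀ y z, dd (g y) (g z) = dd y z := Iff.rfl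

theorem dd_self (y : ι → Fin m) : dd y y = 0 := by
  classical
  simp [dd]

theorem dd_pos {y z : ι → Fin m} (h : y ≠ z) : 0 < dd y z := by
  classical
  obtain ⟨i, hi⟩ := Function.ne_iff.1 h
  exact Finset.card_pos.2 ⟨i, by simp [hi]⟩

theorem eq_of_dd_zero {y z : ι → Fin m} (h : dd y z = 0) : y = z := by
  by_contra hne
  have := dd_pos hne
  omega

theorem two_perm {p q r s : Fin m} (h : p ≠ q) (h' : r ≠ s) : ∃ σ : Perm (Fin m), σ p = r ∧ σ q = s := by
  classical
  have h1 : swap p r q ≠ r := by
    intro h2
    have h3 : swap p r q = swap p r p := by rw [h2, swap_apply_left]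
    exact h ((swap p r).injective h3).symm
  refine ⟨swap (swap p r q) s * swap p r, ?_, ?_⟩
  · rw [Perm.mul_apply, swap_apply_left]
    exact swap_apply_of_ne_of_ne (Ne.symm h1) h'
  · rw [Perm.mul_apply, swap_apply_left]

/-- Distance-transitivity. -/
theorem dist_trans (a y z w : ι → Fin m) (h : dd a y = dd z w) :
    ∃ g ∈ isoSub ι m, g a = z ∧ g y = w := by
  classical
  have hcard : Fintype.card {i // a i ≠ y i} = Fintype.card {i // z i ≠ w i} := by
    rw [Fintype.card_subtype, Fintype.card_subtype]
    exact h
  let e0 := Fintype.equivOfCardEq hcard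
  let π : Perm ι := e0.extendSubtype
  have hπ1 : ∀ i, a i ≠ y i → z (π i) ≠ w (π i) := fun i hi => e0.extendSubtype_mem i hi
  have hπ2 : ∀ i, ¬ a i ≠ y i → ¬ z (π i) ≠ w (π i) := fun i hi => e0.extendSubtype_not_mem i hi
  have hσ : ∀ i, ∃ σ : Perm (Fin m), σ (a i) = z (π i) ∧ σ (y i) = w (π i) := by
    intro i
    by_cases hi : a i ≠ y i
    · exact two_perm hi (hπ1 i hi)
    · have h1 := hπ2 i hi
      push Not at hi h1
      refine ⟨swap (a i) (z (π i)), swap_apply_left _ _, ?_⟩
      rw [← hi, swap_apply_left, h1]
  choose σ hσ1 hσ2 using hσ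
  let g : Perm (ι → Fin m) := Equiv.piCongr π σ
  have hg : ∀ (u : ι → Fin m) (i : ι), g u (π i) = σ i (u i) := fun u i =>
    Equiv.piCongr_apply_apply (W := fun _ => Fin m) (Z := fun _ => Fin m) π σ u i
  refine ⟨g, ?_, ?_, ?_⟩
  · intro u v
    apply Finset.card_bij (fun j _ => π.symm j)
    · intro j hj
      simp only [mem_filter, mem_univ, true_and] at hj ⊢
      intro h2
      apply hj
      have h3 := hg u (π.symm j)
      have h4 := hg v (π.symm j)
      rw [Equiv.apply_symm_apply] at h3 h4
      rw [h3, h4, h2]
    · intro j _ j' _ hjj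
      exact π.symm.injective hjj
    · intro i hi
      refine ⟨π i, ?_, by simp⟩
      simp only [mem_filter, mem_univ, true_and] at hi ⊢
      rw [hg, hg]
      exact fun h2 => hi ((σ i).injective h2)
  · funext j
    obtain ⟨i, rfl⟩ := π.surjective j
    rw [hg, hσ1]
  · funext j
    obtain ⟨i, rfl⟩ := π.surjective j
    rw [hg, hσ2]

variable (hm : 3 ≤ m)
include hm

/-- Changing one coordinate. -/
theorem dd_update_self [DecidableEq ι] (y : ι → Fin m) (i : ι) (c : Fin m) (hc : y i ≠ c) :
    dd y (Function.update y i c) = 1 := by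
  classical
  have : (univ.filter fun j => y j ≠ Function.update y i c j) = {i} := by
    ext j
    simp only [mem_filter, mem_univ, true_and, mem_singleton]
    constructor
    · intro h
      by_contra hj
      exact h (by rw [Function.update_of_ne hj])
    · rintro rfl
      rw [Function.update_self]
      exact hc
  simp only [dd]
  convert congrArg Finset.card this using 2
  simp

theorem exists_third (p q : Fin m) : ∃ c : Fin m, c ≠ p ∧ c ≠ q := by
  classical
  have h : ((univ : Finset (Fin m)).erase p |>.erase q).card ≥ 1 := by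
    have h1 := Finset.pred_card_le_card_erase (s := (univ : Finset (Fin m)).erase p) (a := q)
    have h2 := Finset.pred_card_le_card_erase (s := (univ : Finset (Fin m))) (a := p)
    simp only [card_univ, Fintype.card_fin] at h2
    omega
  obtain ⟨c, hc⟩ := Finset.card_pos.1 h
  simp only [mem_erase, mem_univ, and_true] at hc
  exact ⟨c, hc.2, hc.1⟩

/-- The Hamming isometries are primitive. -/
theorem iso_prim : IsPreprimitive (isoSub ι m) (ι → Fin m) := by
  classical
  haveI : IsPretransitive (isoSub ι m) (ι → Fin m) := by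
    constructor
    intro y z
    obtain ⟨g, hg, h1, -⟩ := dist_trans y y z z (by rw [dd_self, dd_self])
    exact ⟨⟨g, hg⟩, h1⟩
  let z0 : Fin m := ⟨0, by omega⟩
  let a : ι → Fin m := fun _ => z0
  refine IsPreprimitive.of_isTrivialBlock_base a ?_
  intro B haB hB
  by_cases hsub : B.Subsingleton
  · exact Or.inl hsub
  right
  -- fix a point at positive distance
  obtain ⟨y, hyB, hya⟩ : ∃ y ∈ B, y ≠ a := by
    by_contra hcon
    push Not at hcon
    apply hsub
    intro u hu v hv
    rw [hcon u hu, hcon v hv]
  -- closure under moves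
  have hmove : ∀ p ∈ B, ∀ q ∈ B, ∀ r ∈ B, ∀ s, dd p q = dd r s → s ∈ B := by
    intro p hp q hq r hr s hd
    obtain ⟨g, hg, h1, h2⟩ := dist_trans p q r s hd
    have hgB : (⟨g, hg⟩ : isoSub ι m) • B = B := by
      by_contra hne
      have hne' : (⟨g, hg⟩ : isoSub ι m) • B ≠ (1 : isoSub ι m) • B := by rwa [one_smul]
      have hdis := hB hne'
      rw [one_smul] at hdis
      have h3 : r ∈ (⟨g, hg⟩ : isoSub ι m) • B := ⟨p, hp, h1⟩
      exact (Set.disjoint_left.1 hdis) h3 hr
    rw [← hgB]
    exact ⟨q, hq, h2⟩
  -- a point at distance one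
  obtain ⟨i₀, hi₀⟩ : ∃ i, y i ≠ z0 := by
    by_contra hcon
    push Not at hcon
    exact hya (funext hcon)
  obtain ⟨c, hc1, hc2⟩ := exists_third hm z0 (y i₀)
  let w : ι → Fin m := Function.update a i₀ c
  have hwB : w ∈ B := by
    apply hmove a haB y hyB y hyB w
    -- `dd a y = dd y w`
    have : (univ.filter fun i => a i ≠ y i) = (univ.filter fun i => y i ≠ w i) := by
      ext i
      simp only [mem_filter, mem_univ, true_and]
      by_cases hi : i = i₀
      · subst hi
        simp only [w, Function.update_self]
        constructor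
        · intro _
          exact hc2.symm
        · intro _
          exact hi₀.symm
      · simp only [w, Function.update_of_ne hi]
        exact ne_comm
    simp only [dd]
    convert congrArg Finset.card this using 2
  have hd1 : dd a w = 1 := dd_update_self hm a i₀ c (Ne.symm hc1)
  -- induction on the distance
  have hall : ∀ (l : ℕ) (v : ι → Fin m), dd a v = l → v ∈ B := by
    intro l
    induction l with
    | zero =>
      intro v hv
      rw [← eq_of_dd_zero hv]
      exact haB
    | succ l ih =>
      intro v hv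
      obtain ⟨i, hi⟩ : ∃ i, a i ≠ v i := by
        by_contra hcon
        push Not at hcon
        have : a = v := funext hcon
        rw [this, dd_self] at hv
        omega
      let v' := Function.update v i (a i)
      have hv' : dd a v' = l := by
        have h1 : (univ.filter fun j => a j ≠ v j) = insert i (univ.filter fun j => a j ≠ v' j) := by
          ext j
          simp only [mem_filter, mem_univ, true_and, mem_insert]
          by_cases hj : j = i
          · subst hj
            simp [hi]
          · simp [hj, v', Function.update_of_ne hj]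
        have h2 : i ∉ (univ.filter fun j => a j ≠ v' j) := by
          simp [v']
        have h3 : dd a v = dd a v' + 1 := by
          rw [dd_eq, dd_eq, h1, card_insert_of_notMem h2]
        omega
      have hv'B := ih v' hv'
      apply hmove a haB w hwB v' hv'B v
      rw [hd1]
      have h4 : dd v' v = 1 := by
        have h5 : v = Function.update v' i (v i) := by
          funext j
          by_cases hj : j = i
          · subst hj
            simp
          · simp [hj, v', Function.update_of_ne hj]
        conv_lhs => rw [h5]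
        apply dd_update_self hm
        simp [v', hi]
      exact h4.symm
  ext v
  simp only [Set.mem_univ, iff_true]
  exact hall _ v rfl

omit hm in
/-- The product acting coordinatewise. -/
noncomputable def theta {F : ι → Type*} [∀ i, Group (F i)] (b : ∀ i, F i ≃ Fin m) :
    (∀ i, F i) →* Perm (ι → Fin m) where
  toFun k := Equiv.piCongrRight (fun i => (b i).symm.trans ((Equiv.mulLeft (k i)).trans (b i)))
  map_one' := by
    ext y i
    simp
  map_mul' k l := by
    ext y i
    simp [mul_assoc]

omit hm in
theorem theta_apply {F : ι → Type*} [∀ i, Group (F i)] (b : ∀ i, F i ≃ Fin m) (k : ∀ i, F i) (y : ι → Fin m) (i : ι) :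
    theta b k y i = b i (k i * (b i).symm (y i)) := rfl

omit hm in
theorem theta_mem {F : ι → Type*} [∀ i, Group (F i)] (b : ∀ i, F i ≃ Fin m) (k : ∀ i, F i) :
    theta b k ∈ isoSub ι m := by
  classical
  intro u v
  rw [dd_eq, dd_eq]
  apply congrArg Finset.card
  apply Finset.filter_congr
  intro i _
  simp only [theta_apply]
  constructor
  · intro h h2
    exact h (by rw [h2])
  · intro h h2
    apply h
    have h3 := (b i).injective h2
    have h4 := mul_left_cancel h3
    exact (b i).symm.injective h4

theorem main {K : Type*} [Group K] [Finite K] (F : ι → Type*) [∀ i, Group (F i)]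
    (hr : 2 ≤ Fintype.card ι) (hcard : ∀ i, Nat.card (F i) = m) (e : K ≃* (∀ i, F i)) :
    ∃ (n : ℕ) (G R : Subgroup (Equiv.Perm (Fin n))), R ≤ G ∧ Nonempty (↥R ≃* K) ∧
      MulAction.IsPretransitive ↥R (Fin n) ∧ (∀ a : Fin n, MulAction.stabilizer ↥R a = ⊥) ∧
      MulAction.IsPreprimitive ↥G (Fin n) ∧ ¬ MulAction.IsMultiplyPretransitive ↥G (Fin n) 2 := by
  classical
  haveI : ∀ i, Finite (F i) := fun i => Nat.finite_of_card_ne_zero (by rw [hcard i]; omega)
  let b : ∀ i, F i ≃ Fin m := fun i => Finite.equivFinOfCardEq (hcard i)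
  let e₀ : (ι → Fin m) ≃ Fin (Fintype.card (ι → Fin m)) := Fintype.equivFin _
  let π := e₀.permCongrHom
  have hπ : ∀ (p : Perm (ι → Fin m)) (x : ι → Fin m), π p (e₀ x) = e₀ (p x) := by
    intro p x
    simp [π, Equiv.permCongrHom, Equiv.permCongr_apply]
  let θ' : K →* Perm (Fin (Fintype.card (ι → Fin m))) := π.toMonoidHom.comp ((theta b).comp e.toMonoidHom)
  have hθ' : ∀ (k : K) (x : ι → Fin m), θ' k (e₀ x) = e₀ (theta b (e k) x) := fun k x => hπ _ x
  have hfree : ∀ (k : K) (x : ι → Fin m), theta b (e k) x = x → k = 1 := by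
    intro k x hx
    apply e.injective
    rw [map_one]
    funext i
    have h1 := congrFun hx i
    rw [theta_apply] at h1
    have h2 : e k i * (b i).symm (x i) = (b i).symm (x i) := by
      apply (b i).injective
      rw [h1]
      simp
    simpa using h2
  have hinj : Function.Injective θ' := by
    rw [injective_iff_map_eq_one]
    intro k hk
    obtain ⟨x⟩ : Nonempty (ι → Fin m) := ⟨fun _ => ⟨0, by omega⟩⟩
    apply hfree k x
    apply e₀.injective
    rw [← hθ', hk]
    rfl
  refine ⟨Fintype.card (ι → Fin m), (isoSub ι m).map π.toMonoidHom, θ'.range, ?_, ?_, ?_, ?_, ?_, ?_⟩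
  · rintro _ ⟨k, rfl⟩
    exact ⟨theta b (e k), theta_mem b _, rfl⟩
  · exact ⟨(MonoidHom.ofInjective hinj).symm⟩
  · constructor
    intro c d
    let x := e₀.symm c
    let y := e₀.symm d
    let k : K := e.symm (fun i => (b i).symm (y i) * ((b i).symm (x i))⁻¹)
    refine ⟨⟨θ' k, ⟨k, rfl⟩⟩, ?_⟩
    have h1 : θ' k (e₀ x) = e₀ y := by
      rw [hθ']
      congr 1
      funext i
      rw [theta_apply]
      simp [k]
    change θ' k c = d
    simpa [x, y] using h1
  · intro a
    rw [eq_bot_iff]
    rintro ⟨_, ⟨k, rfl⟩⟩ hk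
    rw [Subgroup.mem_bot]
    apply Subtype.ext
    have h1 : θ' k a = a := hk
    have h2 : k = 1 := by
      apply hfree k (e₀.symm a)
      apply e₀.injective
      rw [← hθ']
      simpa using h1
    simp [h2]
  · haveI := iso_prim (ι := ι) hm
    let φ : isoSub ι m → (isoSub ι m).map π.toMonoidHom := fun g => ⟨π g.1, ⟨g.1, g.2, rfl⟩⟩
    let f : (ι → Fin m) →ₑ[φ] Fin (Fintype.card (ι → Fin m)) :=
      ⟨e₀, fun g x => (hπ g.1 x).symm⟩
    exact IsPreprimitive.of_surjective (f := f) e₀.surjective
  · intro h2
    rw [is_two_pretransitive_iff] at h2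
    obtain ⟨i₁, i₂, hi⟩ : ∃ i₁ i₂ : ι, i₁ ≠ i₂ := by
      haveI : Nontrivial ι := Fintype.one_lt_card_iff_nontrivial.1 (by omega)
      exact exists_pair_ne ι
    let z0 : Fin m := ⟨0, by omega⟩
    obtain ⟨c, hc1, -⟩ := exists_third hm z0 z0
    let a : ι → Fin m := fun _ => z0
    let y₁ := Function.update a i₁ c
    let y₂ := Function.update y₁ i₂ c
    have hd1 : dd a y₁ = 1 := dd_update_self hm a i₁ c (Ne.symm hc1)
    have hy₁ : a ≠ y₁ := by
      intro h
      rw [← h, dd_self] at hd1
      omega
    have hy₂ : a ≠ y₂ := by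
      intro h
      have := congrFun h i₂
      simp [a, y₂] at this
      exact hc1 this.symm
    obtain ⟨⟨g, g₀, hg₀, rfl⟩, h3, h4⟩ := h2 (a := e₀ a) (b := e₀ y₁) (c := e₀ a) (d := e₀ y₂)
      (fun h => hy₁ (e₀.injective h)) (fun h => hy₂ (e₀.injective h))
    have h3' : g₀ a = a := e₀.injective ((hπ g₀ a).symm.trans h3)
    have h4' : g₀ y₁ = y₂ := e₀.injective ((hπ g₀ y₁).symm.trans h4)
    have h5 := hg₀ a y₁
    rw [h3', h4', hd1] at h5
    have h6 : 1 < dd a y₂ := by
      rw [dd_eq]
      refine Finset.one_lt_card.2 ⟨i₁, ?_, i₂, ?_, hi⟩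
      · simp only [mem_filter, mem_univ, true_and]
        simp [a, y₂, y₁, Function.update_of_ne hi]
        exact Ne.symm hc1
      · simp only [mem_filter, mem_univ, true_and]
        simp [a, y₂]
        exact Ne.symm hc1
    omega

end CfsgLib.H9.NotB
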