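import Mathlib
import Cfsg.Agent.S0242

/-! Opposite Sylow subgroups: any two Sylow 2-subgroups of an extension of `SL(n,2)` of degree 2 meet. -/

set_option autoImplicit false
set_option linter.unusedSectionVars false
set_option linter.unusedVariables false
set_option linter.style.haveILetI false
set_option linter.unusedSimpArgs false

namespace CfsgLib.H9.Opp

open Matrix
open scoped Pointwise

section abstract

variable {G : Type*} [Group G] [Finite G]

theorem fac2 {k o : ℕ} (ho : Odd o) : (2 ^ k * o).factorization 2 = k := by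
  have h0 : o ≠ 0 := ho.pos.ne'
  rw [Nat.factorization_mul (by positivity) h0]
  simp [Nat.factorization_eq_zero_of_not_dvd (show ¬ 2 ∣ o from ho.not_two_dvd_nat), Nat.Prime.factorization_self Nat.prime_two]

theorem meet_abs (N : Subgroup G) [hN : N.Normal] (hidx : N.index = 2)
    (hopp : ∀ Q : Subgroup G, Q ≤ N → Nat.card Q = 2 ^ (Nat.card N).factorization 2 →
      ∀ x ∈ N, ∀ y ∈ N, (∀ t ∈ Q, x⁻¹ * t * x ∈ Q → t = 1) → (∀ t ∈ Q, y⁻¹ * t * y ∈ Q → t = 1) →
        ∃ u ∈ Q, ∃ v ∈ Q, y = u * x * v)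
    (H : Sylow 2 G) (x : G) :
    (H : Subgroup G) ⊓ MulAut.conj x • (H : Subgroup G) ≠ ⊥ := by
  classical
  have hGN : Nat.card G = Nat.card N * 2 := by
    rw [← Subgroup.card_mul_index N, hidx]
  have hN0 : Nat.card N ≠ 0 := Nat.card_pos.ne'
  set v := (Nat.card N).factorization 2 with hv
  have hfacG : (Nat.card G).factorization 2 = v + 1 := by
    rw [hGN, Nat.factorization_mul hN0 (by norm_num)]
    simp [Nat.Prime.factorization_self Nat.prime_two, hv]
  have hH : Nat.card (H : Subgroup G) = 2 ^ (v + 1) := by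
    rw [H.card_eq_multiplicity, hfacG]
  set Q : Subgroup G := (H : Subgroup G) ⊓ N with hQ
  have hQN : Q ≤ N := inf_le_right
  have hQH : Q ≤ (H : Subgroup G) := inf_le_left
  have hQcard : Nat.card Q = 2 ^ v := by
    -- lower bound
    have h1 : N.relIndex (H : Subgroup G) ∣ N.index := Subgroup.relIndex_dvd_index_of_normal _ _
    rw [hidx] at h1
    have h2 : Nat.card (N.subgroupOf (H : Subgroup G)) * N.relIndex (H : Subgroup G) = Nat.card (H : Subgroup G) :=
      Subgroup.card_mul_index _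
    have h3 : Nat.card (N.subgroupOf (H : Subgroup G)) = Nat.card Q := by
      apply Nat.card_congr
      exact ⟨fun a => ⟨a.1.1, a.1.2, a.2⟩, fun b => ⟨⟨b.1, b.2.1⟩, b.2.2⟩, fun a => rfl, fun b => rfl⟩
    rw [h3, hH] at h2
    have h4 : Nat.card Q ∣ 2 ^ (v + 1) := ⟨_, h2.symm⟩
    obtain ⟨a, ha, hc⟩ := (Nat.dvd_prime_pow Nat.prime_two).mp h4
    have h5 : 2 ^ a ∣ Nat.card N := by
      rw [← hc]
      exact Subgroup.card_dvd_of_le hQN
    have h6 : a ≤ v := (Nat.Prime.pow_dvd_iff_le_factorization Nat.prime_two hN0).mp h5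
    have h7 : N.relIndex (H : Subgroup G) ≤ 2 := Nat.le_of_dvd (by norm_num) h1
    rw [hc] at h2 ⊢
    have h8 : v ≤ a := by
      by_contra hlt
      have h9 : a + 1 ≤ v := by omega
      have h10 : 2 ^ a * 2 ≤ 2 ^ v := by
        rw [← pow_succ]
        exact Nat.pow_le_pow_right (by norm_num) h9
      have h11 : 2 ^ (v + 1) ≤ 2 ^ a * 2 := by
        rw [← h2]
        exact Nat.mul_le_mul_left _ h7
      rw [pow_succ] at h11
      have : 0 < 2 ^ v := by positivity
      omega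
    rw [le_antisymm h6 h8]
  -- an element outside `N`
  obtain ⟨τ, hτH, hτN⟩ : ∃ τ ∈ (H : Subgroup G), τ ∉ N := by
    by_contra hcon
    have hle : (H : Subgroup G) ≤ N := by
      intro y hy
      by_contra hyN
      exact hcon ⟨y, hy, hyN⟩
    have h1 := Subgroup.card_dvd_of_le hle
    rw [hH] at h1
    have h2 := (Nat.Prime.pow_dvd_iff_le_factorization Nat.prime_two hN0).mp h1
    omega
  -- reduction to `x ∈ N`
  obtain ⟨x₁, hx₁N, hx₁⟩ : ∃ x₁ ∈ N, ∃ w ∈ (H : Subgroup G), x = x₁ * w := by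
    by_cases hx : x ∈ N
    · exact ⟨x, hx, 1, Subgroup.one_mem _, by simp⟩
    · refine ⟨x * τ⁻¹, ?_, τ, hτH, by group⟩
      rw [Subgroup.mul_mem_iff_of_index_two hidx]
      simp [hx, hτN]
  obtain ⟨w, hwH, hxw⟩ := hx₁
  suffices hs : ∃ d ∈ (H : Subgroup G), d ≠ 1 ∧ x₁⁻¹ * d * x₁ ∈ (H : Subgroup G) by
    obtain ⟨d, hdH, hd1, hd⟩ := hs
    intro hbot
    have hmem : d ∈ (H : Subgroup G) ⊓ MulAut.conj x • (H : Subgroup G) := by
      refine Subgroup.mem_inf.mpr ⟨hdH, ?_⟩
      rw [Subgroup.mem_pointwise_smul_iff_inv_smul_mem]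
      have : (MulAut.conj x)⁻¹ • d = x⁻¹ * d * x := by
        show (MulAut.conj x)⁻¹ d = _
        rw [MulAut.conj_inv_apply]
      rw [this, hxw]
      have e : (x₁ * w)⁻¹ * d * (x₁ * w) = w⁻¹ * (x₁⁻¹ * d * x₁) * w := by group
      rw [e]
      exact Subgroup.mul_mem _ (Subgroup.mul_mem _ (Subgroup.inv_mem _ hwH) hd) hwH
    rw [hbot, Subgroup.mem_bot] at hmem
    exact hd1 hmem
  by_cases hcase : ∃ t ∈ Q, x₁⁻¹ * t * x₁ ∈ Q ∧ t ≠ 1
  · obtain ⟨t, ht, ht2, ht1⟩ := hcase
    exact ⟨t, hQH ht, ht1, hQH ht2⟩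
  simp only [not_exists, not_and, not_not] at hcase
  have hQconj : ∀ a ∈ (H : Subgroup G), ∀ t ∈ Q, a * t * a⁻¹ ∈ Q := by
    intro a ha t ht
    refine ⟨Subgroup.mul_mem _ (Subgroup.mul_mem _ ha (hQH ht)) (Subgroup.inv_mem _ ha), ?_⟩
    exact hN.conj_mem t (hQN ht) a
  set y := τ * x₁ * τ⁻¹ with hy
  have hyN : y ∈ N := by
    rw [hy]
    exact hN.conj_mem x₁ hx₁N τ
  have hoppy : ∀ t ∈ Q, y⁻¹ * t * y ∈ Q → t = 1 := by
    intro t ht hyt
    have h1 := hQconj τ⁻¹ (Subgroup.inv_mem _ hτH) t ht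
    have h2 : x₁⁻¹ * (τ⁻¹ * t * τ⁻¹⁻¹) * x₁ ∈ Q := by
      have h3 := hQconj τ⁻¹ (Subgroup.inv_mem _ hτH) _ hyt
      have e : x₁⁻¹ * (τ⁻¹ * t * τ⁻¹⁻¹) * x₁ = τ⁻¹ * (y⁻¹ * t * y) * τ⁻¹⁻¹ := by
        rw [hy]
        group
      rw [e]
      exact h3
    have h4 := hcase _ h1 h2
    have e : t = τ * (τ⁻¹ * t * τ⁻¹⁻¹) * τ⁻¹ := by group
    rw [e, h4]
    group
  obtain ⟨u, hu, r, hr, hyu⟩ := hopp Q hQN hQcard x₁ hx₁N y hyN hcase hoppy
  refine ⟨u⁻¹ * τ, Subgroup.mul_mem _ (Subgroup.inv_mem _ (hQH hu)) hτH, ?_, ?_⟩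
  · intro h
    apply hτN
    have : τ = u := by
      have h1 : τ = u * (u⁻¹ * τ) := by group
      rw [h1, h, mul_one]
    rw [this]
    exact hQN hu
  · have e : x₁⁻¹ * (u⁻¹ * τ) * x₁ = r * τ := by
      have h1 : τ * x₁ = y * τ := by
        rw [hy]
        group
      calc x₁⁻¹ * (u⁻¹ * τ) * x₁ = x₁⁻¹ * u⁻¹ * (τ * x₁) := by group
        _ = x₁⁻¹ * u⁻¹ * (y * τ) := by rw [h1]
        _ = x₁⁻¹ * u⁻¹ * (u * x₁ * r * τ) := by rw [hyu]
        _ = r * τ := by group
    rw [e]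
    exact Subgroup.mul_mem _ (hQH hr) hτH

end abstract

section matrix

variable {n : ℕ}

/-- The group `SL(n,2)`. -/
abbrev M (n : ℕ) := Matrix.SpecialLinearGroup (Fin n) (ZMod 2)

theorem zmod2_eq_one {a : ZMod 2} (h : a ≠ 0) : a = 1 := by
  revert a
  decide

theorem zmod2_mul_self {a : ZMod 2} (h : a * a = 1) : a = 1 := by
  revert a
  decide

theorem exists_perp {E : Type*} [Fintype E] (a : E → Fin n → ZMod 2) (hc : Fintype.card E < n) :
    ∃ φ : Fin n → ZMod 2, φ ≠ 0 ∧ ∀ e, a e ⬝ᵥ φ = 0 := by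
  classical
  let A : Matrix E (Fin n) (ZMod 2) := Matrix.of a
  have h : LinearMap.ker A.mulVecLin ≠ ⊥ := LinearMap.ker_ne_bot_of_finrank_lt (by simpa using hc)
  obtain ⟨φ, hφ, hφ0⟩ := Submodule.exists_mem_ne_zero_of_ne_bot h
  refine ⟨φ, hφ0, fun e => ?_⟩
  have := congrFun (LinearMap.mem_ker.mp hφ) e
  simpa [A, Matrix.mulVec] using this

/-- Upper triangular matrices. -/
def Up (A : Matrix (Fin n) (Fin n) (ZMod 2)) : Prop := ∀ i j : Fin n, j < i → A i j = 0

theorem Up.mul {A B : Matrix (Fin n) (Fin n) (ZMod 2)} (hA : Up A) (hB : Up B) : Up (A * B) := by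
  intro i j hij
  rw [Matrix.mul_apply]
  apply Finset.sum_eq_zero
  intro k _
  by_cases h : k < i
  · rw [hA i k h, zero_mul]
  · rw [hB k j (lt_of_lt_of_le hij (not_lt.mp h)), mul_zero]

/-- The upper triangular subgroup of `SL(n,2)`. -/
def U (n : ℕ) : Subgroup (M n) where
  carrier := {g | Up g.1}
  one_mem' := by
    intro i j hij
    show (1 : Matrix (Fin n) (Fin n) (ZMod 2)) i j = 0
    exact Matrix.one_apply_ne hij.ne'
  mul_mem' := by
    intro a b ha hb
    exact Up.mul ha hb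
  inv_mem' := by
    intro a ha
    have h1 : a⁻¹ = a ^ (orderOf a - 1) := by
      apply inv_eq_of_mul_eq_one_left
      rw [← pow_succ, Nat.sub_add_cancel (orderOf_pos a), pow_orderOf_eq_one]
    rw [h1]
    generalize orderOf a - 1 = m
    induction m with
    | zero =>
      intro i j hij
      show ((a ^ 0 : M n) : Matrix (Fin n) (Fin n) (ZMod 2)) i j = 0
      rw [pow_zero]
      exact Matrix.one_apply_ne hij.ne'
    | succ m ih =>
      rw [pow_succ]
      exact Up.mul ih ha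

theorem mem_U {g : M n} : g ∈ U n ↔ Up g.1 := Iff.rfl

theorem Up.diag_one {A : Matrix (Fin n) (Fin n) (ZMod 2)} (hA : Up A) (hd : A.det = 1) (i : Fin n) : A i i = 1 := by
  have h1 : A.det = ∏ i, A i i := Matrix.det_of_isUpperTriangular (fun i j hij => hA i j hij)
  apply zmod2_eq_one
  intro h0
  rw [h1, Finset.prod_eq_zero (f := fun k => A k k) (Finset.mem_univ i) h0] at hd
  exact zero_ne_one hd

/-- The pairs `i < j`. -/
abbrev PP (n : ℕ) := {p : Fin n × Fin n // p.1 < p.2}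

theorem card_PP (n : ℕ) : Fintype.card (PP n) = ∑ j : Fin n, j.val := by
  classical
  have e : PP n ≃ Σ j : Fin n, {i : Fin n // i < j} :=
    ⟨fun p => ⟨p.1.2, ⟨p.1.1, p.2⟩⟩, fun s => ⟨(s.2.1, s.1), s.2.2⟩, fun p => rfl, fun s => rfl⟩
  rw [Fintype.card_congr e, Fintype.card_sigma]
  apply Finset.sum_congr rfl
  intro j _
  rw [Fintype.card_subtype]
  have : (Finset.univ.filter fun i : Fin n => i < j) = Finset.Iio j := by
    ext i
    simp
  rw [this, Fin.card_Iio]

theorem card_U (n : ℕ) : Nat.card (U n) = 2 ^ ∑ j : Fin n, j.val := by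
  classical
  let f : U n → (PP n → ZMod 2) := fun g p => g.1.1 p.1.1 p.1.2
  have hinj : Function.Injective f := by
    intro g h hgh
    apply Subtype.ext
    apply Subtype.ext
    ext i j
    rcases lt_trichotomy i j with hij | hij | hij
    · exact congrFun hgh ⟨(i, j), hij⟩
    · subst hij
      rw [Up.diag_one g.2 g.1.2, Up.diag_one h.2 h.1.2]
    · rw [g.2 i j hij, h.2 i j hij]
  have hsurj : Function.Surjective f := by
    intro φ
    let A : Matrix (Fin n) (Fin n) (ZMod 2) := Matrix.of fun i j =>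
      if h : i < j then φ ⟨(i, j), h⟩ else if i = j then 1 else 0
    have hA : Up A := by
      intro i j hij
      simp only [A, Matrix.of_apply]
      rw [dif_neg (not_lt.mpr hij.le), if_neg hij.ne']
    have hd : A.det = 1 := by
      rw [Matrix.det_of_isUpperTriangular (fun i j hij => hA i j hij)]
      apply Finset.prod_eq_one
      intro i _
      simp [A]
    refine ⟨⟨⟨A, hd⟩, hA⟩, ?_⟩
    funext p
    show A p.1.1 p.1.2 = φ p
    simp only [A, Matrix.of_apply]
    rw [dif_pos p.2]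
  rw [Nat.card_congr (Equiv.ofBijective f ⟨hinj, hsurj⟩), Nat.card_eq_fintype_card, Fintype.card_fun, ZMod.card, card_PP]

theorem card_M (n : ℕ) (hn : 1 ≤ n) : ∃ o, Odd o ∧ Nat.card (M n) = 2 ^ (∑ j : Fin n, j.val) * o := by
  have h := Cfsg.Agent.S0242.result (F := ZMod 2) (ZMod.card 2) n hn
  simp only [Nat.add_one_sub_one, one_mul] at h
  refine ⟨∏ i : Fin n, (2 ^ (n - i.val) - 1), ?_, ?_⟩
  · apply Finset.prod_induction _ Odd (fun a b => Odd.mul) odd_one
    intro i _
    have : 1 ≤ n - i.val := by have := i.2; omega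
    obtain ⟨k, hk⟩ : ∃ k, n - i.val = k + 1 := ⟨n - i.val - 1, by omega⟩
    rw [hk, pow_succ]
    exact ⟨2 ^ k - 1, by have : 0 < 2 ^ k := by positivity
                         omega⟩
  · have h2 : 2 - 1 = 1 := rfl
    rw [h, ← Finset.prod_pow_eq_pow_sum, ← Finset.prod_mul_distrib]
    apply Finset.prod_congr rfl
    intro i _
    have hi := i.2
    have e : 2 ^ n = 2 ^ i.val * 2 ^ (n - i.val) := by
      rw [← pow_add]
      congr 1
      omega
    rw [e, Nat.mul_sub, mul_one]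

section bigcell

variable {n : ℕ}

/-- A vector in the small part of the flag whose image is small: impossible. -/
theorem no_small (x : M n) (hopp : ∀ t ∈ U n, x⁻¹ * t * x ∈ U n → t = 1) (i : ℕ) (t : Fin n → ZMod 2)
    (ht0 : t ≠ 0) (ht : ∀ a : Fin n, i ≤ a.val → t a = 0)
    (hv : ∀ k : Fin n, n ≤ k.val + i → (x.1 *ᵥ t) k = 0) : False := by
  classical
  set X : Matrix (Fin n) (Fin n) (ZMod 2) := x.1 with hX
  set Xi : Matrix (Fin n) (Fin n) (ZMod 2) := (x⁻¹).1 with hXi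
  have hXiX : Xi * X = 1 := by
    have : ((x⁻¹ * x : M n)).1 = 1 := by simp
    exact this
  have hXXi : X * Xi = 1 := by
    have : ((x * x⁻¹ : M n)).1 = 1 := by simp
    exact this
  set v := X *ᵥ t with hvdef
  have hXiv : Xi *ᵥ v = t := by
    rw [hvdef, Matrix.mulVec_mulVec, hXiX, Matrix.one_mulVec]
  have hv0 : v ≠ 0 := by
    intro h
    apply ht0
    rw [← hXiv, h, Matrix.mulVec_zero]
  obtain ⟨a₀, ha₀⟩ : ∃ a, t a ≠ 0 := by
    by_contra hcon
    simp only [not_exists, not_not] at hcon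
    exact ht0 (funext hcon)
  obtain ⟨k₀, hk₀⟩ : ∃ k, v k ≠ 0 := by
    by_contra hcon
    simp only [not_exists, not_not] at hcon
    exact hv0 (funext hcon)
  have hi1 : 1 ≤ i := by
    by_contra hcon
    exact ha₀ (ht a₀ (by omega))
  have hi2 : i + 1 ≤ n := by
    by_contra hcon
    have h := k₀.2
    exact hk₀ (hv k₀ (by omega))
  -- the linear system
  let E := Fin (n - i - 1) ⊕ Fin (i - 1) ⊕ Unit
  let a : E → Fin n → ZMod 2 := fun e => match e with
    | Sum.inl b => Pi.single (Fin.castLE (by omega) b) 1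
    | Sum.inr (Sum.inl b) => X *ᵥ Pi.single (Fin.castLE (by omega) b) 1
    | Sum.inr (Sum.inr _) => v
  have hcard : Fintype.card E < n := by
    simp only [E, Fintype.card_sum, Fintype.card_fin, Fintype.card_unit]
    omega
  obtain ⟨φ, hφ0, hφ⟩ := exists_perp a hcard
  have hφ1 : ∀ b : Fin n, b.val + i + 1 < n → φ b = 0 := by
    intro b hb
    have := hφ (Sum.inl ⟨b.val, by omega⟩)
    have e : Fin.castLE (show n - i - 1 ≤ n by omega) ⟨b.val, by omega⟩ = b := Fin.ext rfl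
    simp only [a, e] at this
    simpa using this
  set ψ := φ ᵥ* X with hψ
  have hψ1 : ∀ b : Fin n, b.val + 1 < i → ψ b = 0 := by
    intro b hb
    have := hφ (Sum.inr (Sum.inl ⟨b.val, by omega⟩))
    have e : Fin.castLE (show i - 1 ≤ n by omega) ⟨b.val, by omega⟩ = b := Fin.ext rfl
    simp only [a, e] at this
    rw [dotProduct_comm, Matrix.dotProduct_mulVec] at this
    simpa using this
  have hφv : v ⬝ᵥ φ = 0 := hφ (Sum.inr (Sum.inr ()))
  -- the transvection
  set A : Matrix (Fin n) (Fin n) (ZMod 2) := Matrix.vecMulVec v φ with hA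
  have hAA : A * A = 0 := by
    rw [hA, Matrix.vecMulVec_mul_vecMulVec]
    rw [dotProduct_comm, hφv]
    ext i j
    simp
  set T : Matrix (Fin n) (Fin n) (ZMod 2) := 1 + A with hT
  have hTT : T * T = 1 := by
    rw [hT, add_mul, mul_add, mul_add, hAA]
    simp only [one_mul, mul_one, add_zero]
    have h2 : A + A = 0 := by
      ext i j
      simp only [Matrix.add_apply, Matrix.zero_apply]
      exact CharTwo.add_self_eq_zero _
    rw [add_assoc, h2, add_zero]
  have hTdet : T.det = 1 := by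
    apply zmod2_mul_self
    rw [← Matrix.det_mul, hTT, Matrix.det_one]
  let T' : M n := ⟨T, hTdet⟩
  have hT'U : T' ∈ U n := by
    intro p q hpq
    show T p q = 0
    rw [hT, Matrix.add_apply, Matrix.one_apply_ne hpq.ne', zero_add, hA, Matrix.vecMulVec_apply]
    by_cases hp : n ≤ p.val + i
    · rw [hv p hp, zero_mul]
    · rw [hφ1 q (by have : q.val < p.val := hpq
                    omega), mul_zero]
  have hconj : ((x⁻¹ * T' * x : M n)).1 = 1 + Matrix.vecMulVec t ψ := by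
    show Xi * T * X = _
    rw [hT, mul_add, add_mul, mul_one, hXiX, hA, Matrix.mul_vecMulVec, Matrix.vecMulVec_mul, hXiv]
  have hconjU : x⁻¹ * T' * x ∈ U n := by
    intro p q hpq
    rw [hconj, Matrix.add_apply, Matrix.one_apply_ne hpq.ne', zero_add, Matrix.vecMulVec_apply]
    by_cases hp : i ≤ p.val
    · rw [ht p hp, zero_mul]
    · rw [hψ1 q (by have : q.val < p.val := hpq
                    omega), mul_zero]
  have hT1 := hopp T' hT'U hconjU
  apply hφ0
  funext q
  by_contra hq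
  have h1 : T k₀ q = (1 : Matrix (Fin n) (Fin n) (ZMod 2)) k₀ q := by
    have : T = 1 := congrArg Subtype.val hT1
    rw [this]
  rw [hT, Matrix.add_apply] at h1
  have h2 : A k₀ q = 0 := by simpa using h1
  rw [hA, Matrix.vecMulVec_apply] at h2
  exact (mul_ne_zero hk₀ hq) h2

/-- The element reversing the coordinates. -/
noncomputable def w₀ (n : ℕ) : M n :=
  ⟨(1 : Matrix (Fin n) (Fin n) (ZMod 2)).submatrix Fin.revPerm id, by
    rw [Matrix.det_permute, Matrix.det_one, mul_one]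
    rcases Int.units_eq_one_or (Equiv.Perm.sign (Fin.revPerm : Equiv.Perm (Fin n))) with h | h <;> rw [h] <;> simp⟩

/-- The big cell. -/
theorem big_cell (x : M n) (hopp : ∀ t ∈ U n, x⁻¹ * t * x ∈ U n → t = 1) :
    ∃ u ∈ U n, ∃ g ∈ U n, x = u * w₀ n * g := by
  classical
  set X : Matrix (Fin n) (Fin n) (ZMod 2) := x.1 with hX
  set Xi : Matrix (Fin n) (Fin n) (ZMod 2) := (x⁻¹).1 with hXi
  have hXiX : Xi * X = 1 := by
    have : ((x⁻¹ * x : M n)).1 = 1 := by simp
    exact this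
  -- the columns
  have hcol : ∀ j : Fin n, ∃ t : Fin n → ZMod 2, (∀ a : Fin n, j.val < a.val → t a = 0) ∧
      (X *ᵥ t) (Fin.rev j) = 1 ∧ ∀ k : Fin n, (Fin.rev j).val < k.val → (X *ᵥ t) k = 0 := by
    intro j
    have hj := j.2
    let E := Fin (n - (j.val + 1)) ⊕ Fin j.val
    let a : E → Fin n → ZMod 2 := fun e => match e with
      | Sum.inl b => Pi.single ⟨j.val + 1 + b.val, by have := b.2; omega⟩ 1
      | Sum.inr b => X ⟨n - j.val + b.val, by have := b.2; omega⟩
    have hcard : Fintype.card E < n := by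
      simp only [E, Fintype.card_sum, Fintype.card_fin]
      omega
    obtain ⟨t, ht0, ht⟩ := exists_perp a hcard
    have ht1 : ∀ c : Fin n, j.val < c.val → t c = 0 := by
      intro c hc
      have := ht (Sum.inl ⟨c.val - (j.val + 1), by have := c.2; omega⟩)
      have e : (⟨j.val + 1 + (c.val - (j.val + 1)), by have := c.2; omega⟩ : Fin n) = c := Fin.ext (by simp; omega)
      simp only [a, e] at this
      simpa using this
    have ht2 : ∀ k : Fin n, n ≤ k.val + (j.val + 1) + 0 → k.val ≠ n - 1 - j.val → (X *ᵥ t) k = 0 := by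
      intro k hk hk2
      have := ht (Sum.inr ⟨k.val - (n - j.val), by have := k.2; omega⟩)
      have e : (⟨n - j.val + (k.val - (n - j.val)), by have := k.2; omega⟩ : Fin n) = k := Fin.ext (by simp; omega)
      simp only [a, e] at this
      exact this
    refine ⟨t, ht1, ?_, ?_⟩
    · apply zmod2_eq_one
      intro h0
      apply no_small x hopp (j.val + 1) t ht0 (fun c hc => ht1 c (by omega))
      intro k hk
      by_cases hk2 : k.val = n - 1 - j.val
      · have : k = Fin.rev j := Fin.ext (by rw [hk2, Fin.val_rev]; omega)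
        rw [this]
        exact h0
      · exact ht2 k (by omega) hk2
    · intro k hk
      have hr : (Fin.rev j).val = n - 1 - j.val := by
        rw [Fin.val_rev]
        omega
      rw [hr] at hk
      have := k.2
      exact ht2 k (by omega) (by omega)
  choose t ht1 ht2 ht3 using hcol
  set V : Fin n → Fin n → ZMod 2 := fun j => X *ᵥ t j with hV
  -- the matrix `u`
  let Um : Matrix (Fin n) (Fin n) (ZMod 2) := Matrix.of fun a b => V (Fin.rev b) a
  have hUm : Up Um := by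
    intro a b hab
    show V (Fin.rev b) a = 0
    apply ht3
    rw [Fin.rev_rev]
    exact hab
  have hUd : Um.det = 1 := by
    rw [Matrix.det_of_isUpperTriangular (fun i j hij => hUm i j hij)]
    apply Finset.prod_eq_one
    intro i _
    show V (Fin.rev i) i = 1
    have := ht2 (Fin.rev i)
    rwa [Fin.rev_rev] at this
  let u : M n := ⟨Um, hUd⟩
  have hw : ∀ j : Fin n, (w₀ n).1 *ᵥ Pi.single j (1 : ZMod 2) = Pi.single (Fin.rev j) 1 := by
    intro j
    ext a
    show ∑ b, (1 : Matrix (Fin n) (Fin n) (ZMod 2)) (Fin.rev a) b * (Pi.single j (1 : ZMod 2) : Fin n → ZMod 2) b = _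
    rw [Finset.sum_eq_single j]
    · simp only [Pi.single_eq_same, mul_one, Matrix.one_apply, Pi.single_apply]
      by_cases h : a = Fin.rev j
      · rw [if_pos h, if_pos (by rw [h, Fin.rev_rev])]
      · rw [if_neg h, if_neg]
        intro h2
        apply h
        rw [← h2, Fin.rev_rev]
    · intro b _ hb
      simp [Pi.single_apply, hb]
    · simp
  have hg : x⁻¹ * u * w₀ n ∈ U n := by
    intro a b hab
    have e : (x⁻¹ * u * w₀ n).1 = Xi * (Um * (w₀ n).1) := by
      show Xi * Um * (w₀ n).1 = _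
      rw [mul_assoc]
    have h1 : (x⁻¹ * u * w₀ n).1 *ᵥ Pi.single b (1 : ZMod 2) = t b := by
      rw [e, ← Matrix.mulVec_mulVec, ← Matrix.mulVec_mulVec, hw, Matrix.mulVec_single_one]
      have e2 : Um.col (Fin.rev b) = V b := by
        funext c
        show V (Fin.rev (Fin.rev b)) c = V b c
        rw [Fin.rev_rev]
      rw [e2, hV]
      show Xi *ᵥ (X *ᵥ t b) = t b
      rw [Matrix.mulVec_mulVec, hXiX, Matrix.one_mulVec]
    have h2 := congrFun h1 a
    rw [Matrix.mulVec_single_one] at h2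
    show (x⁻¹ * u * w₀ n).1 a b = 0
    have h3 : (x⁻¹ * u * w₀ n).1 a b = t b a := h2
    rw [h3]
    exact ht1 b a hab
  refine ⟨u, hUm, (x⁻¹ * u * w₀ n)⁻¹, Subgroup.inv_mem _ hg, ?_⟩
  group

theorem double_coset {x y : M n} (hx : ∀ t ∈ U n, x⁻¹ * t * x ∈ U n → t = 1)
    (hy : ∀ t ∈ U n, y⁻¹ * t * y ∈ U n → t = 1) : ∃ u ∈ U n, ∃ v ∈ U n, y = u * x * v := by
  obtain ⟨u₁, hu₁, g₁, hg₁, h1⟩ := big_cell x hx
  obtain ⟨u₂, hu₂, g₂, hg₂, h2⟩ := big_cell y hy
  refine ⟨u₂ * u₁⁻¹, Subgroup.mul_mem _ hu₂ (Subgroup.inv_mem _ hu₁), g₁⁻¹ * g₂,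
    Subgroup.mul_mem _ (Subgroup.inv_mem _ hg₁) hg₂, ?_⟩
  rw [h1, h2]
  group

/-- The same for any Sylow 2-subgroup. -/
theorem double_coset_sylow (hn : 1 ≤ n) (Q : Subgroup (M n)) (hQ : Nat.card Q = 2 ^ (Nat.card (M n)).factorization 2)
    {x y : M n} (hx : ∀ t ∈ Q, x⁻¹ * t * x ∈ Q → t = 1)
    (hy : ∀ t ∈ Q, y⁻¹ * t * y ∈ Q → t = 1) : ∃ u ∈ Q, ∃ v ∈ Q, y = u * x * v := by
  obtain ⟨o, ho, hcard⟩ := card_M n hn
  have hfac : (Nat.card (M n)).factorization 2 = ∑ j : Fin n, j.val := by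
    rw [hcard, fac2 ho]
  let S₀ : Sylow 2 (M n) := Sylow.ofCard (U n) (by rw [card_U, hfac])
  let S₁ : Sylow 2 (M n) := Sylow.ofCard Q hQ
  obtain ⟨c, hc⟩ := MulAction.exists_smul_eq (M n) S₀ S₁
  have hmem : ∀ z, z ∈ Q ↔ c⁻¹ * z * c ∈ U n := by
    intro z
    have e : z ∈ Q ↔ z ∈ (S₁ : Subgroup (M n)) := Iff.rfl
    rw [e, ← hc, Sylow.coe_subgroup_smul, Subgroup.mem_pointwise_smul_iff_inv_smul_mem]
    show _ ∈ U n ↔ _
    have : (MulAut.conj c)⁻¹ • z = c⁻¹ * z * c := by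
      show (MulAut.conj c)⁻¹ z = _
      rw [MulAut.conj_inv_apply]
    rw [this]
  have hconj : ∀ z : M n, (∀ t ∈ Q, z⁻¹ * t * z ∈ Q → t = 1) →
      ∀ t ∈ U n, (c⁻¹ * z * c)⁻¹ * t * (c⁻¹ * z * c) ∈ U n → t = 1 := by
    intro z hz t ht h1
    have h2 := hz (c * t * c⁻¹) ((hmem _).mpr (by
      have : c⁻¹ * (c * t * c⁻¹) * c = t := by group
      rwa [this])) ((hmem _).mpr (by
      have : c⁻¹ * (z⁻¹ * (c * t * c⁻¹) * z) * c = (c⁻¹ * z * c)⁻¹ * t * (c⁻¹ * z * c) := by group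
      rwa [this]))
    have e : t = c⁻¹ * (c * t * c⁻¹) * c := by group
    rw [e, h2]
    group
  obtain ⟨u, hu, v, hv, h⟩ := double_coset (hconj x hx) (hconj y hy)
  refine ⟨c * u * c⁻¹, (hmem _).mpr ?_, c * v * c⁻¹, (hmem _).mpr ?_, ?_⟩
  · have : c⁻¹ * (c * u * c⁻¹) * c = u := by group
    rwa [this]
  · have : c⁻¹ * (c * v * c⁻¹) * c = v := by group
    rwa [this]
  · have e : y = c * (c⁻¹ * y * c) * c⁻¹ := by group
    rw [e, h]
    group

open scoped Pointwise in
theorem main_2486 {G : Type*} [Group G] [Finite G] {n : ℕ} (hn : 4 ≤ n) (N : Subgroup G) [N.Normal]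
    (e : N ≃* Matrix.SpecialLinearGroup (Fin n) (ZMod 2)) (hidx : N.index = 2)
    (H : Sylow 2 G) (x : G) :
    (H : Subgroup G) ⊓ MulAut.conj x • (H : Subgroup G) ≠ ⊥ := by
  apply meet_abs N hidx _ H x
  intro Q hQN hQcard x hx y hy hoppx hoppy
  -- transport to `M n`
  let Q' : Subgroup (M n) := (Q.subgroupOf N).map e.toMonoidHom
  have hmem : ∀ t : N, e t ∈ Q' ↔ (t : G) ∈ Q := by
    intro t
    constructor
    · rintro ⟨s, hs, hst⟩
      have : s = t := e.injective hst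
      rw [← this]
      exact hs
    · intro h
      exact ⟨t, h, rfl⟩
  have hmem' : ∀ t : M n, t ∈ Q' ↔ ((e.symm t : N) : G) ∈ Q := by
    intro t
    have := hmem (e.symm t)
    rwa [e.apply_symm_apply] at this
  have hcard : Nat.card Q' = 2 ^ (Nat.card (M n)).factorization 2 := by
    rw [← Nat.card_congr e.toEquiv]
    rw [← hQcard]
    have e1 : Nat.card Q' = Nat.card (Q.subgroupOf N) :=
      (Nat.card_congr ((Q.subgroupOf N).equivMapOfInjective e.toMonoidHom e.injective).toEquiv).symm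
    rw [e1]
    exact Nat.card_congr (Subgroup.subgroupOfEquivOfLe hQN).toEquiv
  have hT : ∀ z : N, (∀ t ∈ Q, (z : G)⁻¹ * t * z ∈ Q → t = 1) →
      ∀ t ∈ Q', (e z)⁻¹ * t * (e z) ∈ Q' → t = 1 := by
    intro z hz t ht h1
    obtain ⟨s, rfl⟩ := e.surjective t
    have hs : (s : G) ∈ Q := (hmem s).mp ht
    have h2 : (z : G)⁻¹ * s * z ∈ Q := by
      have e2 : (e z)⁻¹ * e s * e z = e (z⁻¹ * s * z) := by simp
      rw [e2, hmem] at h1
      exact h1
    have h3 := hz _ hs h2
    have : s = 1 := Subtype.ext h3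
    rw [this, map_one]
  obtain ⟨u, hu, v, hv, h⟩ := double_coset_sylow (by omega) Q' hcard (hT ⟨x, hx⟩ hoppx) (hT ⟨y, hy⟩ hoppy)
  refine ⟨((e.symm u : N) : G), (hmem' u).mp hu, ((e.symm v : N) : G), (hmem' v).mp hv, ?_⟩
  have h2 : (⟨y, hy⟩ : N) = e.symm u * ⟨x, hx⟩ * e.symm v := by
    apply e.injective
    simpa using h
  have h3 := congrArg Subtype.val h2
  exact h3

end bigcell

end matrix

end CfsgLib.H9.Opp
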