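import Cfsg.Agent.Lib.H9.GL2Cl
import Cfsg.Agent.Lib.H9.Count
import Mathlib.LinearAlgebra.Matrix.GeneralLinearGroup.Card
import Mathlib.LinearAlgebra.Matrix.GeneralLinearGroup.Basic
import Mathlib.NumberTheory.SumTwoSquares

/-! Any two Sylow 2-subgroups of `PGL₂(q)`, `q` a Mersenne prime, meet nontrivially. -/

set_option autoImplicit false
set_option linter.unusedSectionVars false
set_option linter.unusedVariables false
set_option linter.style.haveILetI false
set_option linter.unusedSimpArgs false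

namespace CfsgLib.H9.PGLMeet

open Matrix CfsgLib.H9.SL2Cl

variable {F : Type*} [Field F]

/-- The projective group, for short. -/
abbrev PG (F : Type*) [Field F] := GL (Fin 2) F ⧸ Subgroup.center (GL (Fin 2) F)

theorem mem_center_of_scalar (g : GL (Fin 2) F) (s : F) (h : (g : Matrix (Fin 2) (Fin 2) F) = s • 1) :
    g ∈ Subgroup.center (GL (Fin 2) F) := by
  rw [Subgroup.mem_center_iff]
  intro x
  apply Units.ext
  simp only [Units.val_mul, h]
  rw [Matrix.smul_mul, Matrix.mul_smul, one_mul, mul_one]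

theorem exists_scalar_of_mem_center {g : GL (Fin 2) F} (h : g ∈ Subgroup.center (GL (Fin 2) F)) :
    ∃ s : F, s ≠ 0 ∧ (g : Matrix (Fin 2) (Fin 2) F) = s • 1 := by
  rw [GeneralLinearGroup.center_eq_range_scalar] at h
  obtain ⟨u, rfl⟩ := h
  refine ⟨u, u.ne_zero, ?_⟩
  rw [GeneralLinearGroup.coe_scalar]
  ext i j
  simp [Matrix.scalar_apply, Matrix.smul_apply, Matrix.one_apply, Matrix.diagonal_apply]

theorem mk_eq_of_neg {x y : GL (Fin 2) F} (h : (y : Matrix (Fin 2) (Fin 2) F) = -(x : Matrix (Fin 2) (Fin 2) F)) :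
    (QuotientGroup.mk x : PG F) = QuotientGroup.mk y := by
  rw [QuotientGroup.eq]
  apply mem_center_of_scalar _ (-1)
  rw [Units.val_mul, h, mul_neg]
  simp

theorem exists_common (hneg : ¬ IsSquare (-1 : F)) (A B : GL (Fin 2) F)
    (hA : (A : Matrix (Fin 2) (Fin 2) F) * A = -1) (hB : (B : Matrix (Fin 2) (Fin 2) F) * B = -1) :
    ∃ d : PG F, d ≠ 1 ∧ d * QuotientGroup.mk A = QuotientGroup.mk A * d ∧
      d * QuotientGroup.mk B = QuotientGroup.mk B * d := by
  have h2 : (2 : F) ≠ 0 := by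
    intro h
    apply hneg
    refine ⟨1, ?_⟩
    have : (-1 : F) = 1 := by linear_combination -h
    rw [this]
    simp
  set a : Matrix (Fin 2) (Fin 2) F := A.1 with ha
  set b : Matrix (Fin 2) (Fin 2) F := B.1 with hb
  set W : Matrix (Fin 2) (Fin 2) F := a * b - b * a with hW
  have hWa : W * a = -(a * W) := by
    have e1 : W * a = a * b * a - b * (a * a) := by
      rw [hW, sub_mul, mul_assoc b]
    have e2 : a * W = (a * a) * b - a * b * a := by
      rw [hW, mul_sub, mul_assoc a b a, ← mul_assoc a a b]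
    rw [e1, e2, hA]
    simp
  have hWb : W * b = -(b * W) := by
    have e1 : W * b = a * (b * b) - b * a * b := by
      rw [hW, sub_mul, mul_assoc a]
    have e2 : b * W = b * a * b - (b * b) * a := by
      rw [hW, mul_sub, ← mul_assoc b a b, ← mul_assoc b b a]
    rw [e1, e2, hB]
    simp [sub_eq_add_neg]
  have hanot : ∀ s : F, a ≠ s • 1 := by
    intro s hs
    apply hneg
    refine ⟨s, ?_⟩
    have h3 := congrFun (congrFun hA 0) 0
    rw [hs] at h3
    simp [Matrix.mul_apply, Fin.sum_univ_two] at h3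
    linear_combination -h3
  by_cases hW0 : W = 0
  · refine ⟨QuotientGroup.mk A, ?_, rfl, ?_⟩
    · intro h
      have h3 : A ∈ Subgroup.center (GL (Fin 2) F) := (QuotientGroup.eq_one_iff A).mp h
      obtain ⟨s, -, hs⟩ := exists_scalar_of_mem_center h3
      exact hanot s hs
    · have h4 : A * B = B * A := by
        apply Units.ext
        rw [Units.val_mul, Units.val_mul]
        exact sub_eq_zero.mp hW0
      rw [← QuotientGroup.mk_mul, ← QuotientGroup.mk_mul, h4]
  by_cases hdet : W.det = 0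
  · exfalso
    obtain ⟨v, hv, hWv⟩ := Matrix.exists_mulVec_eq_zero_iff.mpr hdet
    set w : Fin 2 → F := a *ᵥ v with hw
    have hWw : W *ᵥ w = 0 := by
      rw [hw, Matrix.mulVec_mulVec, hWa, Matrix.neg_mulVec, ← Matrix.mulVec_mulVec, hWv]
      simp
    have v0 := congrFun hWv 0
    have v1 := congrFun hWv 1
    have w0 := congrFun hWw 0
    have w1 := congrFun hWw 1
    simp only [Matrix.mulVec, dotProduct, Fin.sum_univ_two, Pi.zero_apply] at v0 v1 w0 w1
    have hD : v 0 * w 1 - v 1 * w 0 = 0 := by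
      by_contra hD
      apply hW0
      have e00 : W 0 0 = 0 := by
        apply (mul_eq_zero.mp (show W 0 0 * (v 0 * w 1 - v 1 * w 0) = 0 from ?_)).resolve_right hD
        linear_combination (w 1) * v0 - (v 1) * w0
      have e01 : W 0 1 = 0 := by
        apply (mul_eq_zero.mp (show W 0 1 * (v 0 * w 1 - v 1 * w 0) = 0 from ?_)).resolve_right hD
        linear_combination (v 0) * w0 - (w 0) * v0
      have e10 : W 1 0 = 0 := by
        apply (mul_eq_zero.mp (show W 1 0 * (v 0 * w 1 - v 1 * w 0) = 0 from ?_)).resolve_right hD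
        linear_combination (w 1) * v1 - (v 1) * w1
      have e11 : W 1 1 = 0 := by
        apply (mul_eq_zero.mp (show W 1 1 * (v 0 * w 1 - v 1 * w 0) = 0 from ?_)).resolve_right hD
        linear_combination (v 0) * w1 - (w 0) * v1
      ext i j
      fin_cases i <;> fin_cases j <;> simp [e00, e01, e10, e11]
    have hl : ∃ l : F, w = l • v := by
      by_cases hv0 : v 0 = 0
      · have hv1 : v 1 ≠ 0 := by
          intro hv1
          apply hv
          ext i
          fin_cases i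
          · exact hv0
          · exact hv1
        refine ⟨w 1 / v 1, ?_⟩
        ext i
        fin_cases i
        · simp only [Pi.smul_apply, smul_eq_mul, Fin.zero_eta]
          rw [hv0] at hD ⊢
          have : v 1 * w 0 = 0 := by linear_combination -hD
          rw [(mul_eq_zero.mp this).resolve_left hv1]
          simp
        · simp only [Pi.smul_apply, smul_eq_mul, Fin.mk_one]
          field_simp
      · refine ⟨w 0 / v 0, ?_⟩
        ext i
        fin_cases i
        · simp only [Pi.smul_apply, smul_eq_mul, Fin.zero_eta]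
          field_simp
        · simp only [Pi.smul_apply, smul_eq_mul, Fin.mk_one]
          field_simp
          linear_combination hD
    obtain ⟨l, hl⟩ := hl
    have h5 : a *ᵥ w = - v := by
      rw [hw, Matrix.mulVec_mulVec, hA, Matrix.neg_mulVec, Matrix.one_mulVec]
    rw [hl, Matrix.mulVec_smul, ← hw, hl, smul_smul] at h5
    have h6 : (l * l + 1) • v = 0 := by
      rw [add_smul, h5, one_smul]
      simp
    rcases smul_eq_zero.mp h6 with h7 | h7
    · apply hneg
      exact ⟨l, by linear_combination -h7⟩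
    · exact hv h7
  · set Wg : GL (Fin 2) F := GeneralLinearGroup.mkOfDetNeZero W hdet with hWg
    have hWgv : (Wg : Matrix (Fin 2) (Fin 2) F) = W := rfl
    refine ⟨QuotientGroup.mk Wg, ?_, ?_, ?_⟩
    · intro h
      have h3 : Wg ∈ Subgroup.center (GL (Fin 2) F) := (QuotientGroup.eq_one_iff Wg).mp h
      obtain ⟨s, hs0, hs⟩ := exists_scalar_of_mem_center h3
      rw [hWgv] at hs
      rw [hs] at hWa
      simp only [Matrix.smul_mul, Matrix.mul_smul, one_mul, mul_one] at hWa
      have h4 : (s + s) • a = 0 := by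
        rw [add_smul]
        nth_rw 1 [hWa]
        simp
      rcases smul_eq_zero.mp h4 with h5 | h5
      · apply h2
        have : (2 : F) * s = 0 := by linear_combination h5
        exact (mul_eq_zero.mp this).resolve_right hs0
      · apply hanot 0
        rw [h5]
        simp
    · rw [← QuotientGroup.mk_mul, ← QuotientGroup.mk_mul]
      apply mk_eq_of_neg
      rw [Units.val_mul, Units.val_mul, hWgv, ← ha, hWa, neg_neg]
    · rw [← QuotientGroup.mk_mul, ← QuotientGroup.mk_mul]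
      apply mk_eq_of_neg
      rw [Units.val_mul, Units.val_mul, hWgv, ← hb, hWb, neg_neg]

/-- The element `[[0,-1],[1,0]]`. -/
noncomputable def Z₀ (F : Type*) [Field F] : GL (Fin 2) F := mkG 0 (-1) 1 0 (by simp)

theorem Z₀_sq : (Z₀ F).1 * (Z₀ F).1 = -1 := by
  have e : ((Z₀ F) * (Z₀ F)).1 = (Z₀ F).1 * (Z₀ F).1 := rfl
  rw [← e]
  ext i j
  fin_cases i <;> fin_cases j
  · show ((Z₀ F) * (Z₀ F)).1 0 0 = (-1 : Matrix (Fin 2) (Fin 2) F) 0 0
    rw [gmul_00]
    simp [Z₀]
  · show ((Z₀ F) * (Z₀ F)).1 0 1 = (-1 : Matrix (Fin 2) (Fin 2) F) 0 1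
    rw [gmul_01]
    simp [Z₀]
  · show ((Z₀ F) * (Z₀ F)).1 1 0 = (-1 : Matrix (Fin 2) (Fin 2) F) 1 0
    rw [gmul_10]
    simp [Z₀]
  · show ((Z₀ F) * (Z₀ F)).1 1 1 = (-1 : Matrix (Fin 2) (Fin 2) F) 1 1
    rw [gmul_11]
    simp [Z₀]

/-- The centraliser condition. -/
def Pm (g : GL (Fin 2) F) : Prop :=
  (g.1 1 1 = g.1 0 0 ∧ g.1 1 0 = -g.1 0 1) ∨ (g.1 1 1 = -g.1 0 0 ∧ g.1 1 0 = g.1 0 1)

theorem ne_of_dt (g : GL (Fin 2) F) (h0 : g.1 0 0 = 0) (h1 : g.1 0 1 = 0) : False := by
  have := dt_ne g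
  apply this
  simp [dt, h0, h1]

theorem comm_iff (g : GL (Fin 2) F) :
    (QuotientGroup.mk g : PG F) * QuotientGroup.mk (Z₀ F) = QuotientGroup.mk (Z₀ F) * QuotientGroup.mk g ↔ Pm g := by
  have Z00 : (Z₀ F).1 0 0 = 0 := rfl
  have Z01 : (Z₀ F).1 0 1 = -1 := rfl
  have Z10 : (Z₀ F).1 1 0 = 1 := rfl
  have Z11 : (Z₀ F).1 1 1 = 0 := rfl
  constructor
  · intro h
    rw [← QuotientGroup.mk_mul, ← QuotientGroup.mk_mul, QuotientGroup.eq] at h
    obtain ⟨s, hs0, hs⟩ := exists_scalar_of_mem_center h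
    have e : (Z₀ F * g).1 = s • (g * Z₀ F).1 := by
      have e1 : Z₀ F * g = (g * Z₀ F) * ((g * Z₀ F)⁻¹ * (Z₀ F * g)) := by group
      rw [e1, Units.val_mul _ ((g * Z₀ F)⁻¹ * (Z₀ F * g)), hs]
      simp
    have e00 := congrFun (congrFun e 0) 0
    have e01 := congrFun (congrFun e 0) 1
    have e10 := congrFun (congrFun e 1) 0
    have e11 := congrFun (congrFun e 1) 1
    simp only [Matrix.smul_apply, smul_eq_mul, gmul_00, gmul_01, gmul_10, gmul_11, Z00, Z01, Z10, Z11] at e00 e01 e10 e11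
    have r1 : g.1 1 1 = s * g.1 0 0 := by linear_combination -e01
    have r2 : g.1 0 0 = s * g.1 1 1 := by linear_combination e10
    have r3 : g.1 1 0 = -s * g.1 0 1 := by linear_combination -e00
    have r4 : g.1 0 1 = -s * g.1 1 0 := by linear_combination e11
    have hs2 : s * s = 1 := by
      by_cases h0 : g.1 0 0 = 0
      · have h1 : g.1 0 1 ≠ 0 := fun h1 => ne_of_dt g h0 h1
        apply mul_right_cancel₀ h1
        rw [r3] at r4
        linear_combination -r4
      · apply mul_right_cancel₀ h0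
        rw [r1] at r2
        linear_combination -r2
    rcases mul_self_eq_one_iff.mp hs2 with rfl | rfl
    · left
      constructor
      · rw [r1]; ring
      · rw [r3]; ring
    · right
      constructor
      · rw [r1]; ring
      · rw [r3]; ring
  · intro h
    rw [← QuotientGroup.mk_mul, ← QuotientGroup.mk_mul]
    rcases h with ⟨h1, h2⟩ | ⟨h1, h2⟩
    · congr 1
      apply gl_ext
      · simp only [gmul_00, Z00, Z01, Z10, Z11, h1, h2]; ring
      · simp only [gmul_01, Z00, Z01, Z10, Z11, h1, h2]; ring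
      · simp only [gmul_10, Z00, Z01, Z10, Z11, h1, h2]; ring
      · simp only [gmul_11, Z00, Z01, Z10, Z11, h1, h2]; ring
    · apply mk_eq_of_neg
      ext i j
      fin_cases i <;> fin_cases j
      · show (Z₀ F * g).1 0 0 = - (g * Z₀ F).1 0 0
        simp only [gmul_00, Z00, Z01, Z10, Z11, h1, h2]; ring
      · show (Z₀ F * g).1 0 1 = - (g * Z₀ F).1 0 1
        simp only [gmul_01, Z00, Z01, Z10, Z11, h1, h2]; ring
      · show (Z₀ F * g).1 1 0 = - (g * Z₀ F).1 1 0
        simp only [gmul_10, Z00, Z01, Z10, Z11, h1, h2]; ring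
      · show (Z₀ F * g).1 1 1 = - (g * Z₀ F).1 1 1
        simp only [gmul_11, Z00, Z01, Z10, Z11, h1, h2]; ring

section count

variable [Fintype F]

theorem sum_sq_ne (hneg : ¬ IsSquare (-1 : F)) {a b : F} (h : (a, b) ≠ (0, 0)) : a * a + b * b ≠ 0 := by
  intro h0
  by_cases hb : b = 0
  · subst hb
    have : a = 0 := by
      have : a * a = 0 := by linear_combination h0
      exact mul_self_eq_zero.mp this
    exact h (by rw [this])
  · apply hneg
    refine ⟨a / b, ?_⟩
    field_simp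
    linear_combination -h0

theorem two_ne' (hneg : ¬ IsSquare (-1 : F)) : (2 : F) ≠ 0 := by
  intro h
  apply hneg
  refine ⟨1, ?_⟩
  have : (-1 : F) = 1 := by linear_combination -h
  rw [this]
  simp

theorem card_Pm (hneg : ¬ IsSquare (-1 : F)) :
    Nat.card {g : GL (Fin 2) F // Pm g} = (Fintype.card F ^ 2 - 1) * 2 := by
  classical
  have h2 := two_ne' hneg
  let Ψ : {g : GL (Fin 2) F // Pm g} → {p : F × F // p ≠ (0, 0)} := fun g => ⟨(g.1.1 0 0, g.1.1 0 1), by
    intro h
    have h0 := congrArg Prod.fst h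
    have h1 := congrArg Prod.snd h
    exact ne_of_dt g.1 h0 h1⟩
  have hfib : ∀ p : {p : F × F // p ≠ (0, 0)}, Nat.card {g // Ψ g = p} = 2 := by
    rintro ⟨⟨a, b⟩, hp⟩
    have hne := sum_sq_ne hneg hp
    have d1 : a * a - b * (-b) ≠ 0 := by
      intro h
      exact hne (by linear_combination h)
    have d2 : a * (-a) - b * b ≠ 0 := by
      intro h
      exact hne (by linear_combination -h)
    let g₁ : GL (Fin 2) F := mkG a b (-b) a d1
    let g₂ : GL (Fin 2) F := mkG a b b (-a) d2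
    have hg₁ : Pm g₁ := Or.inl ⟨rfl, rfl⟩
    have hg₂ : Pm g₂ := Or.inr ⟨rfl, rfl⟩
    have hΨ₁ : Ψ ⟨g₁, hg₁⟩ = ⟨(a, b), hp⟩ := rfl
    have hΨ₂ : Ψ ⟨g₂, hg₂⟩ = ⟨(a, b), hp⟩ := rfl
    rw [Nat.card_eq_two_iff]
    refine ⟨⟨⟨g₁, hg₁⟩, hΨ₁⟩, ⟨⟨g₂, hg₂⟩, hΨ₂⟩, ?_, ?_⟩
    · intro h
      have h3 : g₁ = g₂ := congrArg (fun x => x.1.1) h
      have h4 : g₁.1 1 0 = g₂.1 1 0 := by rw [h3]
      have h5 : g₁.1 1 1 = g₂.1 1 1 := by rw [h3]
      have h6 : -b = b := h4
      have h7 : a = -a := h5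
      have hb : b = 0 := by
        have : 2 * b = 0 := by linear_combination -h6
        exact (mul_eq_zero.mp this).resolve_left h2
      have ha : a = 0 := by
        have : 2 * a = 0 := by linear_combination h7
        exact (mul_eq_zero.mp this).resolve_left h2
      exact hp (by rw [ha, hb])
    · ext ⟨⟨g, hg⟩, hgp⟩
      simp only [Set.mem_insert_iff, Set.mem_singleton_iff, Set.mem_univ, iff_true]
      have h0 : g.1 0 0 = a := congrArg (fun x => x.1.1) hgp
      have h1 : g.1 0 1 = b := congrArg (fun x => x.1.2) hgp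
      rcases hg with ⟨h3, h4⟩ | ⟨h3, h4⟩
      · left
        apply Subtype.ext
        apply Subtype.ext
        apply gl_ext
        · exact h0
        · exact h1
        · rw [h4, h1]; rfl
        · rw [h3, h0]; rfl
      · right
        apply Subtype.ext
        apply Subtype.ext
        apply gl_ext
        · exact h0
        · exact h1
        · rw [h4, h1]; rfl
        · rw [h3, h0]; rfl
  have h3 := CfsgLib.H9.natCard_eq_of_fibers Ψ 2 hfib
  rw [h3]
  congr 1
  rw [Nat.card_eq_fintype_card, Fintype.card_subtype_compl, Fintype.card_prod]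
  simp [pow_two]

theorem card_center : Nat.card (Subgroup.center (GL (Fin 2) F)) = Fintype.card F - 1 := by
  classical
  have hinj : Function.Injective (GeneralLinearGroup.scalar (Fin 2) : Fˣ →* GL (Fin 2) F) := by
    intro u v h
    have h1 := congrArg (fun x : GL (Fin 2) F => x.1 0 0) h
    simp only [GeneralLinearGroup.coe_scalar, Matrix.scalar_apply, Matrix.diagonal_apply_eq] at h1
    exact Units.ext h1
  rw [GeneralLinearGroup.center_eq_range_scalar, ← Nat.card_congr (MonoidHom.ofInjective hinj).toEquiv,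
    Nat.card_eq_fintype_card, Fintype.card_units]

theorem card_PG_mul : Nat.card (PG F) * (Fintype.card F - 1) = (Fintype.card F ^ 2 - 1) * (Fintype.card F ^ 2 - Fintype.card F) := by
  classical
  have h1 := Subgroup.card_mul_index (Subgroup.center (GL (Fin 2) F))
  rw [card_center, Subgroup.index_eq_card, Matrix.card_GL_field] at h1
  rw [mul_comm, h1]
  rw [Fin.prod_univ_two]
  simp

theorem card_cent_mul (hneg : ¬ IsSquare (-1 : F)) :
    Nat.card (Subgroup.centralizer ({(QuotientGroup.mk (Z₀ F) : PG F)} : Set (PG F))) * (Fintype.card F - 1) =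
      (Fintype.card F ^ 2 - 1) * 2 := by
  classical
  set C₀ := Subgroup.centralizer ({(QuotientGroup.mk (Z₀ F) : PG F)} : Set (PG F)) with hC₀
  set π := QuotientGroup.mk' (Subgroup.center (GL (Fin 2) F)) with hπ
  have hπs : Function.Surjective π := QuotientGroup.mk'_surjective _
  have hP : Nat.card (C₀.comap π) = (Fintype.card F ^ 2 - 1) * 2 := by
    rw [← card_Pm hneg]
    apply Nat.card_congr
    apply Equiv.subtypeEquivRight
    intro g
    rw [Subgroup.mem_comap, hC₀, Subgroup.mem_centralizer_singleton_iff]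
    exact comm_iff g
  have h1 := Subgroup.card_mul_index (C₀.comap π)
  have h2 := Subgroup.card_mul_index C₀
  have h3 := Subgroup.card_mul_index (Subgroup.center (GL (Fin 2) F))
  rw [Subgroup.index_comap_of_surjective _ hπs] at h1
  rw [Subgroup.index_eq_card, ← h2, card_center] at h3
  rw [hP] at h1
  have hidx : 0 < C₀.index := Nat.pos_of_ne_zero (Subgroup.index_ne_zero_of_finite)
  apply Nat.eq_of_mul_eq_mul_right hidx
  rw [h1, ← h3]
  ring

theorem sq_conj (c A : GL (Fin 2) F) (h : A.1 * A.1 = -1) : (c * A * c⁻¹).1 * (c * A * c⁻¹).1 = -1 := by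
  have e : (c * A * c⁻¹).1 * (c * A * c⁻¹).1 = ((c * A * c⁻¹) * (c * A * c⁻¹)).1 := rfl
  have e2 : (c * A * c⁻¹) * (c * A * c⁻¹) = c * (A * A) * c⁻¹ := by group
  rw [e, e2]
  have e3 : (c * (A * A) * c⁻¹).1 = c.1 * (A.1 * A.1) * (c⁻¹).1 := rfl
  rw [e3, h]
  have e4 : c.1 * (c⁻¹).1 = 1 := by
    have : (c * c⁻¹).1 = 1 := by simp
    exact this
  rw [mul_neg, neg_mul, mul_one, e4]

open scoped Pointwise in
theorem main_gen (hneg : ¬ IsSquare (-1 : F)) {k : ℕ} (hk : Fintype.card F + 1 = 2 ^ k) (hq : 7 ≤ Fintype.card F)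
    (H : Sylow 2 (PG F)) (x : PG F) :
    (H : Subgroup (PG F)) ⊓ MulAut.conj x • (H : Subgroup (PG F)) ≠ ⊥ := by
  classical
  set q := Fintype.card F with hqdef
  have hk2 : 2 ≤ k := by
    by_contra h
    have : k = 0 ∨ k = 1 := by omega
    rcases this with rfl | rfl <;> simp at hk <;> omega
  have hmod : q % 4 = 3 := by
    obtain ⟨j, rfl⟩ : ∃ j, k = j + 2 := ⟨k - 2, by omega⟩
    rw [pow_add] at hk
    omega
  have hq1 : 0 < q - 1 := by omega
  have e1 : q ^ 2 - 1 = (q + 1) * (q - 1) := by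
    obtain ⟨r, hr⟩ : ∃ r, q = r + 1 := ⟨q - 1, by omega⟩
    rw [hr]
    simp only [Nat.add_sub_cancel]
    have : (r + 1) ^ 2 = (r + 1 + 1) * r + 1 := by ring
    rw [this]
    simp
  have e2 : q ^ 2 - q = q * (q - 1) := by
    obtain ⟨r, hr⟩ : ∃ r, q = r + 1 := ⟨q - 1, by omega⟩
    rw [hr]
    simp only [Nat.add_sub_cancel]
    have : (r + 1) ^ 2 = (r + 1) * r + (r + 1) := by ring
    rw [this]
    simp
  set z₀ : PG F := QuotientGroup.mk (Z₀ F) with hz₀
  set C₀ := Subgroup.centralizer ({z₀} : Set (PG F)) with hC₀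
  have hcardC : Nat.card C₀ = 2 ^ (k + 1) := by
    have h1 := card_cent_mul (F := F) hneg
    rw [← hqdef, e1] at h1
    have h2 : Nat.card C₀ * (q - 1) = ((q + 1) * 2) * (q - 1) := by
      rw [h1]
      ring
    have h3 := Nat.eq_of_mul_eq_mul_right hq1 h2
    rw [h3, hk]
    ring
  have hoddq : Odd q := by
    rw [Nat.odd_iff]
    omega
  have hoddo : Odd ((q - 1) / 2) := by
    rw [Nat.odd_iff]
    omega
  have hcardG : Nat.card (PG F) = 2 ^ (k + 1) * (q * ((q - 1) / 2)) := by
    have h1 := card_PG_mul (F := F)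
    rw [← hqdef, e1, e2] at h1
    have h2 : Nat.card (PG F) * (q - 1) = (2 ^ (k + 1) * (q * ((q - 1) / 2))) * (q - 1) := by
      rw [h1, pow_succ, ← hk]
      have h4 : q - 1 = 2 * ((q - 1) / 2) := by omega
      generalize (q - 1) / 2 = t at h4
      rw [h4]
      ring
    exact Nat.eq_of_mul_eq_mul_right hq1 h2
  have hfac : (Nat.card (PG F)).factorization 2 = k + 1 := by
    rw [hcardG]
    have ho : Odd (q * ((q - 1) / 2)) := hoddq.mul hoddo
    have h0 : q * ((q - 1) / 2) ≠ 0 := ho.pos.ne'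
    rw [Nat.factorization_mul (by positivity) h0]
    simp [Nat.factorization_eq_zero_of_not_dvd (show ¬ 2 ∣ q * ((q - 1) / 2) from ho.not_two_dvd_nat), Nat.Prime.factorization_self Nat.prime_two]
  let S₀ : Sylow 2 (PG F) := Sylow.ofCard C₀ (by rw [hcardC, hfac])
  obtain ⟨c, hc⟩ := MulAction.exists_smul_eq (PG F) S₀ H
  have hmem : ∀ y, y ∈ (H : Subgroup (PG F)) ↔ c⁻¹ * y * c ∈ C₀ := by
    intro y
    rw [← hc, Sylow.coe_subgroup_smul, Subgroup.mem_pointwise_smul_iff_inv_smul_mem]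
    show _ ∈ C₀ ↔ _
    have : (MulAut.conj c)⁻¹ • y = c⁻¹ * y * c := by
      show (MulAut.conj c)⁻¹ y = _
      rw [MulAut.conj_inv_apply]
    rw [this]
  obtain ⟨c', rfl⟩ := QuotientGroup.mk_surjective c
  obtain ⟨x', rfl⟩ := QuotientGroup.mk_surjective x
  set A := c' * Z₀ F * c'⁻¹ with hA
  set B := x' * A * x'⁻¹ with hB
  have hAsq : A.1 * A.1 = -1 := sq_conj c' (Z₀ F) Z₀_sq
  have hBsq : B.1 * B.1 = -1 := sq_conj x' A hAsq
  obtain ⟨d, hd1, hdA, hdB⟩ := exists_common hneg A B hAsq hBsq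
  have hmkA : (QuotientGroup.mk A : PG F) = QuotientGroup.mk c' * z₀ * (QuotientGroup.mk c')⁻¹ := rfl
  have hmkB : (QuotientGroup.mk B : PG F) = QuotientGroup.mk x' * (QuotientGroup.mk A) * (QuotientGroup.mk x')⁻¹ := rfl
  set c0 : PG F := QuotientGroup.mk c' with hc0
  set x0 : PG F := QuotientGroup.mk x' with hx0
  rw [hmkB] at hdB
  rw [hmkA] at hdA hdB
  intro hbot
  have hmemd : d ∈ (H : Subgroup (PG F)) ⊓ MulAut.conj x0 • (H : Subgroup (PG F)) := by
    rw [Subgroup.mem_inf]
    constructor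
    · rw [hmem, hC₀, Subgroup.mem_centralizer_singleton_iff]
      calc c0⁻¹ * d * c0 * z₀ = c0⁻¹ * (d * (c0 * z₀ * c0⁻¹)) * c0 := by group
        _ = c0⁻¹ * ((c0 * z₀ * c0⁻¹) * d) * c0 := by rw [hdA]
        _ = _ := by group
    · rw [Subgroup.mem_pointwise_smul_iff_inv_smul_mem]
      have : (MulAut.conj x0)⁻¹ • d = x0⁻¹ * d * x0 := by
        show (MulAut.conj x0)⁻¹ d = _
        rw [MulAut.conj_inv_apply]
      rw [this, hmem, hC₀, Subgroup.mem_centralizer_singleton_iff]
      calc c0⁻¹ * (x0⁻¹ * d * x0) * c0 * z₀ = c0⁻¹ * x0⁻¹ * (d * (x0 * (c0 * z₀ * c0⁻¹) * x0⁻¹)) * x0 * c0 := by group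
        _ = c0⁻¹ * x0⁻¹ * ((x0 * (c0 * z₀ * c0⁻¹) * x0⁻¹) * d) * x0 * c0 := by rw [hdB]
        _ = _ := by group
  rw [hbot, Subgroup.mem_bot] at hmemd
  exact hd1 hmemd

end count

open scoped Pointwise in
theorem main_2485 {q k : ℕ} [Fact q.Prime] (hk : q + 1 = 2 ^ k) (hq : 7 ≤ q)
    (H : Sylow 2 (GL (Fin 2) (ZMod q) ⧸ Subgroup.center (GL (Fin 2) (ZMod q))))
    (x : GL (Fin 2) (ZMod q) ⧸ Subgroup.center (GL (Fin 2) (ZMod q))) :
    (H : Subgroup (GL (Fin 2) (ZMod q) ⧸ Subgroup.center (GL (Fin 2) (ZMod q)))) ⊓ MulAut.conj x • (H : Subgroup _) ≠ ⊥ := by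
  have hk2 : 2 ≤ k := by
    by_contra h
    have : k = 0 ∨ k = 1 := by omega
    rcases this with rfl | rfl <;> simp at hk <;> omega
  have hmod : q % 4 = 3 := by
    obtain ⟨j, rfl⟩ : ∃ j, k = j + 2 := ⟨k - 2, by omega⟩
    rw [pow_add] at hk
    omega
  have hneg : ¬ IsSquare (-1 : ZMod q) := by
    rw [ZMod.exists_sq_eq_neg_one_iff]
    simpa using hmod
  exact main_gen hneg (by rw [ZMod.card]; exact hk) (by rw [ZMod.card]; exact hq) H x

end CfsgLib.H9.PGLMeet
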