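import Cfsg.Agent.Lib.H9.PSL2Spec

/-! The factorisation `PSL₂(q) = A B A` for `q` even. -/

set_option autoImplicit false
set_option linter.unusedVariables false
set_option linter.style.haveILetI false
set_option linter.unusedSectionVars false
set_option linter.unusedSimpArgs false

namespace CfsgLib.H9.PSL2

open CfsgLib.H9.SL2Cl Matrix
open CfsgLib.H9.BorelChar (zS zS_00 zS_01 zS_10 zS_11 zS_central zS_sq)
open CfsgLib.H9.Torus

variable {F : Type*} [Field F] [Fintype F]

theorem N_ne {g : SL2 F} (hg : Ell g) {u v : F} (h : u ≠ 0 ∨ v ≠ 0) : u ^ 2 + u * v * trS g + v ^ 2 ≠ 0 := by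
  intro h0
  by_cases hv : v = 0
  · subst hv
    rcases h with h | h
    · apply h
      simpa using h0
    · exact h rfl
  · apply hg.no_root (-(u / v))
    field_simp
    linear_combination h0

/-- The element `u + v g` of norm one. -/
noncomputable def kk (g : SL2 F) (u v : F) (h : u ^ 2 + u * v * trS g + v ^ 2 = 1) : SL2 F :=
  mk (u + v * g.1 0 0) (v * g.1 0 1) (v * g.1 1 0) (u + v * g.1 1 1) (by
    have hd := det_eq g
    simp only [trS] at h
    linear_combination h + v ^ 2 * hd)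

theorem kk_mem {g : SL2 F} (hg : Ell g) (u v : F) (h : u ^ 2 + u * v * trS g + v ^ 2 = 1) :
    kk g u v h ∈ Subgroup.centralizer ({g} : Set (SL2 F)) := by
  rw [mem_cent_iff hg.h10]
  refine ⟨⟨u, v⟩, ?_⟩
  ext i j
  fin_cases i <;> fin_cases j <;> simp [kk, phi_00, phi_01, phi_10, phi_11]

theorem trS_mul_kk (h g : SL2 F) (u v : F) (hh : u ^ 2 + u * v * trS g + v ^ 2 = 1) :
    trS (h * kk g u v hh) = u * trS h + v * trS (h * g) := by
  rw [trS_mul, trS_mul]
  simp only [kk, mk_00, mk_01, mk_10, mk_11, trS]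
  ring

section Char2

variable [CharP F 2]

theorem two_zero : (2 : F) = 0 := by
  have := CharP.cast_eq_zero F 2
  exact_mod_cast this

theorem neg_self' (a : F) : -a = a := by
  have : a + a = 0 := by
    have h1 : a + a = 2 * a := by ring
    rw [h1, two_zero, zero_mul]
  exact neg_eq_of_add_eq_zero_left this

theorem exists_scale {g : SL2 F} (hg : Ell g) {u v : F} (h : u ≠ 0 ∨ v ≠ 0) :
    ∃ s : F, s ≠ 0 ∧ (u / s) ^ 2 + (u / s) * (v / s) * trS g + (v / s) ^ 2 = 1 := by
  have hN := N_ne hg h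
  have hc : ringChar F = 2 := ringChar.eq F 2
  obtain ⟨s, hs⟩ := FiniteField.isSquare_of_char_two hc (u ^ 2 + u * v * trS g + v ^ 2)
  have hs0 : s ≠ 0 := by
    rintro rfl
    apply hN
    rw [hs]
    ring
  refine ⟨s, hs0, ?_⟩
  field_simp
  linear_combination hs

/-- Step one. -/
theorem exists_tr_zero {g : SL2 F} (hg : Ell g) (h : SL2 F) :
    ∃ k ∈ Subgroup.centralizer ({g} : Set (SL2 F)), trS (h * k) = 0 := by
  by_cases h0 : trS h = 0 ∧ trS (h * g) = 0
  · refine ⟨1, Subgroup.one_mem _, ?_⟩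
    rw [mul_one]
    exact h0.1
  · have hne : trS (h * g) ≠ 0 ∨ trS h ≠ 0 := by
      by_contra hh
      push Not at hh
      exact h0 ⟨hh.2, hh.1⟩
    obtain ⟨s, hs, hN⟩ := exists_scale hg hne
    refine ⟨kk g _ _ hN, kk_mem hg _ _ hN, ?_⟩
    rw [trS_mul_kk]
    field_simp
    have := two_zero (F := F)
    linear_combination (trS h * trS (h * g)) * this

/-- Step three. -/
theorem exists_upper {g : SL2 F} (hg : Ell g) (x : SL2 F) :
    ∃ a ∈ Subgroup.centralizer ({g} : Set (SL2 F)), (a⁻¹ * x).1 1 0 = 0 := by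
  have hg10 := hg.h10
  set v := x.1 1 0 / g.1 1 0 with hv
  set u := x.1 0 0 - v * g.1 0 0 with hu
  have hv1 : v * g.1 1 0 = x.1 1 0 := by
    rw [hv]
    field_simp
  have hu1 : u + v * g.1 0 0 = x.1 0 0 := by
    rw [hu]
    ring
  have hne : u ≠ 0 ∨ v ≠ 0 := by
    by_contra hh
    push Not at hh
    have hd := det_eq x
    rw [← hv1, ← hu1, hh.1, hh.2] at hd
    simp at hd
  obtain ⟨s, hs, hN⟩ := exists_scale hg hne
  refine ⟨kk g _ _ hN, kk_mem hg _ _ hN, ?_⟩
  simp only [mul_10, inv_10, inv_11, kk, mk_00, mk_01, mk_10, mk_11]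
  have h1 : v / s * g.1 1 0 = x.1 1 0 / s := by
    rw [← hv1]
    ring
  have h2 : u / s + v / s * g.1 0 0 = x.1 0 0 / s := by
    rw [← hu1]
    ring
  rw [h1, h2]
  ring

theorem conj_upper {T : SL2 F} (hT : T.1 1 0 = 0) (b : F) : T * U b * T⁻¹ = U (T.1 0 0 ^ 2 * b) := by
  have hd := det_eq T
  rw [hT] at hd
  apply sl_ext <;> simp [mul_00, mul_01, mul_10, mul_11, inv_00, inv_01, inv_10, inv_11, U, hT]
  · linear_combination hd
  · ring
  · linear_combination hd

/-- The factorisation in `SL₂`. -/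
theorem aba {g : SL2 F} (hg : Ell g) (h : SL2 F) :
    ∃ a ∈ Subgroup.centralizer ({g} : Set (SL2 F)), ∃ t : F, ∃ c ∈ Subgroup.centralizer ({g} : Set (SL2 F)),
      h = a * U t * c := by
  obtain ⟨k, hk, htr⟩ := exists_tr_zero hg h
  have h20 := two_zero (F := F)
  by_cases hy : h * k = 1
  · refine ⟨1, Subgroup.one_mem _, 0, k⁻¹, Subgroup.inv_mem _ hk, ?_⟩
    have h1 : U (0 : F) = 1 := by apply sl_ext <;> simp [U]
    rw [h1, one_mul, one_mul]
    exact eq_inv_of_mul_eq_one_left hy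
  · obtain ⟨b, hb, hconj⟩ := exists_conj_U (h * k) (by rw [h20]; exact htr) hy
    obtain ⟨c, hc⟩ := isConj_iff.mp hconj
    obtain ⟨a, ha, hT⟩ := exists_upper hg c⁻¹
    refine ⟨a, ha, (a⁻¹ * c⁻¹).1 0 0 ^ 2 * b, a⁻¹ * k⁻¹, Subgroup.mul_mem _ (Subgroup.inv_mem _ ha) (Subgroup.inv_mem _ hk), ?_⟩
    rw [← conj_upper hT b]
    have h1 : h = c⁻¹ * U b * c * k⁻¹ := by
      rw [← hc]
      group
    rw [h1]
    group

/-- The factorisation in `PSL₂`. -/
theorem aba_main (h2 : 2 ∣ Fintype.card F) :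
    ∃ A B : Subgroup (Matrix.ProjectiveSpecialLinearGroup (Fin 2) F),
      IsCyclic A ∧ Nat.card A = Fintype.card F + 1 ∧ IsMulCommutative B ∧ (∀ b ∈ B, b * b = 1) ∧
        Nat.card B = Fintype.card F ∧
        ∀ g : Matrix.ProjectiveSpecialLinearGroup (Fin 2) F, ∃ a ∈ A, ∃ b ∈ B, ∃ c ∈ A, g = a * b * c := by
  classical
  have h20 := two_zero (F := F)
  have hz : zS F = 1 := by
    apply sl_ext <;> simp [neg_self']
  have hinj : Function.Injective (prH : SL2 F → _) := by
    intro a b hab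
    rcases (pr_eq_iff a b).mp hab with h | h
    · exact h
    · rw [hz, one_mul] at h
      exact h
  have hUmul : ∀ a b : F, U a * U b = U (a + b) := by
    intro a b
    apply sl_ext <;> simp [U, mul_00, mul_01, mul_10, mul_11]
    ring
  let UH : Multiplicative F →* SL2 F :=
    { toFun := fun t => U (Multiplicative.toAdd t)
      map_one' := by apply sl_ext <;> simp [U]
      map_mul' := fun a b => by simp [hUmul] }
  have hUinj : Function.Injective UH := by
    intro a b hab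
    have h3 := congrFun (congrFun (congrArg Subtype.val hab) 0) 1
    simpa [UH, U] using h3
  obtain ⟨g, hg⟩ := exists_ell (F := F)
  haveI := cent_cyclic hg
  refine ⟨(Subgroup.centralizer ({g} : Set (SL2 F))).map prH, (prH.comp UH).range, ?_, ?_, ?_, ?_, ?_, ?_⟩
  · exact isCyclic_of_surjective ((prH).subgroupMap (Subgroup.centralizer ({g} : Set (SL2 F))))
      (MonoidHom.subgroupMap_surjective _ _)
  · rw [Subgroup.card_map_of_injective hinj, cent_card_all hg]
  · refine ⟨⟨?_⟩⟩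
    rintro ⟨_, ⟨a, rfl⟩⟩ ⟨_, ⟨b, rfl⟩⟩
    apply Subtype.ext
    show prH (UH a) * prH (UH b) = prH (UH b) * prH (UH a)
    rw [← map_mul, ← map_mul, ← map_mul, ← map_mul, mul_comm]
  · rintro _ ⟨a, rfl⟩
    show prH (UH a) * prH (UH a) = 1
    rw [← map_mul, ← map_mul]
    have h1 : a * a = 1 := by
      apply Multiplicative.toAdd.injective
      show Multiplicative.toAdd a + Multiplicative.toAdd a = 0
      rw [← two_mul, h20, zero_mul]
    rw [h1, map_one, map_one]
  · have h3 : Function.Injective (prH.comp UH) := hinj.comp hUinj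
    rw [← Nat.card_congr (MonoidHom.ofInjective h3).toEquiv]
    simp
  · intro x
    obtain ⟨h, rfl⟩ := pr_surj x
    obtain ⟨a, ha, t, c, hc, rfl⟩ := aba hg h
    refine ⟨prH a, ⟨a, ha, rfl⟩, prH (U t), ⟨Multiplicative.ofAdd t, rfl⟩, prH c, ⟨c, hc, rfl⟩, rfl⟩

end Char2

end CfsgLib.H9.PSL2
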