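import Mathlib
import Cfsg.Agent.Lib.H9.SimpleTools

/-! Identifying simple groups of order `(p+1) p (p-1)/2` with `PSL₂(p)`: labelling the Sylow `p`-subgroups. -/

set_option autoImplicit false
set_option linter.unusedVariables false
set_option linter.unusedSectionVars false
set_option linter.unusedSimpArgs false
set_option linter.style.haveILetI false

namespace CfsgLib.H9.PSLId

open Equiv

variable {p : ℕ} [hp : Fact p.Prime]

/-- The projective line. -/
abbrev Om (p : ℕ) := Option (ZMod p)

/-- Translations. -/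
def tb (b : ZMod p) : Perm (Om p) := Equiv.optionCongr (Equiv.addRight b)

/-- Dilations. -/
def mulP (a : (ZMod p)ˣ) : Perm (Om p) := Equiv.optionCongr (Units.mulLeft a)

@[simp] theorem tb_none (b : ZMod p) : tb b none = none := rfl
@[simp] theorem tb_some (b x : ZMod p) : tb b (some x) = some (x + b) := rfl
@[simp] theorem mulP_none (a : (ZMod p)ˣ) : mulP a none = none := rfl
@[simp] theorem mulP_some (a : (ZMod p)ˣ) (x : ZMod p) : mulP a (some x) = some ((a : ZMod p) * x) := rfl

theorem tb_mul (a b : ZMod p) : tb a * tb b = tb (a + b) := by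
  ext x y
  cases x with
  | none => simp
  | some x =>
    simp [Equiv.Perm.mul_apply]
    constructor
    · rintro rfl
      ring
    · rintro rfl
      ring

theorem tb_zero : tb (0 : ZMod p) = 1 := by
  ext x y
  cases x <;> simp

theorem tb_pow (n : ℕ) : (tb (1 : ZMod p)) ^ n = tb (n : ZMod p) := by
  induction n with
  | zero => simp [tb_zero]
  | succ n ih =>
    rw [pow_succ, ih, tb_mul]
    push_cast
    rfl

theorem tb_inv (b : ZMod p) : (tb b)⁻¹ = tb (-b) := by
  rw [inv_eq_iff_mul_eq_one, tb_mul, add_neg_cancel, tb_zero]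

/-- Dilations as a homomorphism. -/
def mulPH : (ZMod p)ˣ →* Perm (Om p) where
  toFun := mulP
  map_one' := by
    ext x y
    cases x <;> simp
  map_mul' a b := by
    ext x y
    cases x with
    | none => simp [Equiv.Perm.mul_apply]
    | some x => simp [Equiv.Perm.mul_apply, mul_assoc]

@[simp] theorem mulPH_apply (a : (ZMod p)ˣ) : mulPH a = mulP a := rfl

theorem mulP_inj {a b : (ZMod p)ˣ} (h : mulP a = mulP b) : a = b := by
  have h1 := congrArg (fun g : Perm (Om p) => g (some 1)) h
  simp only [mulP_some, mul_one, Option.some.injEq] at h1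
  exact Units.ext h1

section Embed

variable {G : Type*} [Group G] [Finite G] [IsSimpleGroup G] {d : ℕ}

theorem exists_embed (hcard : Nat.card G = (p + 1) * p * d) (hd : ¬ p ∣ d)
    (hn : Nat.card (Sylow p G) = p + 1) :
    ∃ f : G →* Perm (Om p), Function.Injective f ∧ tb 1 ∈ f.range ∧ (∃ g ∈ f.range, g none = some 0) ∧
      ∀ h ∈ f.range, h none = none → h (some 0) = some 0 → ∃ a : (ZMod p)ˣ, h = mulP a := by
  classical
  have hpp : p.Prime := Fact.out
  let P₀ : Sylow p G := default
  have hm : ¬ p ∣ (p + 1) * d := by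
    intro h
    rcases (Nat.Prime.dvd_mul hpp).1 h with h | h
    · have h2 : p ∣ 1 := (Nat.dvd_add_right (dvd_refl p)).1 h
      exact hpp.one_lt.ne' (Nat.dvd_one.1 h2)
    · exact hd h
  have hP₀ : Nat.card (P₀ : Subgroup G) = p := by
    have := CfsgLib.H9.card_sylow_of_factor (p := p) (k := 1) (m := (p + 1) * d) (by rw [hcard]; ring) hm P₀
    simpa using this
  obtain ⟨x, hx⟩ := exists_prime_orderOf_dvd_card' (G := (P₀ : Subgroup G)) p (by rw [hP₀])
  set σ : G := (x : G) with hσdef
  have hσP : σ ∈ (P₀ : Subgroup G) := x.2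
  have hord : orderOf σ = p := by
    rw [hσdef, Subgroup.orderOf_coe, hx]
  have hzp : Subgroup.zpowers σ = (P₀ : Subgroup G) := by
    apply Subgroup.eq_of_le_of_card_ge (Subgroup.zpowers_le.2 hσP)
    rw [hP₀, Nat.card_zpowers, hord]
  have hσ1 : σ ≠ 1 := by
    intro h
    rw [h, orderOf_one] at hord
    exact hpp.one_lt.ne hord
  have hσp : σ ^ p = 1 := by
    rw [← hord]
    exact pow_orderOf_eq_one σ
  have hpg : IsPGroup p (Subgroup.zpowers σ) := by
    rw [hzp]
    exact P₀.isPGroup'
  have hfix : ∀ Q : Sylow p G, σ • Q = Q → Q = P₀ := by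
    intro Q hQ
    have h1 : Q ∈ MulAction.fixedPoints (Subgroup.zpowers σ) (Sylow p G) := by
      rintro ⟨g, hg⟩
      obtain ⟨k, rfl⟩ := Subgroup.mem_zpowers_iff.1 hg
      have h2 : σ ^ k ∈ MulAction.stabilizer G Q :=
        Subgroup.zpow_mem _ (MulAction.mem_stabilizer_iff.2 hQ) k
      exact MulAction.mem_stabilizer_iff.1 h2
    have h3 := hpg.sylow_mem_fixedPoints_iff.1 h1
    rw [hzp] at h3
    exact P₀.is_maximal' Q.isPGroup' h3 |> fun h => Sylow.ext h
  have hσP₀ : σ • P₀ = P₀ := by
    have h1 : P₀ ∈ MulAction.fixedPoints (Subgroup.zpowers σ) (Sylow p G) :=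
      hpg.sylow_mem_fixedPoints_iff.2 (le_of_eq hzp)
    exact h1 ⟨σ, Subgroup.mem_zpowers σ⟩
  haveI : Nontrivial (Sylow p G) := by
    apply Finite.one_lt_card_iff_nontrivial.1
    rw [hn]
    have := hpp.pos
    omega
  obtain ⟨Q₀, hQ₀⟩ := exists_ne P₀
  have hpowP₀ : ∀ k : ℕ, σ ^ k • P₀ = P₀ := by
    intro k
    induction k with
    | zero => simp
    | succ k ih => rw [pow_succ, mul_smul, hσP₀, ih]
  have hstab : ∀ k : ℕ, σ ^ k • Q₀ = Q₀ → p ∣ k := by
    intro k hk
    by_contra hnd
    have hcop : Nat.Coprime k p := ((Nat.Prime.coprime_iff_not_dvd hpp).2 hnd).symm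
    obtain ⟨m, hm⟩ := Nat.exists_mul_mod_eq_one_of_coprime hcop hpp.one_lt
    have h1 : σ ∈ MulAction.stabilizer G Q₀ := by
      have h2 : (σ ^ k) ^ m ∈ MulAction.stabilizer G Q₀ :=
        Subgroup.pow_mem _ (MulAction.mem_stabilizer_iff.2 hk) m
      rw [← pow_mul, ← pow_mod_orderOf, hord, hm.2, pow_one] at h2
      exact h2
    exact hQ₀ (hfix _ (MulAction.mem_stabilizer_iff.1 h1))
  let e₀ : Om p → Sylow p G := fun o => o.elim P₀ (fun i => σ ^ (i.val) • Q₀)
  have hinj : Function.Injective e₀ := by
    have key : ∀ i j : ZMod p, i.val ≤ j.val → σ ^ i.val • Q₀ = σ ^ j.val • Q₀ → i = j := by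
      intro i j hij h
      have h1 : σ ^ (j.val - i.val) • Q₀ = Q₀ := by
        have h2 : σ ^ j.val = σ ^ i.val * σ ^ (j.val - i.val) := by
          rw [← pow_add]
          congr 1
          omega
        rw [h2, mul_smul] at h
        exact (smul_left_cancel _ h).symm
      have h3 := hstab _ h1
      have h4 : j.val < p := ZMod.val_lt j
      have h5 : j.val - i.val = 0 := Nat.eq_zero_of_dvd_of_lt h3 (by omega)
      apply ZMod.val_injective
      omega
    intro a b hab
    cases a with
    | none =>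
      cases b with
      | none => rfl
      | some j =>
        exfalso
        have h1 : P₀ = σ ^ j.val • Q₀ := hab
        have h2 : σ ^ j.val • Q₀ = σ ^ j.val • P₀ := by rw [hpowP₀]; exact h1.symm
        exact hQ₀ (smul_left_cancel _ h2)
    | some i =>
      cases b with
      | none =>
        exfalso
        have h1 : σ ^ i.val • Q₀ = P₀ := hab
        have h2 : σ ^ i.val • Q₀ = σ ^ i.val • P₀ := by rw [hpowP₀]; exact h1
        exact hQ₀ (smul_left_cancel _ h2)
      | some j =>
        have h1 : σ ^ i.val • Q₀ = σ ^ j.val • Q₀ := hab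
        rcases le_total i.val j.val with h | h
        · rw [key i j h h1]
        · rw [key j i h h1.symm]
  have hbij : Function.Bijective e₀ := by
    refine Function.Injective.bijective_of_nat_card_le hinj ?_
    rw [hn, Finite.card_option, Nat.card_zmod]
  let e : Om p ≃ Sylow p G := Equiv.ofBijective e₀ hbij
  have he_none : e none = P₀ := rfl
  have he_some : ∀ i : ZMod p, e (some i) = σ ^ i.val • Q₀ := fun i => rfl
  let f : G →* Perm (Om p) := (Equiv.permCongrHom e.symm).toMonoidHom.comp (MulAction.toPermHom G (Sylow p G))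
  have hf : ∀ g x, f g x = e.symm (g • e x) := fun g x => rfl
  have hfinj : Function.Injective f := by
    have hker : (MulAction.toPermHom G (Sylow p G)).ker = ⊥ := by
      rcases IsSimpleGroup.eq_bot_or_eq_top_of_normal (MulAction.toPermHom G (Sylow p G)).ker inferInstance with h | h
      · exact h
      · exfalso
        have h1 : σ ∈ (MulAction.toPermHom G (Sylow p G)).ker := by rw [h]; trivial
        have h2 : MulAction.toPermHom G (Sylow p G) σ = 1 := h1
        have h3 : σ • Q₀ = Q₀ := by
          have := congrArg (fun π : Perm (Sylow p G) => π Q₀) h2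
          simpa using this
        exact hQ₀ (hfix _ h3)
    have h1 : Function.Injective (MulAction.toPermHom G (Sylow p G)) :=
      (MonoidHom.ker_eq_bot_iff _).1 hker
    intro a b hab
    apply h1
    exact (Equiv.permCongrHom e.symm).injective hab
  have hσval : ∀ k : ℕ, σ ^ (k % p) = σ ^ k := by
    intro k
    rw [← hord, pow_mod_orderOf]
  refine ⟨f, hfinj, ⟨σ, ?_⟩, ?_, ?_⟩
  · ext1 x
    cases x with
    | none =>
      rw [hf, tb_none, he_none, hσP₀, ← he_none, Equiv.symm_apply_apply]
    | some i =>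
      rw [hf, tb_some, Equiv.symm_apply_eq, he_some, he_some, smul_smul, ← pow_succ']
      congr 1
      rw [ZMod.val_add, ZMod.val_one, hσval]
  · obtain ⟨g, hg⟩ := MulAction.exists_smul_eq G P₀ Q₀
    refine ⟨f g, ⟨g, rfl⟩, ?_⟩
    rw [hf, he_none, hg, Equiv.symm_apply_eq, he_some]
    simp
  · rintro _ ⟨g, rfl⟩ h1 h2
    have hg1 : g • P₀ = P₀ := by
      have := (Equiv.symm_apply_eq e).1 ((hf g none).symm.trans h1)
      rwa [he_none] at this
    have hg2 : g • Q₀ = Q₀ := by
      have := (Equiv.symm_apply_eq e).1 ((hf g (some 0)).symm.trans h2)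
      rw [he_some] at this
      simpa using this
    have hnorm : g ∈ Subgroup.normalizer ((P₀ : Subgroup G) : Set G) := (Sylow.smul_eq_iff_mem_normalizer).1 hg1
    have hconj : g * σ * g⁻¹ ∈ Subgroup.zpowers σ := by
      rw [hzp]
      exact (Subgroup.mem_normalizer_iff.1 hnorm σ).1 hσP
    obtain ⟨m, hm⟩ := (mem_powers_iff_mem_zpowers).2 hconj
    have hm' : σ ^ m = g * σ * g⁻¹ := hm
    have hm0 : ((m : ℕ) : ZMod p) ≠ 0 := by
      intro h0
      have h1 := (ZMod.natCast_eq_zero_iff m p).1 h0
      obtain ⟨c, rfl⟩ := h1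
      rw [pow_mul, hσp, one_pow] at hm'
      apply hσ1
      have h3 : g * σ * g⁻¹ * g = 1 * g := by rw [← hm']
      rw [inv_mul_cancel_right, one_mul] at h3
      exact mul_left_cancel (h3.trans (mul_one g).symm)
    refine ⟨Units.mk0 _ hm0, ?_⟩
    ext1 x
    cases x with
    | none => rw [h1, mulP_none]
    | some i =>
      rw [hf, mulP_some, Equiv.symm_apply_eq, he_some, he_some]
      have h3 : g • σ ^ i.val • Q₀ = (g * σ * g⁻¹) ^ i.val • g • Q₀ := by
        rw [smul_smul, smul_smul, conj_pow]
        simp [mul_assoc]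
      rw [h3, hg2, ← hm', ← pow_mul]
      congr 1
      have h5 : ((Units.mk0 _ hm0 : (ZMod p)ˣ) : ZMod p) * i = ((m * i.val : ℕ) : ZMod p) := by
        simp
      rw [h5, ZMod.val_natCast, hσval]

end Embed

end CfsgLib.H9.PSLId
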