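import Mathlib
import Cfsg.Agent.Lib.H9.PSLId

/-! Two-transitive groups on the projective line with affine point stabilisers. -/

set_option autoImplicit false
set_option linter.unusedVariables false
set_option linter.unusedSectionVars false
set_option linter.unusedSimpArgs false
set_option linter.style.haveILetI false

namespace CfsgLib.H9.PSLId

open Equiv

variable {p : ℕ} [hp : Fact p.Prime]

/-- The basic properties of the permutation group. -/
structure Good (L : Subgroup (Perm (Om p))) : Prop where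
  tr : tb 1 ∈ L
  move : ∃ g ∈ L, g none = some 0
  stab : ∀ h ∈ L, h none = none → h (some 0) = some 0 → ∃ a : (ZMod p)ˣ, h = mulP a

theorem ne_none_of {g : Perm (Om p)} {y y' : Om p} (h : g y = none) (hy : y' ≠ y) : g y' ≠ none := by
  intro h3
  exact hy (g.injective (h3.trans h.symm))

namespace Good

variable {L : Subgroup (Perm (Om p))} (hL : Good L)
include hL

theorem tb_mem (b : ZMod p) : tb b ∈ L := by
  have := L.pow_mem hL.tr b.val
  rwa [tb_pow, ZMod.natCast_zmod_val] at this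

theorem to_none (y : Om p) : ∃ c ∈ L, c y = none := by
  obtain ⟨g, hg, h0⟩ := hL.move
  cases y with
  | none => exact ⟨1, L.one_mem, rfl⟩
  | some x =>
    refine ⟨(tb x * g)⁻¹, L.inv_mem (L.mul_mem (hL.tb_mem x) hg), ?_⟩
    rw [Perm.inv_eq_iff_eq, Perm.mul_apply, h0, tb_some, zero_add]

theorem two_trans {y₁ y₂ : Om p} (h : y₁ ≠ y₂) : ∃ c ∈ L, c y₁ = none ∧ c y₂ = some 0 := by
  obtain ⟨c₁, hc₁, h1⟩ := hL.to_none y₁
  have h2 : c₁ y₂ ≠ none := ne_none_of h1 h.symm
  obtain ⟨z, hz⟩ := Option.ne_none_iff_exists'.1 h2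
  refine ⟨tb (-z) * c₁, L.mul_mem (hL.tb_mem _) hc₁, ?_, ?_⟩
  · rw [Perm.mul_apply, h1, tb_none]
  · rw [Perm.mul_apply, hz, tb_some, add_neg_cancel]

theorem fix3 {g : Perm (Om p)} (hg : g ∈ L) {y₁ y₂ y₃ : Om p} (h12 : y₁ ≠ y₂) (h13 : y₁ ≠ y₃) (h23 : y₂ ≠ y₃)
    (f1 : g y₁ = y₁) (f2 : g y₂ = y₂) (f3 : g y₃ = y₃) : g = 1 := by
  obtain ⟨c, hc, h1, h2⟩ := hL.two_trans h12
  have hh : c * g * c⁻¹ ∈ L := L.mul_mem (L.mul_mem hc hg) (L.inv_mem hc)
  have hfix : ∀ y, g y = y → (c * g * c⁻¹) (c y) = c y := by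
    intro y hy
    simp [Perm.mul_apply, hy]
  have h1' := hfix y₁ f1
  have h2' := hfix y₂ f2
  rw [h1] at h1'
  rw [h2] at h2'
  obtain ⟨a, ha⟩ := hL.stab _ hh h1' h2'
  have h3n : c y₃ ≠ none := ne_none_of h1 h13.symm
  obtain ⟨z, hz⟩ := Option.ne_none_iff_exists'.1 h3n
  have hz0 : z ≠ 0 := by
    rintro rfl
    exact h23 (c.injective (h2.trans hz.symm))
  have h3' := hfix y₃ f3
  rw [hz, ha, mulP_some] at h3'
  have h4 : (a : ZMod p) = 1 :=
    mul_right_cancel₀ hz0 ((Option.some.inj h3').trans (one_mul z).symm)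
  have ha1 : a = 1 := Units.ext h4
  have h5 : mulP (1 : (ZMod p)ˣ) = 1 := map_one mulPH
  rw [ha1, h5] at ha
  have h6 : g = c⁻¹ * (c * g * c⁻¹) * c := by group
  rw [h6, ha]
  group

omit hL in
theorem eq_of_sub {L M : Subgroup (Perm (Om p))} (hL : Good L) (hML : M ≤ L) (h1 : tb 1 ∈ M) (h2 : ∀ a, mulP a ∈ L → mulP a ∈ M)
    (h3 : ∃ g ∈ M, g none ≠ none) : M = L := by
  apply le_antisymm hML
  intro x hx
  have htb : ∀ b : ZMod p, tb b ∈ M := by
    intro b
    have := M.pow_mem h1 b.val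
    rwa [tb_pow, ZMod.natCast_zmod_val] at this
  have hto : ∀ y : Om p, ∃ m ∈ M, m y = none := by
    obtain ⟨g, hg, hgn⟩ := h3
    obtain ⟨w, hw⟩ := Option.ne_none_iff_exists'.1 hgn
    intro y
    cases y with
    | none => exact ⟨1, M.one_mem, rfl⟩
    | some v =>
      refine ⟨g⁻¹ * tb (w - v), M.mul_mem (M.inv_mem hg) (htb _), ?_⟩
      rw [Perm.mul_apply, tb_some, Perm.inv_eq_iff_eq, hw]
      congr 1
      ring
  obtain ⟨m₁, hm₁, hm₁y⟩ := hto (x none)
  have h4 : (m₁ * x) none = none := by rw [Perm.mul_apply, hm₁y]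
  have h5 : (m₁ * x) (some 0) ≠ none := ne_none_of h4 (by simp)
  obtain ⟨z, hz⟩ := Option.ne_none_iff_exists'.1 h5
  have hmem : tb (-z) * (m₁ * x) ∈ L := L.mul_mem (hL.tb_mem _) (L.mul_mem (hML hm₁) hx)
  obtain ⟨a, ha⟩ := hL.stab _ hmem (by rw [Perm.mul_apply, h4, tb_none])
    (by rw [Perm.mul_apply, hz, tb_some, add_neg_cancel])
  have h6 : mulP a ∈ M := h2 a (by rw [← ha]; exact hmem)
  have h7 : x = m₁⁻¹ * (tb (-z))⁻¹ * mulP a := by
    rw [← ha]
    group
  rw [h7]
  exact M.mul_mem (M.mul_mem (M.inv_mem hm₁) (M.inv_mem (htb _))) h6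

theorem card_A {d : ℕ} (hcard : Nat.card L = (p + 1) * p * d) : Nat.card (L.comap (mulPH (p := p))) = d := by
  classical
  have hpp : p.Prime := Fact.out
  haveI : Finite L := inferInstance
  have h1 := CfsgLib.H9.card_orbit_mul_card_stabilizer' (H := L) (X := Om p) none
  have horb : MulAction.orbit L (none : Om p) = Set.univ := by
    apply Set.eq_univ_of_forall
    intro y
    obtain ⟨c, hc, hcy⟩ := hL.to_none y
    refine ⟨⟨c⁻¹, L.inv_mem hc⟩, ?_⟩
    change c⁻¹ none = y
    rw [Perm.inv_eq_iff_eq, hcy]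
  have hstab : Nat.card (MulAction.stabilizer L (none : Om p)) = p * Nat.card (L.comap (mulPH (p := p))) := by
    let φ : ZMod p × (L.comap (mulPH (p := p))) → MulAction.stabilizer L (none : Om p) := fun q =>
      ⟨⟨tb q.1 * mulP q.2.1, L.mul_mem (hL.tb_mem _) q.2.2⟩, by
        rw [MulAction.mem_stabilizer_iff]
        change (tb q.1 * mulP q.2.1) none = none
        simp [Perm.mul_apply]⟩
    have hφ : Function.Bijective φ := by
      constructor
      · rintro ⟨b, a, ha⟩ ⟨b', a', ha'⟩ h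
        have h2 : tb b * mulP a = tb b' * mulP a' := congrArg (fun s : MulAction.stabilizer L (none : Om p) => ((s : L) : Perm (Om p))) h
        have h3 := congrArg (fun g : Perm (Om p) => g (some 0)) h2
        simp [Perm.mul_apply] at h3
        subst h3
        have h4 : mulP a = mulP a' := mul_left_cancel h2
        have h5 := mulP_inj h4
        subst h5
        rfl
      · rintro ⟨⟨s, hs⟩, hs'⟩
        have hs1 : s none = none := MulAction.mem_stabilizer_iff.1 hs'
        have h5 : s (some 0) ≠ none := ne_none_of hs1 (by simp)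
        obtain ⟨z, hz⟩ := Option.ne_none_iff_exists'.1 h5
        have hmem : tb (-z) * s ∈ L := L.mul_mem (hL.tb_mem _) hs
        obtain ⟨a, ha⟩ := hL.stab _ hmem (by rw [Perm.mul_apply, hs1, tb_none])
          (by rw [Perm.mul_apply, hz, tb_some, add_neg_cancel])
        have ham : a ∈ L.comap (mulPH (p := p)) := by
          change mulP a ∈ L
          rw [← ha]
          exact hmem
        refine ⟨(z, ⟨a, ham⟩), ?_⟩
        apply Subtype.ext
        apply Subtype.ext
        change tb z * mulP a = s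
        rw [← ha, ← mul_assoc, tb_mul, add_neg_cancel, tb_zero, one_mul]
    rw [← Nat.card_congr (Equiv.ofBijective φ hφ), Nat.card_prod, Nat.card_zmod]
  rw [horb, hstab, Nat.card_coe_set_eq, Set.ncard_univ, Finite.card_option, Nat.card_zmod, hcard] at h1
  have hp0 : 0 < p := hpp.pos
  have h2 : (p + 1) * p * Nat.card (L.comap (mulPH (p := p))) = (p + 1) * p * d := by
    rw [← h1]
    ring
  exact Nat.eq_of_mul_eq_mul_left (by positivity) h2

theorem mem_iff {d : ℕ} (hA : Nat.card (L.comap (mulPH (p := p))) = d) (hd : 0 < d) (a : (ZMod p)ˣ) :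
    mulP a ∈ L ↔ a ^ d = 1 := by
  classical
  constructor
  · intro h
    have h1 : (⟨a, h⟩ : L.comap (mulPH (p := p))) ^ Nat.card (L.comap (mulPH (p := p))) = 1 := pow_card_eq_one'
    rw [hA] at h1
    exact congrArg Subtype.val h1
  · intro h
    let S : Finset (ZMod p)ˣ := Finset.univ.filter (fun a => a ^ d = 1)
    have hS : S.card ≤ d := IsCyclic.card_pow_eq_one_le hd
    let T : Finset (ZMod p)ˣ := Finset.univ.filter (fun a => a ∈ L.comap (mulPH (p := p)))
    have hT : T.card = d := by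
      rw [← hA, Nat.card_eq_fintype_card, Fintype.card_subtype]
    have hTS : T ⊆ S := by
      intro x hx
      have hx' : mulP x ∈ L := (Finset.mem_filter.1 hx).2
      simp only [S, Finset.mem_filter, Finset.mem_univ, true_and]
      have h1 : (⟨x, hx'⟩ : L.comap (mulPH (p := p))) ^ Nat.card (L.comap (mulPH (p := p))) = 1 := pow_card_eq_one'
      rw [hA] at h1
      exact congrArg Subtype.val h1
    have h3 := Finset.eq_of_subset_of_card_le hTS (hS.trans hT.ge)
    have h4 : a ∈ S := by simp [S, h]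
    rw [← h3] at h4
    exact (Finset.mem_filter.1 h4).2

end Good

/-- Square roots in an odd order cyclic group. -/
theorem pow_half_sq {M : Type*} [Monoid M] {a : M} {d : ℕ} (hd : Odd d) (ha : a ^ d = 1) :
    (a ^ ((d + 1) / 2)) ^ 2 = a ∧ (a ^ ((d + 1) / 2)) ^ d = 1 := by
  obtain ⟨k, rfl⟩ := hd
  have h1 : (2 * k + 1 + 1) / 2 = k + 1 := by omega
  rw [h1]
  constructor
  · rw [← pow_mul, show (k + 1) * 2 = (2 * k + 1) + 1 by ring, pow_succ, ha, one_mul]
  · rw [← pow_mul, mul_comm, pow_mul, ha, one_pow]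

section Invol

variable {L : Subgroup (Perm (Om p))} (hL : Good L) {d : ℕ} (hA : Nat.card (L.comap (mulPH (p := p))) = d)
  (hd : Odd d)
include hL hA hd

theorem inv_fpf (hp2 : p ≠ 2) {g : Perm (Om p)} (hg : g ∈ L) (hg2 : g * g = 1) (hg1 : g ≠ 1) (y : Om p) : g y ≠ y := by
  classical
  have hpp : p.Prime := Fact.out
  have hd0 : 0 < d := hd.pos
  intro hy
  have hex : ∃ y' : Om p, y' ≠ y ∧ g y' = y' := by
    by_contra hno
    push Not at hno
    have h1 : g.support = Finset.univ.erase y := by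
      ext z
      simp only [Equiv.Perm.mem_support, Finset.mem_erase, Finset.mem_univ, and_true]
      constructor
      · intro hz hzy
        rw [hzy] at hz
        exact hz hy
      · intro hz
        exact hno z hz
    have h2 : 2 ∣ g.support.card := Equiv.Perm.two_dvd_card_support (by rw [pow_two, hg2])
    rw [h1, Finset.card_erase_of_mem (Finset.mem_univ y), Finset.card_univ, Fintype.card_option, ZMod.card] at h2
    have h3 : Odd p := hpp.odd_of_ne_two hp2
    obtain ⟨k, rfl⟩ := h3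
    omega
  obtain ⟨y', hy', hgy'⟩ := hex
  obtain ⟨c, hc, h1, h2⟩ := hL.two_trans hy'.symm
  have hh : c * g * c⁻¹ ∈ L := L.mul_mem (L.mul_mem hc hg) (L.inv_mem hc)
  have hfix : ∀ z, g z = z → (c * g * c⁻¹) (c z) = c z := by
    intro z hz
    simp [Perm.mul_apply, hz]
  have h1' := hfix y hy
  have h2' := hfix y' hgy'
  rw [h1] at h1'
  rw [h2] at h2'
  obtain ⟨a, ha⟩ := hL.stab _ hh h1' h2'
  have ham : mulP a ∈ L := ha ▸ hh
  have had : a ^ d = 1 := (hL.mem_iff hA hd0 a).1 ham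
  have ha2 : a * a = 1 := by
    apply mulP_inj
    have h3 : mulP (a * a) = mulP a * mulP a := map_mul mulPH a a
    have h5 : mulP (1 : (ZMod p)ˣ) = 1 := map_one mulPH
    rw [h3, ← ha, h5]
    have h6 : c * g * c⁻¹ * (c * g * c⁻¹) = c * (g * g) * c⁻¹ := by group
    rw [h6, hg2]
    group
  have ha1 : a = 1 := by
    obtain ⟨k, rfl⟩ := hd
    have h3 : a ^ (2 * k + 1) = a := by
      rw [pow_succ, pow_mul, pow_two, ha2, one_pow, one_mul]
    rw [← h3, had]
  have h5 : mulP (1 : (ZMod p)ˣ) = 1 := map_one mulPH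
  rw [ha1, h5] at ha
  apply hg1
  have h6 : g = c⁻¹ * (c * g * c⁻¹) * c := by group
  rw [h6, ha]
  group

theorem exists_tau : ∃ τ ∈ L, τ * τ = 1 ∧ τ none = some 0 ∧ τ (some 0) = none := by
  have hd0 : 0 < d := hd.pos
  obtain ⟨g₀, hg₀, h0⟩ := hL.move
  have h1 : g₀⁻¹ none ≠ none := by
    intro h
    rw [Perm.inv_eq_iff_eq, h0] at h
    simp at h
  obtain ⟨z, hz⟩ := Option.ne_none_iff_exists'.1 h1
  have hz' : g₀ (some z) = none := by
    rw [← hz]
    simp
  let g₁ := g₀ * tb z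
  have hg₁ : g₁ ∈ L := L.mul_mem hg₀ (hL.tb_mem z)
  have h2 : g₁ none = some 0 := by
    simp [g₁, Perm.mul_apply, h0]
  have h3 : g₁ (some 0) = none := by
    simp [g₁, Perm.mul_apply, hz']
  obtain ⟨a, ha⟩ := hL.stab (g₁ * g₁) (L.mul_mem hg₁ hg₁) (by rw [Perm.mul_apply, h2, h3])
    (by rw [Perm.mul_apply, h3, h2])
  have ham : mulP a ∈ L := ha ▸ L.mul_mem hg₁ hg₁
  have had : a ^ d = 1 := (hL.mem_iff hA hd0 a).1 ham
  obtain ⟨k, hk⟩ := hd
  have hpow : ∀ m : ℕ, (g₁ * g₁) ^ m = mulP (a ^ m) := by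
    intro m
    rw [ha]
    exact (map_pow mulPH a m).symm
  have h4 : g₁ ^ d = mulP (a ^ k) * g₁ := by
    rw [hk, pow_succ, pow_mul, pow_two, hpow]
  have h5 : mulP (1 : (ZMod p)ˣ) = 1 := map_one mulPH
  refine ⟨g₁ ^ d, L.pow_mem hg₁ d, ?_, ?_, ?_⟩
  · rw [← pow_add, ← two_mul, pow_mul, pow_two, hpow, had, h5]
  · rw [h4, Perm.mul_apply, h2, mulP_some, mul_zero]
  · rw [h4, Perm.mul_apply, h3, mulP_none]

end Invol

end CfsgLib.H9.PSLId
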