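import Mathlib
import Cfsg.Agent.Lib.H9.PSLId2
import Cfsg.Agent.Lib.ClassGeo.Basic

/-! The involution swapping `∞` and `0`, and the projective line action of `PSL₂(p)`. -/

set_option autoImplicit false
set_option linter.unusedVariables false
set_option linter.unusedSectionVars false
set_option linter.unusedSimpArgs false
set_option linter.style.haveILetI false

namespace CfsgLib.H9.PSLId

open Equiv

variable {p : ℕ} [hp : Fact p.Prime]

theorem euler {d : ℕ} (h2d : 2 * d = p - 1) {x : ZMod p} (hx : x ≠ 0) : x ^ d = 1 ∨ x ^ d = -1 := by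
  have h1 : x ^ (p - 1) = 1 := ZMod.pow_card_sub_one_eq_one hx
  rw [← h2d, mul_comm, pow_mul] at h1
  exact mul_self_eq_one_iff.1 (by rw [← pow_two]; exact h1)

theorem unit_pow_iff {d : ℕ} {x : ZMod p} (hx : x ≠ 0) : (Units.mk0 x hx) ^ d = 1 ↔ x ^ d = 1 := by
  constructor
  · intro h
    have := congrArg Units.val h
    simpa using this
  · intro h
    apply Units.ext
    simpa using h

section Tau

variable {L : Subgroup (Perm (Om p))} (hL : Good L) {d : ℕ} (hA : Nat.card (L.comap (mulPH (p := p))) = d)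
  (hd : Odd d) (h2d : 2 * d = p - 1) {τ : Perm (Om p)} (hτ : τ ∈ L) (hττ : τ * τ = 1)
  (h0 : τ none = some 0) (h1 : τ (some 0) = none)

include h0 h1 hττ in
theorem exists_t : ∃ t : ZMod p → ZMod p, (∀ x, x ≠ 0 → τ (some x) = some (t x)) ∧ (∀ x, x ≠ 0 → t x ≠ 0) ∧
    (∀ x, x ≠ 0 → t (t x) = x) := by
  have hne : ∀ x : ZMod p, x ≠ 0 → τ (some x) ≠ none := by
    intro x hx
    exact ne_none_of h1 (by simpa using hx)
  let t : ZMod p → ZMod p := fun x => (τ (some x)).getD 0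
  have ht : ∀ x, x ≠ 0 → τ (some x) = some (t x) := by
    intro x hx
    obtain ⟨y, hy⟩ := Option.ne_none_iff_exists'.1 (hne x hx)
    simp [t, hy]
  have ht0 : ∀ x, x ≠ 0 → t x ≠ 0 := by
    intro x hx hh
    have h2 := ht x hx
    rw [hh] at h2
    have h3 := τ.injective (h2.trans h0.symm)
    simp at h3
  refine ⟨t, ht, ht0, ?_⟩
  intro x hx
  have h2 : τ (τ (some x)) = some x := by
    rw [← Perm.mul_apply, hττ]
    rfl
  rw [ht x hx, ht _ (ht0 x hx)] at h2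
  exact Option.some.inj h2

include hττ in
theorem t_conj {t : ZMod p → ZMod p} (ht : ∀ x, x ≠ 0 → τ (some x) = some (t x)) {a b : (ZMod p)ˣ}
    (hab : τ * mulP a * τ = mulP b) (x : ZMod p) (hx : x ≠ 0) : t ((a : ZMod p) * x) = (b : ZMod p) * t x := by
  have h2 : τ * mulP a = mulP b * τ := by
    rw [← hab, mul_assoc, mul_assoc, hττ, mul_one]
  have h3 := congrArg (fun g : Perm (Om p) => g (some x)) h2
  simp only [Perm.mul_apply, mulP_some] at h3
  rw [ht _ (mul_ne_zero a.ne_zero hx), ht x hx, mulP_some] at h3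
  exact Option.some.inj h3

include hL hA hd h2d hτ hττ h0 h1 in
/-- The inverting case. -/
theorem nu_of_inv (hinv : ∀ a : (ZMod p)ˣ, a ^ d = 1 → τ * mulP a * τ = mulP a⁻¹) :
    ∃ ν ∈ L, ν none = some 0 ∧ ν (some 0) = none ∧ ∀ x : ZMod p, x ≠ 0 → ν (some x) = some (-x⁻¹) := by
  have hpp : p.Prime := Fact.out
  have hp2 : p ≠ 2 := by
    rintro rfl
    have := hd.pos
    omega
  obtain ⟨t, ht, ht0, htt⟩ := exists_t hττ h0 h1
  have hτ1 : τ ≠ 1 := by
    rintro rfl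
    simp at h0
  have hfpf : ∀ x, x ≠ 0 → t x ≠ x := by
    intro x hx h
    exact inv_fpf hL hA hd hp2 hτ hττ hτ1 (some x) (by rw [ht x hx, h])
  have hconj : ∀ x (hx : x ≠ 0), x ^ d = 1 → ∀ y, y ≠ 0 → t (x * y) = x⁻¹ * t y := by
    intro x hx hxd y hy
    have h2 := t_conj hττ ht (hinv (Units.mk0 x hx) ((unit_pow_iff hx).2 hxd)) y hy
    simpa using h2
  set u := t 1 with hu
  have hu0 : u ≠ 0 := ht0 1 one_ne_zero
  have h3 : ∀ x (hx : x ≠ 0), x ^ d = 1 → t x = x⁻¹ * u := by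
    intro x hx hxd
    have := hconj x hx hxd 1 one_ne_zero
    rwa [mul_one] at this
  have hud : u ^ d = -1 := by
    rcases euler h2d hu0 with h | h
    · exfalso
      obtain ⟨hs, hy⟩ := pow_half_sq hd h
      set y := u ^ ((d + 1) / 2) with hydef
      have hy0 : y ≠ 0 := pow_ne_zero _ hu0
      apply hfpf y hy0
      rw [h3 y hy0 hy]
      rw [← hs]
      field_simp
    · exact h
  have htu : t u = 1 := htt 1 one_ne_zero
  have h4 : ∀ x, x ≠ 0 → t x = x⁻¹ * u := by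
    intro x hx
    rcases euler h2d hx with h | h
    · exact h3 x hx h
    · have ha : (x * u⁻¹) ^ d = 1 := by
        rw [mul_pow, inv_pow, h, hud]
        simp
      have ha0 : x * u⁻¹ ≠ 0 := mul_ne_zero hx (inv_ne_zero hu0)
      have h5 := hconj _ ha0 ha u hu0
      rw [mul_assoc, inv_mul_cancel₀ hu0, mul_one, htu, mul_one] at h5
      rw [h5]
      field_simp
  have hc0 : (-u⁻¹) ^ d = 1 := by
    rw [neg_pow, Odd.neg_one_pow hd, inv_pow, hud]
    simp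
  obtain ⟨hcs, hcd⟩ := pow_half_sq hd hc0
  set c := (-u⁻¹) ^ ((d + 1) / 2) with hcdef
  have hcne : c ≠ 0 := pow_ne_zero _ (neg_ne_zero.2 (inv_ne_zero hu0))
  have hcm : mulP (Units.mk0 c hcne) ∈ L := (hL.mem_iff hA hd.pos _).2 ((unit_pow_iff hcne).2 hcd)
  have hinvP : (mulP (Units.mk0 c hcne))⁻¹ = mulP (Units.mk0 c hcne)⁻¹ := (map_inv mulPH _).symm
  refine ⟨mulP (Units.mk0 c hcne) * τ * (mulP (Units.mk0 c hcne))⁻¹, L.mul_mem (L.mul_mem hcm hτ) (L.inv_mem hcm), ?_, ?_, ?_⟩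
  · rw [hinvP]
    simp [Perm.mul_apply, h0]
  · rw [hinvP]
    simp [Perm.mul_apply, h1]
  · intro x hx
    rw [hinvP]
    have h5 : c⁻¹ * x ≠ 0 := mul_ne_zero (inv_ne_zero hcne) hx
    simp only [Perm.mul_apply, mulP_some, Units.val_inv_eq_inv_val, Units.val_mk0]
    rw [ht _ h5, h4 _ h5, mulP_some, Units.val_mk0]
    congr 1
    have h6 : c * c = -u⁻¹ := by rw [← pow_two, hcs]
    have h7 : c * ((c⁻¹ * x)⁻¹ * u) = (c * c) * u * x⁻¹ := by
      field_simp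
    rw [h7, h6]
    field_simp

include hL hA hd h2d hτ hττ h0 h1 in
/-- The commuting case. -/
theorem comm_form (hcomm : ∀ a : (ZMod p)ˣ, a ^ d = 1 → τ * mulP a * τ = mulP a) :
    ∃ u : ZMod p, u ^ d = -1 ∧ (∀ x, x ≠ 0 → x ^ d = 1 → τ (some x) = some (u * x)) ∧
      (∀ x, x ≠ 0 → x ^ d = -1 → τ (some x) = some (x * u⁻¹)) := by
  have hpp : p.Prime := Fact.out
  have hp2 : p ≠ 2 := by
    rintro rfl
    have := hd.pos
    omega
  haveI : Fact (2 < p) := ⟨by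
    have := hpp.two_le
    omega⟩
  obtain ⟨t, ht, ht0, htt⟩ := exists_t hττ h0 h1
  have hτ1 : τ ≠ 1 := by
    rintro rfl
    simp at h0
  have hfpf : ∀ x, x ≠ 0 → t x ≠ x := by
    intro x hx h
    exact inv_fpf hL hA hd hp2 hτ hττ hτ1 (some x) (by rw [ht x hx, h])
  have hconj : ∀ x (hx : x ≠ 0), x ^ d = 1 → ∀ y, y ≠ 0 → t (x * y) = x * t y := by
    intro x hx hxd y hy
    have h2 := t_conj hττ ht (hcomm (Units.mk0 x hx) ((unit_pow_iff hx).2 hxd)) y hy
    simpa using h2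
  set u := t 1 with hu
  have hu0 : u ≠ 0 := ht0 1 one_ne_zero
  have h3 : ∀ x (hx : x ≠ 0), x ^ d = 1 → t x = x * u := by
    intro x hx hxd
    have := hconj x hx hxd 1 one_ne_zero
    rwa [mul_one] at this
  have htu : t u = 1 := htt 1 one_ne_zero
  have hud : u ^ d = -1 := by
    rcases euler h2d hu0 with h | h
    · exfalso
      have h4 := h3 u hu0 h
      rw [htu] at h4
      rcases mul_self_eq_one_iff.1 h4.symm with h5 | h5
      · exact hfpf 1 one_ne_zero h5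
      · rw [h5, Odd.neg_one_pow hd] at h
        exact ZMod.neg_one_ne_one h
    · exact h
  refine ⟨u, hud, ?_, ?_⟩
  · intro x hx hxd
    rw [ht x hx, h3 x hx hxd, mul_comm]
  · intro x hx hxd
    have ha : (x * u⁻¹) ^ d = 1 := by
      rw [mul_pow, inv_pow, hxd, hud]
      simp
    have ha0 : x * u⁻¹ ≠ 0 := mul_ne_zero hx (inv_ne_zero hu0)
    have h5 := hconj _ ha0 ha u hu0
    rw [mul_assoc, inv_mul_cancel₀ hu0, mul_one, htu, mul_one] at h5
    rw [ht x hx, h5]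

include hL hA hd h2d hτ hττ h0 h1 in
theorem comm_false {x₁ x₂ x₃ : ZMod p} (h12 : x₁ ≠ x₂) (h13 : x₁ ≠ x₃) (h23 : x₂ ≠ x₃)
    (hx : ∀ x ∈ [x₁, x₂, x₃], x ≠ 0 ∧ x + 1 ≠ 0 ∧ x ^ d = 1 ∧ (x + 1) ^ d = 1)
    (hcomm : ∀ a : (ZMod p)ˣ, a ^ d = 1 → τ * mulP a * τ = mulP a) : False := by
  obtain ⟨u, hud, hq, hn⟩ := comm_form hL hA hd h2d hτ hττ h0 h1 hcomm
  have hu0 : u ≠ 0 := by
    rintro rfl
    have hd0 := hd.pos
    rw [zero_pow hd0.ne'] at hud
    have : (1 : ZMod p) = 0 := by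
      have h2 := congrArg Neg.neg hud
      simpa using h2.symm
    exact one_ne_zero this
  have hw : τ * tb (-u) * τ * tb 1 ∈ L :=
    L.mul_mem (L.mul_mem (L.mul_mem hτ (hL.tb_mem _)) hτ) (hL.tb_mem _)
  have hfix : ∀ x ∈ [x₁, x₂, x₃], (τ * tb (-u) * τ * tb 1 : Perm (Om p)) (some x) = some x := by
    intro x hxm
    obtain ⟨hx0, hx1, hxd, hx1d⟩ := hx x hxm
    simp only [Perm.mul_apply, tb_some]
    rw [hq _ hx1 hx1d, tb_some]
    have h5 : u * (x + 1) + -u = u * x := by ring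
    rw [h5, hn _ (mul_ne_zero hu0 hx0) (by rw [mul_pow, hud, hxd]; ring)]
    congr 1
    field_simp
  have hw1 := hL.fix3 hw (y₁ := some x₁) (y₂ := some x₂) (y₃ := some x₃) (by simpa using h12) (by simpa using h13)
    (by simpa using h23) (hfix _ (by simp)) (hfix _ (by simp)) (hfix _ (by simp))
  have h6 := congrArg (fun g : Perm (Om p) => g none) hw1
  simp only [Perm.mul_apply, tb_none, Perm.one_apply] at h6
  rw [h0, tb_some, zero_add] at h6
  have h7 := τ.injective (h6.trans h1.symm)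
  have h8 : -u = 0 := Option.some.inj h7
  exact hu0 (neg_eq_zero.1 h8)

include hL hA hd hτ hττ h0 h1 in
/-- Dichotomy for the action of `τ` on the two point stabiliser. -/
theorem dichotomy (hk : ∀ k, k < d → k * k % d = 1 % d → k = 1 ∨ k = d - 1) :
    (∀ a : (ZMod p)ˣ, a ^ d = 1 → τ * mulP a * τ = mulP a) ∨
      (∀ a : (ZMod p)ˣ, a ^ d = 1 → τ * mulP a * τ = mulP a⁻¹) := by
  classical
  have hd0 : 0 < d := hd.pos
  have hτinv : τ⁻¹ = τ := inv_eq_of_mul_eq_one_left hττ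
  have hcj : ∀ (g : Perm (Om p)) (n : ℕ), τ * g ^ n * τ = (τ * g * τ) ^ n := by
    intro g n
    calc τ * g ^ n * τ = τ * g ^ n * τ⁻¹ := by rw [hτinv]
      _ = (τ * g * τ⁻¹) ^ n := conj_pow.symm
      _ = _ := by rw [hτinv]
  have hA1 : ∀ a : (ZMod p)ˣ, a ^ d = 1 ↔ a ∈ L.comap (mulPH (p := p)) := by
    intro a
    exact ((hL.mem_iff hA hd0 a)).symm
  obtain ⟨⟨a₀, ha₀⟩, hgen⟩ := IsCyclic.exists_generator (α := L.comap (mulPH (p := p)))
  have hord : orderOf a₀ = d := by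
    have := orderOf_eq_card_of_forall_mem_zpowers hgen
    rw [hA, Subgroup.orderOf_mk] at this
    exact this
  have hpow : ∀ a : (ZMod p)ˣ, a ^ d = 1 → ∃ j : ℕ, a = a₀ ^ j := by
    intro a ha
    have h2 := hgen ⟨a, (hA1 a).1 ha⟩
    obtain ⟨j, hj⟩ := (mem_powers_iff_mem_zpowers).2 h2
    refine ⟨j, ?_⟩
    have h3 := congrArg Subtype.val hj
    simpa using h3.symm
  have hpc : ∀ j : ℕ, mulP (a₀ ^ j) = mulP a₀ ^ j := fun j => map_pow mulPH a₀ j
  -- image of `a₀`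
  have hmem : τ * mulP a₀ * τ ∈ L := L.mul_mem (L.mul_mem hτ ha₀) hτ
  obtain ⟨b₀, hb₀⟩ := hL.stab _ hmem (by simp [Perm.mul_apply, h0, h1]) (by simp [Perm.mul_apply, h1, h0])
  have hb₀m : b₀ ^ d = 1 := (hL.mem_iff hA hd0 b₀).1 (hb₀ ▸ hmem)
  obtain ⟨j, hj⟩ := hpow b₀ hb₀m
  -- reduce
  set k := j % d with hkdef
  have hkd : k < d := Nat.mod_lt _ hd0
  have hb₁ : b₀ = a₀ ^ k := by
    rw [hj, hkdef, ← hord, pow_mod_orderOf]
  have h3 : τ * mulP b₀ * τ = mulP a₀ := by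
    rw [← hb₀]
    have : τ * (τ * mulP a₀ * τ) * τ = (τ * τ) * mulP a₀ * (τ * τ) := by group
    rw [this, hττ, one_mul, mul_one]
  have h4 : τ * mulP b₀ * τ = mulP (a₀ ^ (k * k)) := by
    rw [hb₁, hpc, hcj, hb₀, hb₁, pow_mul]
    exact (map_pow mulPH _ k).symm
  have h5 : a₀ = a₀ ^ (k * k) := mulP_inj (h3.symm.trans h4)
  have h6 : a₀ ^ 1 = a₀ ^ (k * k) := by rw [pow_one]; exact h5
  have h7 := pow_eq_pow_iff_modEq.1 h6
  rw [hord] at h7
  have hall : ∀ (c : (ZMod p)ˣ), τ * mulP a₀ * τ = mulP c → ∀ a : (ZMod p)ˣ, a ^ d = 1 →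
      ∃ i : ℕ, a = a₀ ^ i ∧ τ * mulP a * τ = mulP (c ^ i) := by
    intro c hc a ha
    obtain ⟨i, rfl⟩ := hpow a ha
    refine ⟨i, rfl, ?_⟩
    rw [hpc, hcj, hc]
    exact (map_pow mulPH c i).symm
  rcases hk k hkd h7.symm with h8 | h8
  · left
    intro a ha
    obtain ⟨i, rfl, hi⟩ := hall b₀ hb₀ a ha
    rw [hi, hb₁, h8, pow_one]
  · right
    intro a ha
    obtain ⟨i, rfl, hi⟩ := hall b₀ hb₀ a ha
    rw [hi]
    congr 1
    have h9 : a₀ ^ d = 1 := by rw [← hord]; exact pow_orderOf_eq_one a₀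
    have h10 : b₀ = a₀⁻¹ := by
      rw [hb₁, h8]
      apply eq_inv_of_mul_eq_one_left
      rw [← pow_succ]
      rw [show d - 1 + 1 = d by omega]
      exact h9
    rw [h10, inv_pow]

end Tau

end CfsgLib.H9.PSLId
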