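import Mathlib
import Cfsg.Agent.Lib.H9.PSLId3

/-! The projective line action of `PSL₂(p)` and the identification. -/

set_option autoImplicit false
set_option linter.unusedVariables false
set_option linter.unusedSectionVars false
set_option linter.unusedSimpArgs false
set_option linter.style.haveILetI false

namespace CfsgLib.H9.PSLId

open Equiv Matrix Projectivization
open scoped LinearAlgebra.Projectivization

variable {p : ℕ} [hp : Fact p.Prime]

/-- The identification with the projective line. -/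
noncomputable def eP : Om p ≃ ℙ (ZMod p) (Fin 2 → ZMod p) := OnePoint.equivProjectivization (ZMod p)

/-- The action of `PSL₂(p)` on the projective line. -/
noncomputable def Psi : Matrix.ProjectiveSpecialLinearGroup (Fin 2) (ZMod p) →* Perm (Om p) :=
  (Equiv.permCongrHom eP.symm).toMonoidHom.comp PSLAction.toPermHom

theorem Psi_inj : Function.Injective (Psi (p := p)) :=
  (Equiv.permCongrHom eP.symm).injective.comp Matrix.ProjectiveSpecialLinearGroup.toPermHom_injective

theorem Psi_some (M : Matrix.SpecialLinearGroup (Fin 2) (ZMod p)) (x : ZMod p) :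
    Psi (QuotientGroup.mk M) (some x) =
      if M 1 0 * x + M 1 1 = 0 then none else some ((M 1 0 * x + M 1 1)⁻¹ * (M 0 0 * x + M 0 1)) := by
  change eP.symm (M • eP (some x)) = _
  have h1 : eP (some x) = Projectivization.mk (ZMod p) ![x, 1] (by simp) := rfl
  rw [h1, Projectivization.smul_mk]
  change (OnePoint.equivProjectivization (ZMod p)).symm _ = _
  rw [OnePoint.equivProjectivization_symm_apply_mk]
  have h2 : (M • ![x, (1 : ZMod p)]) 1 = M 1 0 * x + M 1 1 := by
    change ((M : Matrix (Fin 2) (Fin 2) (ZMod p)) *ᵥ ![x, (1 : ZMod p)]) 1 = _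
    simp
  have h3 : (M • ![x, (1 : ZMod p)]) 0 = M 0 0 * x + M 0 1 := by
    change ((M : Matrix (Fin 2) (Fin 2) (ZMod p)) *ᵥ ![x, (1 : ZMod p)]) 0 = _
    simp
  rw [h2, h3]
  rfl

theorem Psi_none (M : Matrix.SpecialLinearGroup (Fin 2) (ZMod p)) :
    Psi (QuotientGroup.mk M) none =
      if M 1 0 = 0 then none else some ((M 1 0)⁻¹ * M 0 0) := by
  change eP.symm (M • eP (none : Om p)) = _
  have h1 : eP (none : Om p) = Projectivization.mk (ZMod p) ![1, 0] (by simp) := rfl
  rw [h1, Projectivization.smul_mk]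
  change (OnePoint.equivProjectivization (ZMod p)).symm _ = _
  rw [OnePoint.equivProjectivization_symm_apply_mk]
  have h2 : (M • ![(1 : ZMod p), 0]) 1 = M 1 0 := by
    change ((M : Matrix (Fin 2) (Fin 2) (ZMod p)) *ᵥ ![(1 : ZMod p), 0]) 1 = _
    simp
  have h3 : (M • ![(1 : ZMod p), 0]) 0 = M 0 0 := by
    change ((M : Matrix (Fin 2) (Fin 2) (ZMod p)) *ᵥ ![(1 : ZMod p), 0]) 0 = _
    simp
  rw [h2, h3]
  rfl

/-- The standard unipotent element. -/
def sT : Matrix.SpecialLinearGroup (Fin 2) (ZMod p) := ⟨!![1, 1; 0, 1], by simp [Matrix.det_fin_two]⟩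
/-- The Weyl element. -/
def sS : Matrix.SpecialLinearGroup (Fin 2) (ZMod p) := ⟨!![0, -1; 1, 0], by simp [Matrix.det_fin_two]⟩
/-- The diagonal element. -/
noncomputable def sD (c : ZMod p) (hc : c ≠ 0) : Matrix.SpecialLinearGroup (Fin 2) (ZMod p) :=
  ⟨!![c, 0; 0, c⁻¹], by simp [Matrix.det_fin_two, hc]⟩

theorem Psi_T : Psi (QuotientGroup.mk (sT (p := p))) = tb 1 := by
  ext1 y
  cases y with
  | none =>
    rw [Psi_none, tb_none]
    simp [sT]
  | some x =>
    rw [Psi_some, tb_some]
    simp [sT]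

theorem Psi_D (c : ZMod p) (hc : c ≠ 0) :
    Psi (QuotientGroup.mk (sD c hc)) = mulP (Units.mk0 (c * c) (mul_ne_zero hc hc)) := by
  ext1 y
  cases y with
  | none =>
    rw [Psi_none, mulP_none]
    simp [sD]
  | some x =>
    rw [Psi_some, mulP_some]
    simp [sD, hc]
    ring

theorem Psi_S {ν : Perm (Om p)} (h0 : ν none = some 0) (h1 : ν (some 0) = none)
    (h2 : ∀ x : ZMod p, x ≠ 0 → ν (some x) = some (-x⁻¹)) : Psi (QuotientGroup.mk (sS (p := p))) = ν := by
  ext1 y
  cases y with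
  | none =>
    rw [Psi_none, h0]
    simp [sS]
  | some x =>
    rw [Psi_some]
    by_cases hx : x = 0
    · subst hx
      rw [h1]
      simp [sS]
    · rw [h2 x hx]
      simp [sS, hx]

theorem card_PSL2 {d : ℕ} (h2d : 2 * d = p - 1) :
    Nat.card (Matrix.ProjectiveSpecialLinearGroup (Fin 2) (ZMod p)) = (p + 1) * p * d := by
  have hpp : p.Prime := Fact.out
  have hp2 : 2 ≤ p := hpp.two_le
  have h1 := CfsgLib.ClassGeo.q_sub_one_mul_card_SL (F := ZMod p) (ZMod.card p) 2 (by norm_num)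
  have h2 := CfsgLib.ClassGeo.card_PSL_mul (F := ZMod p) (ZMod.card p) 2 (by norm_num)
  rw [Fin.prod_univ_two] at h1
  have h1' : (p - 1) * Nat.card (Matrix.SpecialLinearGroup (Fin 2) (ZMod p)) = (p ^ 2 - 1) * (p ^ 2 - p) := by
    simpa using h1
  clear h1
  rename' h1' => h1
  have h3 : Nat.gcd 2 (p - 1) = 2 := by
    rw [← h2d]
    exact Nat.gcd_eq_left (dvd_mul_right _ _)
  rw [h3] at h2
  set P := Nat.card (Matrix.ProjectiveSpecialLinearGroup (Fin 2) (ZMod p)) with hP
  rw [h2] at h1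
  have hd0 : 0 < d := by
    by_contra h
    have : d = 0 := by omega
    subst this
    omega
  obtain ⟨m, rfl⟩ : ∃ m, p = m + 1 := ⟨p - 1, by omega⟩
  have h4 : m = 2 * d := by omega
  subst h4
  simp only [Nat.add_sub_cancel] at h1
  have h5 : (2 * d + 1) ^ 2 - 1 = 4 * d * (d + 1) := by
    have : (2 * d + 1) ^ 2 = 4 * d * (d + 1) + 1 := by ring
    omega
  have h6 : (2 * d + 1) ^ 2 - (2 * d + 1) = (2 * d + 1) * (2 * d) := by
    have : (2 * d + 1) ^ 2 = (2 * d + 1) * (2 * d) + (2 * d + 1) := by ring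
    omega
  rw [h5, h6] at h1
  have h7 : 2 * d * (P * 2) = 2 * d * ((2 * d + 1 + 1) * (2 * d + 1) * d * 2) := by
    rw [h1]
    ring
  have h8 := Nat.eq_of_mul_eq_mul_left (by positivity) h7
  omega

/-- The final step: a good group containing the Weyl element is the image of `PSL₂`. -/
theorem L_eq_range {L : Subgroup (Perm (Om p))} (hL : Good L) {d : ℕ} (hd : Odd d) (h2d : 2 * d = p - 1)
    (hcard : Nat.card L = (p + 1) * p * d) {ν : Perm (Om p)} (hν : ν ∈ L) (h0 : ν none = some 0)
    (h1 : ν (some 0) = none) (h2 : ∀ x : ZMod p, x ≠ 0 → ν (some x) = some (-x⁻¹)) :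
    L = (Psi (p := p)).range := by
  have hA := hL.card_A hcard
  have hle : L ≤ (Psi (p := p)).range := by
    have hM : L ⊓ (Psi (p := p)).range = L := by
      apply Good.eq_of_sub hL inf_le_left
      · exact ⟨hL.tr, ⟨_, Psi_T⟩⟩
      · intro a ha
        refine ⟨ha, ?_⟩
        have had := (hL.mem_iff hA hd.pos a).1 ha
        obtain ⟨hs, hy⟩ := pow_half_sq hd had
        refine ⟨QuotientGroup.mk (sD ((a ^ ((d + 1) / 2) : (ZMod p)ˣ) : ZMod p) (Units.ne_zero _)), ?_⟩
        rw [Psi_D]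
        congr 1
        apply Units.ext
        simp only [Units.val_mk0]
        rw [← Units.val_mul, ← pow_two, hs]
      · refine ⟨ν, ⟨hν, ⟨_, Psi_S h0 h1 h2⟩⟩, ?_⟩
        rw [h0]
        simp
    exact inf_eq_left.1 hM
  apply Subgroup.eq_of_le_of_card_ge hle
  rw [hcard, ← card_PSL2 h2d]
  exact (Nat.card_congr (MonoidHom.ofInjective (Psi_inj (p := p))).toEquiv).ge

/-- Changing the field. -/
theorem psl_congr {K K' : Type*} [Field K] [Field K'] (e : K ≃+* K') :
    Nonempty (Matrix.ProjectiveSpecialLinearGroup (Fin 2) K ≃* Matrix.ProjectiveSpecialLinearGroup (Fin 2) K') := by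
  let f : Matrix.SpecialLinearGroup (Fin 2) K ≃* Matrix.SpecialLinearGroup (Fin 2) K' :=
    MonoidHom.toMulEquiv (Matrix.SpecialLinearGroup.map (e : K →+* K'))
      (Matrix.SpecialLinearGroup.map (e.symm : K' →+* K))
      (by
        ext M i j
        simp)
      (by
        ext M i j
        simp)
  refine ⟨QuotientGroup.congr _ _ f ?_⟩
  ext x
  simp only [Subgroup.mem_map, Subgroup.mem_center_iff]
  constructor
  · rintro ⟨y, hy, rfl⟩ g
    obtain ⟨g', rfl⟩ := f.surjective g
    have := hy g'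
    change f g' * f y = f y * f g'
    rw [← map_mul, ← map_mul, this]
  · intro hx
    refine ⟨f.symm x, ?_, by simp⟩
    intro g
    apply f.injective
    rw [map_mul, map_mul, f.apply_symm_apply]
    exact hx (f g)

/-- The general theorem. -/
theorem main_psl {G : Type*} [Group G] [Finite G] [IsSimpleGroup G] {d : ℕ} (hd : Odd d) (h2d : 2 * d = p - 1)
    (hcard : Nat.card G = (p + 1) * p * d) (hpd : ¬ p ∣ d) (hn : Nat.card (Sylow p G) = p + 1)
    (hk : ∀ k, k < d → k * k % d = 1 % d → k = 1 ∨ k = d - 1)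
    (hcomm : ∀ (L : Subgroup (Perm (Om p))), Good L → Nat.card L = (p + 1) * p * d → IsSimpleGroup L →
      ∀ τ ∈ L, τ * τ = 1 → τ none = some 0 → τ (some 0) = none →
      (∀ a : (ZMod p)ˣ, a ^ d = 1 → τ * mulP a * τ = mulP a) → False) :
    Nonempty (G ≃* Matrix.ProjectiveSpecialLinearGroup (Fin 2) (ZMod p)) := by
  obtain ⟨f, hfi, htr, hmove, hstab⟩ := exists_embed hcard hpd hn
  have hL : Good f.range := ⟨htr, hmove, hstab⟩
  have e1 : G ≃* f.range := MonoidHom.ofInjective hfi
  have hcardL : Nat.card f.range = (p + 1) * p * d := by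
    rw [← Nat.card_congr e1.toEquiv, hcard]
  have hsimple : IsSimpleGroup f.range := e1.symm.isSimpleGroup
  have hA := hL.card_A hcardL
  obtain ⟨τ, hτ, hττ, h0, h1⟩ := exists_tau hL hA hd
  rcases dichotomy hL hA hd hτ hττ h0 h1 hk with hc | hi
  · exact (hcomm _ hL hcardL hsimple τ hτ hττ h0 h1 hc).elim
  · obtain ⟨ν, hν, hν0, hν1, hν2⟩ := nu_of_inv hL hA hd h2d hτ hττ h0 h1 hi
    have hR := L_eq_range hL hd h2d hcardL hν hν0 hν1 hν2
    have e2 : Matrix.ProjectiveSpecialLinearGroup (Fin 2) (ZMod p) ≃* (Psi (p := p)).range :=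
      MonoidHom.ofInjective Psi_inj
    exact ⟨e1.trans ((MulEquiv.subgroupCongr hR).trans e2.symm)⟩

end CfsgLib.H9.PSLId
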