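import Mathlib
import Cfsg.Agent.Lib.H9.PSLId4

/-! Simple groups of order 168, 3420, 6072. -/

set_option autoImplicit false
set_option linter.unusedVariables false
set_option linter.unusedSectionVars false
set_option linter.unusedSimpArgs false
set_option linter.style.haveILetI false

namespace CfsgLib.H9.PSLId

open Equiv

/-- Normaliser criterion for a closure. -/
theorem mem_normalizer_closure {X : Type*} [Group X] (S : Set X) (g : X) (h1 : ∀ x ∈ S, g * x * g⁻¹ ∈ S)
    (h2 : ∀ x ∈ S, g⁻¹ * x * g ∈ S) : g ∈ Subgroup.normalizer ((Subgroup.closure S : Subgroup X) : Set X) := by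
  have key : ∀ g : X, (∀ x ∈ S, g * x * g⁻¹ ∈ S) → ∀ h ∈ Subgroup.closure S, g * h * g⁻¹ ∈ Subgroup.closure S := by
    intro g hg h hh
    induction hh using Subgroup.closure_induction with
    | mem x hx => exact Subgroup.subset_closure (hg x hx)
    | one => simp [Subgroup.one_mem]
    | mul x y _ _ hx hy =>
      have : g * (x * y) * g⁻¹ = (g * x * g⁻¹) * (g * y * g⁻¹) := by group
      rw [this]
      exact Subgroup.mul_mem _ hx hy
    | inv x _ hx =>
      have : g * x⁻¹ * g⁻¹ = (g * x * g⁻¹)⁻¹ := by group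
      rw [this]
      exact Subgroup.inv_mem _ hx
  rw [Subgroup.mem_normalizer_iff]
  intro h
  constructor
  · exact key g h1 h
  · intro hh
    have := key g⁻¹ (by simpa using h2) _ hh
    have h3 : g⁻¹ * (g * h * g⁻¹) * g⁻¹⁻¹ = h := by group
    rwa [h3] at this

/-- Table for `τ`. -/
def T7 (u : ZMod 7) : Om 7 → Om 7
  | none => some 0
  | some x => if x = 0 then none else if x ^ 3 = 1 then some (u * x) else some (x * u ^ 5)

theorem T7_comm : ∀ (u i : ZMod 7) (y : Om 7), u ^ 3 = -1 → u ≠ -1 →
    T7 u (Option.map (· + i) (T7 u (Option.map (· + (-i)) y))) =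
      Option.map (· + i) (T7 u (Option.map (· + (-i)) (T7 u y))) := by
  decide

instance fact7 : Fact (Nat.Prime 7) := ⟨by norm_num⟩

/-- The commuting case for `p = 7`. -/
theorem comm_seven (L : Subgroup (Perm (Om 7))) (hL : Good L) (hcard : Nat.card L = (7 + 1) * 7 * 3)
    (hS : IsSimpleGroup L) (τ : Perm (Om 7)) (hτ : τ ∈ L) (hττ : τ * τ = 1) (h0 : τ none = some 0)
    (h1 : τ (some 0) = none) (hcomm : ∀ a : (ZMod 7)ˣ, a ^ 3 = 1 → τ * mulP a * τ = mulP a) : False := by
  have hA := hL.card_A hcard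
  have hd : Odd 3 := by decide
  have h2d : 2 * 3 = 7 - 1 := by norm_num
  obtain ⟨u, hud, hq, hn⟩ := comm_form hL hA hd h2d hτ hττ h0 h1 hcomm
  have hu0 : u ≠ 0 := by
    rintro rfl
    revert hud
    decide
  have hTτ : ∀ y, τ y = T7 u y := by
    intro y
    cases y with
    | none => exact h0
    | some x =>
      by_cases hx : x = 0
      · subst hx
        rw [h1]
        simp [T7]
      · simp only [T7, hx, if_false]
        rcases euler h2d hx with h | h
        · rw [if_pos h]
          exact hq x hx h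
        · have h3 : x ^ 3 ≠ 1 := by
            rw [h]
            decide
          rw [if_neg h3, hn x hx h]
          have h6 : u ^ 5 * u = 1 := by
            have : u ^ 5 * u = (u ^ 3) ^ 2 := by ring
            rw [this, hud]
            decide
          rw [inv_eq_of_mul_eq_one_left h6]
  have htbO : ∀ (b : ZMod 7) (y : Om 7), tb b y = Option.map (· + b) y := by
    intro b y
    cases y <;> rfl
  by_cases hum : u = -1
  · -- the dihedral case
    subst hum
    have hw : τ * tb 1 * τ * tb 1 ∈ L := L.mul_mem (L.mul_mem (L.mul_mem hτ (hL.tb_mem _)) hτ) (hL.tb_mem _)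
    have hval : ∀ y, (τ * tb 1 * τ * tb 1 : Perm (Om 7)) y =
        T7 (-1) (Option.map (· + 1) (T7 (-1) (Option.map (· + 1) y))) := by
      intro y
      simp only [Perm.mul_apply, hTτ, htbO]
    have hw1 := hL.fix3 hw (y₁ := some 1) (y₂ := some 2) (y₃ := some 3) (by decide) (by decide) (by decide)
      (by rw [hval]; decide) (by rw [hval]; decide) (by rw [hval]; decide)
    have h6 := hval none
    rw [hw1] at h6
    revert h6
    decide
  · -- the solvable case
    let s : ZMod 7 → Perm (Om 7) := fun i => tb i * τ * tb (-i)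
    let E : Subgroup (Perm (Om 7)) := Subgroup.closure (Set.range s)
    have hs0 : s 0 = τ := by simp [s, tb_zero]
    have hτE : τ ∈ E := Subgroup.subset_closure ⟨0, hs0⟩
    have hcs : ∀ i, τ * s i = s i * τ := by
      intro i
      ext1 y
      simp only [s, Perm.mul_apply]
      simp only [hTτ, htbO]
      exact T7_comm u i y hud hum
    have hEc : E ≤ Subgroup.centralizer ({τ} : Set (Perm (Om 7))) := by
      refine (Subgroup.closure_le _).2 ?_
      rintro _ ⟨i, rfl⟩
      exact Subgroup.mem_centralizer_singleton_iff.2 (hcs i).symm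
    have hτinv : τ⁻¹ = τ := inv_eq_of_mul_eq_one_left hττ
    have htbs : ∀ b i, tb b * s i * (tb b)⁻¹ = s (b + i) := by
      intro b i
      simp only [s, tb_inv]
      have : tb b * (tb i * τ * tb (-i)) * tb (-b) = (tb b * tb i) * τ * (tb (-i) * tb (-b)) := by group
      rw [this, tb_mul, tb_mul]
      congr 2
      ring
    have hN1 : tb 1 ∈ Subgroup.normalizer ((E : Subgroup (Perm (Om 7))) : Set (Perm (Om 7))) := by
      apply mem_normalizer_closure
      · rintro _ ⟨i, rfl⟩
        exact ⟨1 + i, (htbs 1 i).symm⟩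
      · rintro _ ⟨i, rfl⟩
        refine ⟨-1 + i, ?_⟩
        rw [← htbs (-1) i, tb_inv, neg_neg, tb_inv]
    have hmt : ∀ (a : (ZMod 7)ˣ) (b : ZMod 7), mulP a * tb b = tb ((a : ZMod 7) * b) * mulP a := by
      intro a b
      ext1 y
      cases y with
      | none => rfl
      | some x =>
        simp only [Perm.mul_apply, mulP_some, tb_some]
        congr 1
        ring
    have hmτ : ∀ (a : (ZMod 7)ˣ), a ^ 3 = 1 → mulP a * τ = τ * mulP a := by
      intro a ha
      calc mulP a * τ = (τ * mulP a * τ) * τ := by rw [hcomm a ha]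
        _ = τ * mulP a * (τ * τ) := by group
        _ = _ := by rw [hττ, mul_one]
    have hms : ∀ (a : (ZMod 7)ˣ), a ^ 3 = 1 → ∀ i, mulP a * s i * (mulP a)⁻¹ = s ((a : ZMod 7) * i) := by
      intro a ha i
      simp only [s]
      have h3 : mulP a * (tb i * τ * tb (-i)) * (mulP a)⁻¹ = (mulP a * tb i) * τ * tb (-i) * (mulP a)⁻¹ := by group
      rw [h3, hmt, mul_assoc (tb _), hmτ a ha, ← mul_assoc (tb _)]
      have h4 : tb ((a : ZMod 7) * i) * τ * mulP a * tb (-i) * (mulP a)⁻¹ =
          tb ((a : ZMod 7) * i) * τ * (mulP a * tb (-i)) * (mulP a)⁻¹ := by group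
      rw [h4, hmt]
      have h5 : tb ((a : ZMod 7) * i) * τ * (tb ((a : ZMod 7) * -i) * mulP a) * (mulP a)⁻¹ =
          tb ((a : ZMod 7) * i) * τ * tb ((a : ZMod 7) * -i) := by group
      rw [h5]
      congr 2
      ring
    have hN2 : ∀ (a : (ZMod 7)ˣ), a ^ 3 = 1 → mulP a ∈ Subgroup.normalizer ((E : Subgroup (Perm (Om 7))) : Set (Perm (Om 7))) := by
      intro a ha
      apply mem_normalizer_closure
      · rintro _ ⟨i, rfl⟩
        exact ⟨_, (hms a ha i).symm⟩
      · rintro _ ⟨i, rfl⟩
        have ha' : a⁻¹ ^ 3 = 1 := by rw [inv_pow, ha, inv_one]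
        have h6 : (mulP a)⁻¹ = mulP a⁻¹ := (map_inv mulPH a).symm
        have h7 := hms a⁻¹ ha' i
        rw [← h6, inv_inv] at h7
        exact ⟨_, h7.symm⟩
    have hM : L ⊓ Subgroup.normalizer ((E : Subgroup (Perm (Om 7))) : Set (Perm (Om 7))) = L := by
      apply Good.eq_of_sub hL inf_le_left
      · exact ⟨hL.tr, hN1⟩
      · intro a ha
        exact ⟨ha, hN2 a ((hL.mem_iff hA (by norm_num) a).1 ha)⟩
      · refine ⟨τ, ⟨hτ, Subgroup.le_normalizer hτE⟩, ?_⟩
        rw [h0]
        simp
    have hLN : L ≤ Subgroup.normalizer ((E : Subgroup (Perm (Om 7))) : Set (Perm (Om 7))) := inf_eq_left.1 hM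
    have hEL : E ≤ L := by
      refine (Subgroup.closure_le _).2 ?_
      rintro _ ⟨i, rfl⟩
      exact L.mul_mem (L.mul_mem (hL.tb_mem _) hτ) (hL.tb_mem _)
    have hnorm : (E.subgroupOf L).Normal := (Subgroup.normal_subgroupOf_iff_le_normalizer hEL).2 hLN
    rcases hnorm.eq_bot_or_eq_top with h | h
    · rw [Subgroup.subgroupOf_eq_bot] at h
      have h3 : τ ∈ E ⊓ L := ⟨hτE, hτ⟩
      have h4 : τ = 1 := by
        have := (Subgroup.disjoint_def.1 h) hτE hτ
        exact this
      rw [h4] at h0
      simp at h0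
    · rw [Subgroup.subgroupOf_eq_top] at h
      have h3 : tb 1 ∈ E := h hL.tr
      have h4 := Subgroup.mem_centralizer_singleton_iff.1 (hEc h3)
      have h5 := congrArg (fun g : Perm (Om 7) => g none) h4
      simp only [Perm.mul_apply, tb_none, h0, tb_some] at h5
      revert h5
      decide

/-- From `ZMod p` to any field with `p` elements. -/
theorem to_field {G F : Type*} [Group G] [Field F] [Fintype F] {p : ℕ} (hp : p.Prime) (hF : Fintype.card F = p)
    (h : Nonempty (G ≃* Matrix.ProjectiveSpecialLinearGroup (Fin 2) (ZMod p))) :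
    Nonempty (G ≃* Matrix.ProjectiveSpecialLinearGroup (Fin 2) F) := by
  obtain ⟨e⟩ := h
  haveI : Fact p.Prime := ⟨hp⟩
  obtain ⟨e'⟩ := psl_congr (K := ZMod p) (K' := F) (ZMod.ringEquivOfPrime F hp hF)
  exact ⟨e.trans e'⟩

/-- A simple group of order 168. -/
theorem iso_168 {G : Type*} [Group G] [Finite G] [IsSimpleGroup G] (h : Nat.card G = 168) :
    Nonempty (G ≃* Matrix.ProjectiveSpecialLinearGroup (Fin 2) (ZMod 7)) := by
  have hn : Nat.card (Sylow 7 G) = 7 + 1 := by
    obtain ⟨h1, h2⟩ := CfsgLib.H9.card_sylow_dvd_cofactor (G := G) (p := 7) (k := 1) (m := 24) (by rw [h]; norm_num) (by norm_num)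
    have h3 := CfsgLib.H9.card_sylow_ne_one (G := G) (p := 7) (by rw [h]; norm_num) (by
      intro k hk
      have h4 : 2 ∣ 7 ^ k := by
        rw [← hk, h]
        norm_num
      have h5 := Nat.Prime.dvd_of_dvd_pow Nat.prime_two h4
      norm_num at h5)
    have h6 := Nat.le_of_dvd (by norm_num) h1
    generalize Nat.card (Sylow 7 G) = n at *
    interval_cases n <;> omega
  refine main_psl (d := 3) (by decide) (by norm_num) (by rw [h]) (by norm_num) hn (by decide) ?_
  intro L hL hc hS τ hτ hττ h0 h1 hcomm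
  exact comm_seven L hL hc hS τ hτ hττ h0 h1 hcomm

instance fact23 : Fact (Nat.Prime 23) := ⟨by norm_num⟩
instance fact19 : Fact (Nat.Prime 19) := ⟨by norm_num⟩

/-- A simple group of order 6072. -/
theorem iso_6072 {G : Type*} [Group G] [Finite G] [IsSimpleGroup G] (h : Nat.card G = 6072) :
    Nonempty (G ≃* Matrix.ProjectiveSpecialLinearGroup (Fin 2) (ZMod 23)) := by
  have hn : Nat.card (Sylow 23 G) = 23 + 1 := by
    obtain ⟨h1, h2⟩ := CfsgLib.H9.card_sylow_dvd_cofactor (G := G) (p := 23) (k := 1) (m := 264) (by rw [h]; norm_num) (by norm_num)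
    have h3 := CfsgLib.H9.card_sylow_ne_one (G := G) (p := 23) (by rw [h]; norm_num) (by
      intro k hk
      have h4 : 2 ∣ 23 ^ k := by
        rw [← hk, h]
        norm_num
      have h5 := Nat.Prime.dvd_of_dvd_pow Nat.prime_two h4
      norm_num at h5)
    have h6 := Nat.le_of_dvd (by norm_num) h1
    generalize Nat.card (Sylow 23 G) = n at *
    interval_cases n <;> omega
  refine main_psl (d := 11) (by decide) (by norm_num) (by rw [h]) (by norm_num) hn (by decide) ?_
  intro L hL hc hS τ hτ hττ h0 h1 hcomm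
  exact comm_false hL (hL.card_A hc) (by decide) (by norm_num) hτ hττ h0 h1 (x₁ := 1) (x₂ := 2) (x₃ := 3)
    (by decide) (by decide) (by decide) (by decide) hcomm

/-- A simple group of order 3420. -/
theorem iso_3420 {G : Type*} [Group G] [Finite G] [IsSimpleGroup G] (h : Nat.card G = 3420) :
    Nonempty (G ≃* Matrix.ProjectiveSpecialLinearGroup (Fin 2) (ZMod 19)) := by
  have hn : Nat.card (Sylow 19 G) = 19 + 1 := by
    obtain ⟨h1, h2⟩ := CfsgLib.H9.card_sylow_dvd_cofactor (G := G) (p := 19) (k := 1) (m := 180) (by rw [h]; norm_num) (by norm_num)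
    have h3 := CfsgLib.H9.card_sylow_ne_one (G := G) (p := 19) (by rw [h]; norm_num) (by
      intro k hk
      have h4 : 2 ∣ 19 ^ k := by
        rw [← hk, h]
        norm_num
      have h5 := Nat.Prime.dvd_of_dvd_pow Nat.prime_two h4
      norm_num at h5)
    have h6 := Nat.le_of_dvd (by norm_num) h1
    generalize Nat.card (Sylow 19 G) = n at *
    interval_cases n <;> omega
  refine main_psl (d := 9) (by decide) (by norm_num) (by rw [h]) (by norm_num) hn (by decide) ?_
  intro L hL hc hS τ hτ hττ h0 h1 hcomm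
  exact comm_false hL (hL.card_A hc) (by decide) (by norm_num) hτ hττ h0 h1 (x₁ := 4) (x₂ := 5) (x₃ := 6)
    (by decide) (by decide) (by decide) (by decide) hcomm

end CfsgLib.H9.PSLId
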