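import Mathlib
import Cfsg.Agent.Lib.H9.PSLId5

/-! Simple groups of order 2448. -/

set_option autoImplicit false
set_option linter.unusedVariables false
set_option linter.unusedSectionVars false
set_option linter.unusedSimpArgs false
set_option linter.style.haveILetI false

namespace CfsgLib.H9.PSLId

open Equiv

section Words

variable {p : ℕ} [hp : Fact p.Prime]

/-- Words in a permutation and translations. -/
def wordP (g : Perm (Om p)) : List (ZMod p) → Perm (Om p)
  | [] => 1
  | c :: l => g * tb c * wordP g l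

/-- Evaluation of words. -/
def evalW (f : Om p → Om p) : List (ZMod p) → Om p → Om p
  | [], y => y
  | c :: l, y => f (Option.map (· + c) (evalW f l y))

theorem wordP_apply {g : Perm (Om p)} {f : Om p → Om p} (h : ∀ y, g y = f y) (bs : List (ZMod p)) (y : Om p) :
    wordP g bs y = evalW f bs y := by
  have htbO : ∀ (b : ZMod p) (y : Om p), tb b y = Option.map (· + b) y := by
    intro b y
    cases y <;> rfl
  induction bs with
  | nil => rfl
  | cons c l ih =>
    simp only [wordP, evalW, Perm.mul_apply, h, htbO, ih]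

theorem wordP_mem {L : Subgroup (Perm (Om p))} (hL : Good L) {g : Perm (Om p)} (hg : g ∈ L) (bs : List (ZMod p)) :
    wordP g bs ∈ L := by
  induction bs with
  | nil => exact L.one_mem
  | cons c l ih => exact L.mul_mem (L.mul_mem hg (hL.tb_mem c)) ih

theorem exists_swap {L : Subgroup (Perm (Om p))} (hL : Good L) : ∃ g ∈ L, g none = some 0 ∧ g (some 0) = none := by
  obtain ⟨g₀, hg₀, h0⟩ := hL.move
  have h1 : g₀⁻¹ none ≠ none := by
    intro h
    rw [Perm.inv_eq_iff_eq, h0] at h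
    simp at h
  obtain ⟨z, hz⟩ := Option.ne_none_iff_exists'.1 h1
  have hz' : g₀ (some z) = none := by
    rw [← hz]
    simp
  refine ⟨g₀ * tb z, L.mul_mem hg₀ (hL.tb_mem z), ?_, ?_⟩
  · simp [Perm.mul_apply, h0]
  · simp [Perm.mul_apply, hz']

/-- Variant of `L_eq_range`. -/
theorem L_eq_range' {L : Subgroup (Perm (Om p))} (hL : Good L) {d : ℕ} (hd0 : 0 < d) (h2d : 2 * d = p - 1)
    (hcard : Nat.card L = (p + 1) * p * d) (hsq : ∀ a : (ZMod p)ˣ, a ^ d = 1 → ∃ c : (ZMod p)ˣ, c * c = a)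
    {ν : Perm (Om p)} (hν : ν ∈ L) (h0 : ν none = some 0)
    (h1 : ν (some 0) = none) (h2 : ∀ x : ZMod p, x ≠ 0 → ν (some x) = some (-x⁻¹)) :
    L = (Psi (p := p)).range := by
  have hA := hL.card_A hcard
  have hle : L ≤ (Psi (p := p)).range := by
    have hM : L ⊓ (Psi (p := p)).range = L := by
      apply Good.eq_of_sub hL inf_le_left
      · exact ⟨hL.tr, ⟨_, Psi_T⟩⟩
      · intro a ha
        refine ⟨ha, ?_⟩
        have had := (hL.mem_iff hA hd0 a).1 ha
        obtain ⟨c, hc⟩ := hsq a had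
        refine ⟨QuotientGroup.mk (sD (c : ZMod p) (Units.ne_zero _)), ?_⟩
        rw [Psi_D]
        congr 1
        apply Units.ext
        simp only [Units.val_mk0]
        rw [← Units.val_mul, hc]
      · refine ⟨ν, ⟨hν, ⟨_, Psi_S h0 h1 h2⟩⟩, ?_⟩
        rw [h0]
        simp
    exact inf_eq_left.1 hM
  apply Subgroup.eq_of_le_of_card_ge hle
  rw [hcard, ← card_PSL2 h2d]
  exact (Nat.card_congr (MonoidHom.ofInjective (Psi_inj (p := p))).toEquiv).ge

end Words

instance fact17 : Fact (Nat.Prime 17) := ⟨by norm_num⟩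

/-- Discrete logarithm to the base 2 on the two cosets. -/
def idx17 (x : ZMod 17) : ℕ :=
  match x.val with
  | 1 => 0 | 2 => 1 | 4 => 2 | 8 => 3 | 16 => 4 | 15 => 5 | 13 => 6 | 9 => 7
  | 3 => 0 | 6 => 1 | 12 => 2 | 7 => 3 | 14 => 4 | 11 => 5 | 5 => 6 | 10 => 7
  | _ => 0

/-- Which coset of the squares. -/
def typ17 (x : ZMod 17) : Bool := x ^ 8 != 1

/-- The candidate values. -/
def cand17 (b u v : ZMod 17) (x : ZMod 17) : ZMod 17 := b ^ (idx17 x) * (if typ17 x then v else u)

/-- The full candidate function. -/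
def full17 (b u v : ZMod 17) : Om 17 → Om 17
  | none => some 0
  | some x => if x = 0 then none else some (cand17 b u v x)

/-- Witnesses. -/
inductive Wit where
  | F (bs : List (ZMod 17)) (y1 y2 y3 nf : Om 17)
  | N (bs : List (ZMod 17))

/-- Witness check. -/
def checkWit (f : Om 17 → Om 17) : Wit → Bool
  | Wit.F bs y1 y2 y3 nf =>
      y1 != y2 && y1 != y3 && y2 != y3 && evalW f bs y1 == y1 && evalW f bs y2 == y2 && evalW f bs y3 == y3 &&
        evalW f bs nf != nf
  | Wit.N bs =>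
      evalW f bs none == none && evalW f bs (some 0) == some 0 &&
        match evalW f bs (some 1) with
        | none => false
        | some a => a ^ 8 != 1

/-- The table of witnesses. -/
def wits17 : List ((ZMod 17 × ZMod 17 × ZMod 17) × Wit) :=
  [((2, 1, 3), Wit.F [0] (some 1) (some 2) (some 3) (some 0)),
    ((2, 1, 14), Wit.F [0] (some 1) (some 2) (some 4) (some 0)),
    ((2, 3, 1), Wit.F [1, 11] (some 2) (some 4) (some 8) (some 0)),
    ((2, 3, 2), Wit.F [3, 14] (some 4) (some 8) (some 14) (some 0)),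
    ((2, 3, 4), Wit.F [1, 16] (some 5) (some 6) (some 16) (some 0)),
    ((2, 3, 8), Wit.F [1, 1, 1] (some 7) (some 11) (some 14) (some 0)),
    ((2, 3, 9), Wit.F [1, 9, 14] (some 0) (some 3) (some 11) (some 1)),
    ((2, 3, 13), Wit.F [1, 1] (some 7) (some 8) (some 10) (some 0)),
    ((2, 3, 15), Wit.F [1, 1] (some 1) (some 6) (some 7) (some 0)),
    ((2, 3, 16), Wit.F [1, 1, 14] (some 1) (some 3) (some 10) (some 0)),
    ((8, 1, 3), Wit.F [0] (some 1) (some 3) (some 14) (some 0)),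
    ((8, 1, 5), Wit.F [0] (some 1) (some 6) (some 11) (some 0)),
    ((8, 1, 12), Wit.F [0] (some 1) (some 7) (some 10) (some 0)),
    ((8, 1, 14), Wit.F [0] (some 1) (some 5) (some 12) (some 0)),
    ((8, 3, 1), Wit.F [2] (some 1) (some 6) (some 9) (some 0)),
    ((8, 3, 16), Wit.F [3, 3] (some 8) (some 10) (some 12) (some 0)),
    ((9, 1, 3), Wit.F [0] (some 1) (some 3) (some 14) (some 0)),
    ((9, 1, 5), Wit.F [0] (some 1) (some 7) (some 10) (some 0)),
    ((9, 1, 7), Wit.F [1, 2] (some 4) (some 7) (some 8) (some 0)),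
    ((9, 1, 10), Wit.F [7] (some 2) (some 3) (some 7) (some 0)),
    ((9, 1, 11), Wit.F [8] (some 3) (some 6) (some 13) (some 0)),
    ((9, 1, 12), Wit.F [0] (some 1) (some 6) (some 11) (some 0)),
    ((9, 1, 14), Wit.F [0] (some 1) (some 5) (some 12) (some 0)),
    ((9, 3, 1), Wit.N [1, 14, 1]),
    ((9, 3, 16), Wit.F [1, 4] (some 1) (some 4) (some 10) (some 0)),
    ((15, 1, 3), Wit.F [0] (some 1) (some 3) (some 4) (some 0)),
    ((15, 1, 14), Wit.F [0] (some 1) (some 4) (some 6) (some 0)),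
    ((15, 3, 1), Wit.F [2] (some 1) (some 7) (some 8) (some 0)),
    ((15, 3, 4), Wit.F [3, 3] (some 5) (some 8) (some 10) (some 0)),
    ((15, 3, 13), Wit.F [2] (some 7) (some 9) (some 14) (some 0)),
    ((15, 3, 16), Wit.F [1, 1, 1] (some 1) (some 4) (some 9) (some 0))]

set_option maxRecDepth 100000 in
theorem table17 : ∀ b u v : ZMod 17, (u = 1 ∨ u = 3) → (∀ x, x ≠ 0 → cand17 b u v x ≠ 0) →
    (∀ x, x ≠ 0 → cand17 b u v (cand17 b u v x) = cand17 b u v (cand17 b u v 1) * x) →
    (b = 9 ∧ u = 1 ∧ v = 6) ∨ ∃ w ∈ wits17, w.1 = (b, u, v) ∧ checkWit (full17 b u v) w.2 = true := by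
  decide

theorem factor17 : ∀ x : ZMod 17, x ≠ 0 → x = 2 ^ (idx17 x) * (if typ17 x then 3 else 1) := by
  decide

theorem inv17 : ∀ x : ZMod 17, x ≠ 0 → x * cand17 9 1 6 x = 1 := by
  decide

theorem sq17 : ∀ x : ZMod 17, x ≠ 0 → x ^ 8 = 1 → ∃ c : ZMod 17, c ≠ 0 ∧ c * c = x := by
  decide

/-- A simple group of order 2448. -/
theorem iso_2448 {G : Type*} [Group G] [Finite G] [IsSimpleGroup G] (h : Nat.card G = 2448) :
    Nonempty (G ≃* Matrix.ProjectiveSpecialLinearGroup (Fin 2) (ZMod 17)) := by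
  have hn : Nat.card (Sylow 17 G) = 17 + 1 := by
    obtain ⟨h1, h2⟩ := CfsgLib.H9.card_sylow_dvd_cofactor (G := G) (p := 17) (k := 1) (m := 144) (by rw [h]; norm_num) (by norm_num)
    have h3 := CfsgLib.H9.card_sylow_ne_one (G := G) (p := 17) (by rw [h]; norm_num) (by
      intro k hk
      have h4 : 2 ∣ 17 ^ k := by
        rw [← hk, h]
        norm_num
      have h5 := Nat.Prime.dvd_of_dvd_pow Nat.prime_two h4
      norm_num at h5)
    have h6 := Nat.le_of_dvd (by norm_num) h1
    generalize Nat.card (Sylow 17 G) = n at *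
    interval_cases n <;> omega
  have hcard : Nat.card G = (17 + 1) * 17 * 8 := by rw [h]
  obtain ⟨f, hfi, htr, hmove, hstab⟩ := exists_embed hcard (by norm_num) hn
  have hL : Good f.range := ⟨htr, hmove, hstab⟩
  have e1 : G ≃* f.range := MonoidHom.ofInjective hfi
  have hcardL : Nat.card f.range = (17 + 1) * 17 * 8 := by
    rw [← Nat.card_congr e1.toEquiv, hcard]
  generalize f.range = L at hL hcardL e1
  have hA := hL.card_A hcardL
  have h2d : 2 * 8 = 17 - 1 := by norm_num
  have hmem : ∀ c : ZMod 17, ∀ hc : c ≠ 0, c ^ 8 = 1 → mulP (Units.mk0 c hc) ∈ L := by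
    intro c hc h8
    exact (hL.mem_iff hA (by norm_num) _).2 ((unit_pow_iff hc).2 h8)
  obtain ⟨g₁, hg₁, h0, h1⟩ := exists_swap hL
  have hne : g₁ (some 1) ≠ none := ne_none_of h1 (by simp)
  obtain ⟨u₀, hu₀⟩ := Option.ne_none_iff_exists'.1 hne
  have hu₀0 : u₀ ≠ 0 := by
    rintro rfl
    have := g₁.injective (hu₀.trans h0.symm)
    simp at this
  obtain ⟨c, hc0, hc8, hcu⟩ : ∃ c : ZMod 17, c ≠ 0 ∧ c ^ 8 = 1 ∧ (c * u₀ = 1 ∨ c * u₀ = 3) := by
    rcases euler h2d hu₀0 with h3 | h3
    · exact ⟨u₀⁻¹, inv_ne_zero hu₀0, by rw [inv_pow, h3, inv_one], Or.inl (inv_mul_cancel₀ hu₀0)⟩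
    · refine ⟨3 * u₀⁻¹, mul_ne_zero (by decide) (inv_ne_zero hu₀0), ?_, Or.inr ?_⟩
      · rw [mul_pow, inv_pow, h3, inv_neg_one]
        decide
      · rw [mul_assoc, inv_mul_cancel₀ hu₀0, mul_one]
  let g₂ : Perm (Om 17) := mulP (Units.mk0 c hc0) * g₁
  have hg₂ : g₂ ∈ L := L.mul_mem (hmem c hc0 hc8) hg₁
  have h20 : g₂ none = some 0 := by
    simp [g₂, Perm.mul_apply, h0]
  have h21 : g₂ (some 0) = none := by
    simp [g₂, Perm.mul_apply, h1]
  have hne2 : ∀ x : ZMod 17, x ≠ 0 → g₂ (some x) ≠ none := by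
    intro x hx
    exact ne_none_of h21 (by simpa using hx)
  let t : ZMod 17 → ZMod 17 := fun x => (g₂ (some x)).getD 0
  have ht : ∀ x, x ≠ 0 → g₂ (some x) = some (t x) := by
    intro x hx
    obtain ⟨y, hy⟩ := Option.ne_none_iff_exists'.1 (hne2 x hx)
    simp [t, hy]
  have ht0 : ∀ x, x ≠ 0 → t x ≠ 0 := by
    intro x hx hh
    have h2 := ht x hx
    rw [hh] at h2
    have h3 := g₂.injective (h2.trans h20.symm)
    simp at h3
  have htu : t 1 = c * u₀ := by
    have h3 := ht 1 one_ne_zero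
    have h4 : g₂ (some 1) = some (c * u₀) := by
      simp [g₂, Perm.mul_apply, hu₀]
    rw [h4] at h3
    exact (Option.some.inj h3).symm
  -- the action on the two point stabiliser
  have h2ne : (2 : ZMod 17) ≠ 0 := by decide
  have hinv0 : g₂⁻¹ none = some 0 := by
    rw [Perm.inv_eq_iff_eq, h21]
  have hinv1 : g₂⁻¹ (some 0) = none := by
    rw [Perm.inv_eq_iff_eq, h20]
  obtain ⟨b, hb⟩ := hL.stab (g₂ * mulP (Units.mk0 2 h2ne) * g₂⁻¹)
    (L.mul_mem (L.mul_mem hg₂ (hmem 2 h2ne (by decide))) (L.inv_mem hg₂))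
    (by simp [Perm.mul_apply, hinv0, h21])
    (by simp [Perm.mul_apply, hinv1, h20])
  have hb' : g₂ * mulP (Units.mk0 2 h2ne) = mulP b * g₂ := by
    rw [← hb]
    group
  have ht2 : ∀ x, x ≠ 0 → t (2 * x) = (b : ZMod 17) * t x := by
    intro x hx
    have h3 := congrArg (fun g : Perm (Om 17) => g (some x)) hb'
    simp only [Perm.mul_apply, mulP_some, Units.val_mk0] at h3
    rw [ht _ (mul_ne_zero h2ne hx), ht x hx, mulP_some] at h3
    exact Option.some.inj h3
  have htpow : ∀ (i : ℕ) (y : ZMod 17), y ≠ 0 → t (2 ^ i * y) = (b : ZMod 17) ^ i * t y := by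
    intro i y hy
    induction i with
    | zero => simp
    | succ i ih =>
      have h3 : (2 : ZMod 17) ^ (i + 1) * y = 2 * (2 ^ i * y) := by ring
      rw [h3, ht2 _ (mul_ne_zero (pow_ne_zero _ h2ne) hy), ih]
      ring
  set u := t 1 with hudef
  set v := t 3 with hvdef
  have hcand : ∀ x, x ≠ 0 → t x = cand17 (b : ZMod 17) u v x := by
    intro x hx
    have h3 := factor17 x hx
    unfold cand17
    by_cases hty : typ17 x
    · rw [hty] at h3 ⊢
      simp only [if_true] at h3 ⊢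
      nth_rw 1 [h3]
      exact htpow _ _ (by decide)
    · simp only [hty] at h3 ⊢
      simp only [Bool.false_eq_true, if_false] at h3 ⊢
      nth_rw 1 [h3]
      exact htpow _ _ (by decide)
  have hfull : ∀ y, g₂ y = full17 (b : ZMod 17) u v y := by
    intro y
    cases y with
    | none => exact h20
    | some x =>
      by_cases hx : x = 0
      · subst hx
        rw [h21]
        rfl
      · simp only [full17, hx, if_false]
        rw [ht x hx, hcand x hx]
  -- the square
  obtain ⟨w, hw⟩ := hL.stab (g₂ * g₂) (L.mul_mem hg₂ hg₂) (by rw [Perm.mul_apply, h20, h21])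
    (by rw [Perm.mul_apply, h21, h20])
  have htt : ∀ x, x ≠ 0 → t (t x) = (w : ZMod 17) * x := by
    intro x hx
    have h3 := congrArg (fun g : Perm (Om 17) => g (some x)) hw
    simp only [Perm.mul_apply, mulP_some] at h3
    rw [ht x hx, ht _ (ht0 x hx)] at h3
    exact Option.some.inj h3
  have hcond1 : ∀ x, x ≠ 0 → cand17 (b : ZMod 17) u v x ≠ 0 := by
    intro x hx
    rw [← hcand x hx]
    exact ht0 x hx
  have hcond2 : ∀ x, x ≠ 0 → cand17 (b : ZMod 17) u v (cand17 (b : ZMod 17) u v x) =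
      cand17 (b : ZMod 17) u v (cand17 (b : ZMod 17) u v 1) * x := by
    intro x hx
    have hone : (1 : ZMod 17) ≠ 0 := by decide
    rw [← hcand x hx, ← hcand _ (ht0 x hx), ← hcand 1 hone, ← hcand _ (ht0 1 hone), htt x hx, htt 1 hone, mul_one]
  have hu13 : u = 1 ∨ u = 3 := by
    rw [htu]
    exact hcu
  have hword : ∀ bs y, wordP g₂ bs y = evalW (full17 (b : ZMod 17) u v) bs y := fun bs y => wordP_apply hfull bs y
  rcases table17 (b : ZMod 17) u v hu13 hcond1 hcond2 with ⟨hb9, hu1, hv6⟩ | ⟨⟨key, wit⟩, -, -, hchk⟩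
  · -- the target
    have hinv : ∀ x, x ≠ 0 → t x = x⁻¹ := by
      intro x hx
      rw [hcand x hx, hb9, hu1, hv6]
      exact (inv_eq_of_mul_eq_one_right (inv17 x hx)).symm
    have hm1 : (-1 : ZMod 17) ≠ 0 := by decide
    have hν : mulP (Units.mk0 (-1) hm1) * g₂ ∈ L := L.mul_mem (hmem _ hm1 (by decide)) hg₂
    have hR := L_eq_range' hL (d := 8) (by norm_num) h2d hcardL (by
      intro a ha
      have h8 : (a : ZMod 17) ^ 8 = 1 := by
        have := congrArg Units.val ha
        simpa using this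
      obtain ⟨c', hc', hcc⟩ := sq17 a a.ne_zero h8
      exact ⟨Units.mk0 c' hc', Units.ext (by simpa using hcc)⟩) hν
      (by simp [Perm.mul_apply, h20]) (by simp [Perm.mul_apply, h21]) (by
        intro x hx
        rw [Perm.mul_apply, ht x hx, hinv x hx, mulP_some, Units.val_mk0]
        simp)
    have e2 : Matrix.ProjectiveSpecialLinearGroup (Fin 2) (ZMod 17) ≃* (Psi (p := 17)).range :=
      MonoidHom.ofInjective Psi_inj
    exact ⟨e1.trans ((MulEquiv.subgroupCongr hR).trans e2.symm)⟩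
  · exfalso
    cases wit with
    | F bs y1 y2 y3 nf =>
      simp only [checkWit, Bool.and_eq_true, bne_iff_ne, beq_iff_eq] at hchk
      obtain ⟨⟨⟨⟨⟨⟨h12, h13⟩, h23⟩, f1⟩, f2⟩, f3⟩, hnf⟩ := hchk
      have h1W := hL.fix3 (wordP_mem hL hg₂ bs) h12 h13 h23 (by rw [hword, f1]) (by rw [hword, f2]) (by rw [hword, f3])
      apply hnf
      rw [← hword, h1W]
      rfl
    | N bs =>
      simp only [checkWit, Bool.and_eq_true, beq_iff_eq] at hchk
      obtain ⟨⟨f1, f2⟩, hm⟩ := hchk
      obtain ⟨a, ha⟩ := hL.stab _ (wordP_mem hL hg₂ bs) (by rw [hword, f1]) (by rw [hword, f2])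
      have had : a ^ 8 = 1 := (hL.mem_iff hA (by norm_num) a).1 (ha ▸ wordP_mem hL hg₂ bs)
      have h3 := hword bs (some 1)
      rw [ha, mulP_some, mul_one] at h3
      rw [← h3] at hm
      simp only [bne_iff_ne] at hm
      apply hm
      have := congrArg Units.val had
      simpa using this

end CfsgLib.H9.PSLId
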