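import Mathlib
import Cfsg.Prelude.Def_LinearParabolics

/-!
Order of a block-triangular subgroup of `GL`, and the index of the standard parabolic subgroup.
-/
set_option autoImplicit false
open scoped MatrixGroups

namespace CfsgLib.H9.Parab

open Finset

/-- `T r = 0 + 1 + ⋯ + (r-1)`. -/
def T (r : ℕ) : ℕ := ∑ i ∈ range r, i

/-- The `q`-factorial. -/
def qf (q r : ℕ) : ℕ := ∏ j ∈ range r, ∑ l ∈ range (j + 1), q ^ l

theorem two_T (r : ℕ) : 2 * T r + r = r ^ 2 := by
  induction r with
  | zero => simp [T]
  | succ r ih =>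
    have : T (r + 1) = T r + r := by simp [T, sum_range_succ]
    rw [this]; nlinarith

theorem geom_nat (q r : ℕ) (hq : 1 ≤ q) : (q - 1) * ∑ l ∈ range r, q ^ l = q ^ r - 1 := by
  obtain ⟨c, rfl⟩ : ∃ c, q = c + 1 := ⟨q - 1, by omega⟩
  have h1 : 1 ≤ (c + 1) ^ r := Nat.one_le_pow _ _ (by omega)
  have : ((c + 1 - 1 : ℕ) : ℤ) * ∑ l ∈ range r, ((c + 1 : ℕ) : ℤ) ^ l = ((c + 1 : ℕ) : ℤ) ^ r - 1 := by
    have := mul_geom_sum ((c + 1 : ℕ) : ℤ) r
    simpa using this
  zify [h1]
  simpa using this

theorem gl_prod (q : ℕ) (hq : 1 ≤ q) (r : ℕ) :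
    ∏ i : Fin r, (q ^ r - q ^ (i : ℕ)) = q ^ T r * (q - 1) ^ r * qf q r := by
  induction r with
  | zero => simp [T, qf]
  | succ r ih =>
    rw [Fin.prod_univ_succ]
    have h1 : ∀ i : Fin r, q ^ (r + 1) - q ^ ((i.succ : Fin (r + 1)) : ℕ) = q * (q ^ r - q ^ (i : ℕ)) := by
      intro i
      rw [Nat.mul_sub, Fin.val_succ, pow_succ' q r, pow_succ' q (i : ℕ)]
    simp_rw [h1]
    rw [prod_mul_distrib, ih, prod_const, card_univ, Fintype.card_fin]
    have h2 : T (r + 1) = T r + r := by simp [T, sum_range_succ]
    have h3 : qf q (r + 1) = qf q r * ∑ l ∈ range (r + 1), q ^ l := by simp [qf, prod_range_succ]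
    have h4 := geom_nat q (r + 1) hq
    rw [h2, h3]
    simp only [Fin.val_zero, pow_zero]
    rw [← h4]
    ring

variable {F : Type*} [Field F] [Fintype F]

/-- Number of invertible matrices indexed by a finite type with `r` elements. -/
theorem card_det_ne {B : Type*} [Fintype B] [DecidableEq B] {r : ℕ} (hB : Fintype.card B = r) :
    Nat.card {A : Matrix B B F // A.det ≠ 0} =
      (Fintype.card F) ^ T r * (Fintype.card F - 1) ^ r * qf (Fintype.card F) r := by
  classical
  have hq : 1 ≤ Fintype.card F := Fintype.card_pos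
  rw [← gl_prod _ hq r]
  have e : B ≃ Fin r := Fintype.equivFinOfCardEq hB
  have e1 : {A : Matrix B B F // A.det ≠ 0} ≃ {A : Matrix (Fin r) (Fin r) F // A.det ≠ 0} :=
    Equiv.subtypeEquiv (Matrix.reindex e e) (by
      intro A
      simp [Matrix.det_reindex_self])
  have e2 : {A : Matrix (Fin r) (Fin r) F // A.det ≠ 0} ≃ GL (Fin r) F :=
    { toFun := fun A => Matrix.GeneralLinearGroup.mkOfDetNeZero A.1 A.2
      invFun := fun g => ⟨g.1, by
        have : IsUnit (g.1 : Matrix (Fin r) (Fin r) F).det :=
          (Matrix.isUnit_iff_isUnit_det _).1 g.isUnit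
        exact this.ne_zero⟩
      left_inv := fun A => rfl
      right_inv := fun g => by
        apply Units.ext
        rfl }
  rw [Nat.card_congr e1, Nat.card_congr e2, Matrix.card_GL_field]

variable {m ι : Type*} [Fintype m] [DecidableEq m] [Fintype ι] [LinearOrder ι]

/-- Counting invertible block triangular matrices. -/
theorem card_bt (b : m → ι) :
    Nat.card {M : Matrix m m F // M.BlockTriangular b ∧ M.det ≠ 0} =
      (∏ a : ι, Nat.card {A : Matrix {i // b i = a} {i // b i = a} F // A.det ≠ 0}) *
        (Fintype.card F) ^ Fintype.card {p : m × m // b p.1 < b p.2} := by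
  classical
  have hdet : ∀ M : Matrix m m F, M.BlockTriangular b →
      (M.det ≠ 0 ↔ ∀ a, (M.toSquareBlock b a).det ≠ 0) := by
    intro M hM
    rw [hM.det]
    constructor
    · intro h a
      by_cases ha : a ∈ univ.image b
      · intro h0
        exact h (prod_eq_zero ha h0)
      · have : IsEmpty {i // b i = a} := ⟨fun i => ha (by
          simp only [mem_image, mem_univ, true_and]
          exact ⟨i.1, i.2⟩)⟩
        rw [Matrix.det_isEmpty]
        exact one_ne_zero
    · intro h
      exact prod_ne_zero_iff.2 (fun a _ => h a)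
  let f : {M : Matrix m m F // M.BlockTriangular b ∧ M.det ≠ 0} →
      (∀ a : ι, {A : Matrix {i // b i = a} {i // b i = a} F // A.det ≠ 0}) ×
        ({p : m × m // b p.1 < b p.2} → F) :=
    fun M => (fun a => ⟨M.1.toSquareBlock b a, (hdet M.1 M.2.1).1 M.2.2 a⟩, fun p => M.1 p.1.1 p.1.2)
  have hf : Function.Bijective f := by
    constructor
    · intro M N h
      apply Subtype.ext
      ext i j
      rcases lt_trichotomy (b i) (b j) with hij | hij | hij
      · exact congrFun (congrArg Prod.snd h) ⟨(i, j), hij⟩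
      · have h1 := congrArg Subtype.val (congrFun (congrArg Prod.fst h) (b j))
        exact congrFun (congrFun h1 ⟨i, hij⟩) ⟨j, rfl⟩
      · rw [M.2.1 hij, N.2.1 hij]
    · rintro ⟨A, u⟩
      let M : Matrix m m F := fun i j =>
        if h : b j = b i then (A (b i)).1 ⟨i, rfl⟩ ⟨j, h⟩
        else if h' : b i < b j then u ⟨(i, j), h'⟩ else 0
      have hM : M.BlockTriangular b := by
        intro i j hij
        have h1 : ¬ b j = b i := ne_of_lt hij
        have h2 : ¬ b i < b j := not_lt.2 hij.le
        simp [M, h1, h2]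
      have hblock : ∀ a, M.toSquareBlock b a = (A a).1 := by
        intro a
        ext ⟨i, hi⟩ ⟨j, hj⟩
        subst hi
        have : b j = b i := hj
        change M i j = _
        simp [M, this]
      refine ⟨⟨M, hM, (hdet M hM).2 (fun a => by rw [hblock]; exact (A a).2)⟩, ?_⟩
      refine Prod.ext ?_ ?_
      · funext a
        exact Subtype.ext (hblock a)
      · funext p
        have h1 : ¬ b p.1.2 = b p.1.1 := ne_of_gt p.2
        simp [f, M, h1, p.2]
  rw [Nat.card_congr (Equiv.ofBijective f hf), Nat.card_prod, Nat.card_pi, Nat.card_fun,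
    Nat.card_eq_fintype_card (α := F), Nat.card_eq_fintype_card (α := {p : m × m // b p.1 < b p.2})]

/-- The order of the block triangular subgroup, as a count. -/
theorem card_bt_gl (b : m → ι) :
    Nat.card {g : GL m F // (g : Matrix m m F).BlockTriangular b} =
      Nat.card {M : Matrix m m F // M.BlockTriangular b ∧ M.det ≠ 0} := by
  classical
  refine Nat.card_congr ?_
  exact
    { toFun := fun g => ⟨g.1.1, g.2, by
        have : IsUnit (g.1.1 : Matrix m m F).det :=
          (Matrix.isUnit_iff_isUnit_det _).1 g.1.isUnit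
        exact this.ne_zero⟩
      invFun := fun M => ⟨Matrix.GeneralLinearGroup.mkOfDetNeZero M.1 M.2.2, M.2.1⟩
      left_inv := fun g => by
        apply Subtype.ext
        apply Units.ext
        rfl
      right_inv := fun M => rfl }

theorem sum_fibers (b : m → ι) :
    ∑ a : ι, Fintype.card {i // b i = a} = Fintype.card m := by
  rw [← Fintype.card_sigma]
  exact Fintype.card_congr (Equiv.sigmaFiberEquiv b)

theorem sum_fibers_sq (b : m → ι) :
    (∑ a : ι, Fintype.card {i // b i = a} ^ 2) + 2 * Fintype.card {p : m × m // b p.1 < b p.2} =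
      Fintype.card m ^ 2 := by
  classical
  have hD : Fintype.card {p : m × m // b p.1 = b p.2} = ∑ a : ι, Fintype.card {i // b i = a} ^ 2 := by
    have e : {p : m × m // b p.1 = b p.2} ≃ Σ a : ι, {i // b i = a} × {i // b i = a} :=
      { toFun := fun p => ⟨b p.1.1, (⟨p.1.1, rfl⟩, ⟨p.1.2, p.2.symm⟩)⟩
        invFun := fun x => ⟨(x.2.1.1, x.2.2.1), x.2.1.2.trans x.2.2.2.symm⟩
        left_inv := fun p => rfl
        right_inv := by
          rintro ⟨a, ⟨i, rfl⟩, ⟨j, h⟩⟩
          rfl }
    rw [Fintype.card_congr e, Fintype.card_sigma]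
    refine sum_congr rfl (fun a _ => ?_)
    rw [Fintype.card_prod, sq]
  have hU : Fintype.card {p : m × m // b p.2 < b p.1} = Fintype.card {p : m × m // b p.1 < b p.2} := by
    refine Fintype.card_congr ?_
    exact Equiv.subtypeEquiv (Equiv.prodComm m m) (fun p => Iff.rfl)
  have htot : Fintype.card (m × m) = Fintype.card {p : m × m // b p.1 < b p.2} +
      Fintype.card {p : m × m // b p.2 < b p.1} + Fintype.card {p : m × m // b p.1 = b p.2} := by
    simp only [Fintype.card_subtype]
    rw [← card_union_of_disjoint, ← card_union_of_disjoint]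
    · rw [← card_univ]
      congr 1
      ext p
      simp only [mem_univ, mem_union, mem_filter, true_and, true_iff]
      rcases lt_trichotomy (b p.1) (b p.2) with h | h | h
      · exact Or.inl (Or.inl h)
      · exact Or.inr h
      · exact Or.inl (Or.inr h)
    · rw [disjoint_left]
      intro p hp hp'
      simp only [mem_union, mem_filter, mem_univ, true_and] at hp hp'
      rcases hp with h | h
      · exact absurd hp' (ne_of_lt h)
      · exact absurd hp'.symm (ne_of_lt h)
    · rw [disjoint_left]
      intro p hp hp'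
      simp only [mem_filter, mem_univ, true_and] at hp hp'
      exact absurd hp' (not_lt.2 hp.le)
  rw [Fintype.card_prod, hU, hD] at htot
  nlinarith [htot]

/-- Order of the group of invertible block triangular matrices. -/
theorem card_bt_formula (b : m → ι) :
    Nat.card {g : GL m F // (g : Matrix m m F).BlockTriangular b} =
      (Fintype.card F) ^ T (Fintype.card m) * (Fintype.card F - 1) ^ Fintype.card m *
        ∏ a : ι, qf (Fintype.card F) (Fintype.card {i // b i = a}) := by
  classical
  rw [card_bt_gl, card_bt]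
  simp_rw [card_det_ne (F := F) (rfl : Fintype.card {i // b i = _} = _)]
  simp_rw [prod_mul_distrib]
  have h1 := sum_fibers b
  have h2 := sum_fibers_sq b
  have h3 : ∑ a : ι, T (Fintype.card {i // b i = a}) + Fintype.card {p : m × m // b p.1 < b p.2} =
      T (Fintype.card m) := by
    have hT := two_T (Fintype.card m)
    have hT' : ∑ a : ι, (2 * T (Fintype.card {i // b i = a}) + Fintype.card {i // b i = a}) =
        ∑ a : ι, Fintype.card {i // b i = a} ^ 2 :=
      sum_congr rfl (fun a _ => two_T _)
    rw [sum_add_distrib, ← mul_sum, h1] at hT'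
    omega
  rw [← h3, pow_add, prod_pow_eq_pow_sum, prod_pow_eq_pow_sum, h1]
  ring

section Labels

variable {n : ℕ} (μ : Fin n → ℕ)

/-- Exclusive partial sums. -/
def S (a : ℕ) : ℕ := ∑ k ∈ univ.filter (fun k : Fin n => k.val < a), μ k

theorem S_mono {a c : ℕ} (h : a ≤ c) : S μ a ≤ S μ c := by
  refine sum_le_sum_of_subset ?_
  intro k hk
  simp only [mem_filter, mem_univ, true_and] at hk ⊢
  omega

theorem S_zero : S μ 0 = 0 := by simp [S]

theorem S_top : S μ n = ∑ i, μ i := by
  unfold S
  congr 1
  ext k
  simp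

theorem S_succ (a : Fin n) : S μ (a.val + 1) = S μ a.val + μ a := by
  unfold S
  have : univ.filter (fun k : Fin n => k.val < a.val + 1) =
      insert a (univ.filter (fun k : Fin n => k.val < a.val)) := by
    ext k
    simp only [mem_filter, mem_univ, true_and, mem_insert, Fin.ext_iff]
    omega
  rw [this, sum_insert (by simp), add_comm]

theorem compLabel_eq (a i : Fin n) (h1 : S μ a.val ≤ i.val) (h2 : i.val < S μ (a.val + 1)) :
    Cfsg.compLabel μ i = a.val := by
  unfold Cfsg.compLabel
  have h : univ.filter (fun j : Fin n => (∑ k ∈ univ.filter (fun k : Fin n => k ≤ j), μ k) ≤ i.val) =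
      Iio a := by
    ext j
    have hj : ∑ k ∈ univ.filter (fun k : Fin n => k ≤ j), μ k = S μ (j.val + 1) := by
      unfold S
      congr 1
      ext k
      simp only [mem_filter, mem_univ, true_and, Fin.le_def]
      omega
    simp only [mem_filter, mem_univ, true_and, mem_Iio, hj, Fin.lt_def]
    constructor
    · intro h3
      by_contra h4
      have := S_mono μ (show a.val + 1 ≤ j.val + 1 by omega)
      omega
    · intro h3
      have := S_mono μ (show j.val + 1 ≤ a.val by omega)
      omega
  rw [h, Fin.card_Iio]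

theorem exists_label (hμ : ∑ i, μ i = n) (i : Fin n) :
    ∃ a : Fin n, S μ a.val ≤ i.val ∧ i.val < S μ (a.val + 1) := by
  classical
  have hn : 0 < n := i.pos
  have hex : ∃ c, i.val < S μ (c + 1) := ⟨n - 1, by
    rw [show n - 1 + 1 = n by omega, S_top, hμ]
    exact i.2⟩
  have hmin := Nat.find_min hex (m := Nat.find hex - 1)
  have hspec := Nat.find_spec hex
  have hle : Nat.find hex ≤ n - 1 := Nat.find_min' hex (by
    rw [show n - 1 + 1 = n by omega, S_top, hμ]
    exact i.2)
  refine ⟨⟨Nat.find hex, by omega⟩, ?_, hspec⟩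
  rcases Nat.eq_zero_or_pos (Nat.find hex) with h0 | h0
  · simp only [h0, S_zero]
    exact Nat.zero_le _
  · have := hmin (by omega)
    rw [show Nat.find hex - 1 + 1 = Nat.find hex by omega] at this
    exact not_lt.1 this

theorem compLabel_lt (hμ : ∑ i, μ i = n) (i : Fin n) : Cfsg.compLabel μ i < n := by
  obtain ⟨a, h1, h2⟩ := exists_label μ hμ i
  rw [compLabel_eq μ a i h1 h2]
  exact a.2

/-- The labels as elements of `Fin n`. -/
def lb (hμ : ∑ i, μ i = n) (i : Fin n) : Fin n := ⟨Cfsg.compLabel μ i, compLabel_lt μ hμ i⟩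

theorem card_fiber (hμ : ∑ i, μ i = n) (a : Fin n) :
    Fintype.card {i // lb μ hμ i = a} = μ a := by
  classical
  have h1 : ∀ i : Fin n, lb μ hμ i = a ↔ S μ a.val ≤ i.val ∧ i.val < S μ (a.val + 1) := by
    intro i
    constructor
    · intro h
      obtain ⟨a', h2, h3⟩ := exists_label μ hμ i
      have h4 := compLabel_eq μ a' i h2 h3
      have h5 : a' = a := by
        rw [← h]
        apply Fin.ext
        exact h4.symm
      rw [← h5]
      exact ⟨h2, h3⟩
    · rintro ⟨h2, h3⟩
      apply Fin.ext
      exact compLabel_eq μ a i h2 h3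
  have h2 : S μ (a.val + 1) ≤ n := by
    have := S_mono μ (show a.val + 1 ≤ n by have := a.2; omega)
    rwa [S_top, hμ] at this
  rw [Fintype.card_subtype]
  have h3 : (univ.filter (fun i : Fin n => lb μ hμ i = a)).map Fin.valEmbedding =
      Ico (S μ a.val) (S μ (a.val + 1)) := by
    ext x
    simp only [mem_map, mem_filter, mem_univ, true_and, Fin.valEmbedding_apply, mem_Ico, h1]
    constructor
    · rintro ⟨i, hi, rfl⟩
      exact hi
    · rintro hx
      exact ⟨⟨x, by omega⟩, hx, rfl⟩
  rw [← card_map Fin.valEmbedding, h3, Nat.card_Ico, S_succ]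
  omega

end Labels

/-- The index of the standard parabolic subgroup, with `{r}` written as `qf q r`. -/
theorem parabolic_index {n : ℕ} (μ : Fin n → ℕ) (hμ : ∑ i, μ i = n) :
    Nat.card (GL (Fin n) F ⧸ Cfsg.parabolicGL n F μ) * ∏ i : Fin n, qf (Fintype.card F) (μ i) =
      qf (Fintype.card F) n := by
  classical
  set q := Fintype.card F with hqdef
  have hq2 : 2 ≤ q := Fintype.one_lt_card
  have hP : Nat.card (Cfsg.parabolicGL n F μ) =
      Nat.card {g : GL (Fin n) F // (g : Matrix (Fin n) (Fin n) F).BlockTriangular (lb μ hμ)} := by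
    refine Nat.card_congr (Equiv.subtypeEquivRight ?_)
    intro g
    exact Iff.rfl
  have hG : Nat.card (GL (Fin n) F) = q ^ T n * (q - 1) ^ n * qf q n := by
    rw [Matrix.card_GL_field, ← hqdef, gl_prod q (by omega) n]
  have hI := Subgroup.card_eq_card_quotient_mul_card_subgroup (Cfsg.parabolicGL n F μ)
  rw [hG, hP, card_bt_formula, Fintype.card_fin, ← hqdef] at hI
  simp_rw [card_fiber μ hμ] at hI
  have hpos : 0 < q ^ T n * (q - 1) ^ n := by
    have : 0 < q - 1 := by omega
    positivity
  apply Nat.eq_of_mul_eq_mul_left hpos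
  rw [hI]
  ring

end CfsgLib.H9.Parab
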