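import Mathlib
import Cfsg.Agent.Lib.H9.PGraph
import Cfsg.Agent.Lib.H9.Parab
import Cfsg.Agent.Lib.H9.ScalarOrth
import Cfsg.Agent.Lib.H9.Singer
import Cfsg.Agent.Lib.ClassMax.Zsigmondy

/-!
Elements of order `q^(n/2) + 1` in `PSL_n(q)`, `q` odd, `n` even.
-/
set_option autoImplicit false
open scoped MatrixGroups Matrix

namespace CfsgLib.H9.PSLSinger

open Finset
open CfsgLib.H9.Parab (geom_nat)

/-- The geometric sum. -/
def SS (q m : ℕ) : ℕ := ∑ i ∈ range m, q ^ i

theorem SS_mul (q m : ℕ) (hq : 1 ≤ q) : (q - 1) * SS q m = q ^ m - 1 := geom_nat q m hq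

theorem SS_modEq (q m : ℕ) (hq : 1 ≤ q) : SS q m ≡ m [MOD q - 1] := by
  have h1 : q ≡ 1 [MOD q - 1] := ((Nat.modEq_iff_dvd' hq).mpr dvd_rfl).symm
  induction m with
  | zero => simp [SS]; rfl
  | succ m ih =>
    have h2 : q ^ m ≡ 1 [MOD q - 1] := by simpa using h1.pow m
    simp only [SS, sum_range_succ]
    exact ih.add h2

theorem SS_pos (q m : ℕ) (hq : 1 ≤ q) (hm : 1 ≤ m) : 0 < SS q m := by
  apply Finset.sum_pos
  · intro i _
    positivity
  · exact ⟨0, by simp; omega⟩

theorem arith1 {q m : ℕ} (hq : Odd q) (hq1 : 3 ≤ q) (hm : 1 ≤ m)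
    (h : 2 ^ padicValNat 2 (q - 1) ∣ SS q m) : padicValNat 2 (q - 1) < padicValNat 2 (2 * m) := by
  haveI : Fact (Nat.Prime 2) := ⟨Nat.prime_two⟩
  have hq2 : ¬ 2 ∣ q := by
    rw [← even_iff_two_dvd, Nat.not_even_iff_odd]
    exact hq
  have h2q : 2 ∣ q - 1 := by
    obtain ⟨a, rfl⟩ := hq
    omega
  have hq0 : q - 1 ≠ 0 := by omega
  have he1 : 1 ≤ padicValNat 2 (q - 1) := one_le_padicValNat_of_dvd hq0 h2q
  have hS0 : SS q m ≠ 0 := (SS_pos q m (by omega) hm).ne'
  have hval : padicValNat 2 (2 * m) = 1 + padicValNat 2 m := by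
    rw [padicValNat.mul (by norm_num) (by omega), padicValNat.self (by norm_num)]
  rw [hval]
  have hle : padicValNat 2 (q - 1) ≤ padicValNat 2 (SS q m) := (padicValNat_dvd_iff_le hS0).1 h
  by_cases hme : Even m
  · have hlte := padicValNat.pow_two_sub_one (x := q) (by omega) hq2 (n := m) (by omega) hme
    have hmul : padicValNat 2 (q ^ m - 1) = padicValNat 2 (q - 1) + padicValNat 2 (SS q m) := by
      rw [← SS_mul q m (by omega), padicValNat.mul hq0 hS0]
    have hm1 : 1 ≤ padicValNat 2 m := one_le_padicValNat_of_dvd (by omega) (even_iff_two_dvd.mp hme)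
    by_contra hcon
    have h4 : 2 ≤ padicValNat 2 (q + 1) := by omega
    have h5 : 2 ^ 2 ∣ q + 1 := (padicValNat_dvd_iff_le (by omega)).2 h4
    have h6 : padicValNat 2 (q - 1) = 1 := by
      by_contra h7
      have h8 : 2 ≤ padicValNat 2 (q - 1) := by omega
      have h9 : 2 ^ 2 ∣ q - 1 := (padicValNat_dvd_iff_le hq0).2 h8
      omega
    omega
  · exfalso
    have h1 := (SS_modEq q m (by omega)).of_dvd h2q
    have h2 : 2 ∣ SS q m := (dvd_pow_self 2 (by omega)).trans h
    have h3 : 2 ∣ m := (Nat.ModEq.dvd_iff h1 (dvd_refl 2)).1 h2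
    exact hme (even_iff_two_dvd.mpr h3)

theorem arith2 {q m : ℕ} (hq : Odd q) (hq1 : 3 ≤ q) (hm : 1 ≤ m)
    (h : padicValNat 2 (q - 1) < padicValNat 2 (2 * m)) : Nat.gcd (2 * m) (q - 1) ∣ SS q m := by
  haveI : Fact (Nat.Prime 2) := ⟨Nat.prime_two⟩
  have hq0 : q - 1 ≠ 0 := by omega
  have hval : padicValNat 2 (2 * m) = 1 + padicValNat 2 m := by
    rw [padicValNat.mul (by norm_num) (by omega), padicValNat.self (by norm_num)]
  set e := padicValNat 2 (q - 1) with he
  have h1 : 2 ^ e ∣ m := (padicValNat_dvd_iff_le (by omega)).2 (by omega)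
  obtain ⟨m', hm'⟩ := h1
  obtain ⟨u, hu⟩ : 2 ^ e ∣ q - 1 := pow_padicValNat_dvd
  have hu2 : ¬ 2 ∣ u := by
    rintro ⟨v, rfl⟩
    have h3 : 2 ^ (e + 1) ∣ q - 1 := ⟨v, by rw [hu]; ring⟩
    have := (padicValNat_dvd_iff_le hq0).1 h3
    omega
  have hcop : Nat.Coprime 2 u := (Nat.Prime.coprime_iff_not_dvd Nat.prime_two).2 hu2
  have hd : Nat.gcd (2 * m) (q - 1) ∣ m := by
    have e1 : 2 * m = 2 ^ e * (2 * m') := by rw [hm']; ring
    rw [e1, hu, Nat.gcd_mul_left, hcop.gcd_mul_left_cancel]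
    rw [hm']
    exact Nat.mul_dvd_mul_left _ (Nat.gcd_dvd_left _ _)
  have hd2 : Nat.gcd (2 * m) (q - 1) ∣ q - 1 := Nat.gcd_dvd_right _ _
  exact (Nat.ModEq.dvd_iff ((SS_modEq q m (by omega)).of_dvd hd2) (dvd_refl _)).2 hd

theorem factor_card (q m : ℕ) (hq : 2 ≤ q) (hm : 1 ≤ m) :
    (q - 1) * SS q m * (q ^ m + 1) = q ^ (2 * m) - 1 := by
  rw [SS_mul q m (by omega)]
  have h1 : 1 ≤ q ^ m := Nat.one_le_pow _ _ (by omega)
  have h2 : q ^ (2 * m) = q ^ m * q ^ m := by rw [two_mul, pow_add]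
  rw [h2]
  obtain ⟨c, hc⟩ : ∃ c, q ^ m = c + 1 := ⟨q ^ m - 1, by omega⟩
  rw [hc]
  simp only [Nat.add_sub_cancel]
  have : (c + 1) * (c + 1) - 1 = c * (c + 1 + 1) := by
    have : (c + 1) * (c + 1) = c * (c + 1 + 1) + 1 := by ring
    omega
  rw [this]

variable {F : Type*} [Field F] [Fintype F]

/-- Existence of the element. -/
theorem exists_elem (p : ℕ) [Fact p.Prime] [CharP F p] {m : ℕ} (hm : 1 ≤ m)
    (hd : Nat.gcd (2 * m) (Fintype.card F - 1) ∣ SS (Fintype.card F) m) :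
    ∃ g : Matrix.ProjectiveSpecialLinearGroup (Fin (2 * m)) F,
      orderOf g = Fintype.card F ^ m + 1 := by
  classical
  set q := Fintype.card F with hq
  have hq2 : 2 ≤ q := Fintype.one_lt_card
  set n := 2 * m with hn
  haveI : NeZero n := ⟨by omega⟩
  let K := FiniteField.Extension F p n
  haveI : Fintype K := Fintype.ofFinite K
  have hfr : Module.finrank F K = n := FiniteField.finrank_extension F p n
  have hcardK : Fintype.card K = q ^ n := by
    rw [Module.card_eq_pow_finrank (K := F), hfr]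
  let b := Module.finBasisOfFinrankEq F K hfr
  let L : K →ₐ[F] Matrix (Fin n) (Fin n) F := Algebra.leftMulMatrix b
  have hLinj : Function.Injective L := Algebra.leftMulMatrix_injective b
  obtain ⟨σ, hσ⟩ := IsCyclic.exists_generator (α := Kˣ)
  have hordσ : orderOf σ = q ^ n - 1 := by
    rw [orderOf_eq_card_of_forall_mem_zpowers hσ, Nat.card_units, Nat.card_eq_fintype_card, hcardK]
  let Φ : Kˣ →* GL (Fin n) F := Units.map (L : K →* Matrix (Fin n) (Fin n) F)
  let ι : Fˣ →* Kˣ := Units.map (algebraMap F K : F →* K)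
  have hΦι : ∀ c : Fˣ, ((Φ (ι c) : GL (Fin n) F) : Matrix (Fin n) (Fin n) F) = (c : F) • 1 := by
    intro c
    change L (algebraMap F K (c : F)) = _
    rw [AlgHom.commutes, Algebra.algebraMap_eq_smul_one]
  have hdetι : ∀ c : Fˣ, Matrix.GeneralLinearGroup.det (Φ (ι c)) = c ^ n := by
    intro c
    apply Units.ext
    change ((Φ (ι c) : GL (Fin n) F) : Matrix (Fin n) (Fin n) F).det = _
    rw [hΦι, Matrix.det_smul, Matrix.det_one, mul_one, Fintype.card_fin]
    simp
  let ε : Fˣ := Matrix.GeneralLinearGroup.det (Φ σ)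
  have hcardU : Nat.card Fˣ = q - 1 := by
    rw [Nat.card_units, Nat.card_eq_fintype_card]
  have hεq : ε ^ (q - 1) = 1 := by
    rw [← hcardU]
    exact pow_card_eq_one'
  have hcq : ∀ c : Fˣ, c ^ (q - 1) = 1 := by
    intro c
    rw [← hcardU]
    exact pow_card_eq_one'
  set S := SS q m with hS
  obtain ⟨S', hS'⟩ := hd
  -- Bezout
  have hbez : ((Nat.gcd n (q - 1) : ℕ) : ℤ) = n * Nat.gcdA n (q - 1) + (q - 1 : ℕ) * Nat.gcdB n (q - 1) :=
    Nat.gcd_eq_gcd_ab n (q - 1)
  let c : Fˣ := ε ^ (-(S' : ℤ) * Nat.gcdA n (q - 1))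
  have hc : ε ^ S * c ^ n = 1 := by
    have h1 : ε ^ S = ε ^ ((S : ℕ) : ℤ) := (zpow_natCast _ _).symm
    have h2 : c ^ n = ε ^ ((-(S' : ℤ) * Nat.gcdA n (q - 1)) * (n : ℤ)) := by
      rw [← zpow_natCast, ← zpow_mul]
    rw [h1, h2, ← zpow_add]
    have h3 : ((S : ℕ) : ℤ) + (-(S' : ℤ) * Nat.gcdA n (q - 1)) * (n : ℤ) =
        ((q - 1 : ℕ) : ℤ) * (S' * Nat.gcdB n (q - 1)) := by
      rw [hS']
      push_cast
      have hb : ((Nat.gcd n (q - 1) : ℕ) : ℤ) = n * Nat.gcdA n (q - 1) + (q - 1 : ℕ) * Nat.gcdB n (q - 1) := hbez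
      rw [hb]
      ring
    rw [h3, zpow_mul, zpow_natCast, hεq, one_zpow]
  let y : Kˣ := σ ^ S * ι c
  have hdety : Matrix.GeneralLinearGroup.det (Φ y) = 1 := by
    simp only [y, map_mul, map_pow]
    rw [hdetι]
    exact hc
  have hdetval : ((Φ y : GL (Fin n) F) : Matrix (Fin n) (Fin n) F).det = 1 := by
    have := congrArg (fun t : Fˣ => (t : F)) hdety
    simpa using this
  let X : Matrix.SpecialLinearGroup (Fin n) F := ⟨(Φ y : GL (Fin n) F), hdetval⟩
  have hXpow : ∀ j : ℕ, ((X ^ j : Matrix.SpecialLinearGroup (Fin n) F) : Matrix (Fin n) (Fin n) F) =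
      L ((y : K) ^ j) := by
    intro j
    rw [Matrix.SpecialLinearGroup.coe_pow, map_pow]
    rfl
  have hy1 : ∀ j : ℕ, (y ^ j) ^ (q - 1) = 1 ↔ σ ^ (S * (q - 1) * j) = 1 := by
    intro j
    have h1 : (y ^ j) ^ (q - 1) = σ ^ (S * (q - 1) * j) := by
      simp only [y]
      rw [← pow_mul, mul_pow, mul_comm j, pow_mul (ι c), ← map_pow ι c, hcq, map_one, one_pow, mul_one, ← pow_mul]
      congr 1
      ring
    rw [h1]
  have hfac := factor_card q m hq2 hm
  have hpos : 0 < (q - 1) * S := by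
    have : 0 < q - 1 := by omega
    have : 0 < S := SS_pos q m (by omega) hm
    positivity
  have hσiff : ∀ j : ℕ, σ ^ (S * (q - 1) * j) = 1 ↔ (q ^ m + 1) ∣ j := by
    intro j
    rw [← orderOf_dvd_iff_pow_eq_one, hordσ, ← hn] at *
    rw [← hn] at hfac
    rw [← hfac]
    have e1 : S * (q - 1) * j = (q - 1) * S * j := by ring
    rw [e1]
    exact Nat.mul_dvd_mul_iff_left hpos
  have hmain : ∀ j : ℕ, (X : Matrix.ProjectiveSpecialLinearGroup (Fin n) F) ^ j = 1 ↔ (q ^ m + 1) ∣ j := by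
    intro j
    rw [← QuotientGroup.mk_pow, QuotientGroup.eq_one_iff, Matrix.SpecialLinearGroup.mem_center_iff,
      ← hσiff, ← hy1]
    constructor
    · rintro ⟨s, hs1, hs2⟩
      have hs0 : s ≠ 0 := by
        rintro rfl
        rw [Fintype.card_fin, zero_pow (by omega)] at hs1
        exact zero_ne_one hs1
      rw [hXpow] at hs2
      have h3 : (y : K) ^ j = algebraMap F K s := by
        apply hLinj
        rw [← hs2, AlgHom.commutes]
        rfl
      apply Units.ext
      simp only [Units.val_pow_eq_pow_val, Units.val_one]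
      rw [h3, ← map_pow, FiniteField.pow_card_sub_one_eq_one s hs0, map_one]
    · intro h
      have h1 : ((y : K) ^ j) ^ (q - 1) = 1 := by
        have := congrArg (fun t : Kˣ => (t : K)) h
        simpa using this
      have h2 : ((y : K) ^ j) ^ q = (y : K) ^ j := by
        calc ((y : K) ^ j) ^ q = ((y : K) ^ j) ^ (q - 1) * (y : K) ^ j := by
              rw [← pow_succ]
              congr 1
              omega
          _ = _ := by rw [h1, one_mul]
      obtain ⟨s, hs⟩ := CfsgLib.H9.ScalarOrth.mem_range_of_pow_eq (F := F) (K := K) rfl _ h2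
      have hmat : ((X ^ j : Matrix.SpecialLinearGroup (Fin n) F) : Matrix (Fin n) (Fin n) F) =
          algebraMap F (Matrix (Fin n) (Fin n) F) s := by
        rw [hXpow, ← hs, AlgHom.commutes]
      refine ⟨s, ?_, ?_⟩
      · have h4 : ((X ^ j : Matrix.SpecialLinearGroup (Fin n) F) : Matrix (Fin n) (Fin n) F).det = 1 := (X ^ j).2
        rw [hmat, Algebra.algebraMap_eq_smul_one, Matrix.det_smul, Matrix.det_one, mul_one] at h4
        exact h4
      · rw [hmat]
        rfl
  refine ⟨(X : Matrix.ProjectiveSpecialLinearGroup (Fin n) F), ?_⟩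
  apply Nat.dvd_antisymm
  · exact orderOf_dvd_of_pow_eq_one ((hmain _).2 dvd_rfl)
  · exact (hmain _).1 (pow_orderOf_eq_one _)

/-- Elements of a cyclic subgroup containing the scalars with `t ^ (q - 1) = 1` are scalars. -/
theorem scalar_of_pow {n : ℕ} [NeZero n] (C : Subgroup (GL (Fin n) F)) [IsCyclic C]
    (hC : ∀ c : Fˣ, Units.map (algebraMap F (Matrix (Fin n) (Fin n) F) : F →* Matrix (Fin n) (Fin n) F) c ∈ C)
    (t : C) (ht : t ^ (Fintype.card F - 1) = 1) :
    ∃ s : F, ((t : GL (Fin n) F) : Matrix (Fin n) (Fin n) F) = s • 1 := by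
  classical
  haveI : Fintype C := Fintype.ofFinite C
  have hq2 : 2 ≤ Fintype.card F := Fintype.one_lt_card
  have hle : (univ.filter fun a : C => a ^ (Fintype.card F - 1) = 1).card ≤ Fintype.card F - 1 :=
    IsCyclic.card_pow_eq_one_le (by omega)
  let sc : Fˣ →* GL (Fin n) F :=
    Units.map (algebraMap F (Matrix (Fin n) (Fin n) F) : F →* Matrix (Fin n) (Fin n) F)
  have hsc : ∀ c : Fˣ, ((sc c : GL (Fin n) F) : Matrix (Fin n) (Fin n) F) = (c : F) • 1 := by
    intro c
    change algebraMap F (Matrix (Fin n) (Fin n) F) (c : F) = _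
    rw [Algebra.algebraMap_eq_smul_one]
  let f : Fˣ → C := fun c => ⟨sc c, hC c⟩
  have hinj : Function.Injective f := by
    intro c c' h
    have h1 : ((sc c : GL (Fin n) F) : Matrix (Fin n) (Fin n) F) = sc c' := by
      have := congrArg (fun z : C => ((z : GL (Fin n) F) : Matrix (Fin n) (Fin n) F)) h
      exact this
    rw [hsc, hsc] at h1
    have i0 : Fin n := ⟨0, Nat.pos_of_ne_zero (NeZero.ne n)⟩
    have h2 := congrFun (congrFun h1 i0) i0
    simp only [Matrix.smul_apply, Matrix.one_apply_eq, smul_eq_mul, mul_one] at h2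
    exact Units.ext h2
  have hsub : (univ.image f) ⊆ (univ.filter fun a : C => a ^ (Fintype.card F - 1) = 1) := by
    intro a ha
    obtain ⟨c, -, rfl⟩ := Finset.mem_image.1 ha
    simp only [Finset.mem_filter, Finset.mem_univ, true_and]
    apply Subtype.ext
    simp only [f, Subgroup.coe_pow, Subgroup.coe_one]
    rw [← map_pow]
    have hc : c ^ (Fintype.card F - 1) = 1 := by
      have : Nat.card Fˣ = Fintype.card F - 1 := by
        rw [Nat.card_units, Nat.card_eq_fintype_card]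
      rw [← this]
      exact pow_card_eq_one'
    rw [hc, map_one]
  have hcard : (univ.image f).card = Fintype.card F - 1 := by
    rw [Finset.card_image_of_injective _ hinj, Finset.card_univ, Fintype.card_units]
  have heq := Finset.eq_of_subset_of_card_le hsub (by rw [hcard]; exact hle)
  have hmem : t ∈ univ.image f := by
    rw [heq]
    simp [ht]
  obtain ⟨c, -, rfl⟩ := Finset.mem_image.1 hmem
  exact ⟨c, hsc c⟩

/-- The necessity part. -/
theorem necessity (p : ℕ) [Fact p.Prime] [CharP F p] {n m : ℕ} (hn : n = 2 * m) (hm : 2 ≤ m) (hq : Odd (Fintype.card F))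
    (g : Matrix.ProjectiveSpecialLinearGroup (Fin n) F)
    (hg : orderOf g = Fintype.card F ^ m + 1) :
    2 ^ padicValNat 2 (Fintype.card F - 1) ∣ SS (Fintype.card F) m := by
  classical
  obtain ⟨x, rfl⟩ := QuotientGroup.mk_surjective g
  have hpp : p.Prime := Fact.out
  set q := Fintype.card F with hqdef
  have hq3 : 3 ≤ q := by
    have : 2 ≤ q := Fintype.one_lt_card
    obtain ⟨a, ha⟩ := hq
    omega
  haveI : NeZero n := ⟨by omega⟩
  obtain ⟨r, hr, hrd, hrk⟩ := CfsgLib.ClassMax.Zsig.zsigmondy q n (by omega) (by omega)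
    (by rintro ⟨h, -⟩; omega) (by rintro ⟨h, -⟩; omega)
  haveI : Fact r.Prime := ⟨hr⟩
  have hrp : r ≠ p := by
    rintro rfl
    obtain ⟨f₀, -, hcard⟩ := FiniteField.card F r
    have h1 : r ∣ q ^ n := by
      rw [← hqdef] at hcard
      rw [hcard]
      exact dvd_pow (dvd_pow_self r f₀.pos.ne') (by omega)
    have h2 : r ∣ q ^ n - (q ^ n - 1) := Nat.dvd_sub h1 hrd
    have h3 : 1 ≤ q ^ n := Nat.one_le_pow _ _ (by omega)
    have h4 : q ^ n - (q ^ n - 1) = 1 := by omega
    rw [h4] at h2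
    exact hr.one_lt.ne' (Nat.dvd_one.1 h2)
  have hi : orderOf ((q : ℕ) : ZMod r) = n := by
    have h1 : ((q : ℕ) : ZMod r) ^ n = 1 := (CfsgLib.ClassMax.Zsig.dvd_iff r q n (by omega)).1 hrd
    have h2 := orderOf_dvd_of_pow_eq_one h1
    have h3 := pow_orderOf_eq_one ((q : ℕ) : ZMod r)
    by_contra hne
    have hpos : 0 < orderOf ((q : ℕ) : ZMod r) := Nat.pos_of_dvd_of_pos h2 (by omega)
    have hlt : orderOf ((q : ℕ) : ZMod r) < n := lt_of_le_of_ne (Nat.le_of_dvd (by omega) h2) hne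
    exact hrk _ hpos hlt ((CfsgLib.ClassMax.Zsig.dvd_iff r q _ (by omega)).2 h3)
  have hrN : r ∣ q ^ m + 1 := by
    have hfac := factor_card q m (by omega) (by omega)
    have h1 := hrd
    rw [hn, ← hfac] at h1
    have h2 : (q - 1) * SS q m = q ^ m - 1 := SS_mul q m (by omega)
    rw [h2] at h1
    rcases (Nat.Prime.dvd_mul hr).1 h1 with h | h
    · exact absurd h (hrk m (by omega) (by omega))
    · exact h
  have hrq : ¬ r ∣ q - 1 := by
    have := hrk 1 (by omega) (by omega)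
    simpa using this
  set N := q ^ m + 1 with hN
  obtain ⟨N', hN'⟩ := hrN
  have hN'pos : 0 < N' := by
    apply Nat.pos_of_ne_zero
    rintro rfl
    omega
  have hco : r.Coprime (q - 1) := (Nat.Prime.coprime_iff_not_dvd hr).2 hrq
  let t := Nat.chineseRemainder hco 1 0
  have ht1 : (t : ℕ) ≡ 1 [MOD r] := t.2.1
  have ht2 : (t : ℕ) ≡ 0 [MOD q - 1] := t.2.2
  have htd : q - 1 ∣ (t : ℕ) := (Nat.modEq_zero_iff_dvd).mp ht2
  have hgN : (x : Matrix.ProjectiveSpecialLinearGroup (Fin n) F) ^ N = 1 := by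
    rw [← hg]; exact pow_orderOf_eq_one _
  have hcen : x ^ N ∈ Subgroup.center (Matrix.SpecialLinearGroup (Fin n) F) := by
    have h := hgN
    rwa [← QuotientGroup.mk_pow, QuotientGroup.eq_one_iff] at h
  have hxq : x ^ (N * (q - 1)) = 1 := by
    rw [pow_mul]
    exact CfsgLib.H9.PGraph.center_pow _ hcen
  set w := x ^ (N' * (t : ℕ)) with hw
  have hwr : w ^ r = 1 := by
    obtain ⟨a, ha⟩ := htd
    rw [hw, ← pow_mul, ha]
    have : N' * ((q - 1) * a) * r = N * (q - 1) * a := by rw [hN']; ring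
    rw [this, pow_mul, hxq, one_pow]
  have hw1 : w ≠ 1 := by
    intro h
    have h1 : (x : Matrix.ProjectiveSpecialLinearGroup (Fin n) F) ^ (N' * (t : ℕ)) = 1 := by
      rw [← QuotientGroup.mk_pow]
      change ((w : Matrix.SpecialLinearGroup (Fin n) F) : Matrix.ProjectiveSpecialLinearGroup (Fin n) F) = 1
      rw [h]
      rfl
    have h2 := orderOf_dvd_of_pow_eq_one h1
    rw [hg, hN', mul_comm r N'] at h2
    have h3 : r ∣ (t : ℕ) := Nat.dvd_of_mul_dvd_mul_left hN'pos h2
    have h4 : (t : ℕ) ≡ 0 [MOD r] := (Nat.modEq_zero_iff_dvd).mpr h3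
    have h5 : 1 ≡ 0 [MOD r] := ht1.symm.trans h4
    exact hr.one_lt.ne' (Nat.dvd_one.1 ((Nat.modEq_zero_iff_dvd).mp h5))
  have hwo : orderOf w = r := orderOf_eq_prime hwr hw1
  let φ := Matrix.SpecialLinearGroup.toGL (n := Fin n) (R := F)
  have hφinj : Function.Injective φ := Matrix.SpecialLinearGroup.toGL_injective
  set W : GL (Fin n) F := φ w with hWdef
  have hWo : orderOf W = r := by
    rw [hWdef, orderOf_injective φ hφinj, hwo]
  obtain ⟨hcyc, hcardC⟩ := CfsgLib.H9.Singer.main_2638 (F := F) (p := p) (q := q) rfl (n := n) (by omega) hr hrp hi W hWo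
  set C := Subgroup.centralizer ({W} : Set (GL (Fin n) F)) with hC
  have hCmem : ∀ z : GL (Fin n) F, z * W = W * z → z ∈ C := by
    intro z hz
    rw [hC, Subgroup.mem_centralizer_singleton_iff]
    exact hz
  have hXmem : φ x ∈ C := by
    apply hCmem
    rw [hWdef, hw, map_pow, ← pow_succ', ← pow_succ]
  have hscal : ∀ c : Fˣ, Units.map (algebraMap F (Matrix (Fin n) (Fin n) F) : F →* Matrix (Fin n) (Fin n) F) c ∈ C := by
    intro c
    apply hCmem
    apply Units.ext
    simp only [Units.val_mul, Units.coe_map]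
    exact Algebra.commutes _ _
  obtain ⟨γ, hγ⟩ := IsCyclic.exists_generator (α := C)
  have hordγ : orderOf γ = q ^ n - 1 := by
    rw [orderOf_eq_card_of_forall_mem_zpowers hγ, hcardC]
  have hfac := factor_card q m (by omega) (by omega)
  rw [← hn, ← hN] at hfac
  set S := SS q m with hS
  have hSpos : 0 < S := SS_pos q m (by omega) (by omega)
  have hqpos : 0 < q - 1 := by omega
  have hNpos : 0 < N := by omega
  obtain ⟨a, ha⟩ : ∃ a : ℕ, γ ^ a = ⟨φ x, hXmem⟩ := by
    have : (⟨φ x, hXmem⟩ : C) ∈ Submonoid.powers γ := by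
      rw [mem_powers_iff_mem_zpowers]
      exact hγ _
    obtain ⟨a, ha⟩ := this
    exact ⟨a, ha⟩
  have hXpow : ∀ j : ℕ, (((γ ^ a) ^ j : C) : GL (Fin n) F) = φ (x ^ j) := by
    intro j
    rw [ha, Subgroup.coe_pow, map_pow]
  -- `S ∣ a`
  have hSa : S ∣ a := by
    have h1 : (γ ^ a) ^ (N * (q - 1)) = 1 := by
      apply Subtype.ext
      rw [hXpow, hxq, map_one]
      rfl
    rw [← pow_mul] at h1
    have h2 := orderOf_dvd_of_pow_eq_one h1
    rw [hordγ, ← hfac] at h2
    have e1 : (q - 1) * S * N = (N * (q - 1)) * S := by ring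
    have e2 : a * (N * (q - 1)) = (N * (q - 1)) * a := by ring
    rw [e1, e2] at h2
    exact Nat.dvd_of_mul_dvd_mul_left (by positivity) h2
  obtain ⟨b, rfl⟩ := hSa
  -- `b` is odd
  have hN2 : 2 ∣ N := by
    have h1 : Odd (q ^ m) := hq.pow
    obtain ⟨c, hc⟩ := h1
    exact ⟨c + 1, by rw [hN, hc]; ring⟩
  have hbodd : ¬ 2 ∣ b := by
    intro hb
    obtain ⟨c, hc⟩ := hN2
    obtain ⟨d, hd⟩ := hb
    have h1 : ((γ ^ (S * b)) ^ c) ^ (q - 1) = 1 := by
      rw [← pow_mul, ← pow_mul]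
      have : S * b * (c * (q - 1)) = ((q - 1) * S * N) * d := by
        rw [hd, hc]; ring
      rw [this, hfac, pow_mul, ← hordγ, pow_orderOf_eq_one, one_pow]
    haveI := hcyc
    obtain ⟨s, hs⟩ := scalar_of_pow C hscal _ h1
    have h2 := hXpow c
    rw [h2] at hs
    have hcen2 : x ^ c ∈ Subgroup.center (Matrix.SpecialLinearGroup (Fin n) F) := by
      rw [Matrix.SpecialLinearGroup.mem_center_iff]
      have hsval : ((x ^ c : Matrix.SpecialLinearGroup (Fin n) F) : Matrix (Fin n) (Fin n) F) = s • 1 := hs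
      refine ⟨s, ?_, ?_⟩
      · have h4 : ((x ^ c : Matrix.SpecialLinearGroup (Fin n) F) : Matrix (Fin n) (Fin n) F).det = 1 := (x ^ c).2
        rw [hsval, Matrix.det_smul, Matrix.det_one, mul_one] at h4
        exact h4
      · rw [hsval]
        ext i j
        simp [Matrix.scalar_apply, Matrix.one_apply, Matrix.diagonal_apply]
    have h3 : (x : Matrix.ProjectiveSpecialLinearGroup (Fin n) F) ^ c = 1 := by
      rw [← QuotientGroup.mk_pow, QuotientGroup.eq_one_iff]
      exact hcen2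
    have h4 := orderOf_dvd_of_pow_eq_one h3
    rw [hg, hc] at h4
    have hcpos : 0 < c := by
      apply Nat.pos_of_ne_zero
      rintro rfl
      omega
    have := Nat.le_of_dvd hcpos h4
    omega
  -- the determinant on the centraliser
  let D : C →* Fˣ := (Matrix.GeneralLinearGroup.det).comp C.subtype
  have hDsurj : ∀ y : Fˣ, y ∈ Subgroup.zpowers (D γ) := by
    intro y
    have hWpow : (W : Matrix (Fin n) (Fin n) F) ^ r = 1 := by
      rw [← Units.val_pow_eq_pow_val, ← hWo, pow_orderOf_eq_one, Units.val_one]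
    have hrp' : r.Coprime p := (Nat.coprime_primes hr hpp).2 hrp
    obtain ⟨S₀, hS₀, hdet⟩ := CfsgLib.H9.SemisMat.exists_comm p (n := n) (by omega) (W : Matrix (Fin n) (Fin n) F) r hr.pos hrp' hWpow (y : F) y.ne_zero
    have hmem : S₀ ∈ C := by
      apply hCmem
      exact Units.ext hS₀
    obtain ⟨i, hi'⟩ := hγ ⟨S₀, hmem⟩
    refine ⟨i, ?_⟩
    change D γ ^ i = y
    rw [← map_zpow]
    have hi'' : γ ^ i = ⟨S₀, hmem⟩ := hi'
    rw [hi'']
    apply Units.ext
    exact hdet
  have hDord : orderOf (D γ) = q - 1 := by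
    rw [orderOf_eq_card_of_forall_mem_zpowers hDsurj, Nat.card_units, Nat.card_eq_fintype_card]
  have hDx : (D γ) ^ (S * b) = 1 := by
    rw [← map_pow, ha]
    apply Units.ext
    exact x.2
  have hdv := orderOf_dvd_of_pow_eq_one hDx
  rw [hDord] at hdv
  have h2e : 2 ^ padicValNat 2 (q - 1) ∣ S * b := (pow_padicValNat_dvd).trans hdv
  have hcop : Nat.Coprime (2 ^ padicValNat 2 (q - 1)) b :=
    Nat.Coprime.pow_left _ ((Nat.Prime.coprime_iff_not_dvd Nat.prime_two).2 hbodd)
  exact hcop.dvd_of_dvd_mul_right h2e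

/-- The statement S2495. -/
theorem main_2495 (p : ℕ) [Fact p.Prime] [CharP F p] {m : ℕ} (hm : 2 ≤ m) (hq : Odd (Fintype.card F)) :
    (∃ g : Matrix.ProjectiveSpecialLinearGroup (Fin (2 * m)) F, orderOf g = Fintype.card F ^ m + 1) ↔
      padicValNat 2 (Fintype.card F - 1) < padicValNat 2 (2 * m) := by
  have hq3 : 3 ≤ Fintype.card F := by
    have : 2 ≤ Fintype.card F := Fintype.one_lt_card
    obtain ⟨a, ha⟩ := hq
    omega
  constructor
  · rintro ⟨g, hg⟩
    exact arith1 hq hq3 (by omega) (necessity p rfl hm hq g hg)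
  · intro h
    exact exists_elem p (by omega) (arith2 hq hq3 (by omega) h)

end CfsgLib.H9.PSLSinger
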