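import Mathlib
import Cfsg.Agent.Lib.H9.PermChar2

/-! Transposes in the centraliser ring of a permutation representation. -/

set_option autoImplicit false
set_option linter.unusedVariables false
set_option linter.unusedSectionVars false
set_option linter.unusedSimpArgs false
set_option linter.style.haveILetI false

namespace CfsgLib.H9.PermChar

open Module Cfsg CfsgLib.Char
open scoped ComplexConjugate

universe u v

theorem trace_id_homs {G : Type u} [Group G] [Fintype G] {V : Type v} {W : Type*} [AddCommGroup V] [Module ℂ V]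
    [FiniteDimensional ℂ V] [AddCommGroup W] [Module ℂ W] [FiniteDimensional ℂ W]
    (ρ : Representation ℂ G V) (σ : Representation ℂ G W) (h : finrank ℂ (homs ρ σ) = 1) :
    LinearMap.trace ℂ (homs ρ σ) LinearMap.id = 1 := by
  rw [LinearMap.trace_id, h]
  simp

variable {G : Type u} [Group G] [Fintype G] {Ω : Type v} [Fintype Ω] [DecidableEq Ω] [MulAction G Ω]

/-- transpose of an operator on the permutation module -/
noncomputable def tp (S : (Ω → ℂ) →ₗ[ℂ] (Ω → ℂ)) : (Ω → ℂ) →ₗ[ℂ] (Ω → ℂ) :=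
  Matrix.toLin' (LinearMap.toMatrix' S).transpose

theorem tp_eq_opOf (S : (Ω → ℂ) →ₗ[ℂ] (Ω → ℂ)) : tp S = opOf (fun x y => LinearMap.toMatrix' S y x) := rfl

theorem eq_opOf (S : (Ω → ℂ) →ₗ[ℂ] (Ω → ℂ)) : S = opOf (fun x y => LinearMap.toMatrix' S x y) := by
  have h := Matrix.toLin'_toMatrix' S
  exact h.symm

theorem tp_comp (S T : (Ω → ℂ) →ₗ[ℂ] (Ω → ℂ)) : tp (S ∘ₗ T) = tp T ∘ₗ tp S := by
  unfold tp
  rw [LinearMap.toMatrix'_comp, Matrix.transpose_mul, Matrix.toLin'_mul]

theorem tp_tp (S : (Ω → ℂ) →ₗ[ℂ] (Ω → ℂ)) : tp (tp S) = S := by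
  unfold tp
  rw [LinearMap.toMatrix'_toLin', Matrix.transpose_transpose, Matrix.toLin'_toMatrix']

theorem tp_smul (c : ℂ) (S : (Ω → ℂ) →ₗ[ℂ] (Ω → ℂ)) : tp (c • S) = c • tp S := by
  unfold tp
  rw [map_smul, Matrix.transpose_smul, map_smul]

theorem ker_inv (S : (Ω → ℂ) →ₗ[ℂ] (Ω → ℂ)) (hS : IsComm (Cfsg.permRep ℂ G Ω) S) (g : G) (x y : Ω) :
    LinearMap.toMatrix' S (g • x) (g • y) = LinearMap.toMatrix' S x y := by
  rw [LinearMap.toMatrix'_apply, LinearMap.toMatrix'_apply]
  have h1 : (Pi.single (g • y) 1 : Ω → ℂ) = Cfsg.permRep ℂ G Ω g (Pi.single y 1) := by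
    funext i'
    show _ = (Pi.single y 1 : Ω → ℂ) (g⁻¹ • i')
    have : (i' = g • y) ↔ (g⁻¹ • i' = y) := by
      constructor
      · rintro rfl
        simp
      · rintro rfl
        simp
    simp only [Pi.single_apply, this]
  rw [h1, hS g]
  show S _ (g⁻¹ • g • x) = _
  rw [inv_smul_smul]

theorem tp_comm (S : (Ω → ℂ) →ₗ[ℂ] (Ω → ℂ)) (hS : IsComm (Cfsg.permRep ℂ G Ω) S) :
    IsComm (Cfsg.permRep ℂ G Ω) (tp S) := by
  rw [tp_eq_opOf]
  apply opOf_comm
  intro g x y
  exact ker_inv S hS g y x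

theorem phi_tp (S : (Ω → ℂ) →ₗ[ℂ] (Ω → ℂ)) (g : G) :
    phi (Cfsg.permRep ℂ G Ω) (tp S) g = phi (Cfsg.permRep ℂ G Ω) S g⁻¹ := by
  conv_rhs => rw [eq_opOf S]
  rw [tp_eq_opOf, phi_opOf, phi_opOf]
  symm
  apply Fintype.sum_equiv (MulAction.toPerm g⁻¹)
  intro x
  show LinearMap.toMatrix' S x (g⁻¹ • x) = LinearMap.toMatrix' S (g • g⁻¹ • x) (g⁻¹ • x)
  rw [smul_inv_smul]

theorem comm_of_symm (hsw : ∀ a b : Ω, ∃ g : G, g • a = b ∧ g • b = a) (S : (Ω → ℂ) →ₗ[ℂ] (Ω → ℂ))
    (hS : IsComm (Cfsg.permRep ℂ G Ω) S) : tp S = S := by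
  conv_rhs => rw [eq_opOf S]
  rw [tp_eq_opOf]
  congr 1
  funext x y
  obtain ⟨g, h1, h2⟩ := hsw x y
  have := ker_inv S hS g x y
  rw [h1, h2] at this
  exact this

section irr

variable {W : Type*} [AddCommGroup W] [Module ℂ W] [FiniteDimensional ℂ W]
  (σ : Representation ℂ G W)

theorem phi_retract (ι : W →ₗ[ℂ] (Ω → ℂ)) (hι : ι ∈ homs (Cfsg.permRep ℂ G Ω) σ)
    (r : (Ω → ℂ) →ₗ[ℂ] W) (hrι : r ∘ₗ ι = LinearMap.id) (g : G) :
    phi (Cfsg.permRep ℂ G Ω) (ι ∘ₗ r) g = σ.character g := by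
  unfold phi
  show LinearMap.trace ℂ _ ((ι ∘ₗ r) ∘ₗ _) = LinearMap.trace ℂ W (σ g)
  rw [LinearMap.comp_assoc, LinearMap.trace_comp_comm']
  congr 1
  ext x
  simp only [LinearMap.comp_apply]
  have h1 := (mem_homs _ _).mp hι g x
  have h2 : r (ι (σ g x)) = σ g x := LinearMap.congr_fun hrι _
  rw [h1, h2]

end irr

theorem main_0717 [MulAction.IsPretransitive G Ω] : (∀ a b : Ω, ∃ g : G, g • a = b ∧ g • b = a) ↔
    ∀ χ : G → ℂ, IsIrrCharacter G χ →
      classInner (fun g : G => (Nat.card (MulAction.fixedBy Ω g) : ℂ)) χ ≠ 0 →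
      classInner (fun g : G => (Nat.card (MulAction.fixedBy Ω g) : ℂ)) χ = 1 ∧
        ∀ g : G, conj (χ g) = χ g := by
  have hpi : (fun g : G => (Nat.card (MulAction.fixedBy Ω g) : ℂ)) = (Cfsg.permRep ℂ G Ω).character := pi_eq
  constructor
  · intro hsw
    have hcomm : ∀ S T : (Ω → ℂ) →ₗ[ℂ] (Ω → ℂ), IsComm (Cfsg.permRep ℂ G Ω) S →
        IsComm (Cfsg.permRep ℂ G Ω) T → S ∘ₗ T = T ∘ₗ S := by
      intro S T hS hT
      have h1 : IsComm (Cfsg.permRep ℂ G Ω) (S ∘ₗ T) := by
        intro g x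
        simp only [LinearMap.comp_apply]
        rw [hT, hS]
      have h2 := comm_of_symm hsw _ h1
      rw [tp_comp, comm_of_symm hsw S hS, comm_of_symm hsw T hT] at h2
      exact h2.symm
    have hfree := (main_0718 (G := G) (Ω := Ω)).mpr (fun S T hS hT => hcomm S T ((isComm_iff S).mp hS) ((isComm_iff T).mp hT))
    intro χ hχ hne
    refine ⟨(hfree χ hχ).resolve_left hne, ?_⟩
    obtain ⟨n, σ, hσ, rfl⟩ := hχ
    haveI := hσ
    rw [hpi, classInner_eq_finrank] at hne
    have hne2 : finrank ℂ (homs (Cfsg.permRep ℂ G Ω) σ) ≠ 0 := by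
      intro h
      rw [h] at hne
      simp at hne
    obtain ⟨ι, hι⟩ : ∃ ι : homs (Cfsg.permRep ℂ G Ω) σ, ι ≠ 0 := by
      haveI : Nontrivial (homs (Cfsg.permRep ℂ G Ω) σ) :=
        Module.nontrivial_of_finrank_pos (R := ℂ) (Nat.pos_of_ne_zero hne2)
      exact exists_ne 0
    have hι' : ι.1 ≠ 0 := fun h => hι (Subtype.ext h)
    have hinj := injective_of_irr _ σ ι.1 ι.2 hι'
    obtain ⟨r, hr, hrι⟩ := exists_retract _ σ ι.1 ι.2 hinj
    intro g
    have hE := isComm_comp _ σ ι.1 ι.2 r hr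
    have h1 := phi_tp (G := G) (ι.1 ∘ₗ r) g
    rw [comm_of_symm hsw _ hE, phi_retract σ ι.1 ι.2 r hrι, phi_retract σ ι.1 ι.2 r hrι] at h1
    have h2 := (CfsgLib.Char.isCharacter_character σ).map_inv g
    rw [← h2, ← h1]
  · intro H
    -- every commuting operator is symmetric
    have hsymm : ∀ S : (Ω → ℂ) →ₗ[ℂ] (Ω → ℂ), IsComm (Cfsg.permRep ℂ G Ω) S → S - tp S = 0 := by
      intro S hS
      have hT := tp_comm S hS
      apply eq_zero_of_irr (Cfsg.permRep ℂ G Ω) (S - tp S)
      · intro g x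
        simp only [LinearMap.sub_apply, map_sub]
        rw [hS, hT]
      · intro W _ _ _ σ _ ι hι
        by_cases h0 : ι = 0
        · rw [h0, LinearMap.comp_zero]
        have hinj := injective_of_irr _ σ ι hι h0
        obtain ⟨r, hr, hrι⟩ := exists_retract _ σ ι hι hinj
        have hχ := CfsgLib.Char.isIrrCharacter_character σ
        have hpos : finrank ℂ (homs (Cfsg.permRep ℂ G Ω) σ) ≠ 0 := by
          intro h
          have hsub : Subsingleton (homs (Cfsg.permRep ℂ G Ω) σ) := Module.finrank_zero_iff.mp h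
          have : (⟨ι, hι⟩ : homs (Cfsg.permRep ℂ G Ω) σ) = 0 := Subsingleton.elim _ _
          exact h0 (congrArg Subtype.val this)
        have hne : classInner (fun g : G => (Nat.card (MulAction.fixedBy Ω g) : ℂ)) σ.character ≠ 0 := by
          rw [hpi, classInner_eq_finrank]
          exact_mod_cast hpos
        obtain ⟨h1, hreal⟩ := H _ hχ hne
        have hdim : finrank ℂ (homs (Cfsg.permRep ℂ G Ω) σ) = 1 := by
          rw [hpi, classInner_eq_finrank] at h1
          exact_mod_cast h1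
        -- everything in `homs` is a multiple of ι
        have hspan : ∀ f : homs (Cfsg.permRep ℂ G Ω) σ, ∃ c : ℂ, f.1 = c • ι := by
          intro f
          have hι0 : (⟨ι, hι⟩ : homs (Cfsg.permRep ℂ G Ω) σ) ≠ 0 := fun h => h0 (congrArg Subtype.val h)
          obtain ⟨c, hc⟩ := exists_smul_eq_of_finrank_eq_one hdim hι0 f
          refine ⟨c, ?_⟩
          have := congrArg Subtype.val hc
          exact this.symm
        have hact : ∀ T : (Ω → ℂ) →ₗ[ℂ] (Ω → ℂ), IsComm (Cfsg.permRep ℂ G Ω) T → ∃ c : ℂ, T ∘ₗ ι = c • ι :=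
          fun T hT => hspan ⟨T ∘ₗ ι, comp_mem _ σ T hT ι hι⟩
        set E := ι ∘ₗ r with hEdef
        have hE : IsComm (Cfsg.permRep ℂ G Ω) E := isComm_comp _ σ ι hι r hr
        have hEι : E ∘ₗ ι = ι := by
          rw [hEdef, LinearMap.comp_assoc, hrι, LinearMap.comp_id]
        have hE2 := tp_comm E hE
        -- the scalar of `tp E`
        obtain ⟨e, he⟩ := hact (tp E) hE2
        have hphi : phi (Cfsg.permRep ℂ G Ω) (tp E) = σ.character := by
          funext g
          rw [phi_tp, phi_retract σ ι hι r hrι]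
          have h2 := (CfsgLib.Char.isCharacter_character σ).map_inv g
          rw [h2, hreal]
        have htr := phi_classInner (Cfsg.permRep ℂ G Ω) σ (tp E) hE2
        rw [hphi, classInner_irr_self hχ] at htr
        have hstar : star (Cfsg.permRep ℂ G Ω) σ (tp E) hE2 = e • LinearMap.id := by
          apply LinearMap.ext
          intro f
          apply Subtype.ext
          obtain ⟨c, hc⟩ := hspan f
          show (tp E) ∘ₗ f.1 = e • f.1
          rw [hc, LinearMap.comp_smul, he, smul_comm]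
        have htrid : LinearMap.trace ℂ (homs (Cfsg.permRep ℂ G Ω) σ) LinearMap.id = 1 := by
          exact trace_id_homs _ _ hdim
        rw [hstar, map_smul, htrid] at htr
        have he1 : e = 1 := by
          simpa using htr.symm
        rw [he1, one_smul] at he
        -- `E` is symmetric
        have hEE : tp E ∘ₗ E = E := by
          rw [hEdef, ← LinearMap.comp_assoc, ← hEdef, he]
        have hEsym : tp E = E := by
          have h3 := congrArg tp hEE
          rw [tp_comp, tp_tp, hEE] at h3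
          exact h3.symm
        obtain ⟨s, hs⟩ := hact S hS
        obtain ⟨s', hs'⟩ := hact (tp S) hT
        have hSE : S ∘ₗ E = s • E := by
          rw [hEdef, ← LinearMap.comp_assoc, hs]
          rfl
        have h3 := congrArg tp hSE
        rw [tp_comp, tp_smul, hEsym] at h3
        -- `E ∘ tp S = s • E`
        have h4 : E ∘ₗ (tp S ∘ₗ ι) = s • ι := by
          rw [← LinearMap.comp_assoc, h3, LinearMap.smul_comp, hEι]
        rw [hs', LinearMap.comp_smul, hEι] at h4
        rw [LinearMap.sub_comp, hs, hs', h4, sub_self]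
    intro a b
    let S := opOf (orbM (G := G) a b)
    have hS : IsComm (Cfsg.permRep ℂ G Ω) S := orbM_comm (G := G) a b
    have h1 := sub_eq_zero.mp (hsymm S hS)
    have h2 : LinearMap.toMatrix' S = Matrix.of (orbM (G := G) a b) := LinearMap.toMatrix'_toLin' _
    have h3 : LinearMap.toMatrix' S = (LinearMap.toMatrix' S).transpose := by
      have := congrArg LinearMap.toMatrix' h1
      conv_rhs at this => rw [tp, LinearMap.toMatrix'_toLin']
      exact this
    rw [h2] at h3
    have h4 : orbM (G := G) a b b a = orbM (G := G) a b a b := congrFun (congrFun h3 b) a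
    have h5 : orbM (G := G) a b a b = 1 := by
      unfold orbM orbN
      rw [if_pos ⟨1, one_smul _ _, one_smul _ _⟩]
      simp
    rw [h5] at h4
    by_contra hno
    have h6 : ¬ ∃ g : G, g • a = b ∧ g • b = a := hno
    unfold orbM orbN at h4
    rw [if_neg h6] at h4
    simp at h4

end CfsgLib.H9.PermChar
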