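import Mathlib
import Cfsg.Agent.Lib.H9.PermChar3
import Cfsg.Agent.Lib.ClassGeo.Trans

/-! The permutation character of `SL_n(F)` on non-zero vectors. -/

set_option autoImplicit false
set_option linter.unusedVariables false
set_option linter.unusedSectionVars false
set_option linter.unusedSimpArgs false
set_option linter.style.haveILetI false

namespace CfsgLib.H9.PermSL

open Matrix Module Cfsg CfsgLib.Char CfsgLib.H9.PermChar

universe u

variable {F : Type u} [Field F] {ι : Type} [Fintype ι] [DecidableEq ι]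

/-- transvection by a vector and a covector -/
def tv (u φ : ι → F) (h : φ ⬝ᵥ u = 0) : SpecialLinearGroup ι F :=
  ⟨1 + vecMulVec u φ, by
    have h1 := det_one_add_replicateCol_mul_replicateRow (ι := Unit) u φ
    have h2 : (replicateCol Unit u * replicateRow Unit φ) = vecMulVec u φ := by
      ext i j
      simp [Matrix.mul_apply, vecMulVec_apply]
    rw [h2, h, add_zero] at h1
    exact h1⟩

theorem tv_apply (u φ : ι → F) (h : φ ⬝ᵥ u = 0) (v : ι → F) :
    (tv u φ h : Matrix ι ι F) *ᵥ v = v + (φ ⬝ᵥ v) • u := by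
  show (1 + vecMulVec u φ) *ᵥ v = _
  rw [add_mulVec, one_mulVec]
  congr 1
  ext i
  simp [mulVec, dotProduct, vecMulVec_apply, Finset.mul_sum, Finset.sum_mul]
  apply Finset.sum_congr rfl
  intro x _
  ring

theorem exists_move1 (i0 i1 k : ι) (h01 : i0 ≠ i1) (hk0 : k ≠ i0) (hk1 : k ≠ i1) (y : ι → F) (hy : y k ≠ 0) :
    ∃ h : SpecialLinearGroup ι F, (h : Matrix ι ι F) *ᵥ (Pi.single i0 1) = Pi.single i0 1 ∧
      (h : Matrix ι ι F) *ᵥ y = Pi.single i1 1 := by
  set t : F := (1 - y i1) / y k with ht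
  set φ : ι → F := Pi.single i1 1 + Pi.single k t with hφ
  have h1 : φ ⬝ᵥ y = 1 := by
    rw [hφ, add_dotProduct, single_dotProduct, single_dotProduct, ht]
    field_simp
    ring
  have h2 : φ ⬝ᵥ (Pi.single i1 1) = 1 := by
    rw [hφ, add_dotProduct, single_dotProduct, single_dotProduct]
    simp [Pi.single_apply, hk1]
  have h3 : φ ⬝ᵥ (Pi.single i0 1) = 0 := by
    rw [hφ, add_dotProduct, single_dotProduct, single_dotProduct]
    simp [Pi.single_apply, hk0, h01.symm]
  have h4 : φ ⬝ᵥ (Pi.single i1 1 - y) = 0 := by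
    rw [dotProduct_sub, h1, h2, sub_self]
  refine ⟨tv _ φ h4, ?_, ?_⟩
  · rw [tv_apply, h3, zero_smul, add_zero]
  · rw [tv_apply, h1, one_smul]
    abel

theorem exists_move (i0 i1 i2 : ι) (h01 : i0 ≠ i1) (h02 : i0 ≠ i2) (h12 : i1 ≠ i2) (y : ι → F)
    (hy : ∃ j, j ≠ i0 ∧ y j ≠ 0) :
    ∃ h : SpecialLinearGroup ι F, (h : Matrix ι ι F) *ᵥ (Pi.single i0 1) = Pi.single i0 1 ∧
      (h : Matrix ι ι F) *ᵥ y = Pi.single i1 1 := by
  obtain ⟨j, hj0, hj⟩ := hy
  by_cases hj1 : j = i1
  · subst hj1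
    by_cases hy2 : y i2 = 0
    · -- first make the coordinate `i2` nonzero
      set φ : ι → F := Pi.single j 1 with hφ
      have h1 : φ ⬝ᵥ (Pi.single i2 1 : ι → F) = 0 := by
        rw [hφ, single_dotProduct]
        simp [Pi.single_apply, h12]
      have h2 : φ ⬝ᵥ (Pi.single i0 1 : ι → F) = 0 := by
        rw [hφ, single_dotProduct]
        simp [Pi.single_apply, hj0]
      set τ := tv _ φ h1 with hτ
      have h3 : ((τ : Matrix ι ι F) *ᵥ y) i2 ≠ 0 := by
        rw [hτ, tv_apply, hφ, single_dotProduct]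
        simp [hy2, hj]
      obtain ⟨h, h4, h5⟩ := exists_move1 i0 j i2 h01 h02.symm h12.symm ((τ : Matrix ι ι F) *ᵥ y) h3
      refine ⟨h * τ, ?_, ?_⟩
      · change ((h : Matrix ι ι F) * (τ : Matrix ι ι F)) *ᵥ _ = _
        rw [← mulVec_mulVec, hτ, tv_apply, h2, zero_smul, add_zero, h4]
      · change ((h : Matrix ι ι F) * (τ : Matrix ι ι F)) *ᵥ _ = _
        rw [← mulVec_mulVec, h5]
    · exact exists_move1 i0 j i2 h01 h02.symm h12.symm y hy2
  · exact exists_move1 i0 i1 j h01 hj0 hj1 y hj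

/-- non-zero vectors -/
abbrev NZ (F : Type u) [Field F] (ι : Type) : Type u := {v : ι → F // v ≠ 0}

instance instNZ : MulAction (SpecialLinearGroup ι F) (NZ F ι) where
  smul g v := ⟨(g : Matrix ι ι F) *ᵥ v.1, (smul_ne_zero_iff_ne g).mpr v.2⟩
  one_smul v := Subtype.ext (by
    show ((1 : SpecialLinearGroup ι F) : Matrix ι ι F) *ᵥ v.1 = v.1
    simp)
  mul_smul g h v := Subtype.ext (by
    show ((g : Matrix ι ι F) * (h : Matrix ι ι F)) *ᵥ v.1 = (g : Matrix ι ι F) *ᵥ ((h : Matrix ι ι F) *ᵥ v.1)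
    rw [mulVec_mulVec])

@[simp] theorem smul_val (g : SpecialLinearGroup ι F) (v : NZ F ι) : (g • v).1 = (g : Matrix ι ι F) *ᵥ v.1 := rfl

/-- the standard vector -/
def stdV (i : ι) : NZ F ι := ⟨Pi.single i 1, by simp [Pi.single_eq_zero_iff]⟩

/-- scalar multiples -/
def sc (c : Fˣ) (v : NZ F ι) : NZ F ι := ⟨(c : F) • v.1, smul_ne_zero c.ne_zero v.2⟩

theorem smul_sc (g : SpecialLinearGroup ι F) (c : Fˣ) (v : NZ F ι) : g • sc c v = sc c (g • v) := by
  apply Subtype.ext
  show (g : Matrix ι ι F) *ᵥ ((c : F) • v.1) = (c : F) • ((g : Matrix ι ι F) *ᵥ v.1)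
  rw [mulVec_smul]

theorem sc_inj (c d : Fˣ) (v : NZ F ι) (h : sc c v = sc d v) : c = d := by
  have h1 : (c : F) • v.1 = (d : F) • v.1 := congrArg Subtype.val h
  have h2 : (c : F) = d := smul_left_injective F v.2 h1
  exact Units.ext h2

theorem sc_mul (c d : Fˣ) (v : NZ F ι) : sc c (sc d v) = sc (d * c) v := by
  apply Subtype.ext
  show (c : F) • ((d : F) • v.1) = ((d * c : Fˣ) : F) • v.1
  rw [smul_smul, Units.val_mul, mul_comm]

theorem sc_one (v : NZ F ι) : sc 1 v = v := by
  apply Subtype.ext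
  show ((1 : Fˣ) : F) • v.1 = v.1
  simp

section Three

variable (i0 i1 i2 : ι) (h01 : i0 ≠ i1) (h02 : i0 ≠ i2) (h12 : i1 ≠ i2)

include h01

theorem exists_to_e0 (x : NZ F ι) : ∃ g : SpecialLinearGroup ι F, g • x = stdV i0 := by
  obtain ⟨g, hg⟩ := CfsgLib.ClassGeo.exists_SL_mulVec_eq_single h01 x.1 x.2
  exact ⟨g, Subtype.ext hg⟩

theorem pretrans : MulAction.IsPretransitive (SpecialLinearGroup ι F) (NZ F ι) := by
  constructor
  intro x y
  obtain ⟨g, hg⟩ := exists_to_e0 (F := F) i0 i1 h01 x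
  obtain ⟨g', hg'⟩ := exists_to_e0 (F := F) i0 i1 h01 y
  refine ⟨g'⁻¹ * g, ?_⟩
  rw [mul_smul, hg, ← hg', inv_smul_smul]

include h02 h12

theorem pair_form (x y : NZ F ι) (hxy : ∀ c : Fˣ, y ≠ sc c x) :
    ∃ g : SpecialLinearGroup ι F, g • x = stdV i0 ∧ g • y = stdV i1 := by
  obtain ⟨g, hg⟩ := exists_to_e0 (F := F) i0 i1 h01 x
  have hy : ∃ j, j ≠ i0 ∧ (g • y).1 j ≠ 0 := by
    by_contra hcon
    push Not at hcon
    have h0 : (g • y).1 i0 ≠ 0 := by
      intro h
      apply (g • y).2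
      funext j
      by_cases hj : j = i0
      · rw [hj, h]; rfl
      · exact hcon j hj
    apply hxy (Units.mk0 _ h0)
    have h1 : g • y = sc (Units.mk0 _ h0) (g • x) := by
      apply Subtype.ext
      rw [hg]
      funext j
      show (g • y).1 j = (g • y).1 i0 * (Pi.single i0 1 : ι → F) j
      by_cases hj : j = i0
      · subst hj; simp
      · rw [hcon j hj]; simp [hj]
    rw [← smul_sc] at h1
    exact smul_left_cancel g h1
  obtain ⟨h, h1, h2⟩ := exists_move i0 i1 i2 h01 h02 h12 _ hy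
  refine ⟨h * g, ?_, ?_⟩
  · rw [mul_smul, hg]
    exact Subtype.ext h1
  · rw [mul_smul]
    exact Subtype.ext h2

end Three

section Ker

variable [Fintype F] [DecidableEq F]

noncomputable instance : Fintype (NZ F ι) := Fintype.ofFinite _

open Classical in
/-- Every commuting operator is a combination of scalars and the all-one operator. -/
theorem decomposition (i0 i1 i2 : ι) (h01 : i0 ≠ i1) (h02 : i0 ≠ i2) (h12 : i1 ≠ i2)
    (S : (NZ F ι → ℂ) →ₗ[ℂ] (NZ F ι → ℂ))
    (hS : IsComm (Cfsg.permRep ℂ (SpecialLinearGroup ι F) (NZ F ι)) S) :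
    ∃ (a : Fˣ → ℂ) (β : ℂ), S = ∑ c : Fˣ, a c • LinearMap.funLeft ℂ ℂ (sc c) + β • opOf (fun _ _ => 1) := by
  set M := LinearMap.toMatrix' S with hM
  set β := M (stdV i0) (stdV i1) with hβ
  let a : Fˣ → ℂ := fun c => M (stdV i0) (sc c (stdV i0)) - β
  have hpoint : ∀ x y : NZ F ι, M x y = β + ∑ c : Fˣ, if y = sc c x then a c else 0 := by
    intro x y
    by_cases hxy : ∃ c : Fˣ, y = sc c x
    · obtain ⟨c₀, rfl⟩ := hxy
      rw [Finset.sum_eq_single c₀]
      · rw [if_pos rfl]
        obtain ⟨g, hg⟩ := exists_to_e0 (F := F) i0 i1 h01 x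
        have h1 := ker_inv S hS g x (sc c₀ x)
        rw [smul_sc, hg] at h1
        simp only [a]
        rw [← hM] at h1
        rw [← h1]
        ring
      · intro c _ hc
        rw [if_neg]
        intro h
        exact hc (sc_inj c c₀ x h.symm)
      · simp
    · push Not at hxy
      rw [Finset.sum_eq_zero, add_zero]
      · obtain ⟨g, h1, h2⟩ := pair_form i0 i1 i2 h01 h02 h12 x y hxy
        have h3 := ker_inv S hS g x y
        rw [h1, h2] at h3
        exact h3.symm
      · intro c _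
        rw [if_neg (hxy c)]
  refine ⟨a, β, ?_⟩
  apply LinearMap.ext
  intro f
  funext x
  have h1 : S f x = ∑ y, M x y * f y := by
    conv_lhs => rw [eq_opOf S]
    rfl
  rw [h1]
  simp only [LinearMap.add_apply, LinearMap.sum_apply, LinearMap.smul_apply, Pi.add_apply, Finset.sum_apply,
    Pi.smul_apply, smul_eq_mul, opOf_apply, LinearMap.funLeft_apply, hpoint, add_mul, Finset.sum_add_distrib,
    Finset.sum_mul, one_mul]
  rw [add_comm, ← Finset.mul_sum]
  congr 1
  rw [Finset.sum_comm]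
  apply Finset.sum_congr rfl
  intro c _
  rw [Finset.sum_eq_single (sc c x)]
  · rw [if_pos rfl]
  · intro y _ hy
    rw [if_neg hy, zero_mul]
  · simp

theorem comm_all (i0 i1 i2 : ι) (h01 : i0 ≠ i1) (h02 : i0 ≠ i2) (h12 : i1 ≠ i2)
    (S T : (NZ F ι → ℂ) →ₗ[ℂ] (NZ F ι → ℂ))
    (hS : IsComm (Cfsg.permRep ℂ (SpecialLinearGroup ι F) (NZ F ι)) S)
    (hT : IsComm (Cfsg.permRep ℂ (SpecialLinearGroup ι F) (NZ F ι)) T) :
    S ∘ₗ T = T ∘ₗ S := by
  classical
  obtain ⟨a, β, rfl⟩ := decomposition i0 i1 i2 h01 h02 h12 S hS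
  obtain ⟨a', β', rfl⟩ := decomposition i0 i1 i2 h01 h02 h12 T hT
  let E : Fˣ → Module.End ℂ (NZ F ι → ℂ) := fun c => LinearMap.funLeft ℂ ℂ (sc c)
  let J : Module.End ℂ (NZ F ι → ℂ) := opOf (fun _ _ => 1)
  have hEE : ∀ c d, Commute (E c) (E d) := by
    intro c d
    apply LinearMap.ext
    intro f
    funext x
    show f (sc d (sc c x)) = f (sc c (sc d x))
    rw [sc_mul, sc_mul, mul_comm]
  have hEJ : ∀ c, Commute (E c) J := by
    intro c
    apply LinearMap.ext
    intro f
    funext x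
    show (∑ y, (1 : ℂ) * f y) = ∑ y, (1 : ℂ) * (f (sc c y))
    symm
    apply Fintype.sum_equiv
      ⟨sc c, sc c⁻¹, fun v => by simp [sc_mul, sc_one], fun v => by simp [sc_mul, sc_one]⟩
    intro y
    rfl
  have h1 : ∀ c, Commute (E c) (∑ c : Fˣ, a' c • E c + β' • J) := by
    intro c
    apply Commute.add_right
    · apply Commute.sum_right
      intro d _
      exact (hEE c d).smul_right _
    · exact (hEJ c).smul_right _
  have h2 : Commute J (∑ c : Fˣ, a' c • E c + β' • J) := by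
    apply Commute.add_right
    · apply Commute.sum_right
      intro d _
      exact ((hEJ d).symm).smul_right _
    · exact (Commute.refl J).smul_right _
  have h3 : Commute (∑ c : Fˣ, a c • E c + β • J) (∑ c : Fˣ, a' c • E c + β' • J) := by
    apply Commute.add_left
    · apply Commute.sum_left
      intro d _
      exact (h1 d).smul_left _
    · exact h2.smul_left _
  exact h3

end Ker

section Main

variable [Fintype F] [DecidableEq F]

theorem stab_fix (i0 : ι) (h : MulAction.stabilizer (SpecialLinearGroup ι F) (stdV (F := F) i0)) (c : Fˣ) :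
    h • sc c (stdV (F := F) i0) = sc c (stdV i0) := by
  show (h : SpecialLinearGroup ι F) • sc c (stdV (F := F) i0) = sc c (stdV i0)
  rw [smul_sc]
  congr 1
  exact h.2

theorem rank_eq (i0 i1 i2 : ι) (h01 : i0 ≠ i1) (h02 : i0 ≠ i2) (h12 : i1 ≠ i2) :
    Nat.card (MulAction.orbitRel.Quotient (MulAction.stabilizer (SpecialLinearGroup ι F) (stdV (F := F) i0)) (NZ F ι)) =
      Fintype.card F := by
  classical
  let H := MulAction.stabilizer (SpecialLinearGroup ι F) (stdV (F := F) i0)
  let Φ : Option Fˣ → MulAction.orbitRel.Quotient H (NZ F ι) := fun o =>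
    match o with
    | some c => Quotient.mk'' (sc c (stdV i0))
    | none => Quotient.mk'' (stdV i1)
  have hne : ∀ c : Fˣ, (stdV i1 : NZ F ι) ≠ sc c (stdV i0) := by
    intro c h
    have h1 := congrFun (congrArg Subtype.val h) i1
    have h2 : ((Pi.single i1 1 : ι → F) i1) = (c : F) * (Pi.single i0 1 : ι → F) i1 := h1
    simp [Pi.single_apply, h01.symm] at h2
  have hbij : Function.Bijective Φ := by
    constructor
    · intro o o' h
      cases o with
      | none =>
        cases o' with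
        | none => rfl
        | some d =>
          exfalso
          have h' : (stdV i1 : NZ F ι) ∈ MulAction.orbit H (sc d (stdV i0)) := Quotient.exact' h
          obtain ⟨s, hs⟩ := h'
          have h3 : s • sc d (stdV (F := F) i0) = stdV i1 := hs
          rw [stab_fix] at h3
          exact hne d h3.symm
      | some c =>
        cases o' with
        | none =>
          exfalso
          have h' : (sc c (stdV i0) : NZ F ι) ∈ MulAction.orbit H (stdV i1) := Quotient.exact' h
          obtain ⟨s, hs⟩ := h'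
          have h3 : s • (stdV i1 : NZ F ι) = sc c (stdV i0) := hs
          have h4 : s⁻¹ • (s • (stdV i1 : NZ F ι)) = s⁻¹ • sc c (stdV (F := F) i0) := by rw [h3]
          rw [inv_smul_smul, stab_fix] at h4
          exact hne c h4
        | some d =>
          have h' : (sc c (stdV i0) : NZ F ι) ∈ MulAction.orbit H (sc d (stdV i0)) := Quotient.exact' h
          obtain ⟨s, hs⟩ := h'
          have h3 : s • sc d (stdV (F := F) i0) = sc c (stdV i0) := hs
          rw [stab_fix] at h3
          rw [sc_inj d c _ h3]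
    · intro q
      induction q using Quotient.inductionOn
      rename_i v
      by_cases hv : ∃ c : Fˣ, v = sc c (stdV i0)
      · obtain ⟨c, rfl⟩ := hv
        exact ⟨some c, rfl⟩
      · push Not at hv
        refine ⟨none, ?_⟩
        obtain ⟨g, h1, h2⟩ := pair_form i0 i1 i2 h01 h02 h12 (stdV i0) v hv
        apply Quotient.sound'
        show (stdV i1 : NZ F ι) ∈ MulAction.orbit H v
        exact ⟨⟨g, h1⟩, h2⟩
  rw [← Nat.card_eq_of_bijective Φ hbij, Finite.card_option, Nat.card_eq_fintype_card, Fintype.card_units]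
  have : 0 < Fintype.card F := Fintype.card_pos
  omega

theorem main_2336 (n : ℕ) (hn : 3 ≤ n) :
    ∃ χ : Fin (Fintype.card F - 1) → (Matrix.SpecialLinearGroup (Fin n) F → ℂ),
      (∀ i, Cfsg.IsIrrCharacter (Matrix.SpecialLinearGroup (Fin n) F) (χ i)) ∧ Function.Injective χ ∧
      ∀ g : Matrix.SpecialLinearGroup (Fin n) F,
        (Nat.card {v : Fin n → F // v ≠ 0 ∧ (g : Matrix (Fin n) (Fin n) F).mulVec v = v} : ℂ) = 1 + ∑ i, χ i g := by
  classical
  let i0 : Fin n := ⟨0, by omega⟩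
  let i1 : Fin n := ⟨1, by omega⟩
  let i2 : Fin n := ⟨2, by omega⟩
  have h01 : i0 ≠ i1 := by simp [i0, i1, Fin.ext_iff]
  have h02 : i0 ≠ i2 := by simp [i0, i2, Fin.ext_iff]
  have h12 : i1 ≠ i2 := by simp [i1, i2, Fin.ext_iff]
  haveI hpre := pretrans (F := F) i0 i1 h01
  haveI : Nonempty (NZ F (Fin n)) := ⟨stdV i0⟩
  have hfree := (main_0718 (G := Matrix.SpecialLinearGroup (Fin n) F) (Ω := NZ F (Fin n))).mpr
    (fun S T hS hT => comm_all i0 i1 i2 h01 h02 h12 S T ((isComm_iff S).mp hS) ((isComm_iff T).mp hT))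
  have hm : ∀ ψ : IrrCharacter (Matrix.SpecialLinearGroup (Fin n) F),
      mult (Matrix.SpecialLinearGroup (Fin n) F) (NZ F (Fin n)) ψ = 0 ∨
      mult (Matrix.SpecialLinearGroup (Fin n) F) (NZ F (Fin n)) ψ = 1 := by
    intro ψ
    have h1 := hfree ψ.1 ψ.2
    have h2 := mult_spec (G := Matrix.SpecialLinearGroup (Fin n) F) (Ω := NZ F (Fin n)) ψ
    change classInner (pi _ _) _ = 0 ∨ classInner (pi _ _) _ = 1 at h1
    rw [h2] at h1
    rcases h1 with h1 | h1
    · left; exact_mod_cast h1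
    · right; exact_mod_cast h1
  set m := mult (Matrix.SpecialLinearGroup (Fin n) F) (NZ F (Fin n)) with hmdef
  let ψ₀ := psi0 (Matrix.SpecialLinearGroup (Fin n) F)
  let C : Finset (IrrCharacter (Matrix.SpecialLinearGroup (Fin n) F)) := (Finset.univ.erase ψ₀).filter (fun ψ => m ψ = 1)
  have hm0 : m ψ₀ = 1 := mult_psi0
  have hC : C.card + 1 = Fintype.card F := by
    have h1 := sum_mult_sq (G := Matrix.SpecialLinearGroup (Fin n) F) (Ω := NZ F (Fin n)) (stdV i0)
    rw [rank_eq i0 i1 i2 h01 h02 h12, ← Finset.add_sum_erase _ _ (Finset.mem_univ ψ₀)] at h1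
    rw [← hmdef, hm0] at h1
    have h2 : ∑ ψ ∈ Finset.univ.erase ψ₀, m ψ ^ 2 = C.card := by
      rw [Finset.card_filter]
      apply Finset.sum_congr rfl
      intro ψ _
      rcases hm ψ with h | h <;> simp [h]
    rw [h2] at h1
    omega
  have hπ : ∀ g : Matrix.SpecialLinearGroup (Fin n) F, pi _ (NZ F (Fin n)) g = 1 + ∑ ψ ∈ C, (ψ : Matrix.SpecialLinearGroup (Fin n) F → ℂ) g := by
    intro g
    rw [pi_apply_sum, ← Finset.add_sum_erase _ _ (Finset.mem_univ ψ₀), ← hmdef, hm0, Finset.sum_filter]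
    congr 1
    · simp [ψ₀, psi0]
    · apply Finset.sum_congr rfl
      intro ψ _
      rcases hm ψ with h | h <;> simp [h]
  have hcard : C.card = Fintype.card F - 1 := by omega
  let e := Finset.equivFinOfCardEq hcard
  refine ⟨fun i => ((e.symm i).1 : Matrix.SpecialLinearGroup (Fin n) F → ℂ), fun i => (e.symm i).1.2, ?_, ?_⟩
  · intro i j hij
    apply e.symm.injective
    apply Subtype.ext
    apply Subtype.ext
    exact hij
  · intro g
    have h1 : (Nat.card {v : Fin n → F // v ≠ 0 ∧ (g : Matrix (Fin n) (Fin n) F).mulVec v = v} : ℂ) = pi _ (NZ F (Fin n)) g := by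
      unfold pi
      congr 1
      apply Nat.card_congr
      exact
        { toFun := fun y => ⟨⟨y.1, y.2.1⟩, Subtype.ext y.2.2⟩
          invFun := fun x => ⟨x.1.1, x.1.2, congrArg Subtype.val x.2⟩
          left_inv := fun y => rfl
          right_inv := fun x => rfl }
    rw [h1, hπ]
    congr 1
    rw [← Finset.sum_coe_sort C, ← Equiv.sum_comp e.symm]

end Main

end CfsgLib.H9.PermSL
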