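import Mathlib
import Cfsg.Agent.Lib.H9.USpec2
import Cfsg.Agent.Lib.H9.QdSection

/-! `PSU₃(q)` does not involve `Qd(p)`: normalizers of nontrivial `p`-subgroups fix an isotropic
line, and so have their `p`-elements in a subgroup. -/

set_option autoImplicit false
set_option linter.unusedVariables false
set_option linter.unusedSectionVars false
set_option linter.unusedSimpArgs false
set_option linter.style.haveILetI false

namespace CfsgLib.H9.QdU

open Matrix Cfsg CfsgLib.ClassGeo CfsgLib.H9.USpec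

variable {K : Type*} [Field K] [Fintype K] {q : ℕ}

theorem H_symm (hF : Fintype.card K = q ^ 2) (u v : Fin 3 → K) :
    (hermForm 3 K q u v) ^ q = hermForm 3 K q v u := by
  rw [← qFrob_apply hF]
  simp only [hermForm, map_sum, map_mul]
  apply Finset.sum_congr rfl
  intro i _
  rw [← qFrob_apply hF (v i), qFrob_qFrob, qFrob_apply, mul_comm]

theorem q_pos (hF : Fintype.card K = q ^ 2) : q ≠ 0 := by
  rintro rfl
  have : 1 < Fintype.card K := Fintype.one_lt_card
  rw [hF] at this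
  simp at this

theorem H_sep (hF : Fintype.card K = q ^ 2) (u : Fin 3 → K) (h : ∀ v, hermForm 3 K q u v = 0) : u = 0 := by
  funext i
  have h1 := h (Pi.single i 1)
  have hq := q_pos hF
  simp only [hermForm] at h1
  rw [Finset.sum_eq_single i] at h1
  · simpa [hq] using h1
  · intro j _ hj
    simp [Pi.single_eq_of_ne hj, hq]
  · simp

/-- the linear functional `v ↦ H(v,u)`. -/
noncomputable def phi (q : ℕ) (u : Fin 3 → K) : (Fin 3 → K) →ₗ[K] K where
  toFun v := hermForm 3 K q v u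
  map_add' x y := by simp [hermForm, add_mul, Finset.sum_add_distrib]
  map_smul' c x := by simp [hermForm, mul_assoc, Finset.mul_sum]

@[simp] theorem phi_apply (u v : Fin 3 → K) : phi q u v = hermForm 3 K q v u := rfl

theorem exists_phi_ne (hF : Fintype.card K = q ^ 2) (u : Fin 3 → K) (hu : u ≠ 0) :
    ∃ z, hermForm 3 K q z u ≠ 0 := by
  by_contra h
  push Not at h
  apply hu
  apply H_sep hF
  intro v
  rw [← H_symm hF, h v]
  simp [q_pos hF]

/-- two orthogonal isotropic vectors are dependent. -/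
theorem gram (hF : Fintype.card K = q ^ 2) (u u' : Fin 3 → K) (hu : u ≠ 0)
    (h1 : hermForm 3 K q u u = 0) (h2 : hermForm 3 K q u u' = 0) (h3 : hermForm 3 K q u' u = 0)
    (h4 : hermForm 3 K q u' u' = 0) : ∃ c : K, u' = c • u := by
  classical
  by_contra hc
  push Not at hc
  obtain ⟨z, hz⟩ := exists_phi_ne hF u hu
  let A : Matrix (Fin 3) (Fin 3) K := Matrix.of ![u, u', z]
  have hG : A * (A.map (qFrob hF))ᵀ = Matrix.of (fun i j => hermForm 3 K q (A i) (A j)) := by
    ext i j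
    simp only [Matrix.mul_apply, Matrix.transpose_apply, Matrix.map_apply, qFrob_apply, hermForm,
      Matrix.of_apply]
  have hdet : (Matrix.of (fun i j => hermForm 3 K q (A i) (A j))).det = 0 := by
    rw [Matrix.det_fin_three]
    have e0 : A 0 = u := rfl
    have e1 : A 1 = u' := rfl
    simp only [Matrix.of_apply, e0, e1, h1, h2, h3, h4]
    ring
  rw [← hG, Matrix.det_mul, Matrix.det_transpose] at hdet
  have hA : A.det = 0 := by
    rcases mul_eq_zero.1 hdet with h | h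
    · exact h
    · have h5 : qFrob hF A.det = 0 := by
        rw [RingHom.map_det]
        exact h
      have := congrArg (qFrob hF) h5
      rwa [qFrob_qFrob, map_zero] at this
  obtain ⟨c, hc0, hcA⟩ := Matrix.exists_vecMul_eq_zero_iff.2 hA
  have hcomb : ∀ j, c 0 * u j + c 1 * u' j + c 2 * z j = 0 := by
    intro j
    have := congrFun hcA j
    simp only [Matrix.vecMul, dotProduct, Fin.sum_univ_three] at this
    simpa [A] using this
  have hcomb' : c 0 • u + c 1 • u' + c 2 • z = 0 := by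
    funext j
    simpa using hcomb j
  have h6 := congrArg (phi q u) hcomb'
  simp only [map_add, map_smul, phi_apply, smul_eq_mul, h1, h3, map_zero, mul_zero, zero_add] at h6
  have hc2 : c 2 = 0 := (mul_eq_zero.1 h6).resolve_right hz
  rw [hc2, zero_smul, add_zero] at hcomb'
  by_cases hc1 : c 1 = 0
  · rw [hc1, zero_smul, add_zero] at hcomb'
    have hc00 : c 0 = 0 := (smul_eq_zero.1 hcomb').resolve_right hu
    apply hc0
    funext i
    fin_cases i
    · exact hc00
    · exact hc1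
    · exact hc2
  · apply hc (-(c 1)⁻¹ * c 0)
    have h7 : c 1 • u' = -(c 0 • u) := eq_neg_of_add_eq_zero_right hcomb'
    calc u' = (c 1)⁻¹ • (c 1 • u') := by rw [smul_smul, inv_mul_cancel₀ hc1, one_smul]
      _ = _ := by rw [h7, smul_neg, smul_smul]; simp [neg_smul]

/-- a vector in `u^⊥` not on the line `Ku`. -/
theorem exists_w (hF : Fintype.card K = q ^ 2) (u : Fin 3 → K) :
    ∃ w, hermForm 3 K q w u = 0 ∧ ∀ c : K, w ≠ c • u := by
  classical
  by_contra h
  push Not at h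
  have h1 : LinearMap.ker (phi q u) ≤ Submodule.span K {u} := by
    intro w hw
    obtain ⟨c, rfl⟩ := h w hw
    exact Submodule.smul_mem _ _ (Submodule.mem_span_singleton_self u)
  have h2 := Submodule.finrank_mono h1
  have h3 := LinearMap.finrank_range_add_finrank_ker (phi q u)
  have h4 : Module.finrank K (Submodule.span K {u}) ≤ 1 :=
    (finrank_span_le_card ({u} : Set (Fin 3 → K))).trans (by simp)
  have h5 : Module.finrank K (LinearMap.range (phi q u)) ≤ 1 := by
    calc _ ≤ Module.finrank K K := Submodule.finrank_le _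
      _ = 1 := Module.finrank_self K
  have h6 : Module.finrank K (Fin 3 → K) = 3 := by simp
  omega

/-- powers of unitriangular matrices. -/
theorem unitri_pow (p : ℕ) [Fact p.Prime] [CharP K p] (hp : 3 ≤ p) (M : Matrix (Fin 3) (Fin 3) K)
    (a1 : M 1 0 = 0) (a2 : M 2 0 = 0) (a3 : M 2 1 = 0) (a4 : M 0 0 = 1) (a5 : M 1 1 = 1) (a6 : M 2 2 = 1) :
    M ^ p = 1 := by
  set N : Matrix (Fin 3) (Fin 3) K := M - 1 with hN
  have hGN : M = N + 1 := by rw [hN]; abel
  have h3 : N ^ 3 = 0 := by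
    have e10 : N 1 0 = 0 := by simp [hN, a1]
    have e20 : N 2 0 = 0 := by simp [hN, a2]
    have e21 : N 2 1 = 0 := by simp [hN, a3]
    have e00 : N 0 0 = 0 := by simp [hN, a4]
    have e11 : N 1 1 = 0 := by simp [hN, a5]
    have e22 : N 2 2 = 0 := by simp [hN, a6]
    rw [pow_succ, pow_two]
    ext i j
    fin_cases i <;> fin_cases j <;> simp [Matrix.mul_apply, Fin.sum_univ_three, e10, e20, e21, e00, e11, e22]
  have hNp : N ^ p = 0 := by
    have h4 : N ^ p = N ^ (p - 3) * N ^ 3 := by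
      rw [← pow_add, Nat.sub_add_cancel hp]
    rw [h4, h3, mul_zero]
  haveI : CharP (Matrix (Fin 3) (Fin 3) K) p := inferInstance
  rw [hGN]
  have := add_pow_char_of_commute (R := Matrix (Fin 3) (Fin 3) K) p (Commute.one_right N)
  rw [this, hNp]
  simp

/-- an element of `SU₃` fixing an isotropic vector has `p`-power order dividing `p`. -/
theorem stab_pow (p : ℕ) [Fact p.Prime] [CharP K p] (hp : 3 ≤ p) (hF : Fintype.card K = q ^ 2)
    (g : ↥(SU 3 K q)) (u : Fin 3 → K) (hu : u ≠ 0) (huu : hermForm 3 K q u u = 0)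
    (hg : mat g *ᵥ u = u) : mat g ^ p = 1 := by
  classical
  have hpres : ∀ x y, hermForm 3 K q (mat g *ᵥ x) (mat g *ᵥ y) = hermForm 3 K q x y := g.2
  have hphi : ∀ x, hermForm 3 K q (mat g *ᵥ x) u = hermForm 3 K q x u := by
    intro x
    have := hpres x u
    rwa [hg] at this
  obtain ⟨z, hz⟩ := exists_phi_ne hF u hu
  obtain ⟨w, hw, hwc⟩ := exists_w hF u
  -- the change of basis matrix
  let P : Matrix (Fin 3) (Fin 3) K := (Matrix.of ![u, w, z])ᵀ
  have hPmul : ∀ x : Fin 3 → K, P *ᵥ x = x 0 • u + x 1 • w + x 2 • z := by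
    intro x
    funext j
    simp [P, Matrix.mulVec, dotProduct, Fin.sum_univ_three, mul_comm]
  have hcoord : ∀ x : Fin 3 → K, hermForm 3 K q (P *ᵥ x) u = x 2 * hermForm 3 K q z u := by
    intro x
    rw [hPmul, ← phi_apply]
    simp only [map_add, map_smul, phi_apply, smul_eq_mul, huu, hw]
    ring
  have hPdet : P.det ≠ 0 := by
    intro h
    obtain ⟨c, hc0, hcP⟩ := Matrix.exists_mulVec_eq_zero_iff.2 h
    have h2 := hcoord c
    rw [hcP] at h2
    have h3 : hermForm 3 K q 0 u = 0 := by simp [hermForm]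
    rw [h3] at h2
    have hc2 : c 2 = 0 := (mul_eq_zero.1 h2.symm).resolve_right hz
    have h4 := hPmul c
    rw [hcP, hc2, zero_smul, add_zero] at h4
    have h5 : c 0 • u + c 1 • w = 0 := h4.symm
    by_cases hc1 : c 1 = 0
    · rw [hc1, zero_smul, add_zero] at h5
      have hc00 : c 0 = 0 := (smul_eq_zero.1 h5).resolve_right hu
      apply hc0
      funext i
      fin_cases i
      · exact hc00
      · exact hc1
      · exact hc2
    · apply hwc (-(c 1)⁻¹ * c 0)
      have h7 : c 1 • w = -(c 0 • u) := eq_neg_of_add_eq_zero_right h5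
      calc w = (c 1)⁻¹ • (c 1 • w) := by rw [smul_smul, inv_mul_cancel₀ hc1, one_smul]
        _ = _ := by rw [h7, smul_neg, smul_smul]; simp [neg_smul]
  have hPu : IsUnit P.det := isUnit_iff_ne_zero.2 hPdet
  have hPi : P⁻¹ * P = 1 := Matrix.nonsing_inv_mul P hPu
  have hPi' : P * P⁻¹ = 1 := Matrix.mul_nonsing_inv P hPu
  set M : Matrix (Fin 3) (Fin 3) K := P⁻¹ * mat g * P with hM
  have hPM : P * M = mat g * P := by
    rw [hM, ← mul_assoc, ← mul_assoc, hPi', one_mul]
  have hcol0 : P *ᵥ (Pi.single 0 1) = u := by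
    rw [hPmul]; simp
  -- first column of `M`
  have hMcol : M *ᵥ (Pi.single 0 1) = Pi.single 0 1 := by
    have h1 : P *ᵥ (M *ᵥ Pi.single 0 1) = P *ᵥ (Pi.single 0 1) := by
      rw [Matrix.mulVec_mulVec, hPM, ← Matrix.mulVec_mulVec, hcol0, hg]
    have hinj : ∀ x : Fin 3 → K, P⁻¹ *ᵥ (P *ᵥ x) = x := by
      intro x
      rw [Matrix.mulVec_mulVec, hPi, Matrix.one_mulVec]
    rw [← hinj (M *ᵥ Pi.single 0 1), h1, hinj]
  have a10 : M 1 0 = 0 := by
    have := congrFun hMcol 1
    simpa [Matrix.mulVec_single_one] using this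
  have a20 : M 2 0 = 0 := by
    have := congrFun hMcol 2
    simpa [Matrix.mulVec_single_one] using this
  have a00 : M 0 0 = 1 := by
    have := congrFun hMcol 0
    simpa [Matrix.mulVec_single_one] using this
  -- last row of `M`
  have hrow : ∀ x : Fin 3 → K, (M *ᵥ x) 2 = x 2 := by
    intro x
    have h1 := hcoord (M *ᵥ x)
    rw [Matrix.mulVec_mulVec, hPM, ← Matrix.mulVec_mulVec, hphi, hcoord] at h1
    exact (mul_right_cancel₀ hz h1).symm
  have a21 : M 2 1 = 0 := by
    have := hrow (Pi.single 1 1)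
    simpa [Matrix.mulVec_single_one] using this
  have a22 : M 2 2 = 1 := by
    have := hrow (Pi.single 2 1)
    simpa [Matrix.mulVec_single_one] using this
  have hdetM : M.det = 1 := by
    rw [hM, Matrix.det_mul, Matrix.det_mul, mat_det, mul_one, ← Matrix.det_mul, hPi, Matrix.det_one]
  have a11 : M 1 1 = 1 := by
    rw [Matrix.det_fin_three, a10, a20, a21, a00, a22] at hdetM
    simpa using hdetM
  have hMp := unitri_pow p hp M a10 a20 a21 a00 a11 a22
  have hgP : mat g = P * M * P⁻¹ := by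
    rw [hPM, mul_assoc, hPi', mul_one]
  have hpw : ∀ k : ℕ, (P * M * P⁻¹) ^ k = P * M ^ k * P⁻¹ := by
    intro k
    induction k with
    | zero => simp [hPi']
    | succ k ih =>
      rw [pow_succ, ih, pow_succ]
      calc P * M ^ k * P⁻¹ * (P * M * P⁻¹) = P * M ^ k * (P⁻¹ * P) * M * P⁻¹ := by
            simp only [mul_assoc]
        _ = _ := by rw [hPi, mul_one]; simp only [mul_assoc]
  rw [hgP, hpw, hMp, mul_one, hPi']


/-- fixed vectors of `p`-subgroups on stable subspaces. -/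
theorem exists_fixed (p : ℕ) [Fact p.Prime] [CharP K p] (Q : Subgroup ↥(SU 3 K q)) (hQ : IsPGroup p Q)
    (X : Submodule K (Fin 3 → K)) (hX : X ≠ ⊥) (hst : ∀ h ∈ Q, ∀ x ∈ X, mat h *ᵥ x ∈ X) :
    ∃ x ∈ X, x ≠ 0 ∧ ∀ h ∈ Q, mat h *ᵥ x = x := by
  classical
  let T := {v : X // v ≠ 0}
  letI act : MulAction Q T :=
    { smul := fun h v => ⟨⟨mat (h : ↥(SU 3 K q)) *ᵥ v.1.1, hst _ h.2 _ v.1.2⟩, fun h0 => v.2 (by
        have h1 : mat (h : ↥(SU 3 K q)) *ᵥ v.1.1 = 0 := congrArg Subtype.val h0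
        have h2 : mat ((h : ↥(SU 3 K q))⁻¹) *ᵥ (mat (h : ↥(SU 3 K q)) *ᵥ v.1.1) = 0 := by
          rw [h1, Matrix.mulVec_zero]
        rw [Matrix.mulVec_mulVec] at h2
        have h3 : mat ((h : ↥(SU 3 K q))⁻¹) * mat (h : ↥(SU 3 K q)) = 1 := by
          change mat ((h : ↥(SU 3 K q))⁻¹ * (h : ↥(SU 3 K q))) = 1
          rw [inv_mul_cancel]
          rfl
        rw [h3, Matrix.one_mulVec] at h2
        exact Subtype.ext h2)⟩
      one_smul := fun v => Subtype.ext (Subtype.ext (by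
        change mat ((1 : Q) : ↥(SU 3 K q)) *ᵥ v.1.1 = v.1.1
        have : mat ((1 : Q) : ↥(SU 3 K q)) = 1 := rfl
        rw [this, Matrix.one_mulVec]))
      mul_smul := fun a b v => Subtype.ext (Subtype.ext (by
        change mat ((a * b : Q) : ↥(SU 3 K q)) *ᵥ v.1.1 = mat (a : ↥(SU 3 K q)) *ᵥ (mat (b : ↥(SU 3 K q)) *ᵥ v.1.1)
        rw [Matrix.mulVec_mulVec]
        rfl)) }
  -- the order
  obtain ⟨x0, hx0, hx0'⟩ := Submodule.exists_mem_ne_zero_of_ne_bot hX
  have hpX : p ∣ Nat.card X := by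
    have h1 : addOrderOf (⟨x0, hx0⟩ : X) = p := by
      apply addOrderOf_eq_prime
      · apply Subtype.ext
        funext i
        change p • x0 i = 0
        rw [nsmul_eq_mul, CharP.cast_eq_zero K p, zero_mul]
      · intro h
        exact hx0' (congrArg Subtype.val h)
    rw [← h1]
    exact addOrderOf_dvd_natCard _
  have hT : Nat.card T + 1 = Nat.card X := by
    rw [Nat.card_eq_fintype_card, Nat.card_eq_fintype_card]
    have h2 := Fintype.card_subtype_compl (fun v : X => v = 0)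
    have h3 : Fintype.card {v : X // v = 0} = 1 := Fintype.card_subtype_eq _
    have h5 : Fintype.card X ≥ 1 := Fintype.card_pos
    have h6 : Fintype.card T = Fintype.card X - 1 := by
      rw [← h3, ← h2]
    omega
  have hndvd : ¬ p ∣ Nat.card T := by
    intro hd
    have h2 : p ∣ Nat.card T + 1 := by rw [hT]; exact hpX
    have h3 : p ∣ 1 := (Nat.dvd_add_right hd).mp h2
    exact (Fact.out : p.Prime).one_lt.ne' (Nat.dvd_one.mp h3)
  obtain ⟨v, hv⟩ := hQ.nonempty_fixed_point_of_prime_not_dvd_card T hndvd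
  refine ⟨v.1.1, v.1.2, fun h => v.2 (Subtype.ext h), fun h hh => ?_⟩
  have h1 : (⟨h, hh⟩ : Q) • v = v := hv ⟨h, hh⟩
  exact congrArg (fun w : T => w.1.1) h1

/-- The normalizer of a nontrivial `p`-subgroup fixes an isotropic line. -/
theorem exists_line (p : ℕ) [Fact p.Prime] [CharP K p] (hF : Fintype.card K = q ^ 2)
    (Q : Subgroup ↥(SU 3 K q)) (hQ : IsPGroup p Q) (hne : Q ≠ ⊥) :
    ∃ u : Fin 3 → K, u ≠ 0 ∧ hermForm 3 K q u u = 0 ∧
      ∀ g ∈ Subgroup.normalizer (Q : Set ↥(SU 3 K q)), ∃ c : K, mat g *ᵥ u = c • u := by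
  classical
  have hq := q_pos hF
  have hinvact : ∀ (g : ↥(SU 3 K q)) (x : Fin 3 → K), mat g⁻¹ *ᵥ (mat g *ᵥ x) = x := by
    intro g x
    rw [Matrix.mulVec_mulVec]
    have h3 : mat g⁻¹ * mat g = 1 := by
      change mat (g⁻¹ * g) = 1
      rw [inv_mul_cancel]
      rfl
    rw [h3, Matrix.one_mulVec]
  have hinvact' : ∀ (g : ↥(SU 3 K q)) (x : Fin 3 → K), mat g *ᵥ (mat g⁻¹ *ᵥ x) = x := by
    intro g x
    have := hinvact g⁻¹ x
    rwa [inv_inv] at this
  have hpres : ∀ (g : ↥(SU 3 K q)) x y, hermForm 3 K q (mat g *ᵥ x) (mat g *ᵥ y) = hermForm 3 K q x y :=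
    fun g => g.2
  let W : Submodule K (Fin 3 → K) :=
    { carrier := {v | ∀ h ∈ Q, mat h *ᵥ v = v}
      add_mem' := fun {a b} ha hb h hh => by rw [Matrix.mulVec_add, ha h hh, hb h hh]
      zero_mem' := fun h hh => Matrix.mulVec_zero _
      smul_mem' := fun c x hx h hh => by rw [Matrix.mulVec_smul, hx h hh] }
  let Wp : Submodule K (Fin 3 → K) :=
    { carrier := {v | ∀ w ∈ W, hermForm 3 K q v w = 0}
      add_mem' := fun {a b} ha hb w hw => by
        have := map_add (phi q w) a b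
        simp only [phi_apply] at this
        rw [this, ha w hw, hb w hw, add_zero]
      zero_mem' := fun w hw => by simp [hermForm]
      smul_mem' := fun c x hx w hw => by
        have := map_smul (phi q w) c x
        simp only [phi_apply] at this
        rw [this, hx w hw, smul_zero] }
  -- `W ≠ ⊤`
  have hWtop : W < ⊤ := by
    rw [lt_top_iff_ne_top]
    intro htop
    apply hne
    rw [eq_bot_iff]
    intro h hh
    rw [Subgroup.mem_bot]
    have h1 : ∀ v, mat h *ᵥ v = v := fun v => by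
      have : v ∈ W := by rw [htop]; trivial
      exact this h hh
    apply Subtype.ext
    apply Matrix.SpecialLinearGroup.ext
    intro i j
    have := congrFun (h1 (Pi.single j 1)) i
    simpa [Matrix.mulVec_single_one, Matrix.one_apply, Pi.single_apply, eq_comm] using this
  -- `W^⊥ ≠ 0`
  have hWp : Wp ≠ ⊥ := by
    obtain ⟨f, hf, hfW⟩ := Submodule.exists_le_ker_of_lt_top W hWtop
    let v0 : Fin 3 → K := fun i => (f (Pi.single i 1)) ^ q
    have hv0 : ∀ w, hermForm 3 K q w v0 = f w := by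
      intro w
      simp only [hermForm, v0]
      have hfw : f w = ∑ i, w i * f (Pi.single i 1) := by
        conv_lhs => rw [← LinearMap.sum_single_apply (fun _ : Fin 3 => K) w] 
        rw [map_sum]
        apply Finset.sum_congr rfl
        intro i _
        have e : (Pi.single i (w i) : Fin 3 → K) = w i • Pi.single i 1 := by
          rw [← Pi.single_smul]; simp
        rw [e, map_smul, smul_eq_mul]
      rw [hfw]
      apply Finset.sum_congr rfl
      intro i _
      rw [← qFrob_apply hF, ← qFrob_apply hF, qFrob_qFrob]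
    have hv0ne : v0 ≠ 0 := by
      intro h0
      apply hf
      ext i
      have h1 := congrFun h0 i
      simp only [v0, Pi.zero_apply] at h1
      simpa using pow_eq_zero_iff hq |>.1 h1
    intro hbot
    have hmem : v0 ∈ Wp := by
      intro w hw
      rw [← H_symm hF, hv0, LinearMap.mem_ker.1 (hfW hw)]
      simp [hq]
    rw [hbot] at hmem
    exact hv0ne ((Submodule.mem_bot K).1 hmem)
  have hWpst : ∀ h ∈ Q, ∀ x ∈ Wp, mat h *ᵥ x ∈ Wp := by
    intro h hh x hx w hw
    have h1 := hpres h x w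
    rw [hw h hh] at h1
    rw [h1]
    exact hx w hw
  obtain ⟨u, huWp, hu0, huW⟩ := exists_fixed p Q hQ Wp hWp hWpst
  have huW' : u ∈ W := huW
  refine ⟨u, hu0, huWp u huW', ?_⟩
  intro g hg
  have hgW : ∀ (g : ↥(SU 3 K q)), g ∈ Subgroup.normalizer (Q : Set ↥(SU 3 K q)) → ∀ x ∈ W, mat g *ᵥ x ∈ W := by
    intro g hg x hx h hh
    have h2 : g⁻¹ * h * g ∈ Q := by
      have := (Subgroup.mem_normalizer_iff.1 (Subgroup.inv_mem _ hg) h).1 hh
      simpa [mul_assoc] using this
    have h3 : mat (g⁻¹ * h * g) *ᵥ x = x := hx _ h2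
    have h4 : mat h *ᵥ (mat g *ᵥ x) = mat g *ᵥ (mat (g⁻¹ * h * g) *ᵥ x) := by
      have : mat (g⁻¹ * h * g) = mat g⁻¹ * mat h * mat g := rfl
      rw [this, ← Matrix.mulVec_mulVec, ← Matrix.mulVec_mulVec, hinvact']
    rw [h4, h3]
  have hgWp : mat g *ᵥ u ∈ Wp := by
    intro w hw
    have h1 := hpres g u (mat g⁻¹ *ᵥ w)
    rw [hinvact'] at h1
    rw [h1]
    exact huWp _ (hgW g⁻¹ (Subgroup.inv_mem _ hg) w hw)
  have hgWW : mat g *ᵥ u ∈ W := hgW g hg u huW'
  exact gram hF u (mat g *ᵥ u) hu0 (huWp u huW') (huWp _ hgWW) (hgWp u huW') (hgWp _ hgWW)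

/-- `p`-elements of normalizers of nontrivial `p`-subgroups multiply to `p`-elements. -/
theorem core (p : ℕ) [Fact p.Prime] [CharP K p] (hp : 3 ≤ p) (hF : Fintype.card K = q ^ 2)
    (Q : Subgroup ↥(SU 3 K q)) (hQ : IsPGroup p Q) (hne : Q ≠ ⊥)
    (x y : ↥(SU 3 K q)) (hx : x ∈ Subgroup.normalizer (Q : Set ↥(SU 3 K q)))
    (hy : y ∈ Subgroup.normalizer (Q : Set ↥(SU 3 K q)))
    (a b : ℕ) (hxa : x ^ (p ^ a) = 1) (hyb : y ^ (p ^ b) = 1) : (x * y) ^ p = 1 := by
  obtain ⟨u, hu, huu, hline⟩ := exists_line p hF Q hQ hne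
  have key : ∀ (z : ↥(SU 3 K q)), z ∈ Subgroup.normalizer (Q : Set ↥(SU 3 K q)) → ∀ a : ℕ, z ^ (p ^ a) = 1 →
      mat z *ᵥ u = u := by
    intro z hz a hza
    obtain ⟨c, hc⟩ := hline z hz
    have h1 : ∀ k : ℕ, mat z ^ k *ᵥ u = c ^ k • u := by
      intro k
      induction k with
      | zero => simp
      | succ k ih =>
        rw [pow_succ, ← Matrix.mulVec_mulVec, hc, Matrix.mulVec_smul, ih, smul_smul, pow_succ, mul_comm]
    have h2 : mat z ^ (p ^ a) = 1 := by
      rw [← mat_pow, hza]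
      rfl
    have h3 := h1 (p ^ a)
    rw [h2, Matrix.one_mulVec] at h3
    have h4 : c ^ (p ^ a) = 1 := by
      obtain ⟨i, hi⟩ := Function.ne_iff.1 hu
      have := congrFun h3 i
      simp only [Pi.smul_apply, smul_eq_mul] at this
      have h5 : (c ^ (p ^ a) - 1) * u i = 0 := by
        rw [sub_mul, one_mul, ← this, sub_self]
      have h6 := (mul_eq_zero.1 h5).resolve_right hi
      exact sub_eq_zero.1 h6
    have h5 : c = 1 := by
      have h6 : (c - 1) ^ (p ^ a) = 0 := by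
        rw [sub_pow_char_pow, h4, one_pow, sub_self]
      exact sub_eq_zero.1 (pow_eq_zero_iff (pow_ne_zero _ (Fact.out : p.Prime).ne_zero) |>.1 h6)
    rw [hc, h5, one_smul]
  have hxy : mat (x * y) *ᵥ u = u := by
    have : mat (x * y) = mat x * mat y := rfl
    rw [this, ← Matrix.mulVec_mulVec, key y hy b hyb, key x hx a hxa]
  have h := stab_pow p hp hF (x * y) u hu huu hxy
  apply Subtype.ext
  apply Matrix.SpecialLinearGroup.ext
  intro i j
  have h2 : mat ((x * y) ^ p) = 1 := by rw [mat_pow, h]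
  exact congrFun (congrFun h2 i) j

end CfsgLib.H9.QdU

namespace CfsgLib.H9.QdU

open Matrix Cfsg CfsgLib.ClassGeo CfsgLib.H9.USpec

/-- `p`-elements. -/
def PEl (p : ℕ) {G : Type*} [Monoid G] (x : G) : Prop := ∃ k : ℕ, x ^ (p ^ k) = 1

theorem lift_pel {p : ℕ} [Fact p.Prime] {A B : Type*} [Group A] [Finite A] [Group B] (f : A →* B)
    (hf : Function.Surjective f) (b : B) (hb : PEl p b) : ∃ a, PEl p a ∧ f a = b := by
  haveI : Finite B := Finite.of_surjective f hf
  obtain ⟨k, hk⟩ := hb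
  have hZ : IsPGroup p (Subgroup.zpowers b) := by
    rintro ⟨g, hg⟩
    obtain ⟨m, rfl⟩ := Subgroup.mem_zpowers_iff.1 hg
    refine ⟨k, Subtype.ext ?_⟩
    simp only [SubmonoidClass.coe_pow, Subgroup.coe_one]
    rw [← zpow_natCast, ← _root_.zpow_mul, mul_comm, _root_.zpow_mul, zpow_natCast, hk, _root_.one_zpow]
  obtain ⟨Q, hQ⟩ := hZ.exists_le_sylow
  obtain ⟨P, rfl⟩ := Sylow.mapSurjective_surjective hf p Q
  have hb' : b ∈ ((P.mapSurjective hf : Sylow p B) : Subgroup B) := hQ (Subgroup.mem_zpowers b)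
  rw [Sylow.coe_mapSurjective] at hb'
  obtain ⟨x, hx, rfl⟩ := hb'
  obtain ⟨j, hj⟩ := P.2 ⟨x, hx⟩
  refine ⟨x, ⟨j, ?_⟩, rfl⟩
  exact congrArg Subtype.val hj

theorem frattini_lift {p : ℕ} [Fact p.Prime] {Y H : Type*} [Group Y] [Finite Y] [Group H] (ρ : Y →* H)
    (hρ : Function.Surjective ρ) (V : Subgroup H) [V.Normal] (hV : IsPGroup p V) (hne : V ≠ ⊥) :
    ∃ Q : Subgroup Y, IsPGroup p Q ∧ Q ≠ ⊥ ∧
      ∀ h : H, ∃ n ∈ Subgroup.normalizer (Q : Set Y), ρ n = h := by
  classical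
  haveI : Finite H := Finite.of_surjective ρ hρ
  let N : Subgroup Y := V.comap ρ
  haveI : N.Normal := inferInstance
  obtain ⟨P⟩ : Nonempty (Sylow p N) := inferInstance
  let f : N →* V := ρ.subgroupComap V
  have hf : Function.Surjective f := ρ.subgroupComap_surjective_of_surjective V hρ
  have htop : ((P.mapSurjective hf : Sylow p V) : Subgroup V) = ⊤ := by
    symm
    apply Sylow.is_maximal' _ _ le_top
    rintro ⟨g, _⟩
    obtain ⟨k, hk⟩ := hV g
    exact ⟨k, Subtype.ext (by simpa using hk)⟩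
  rw [Sylow.coe_mapSurjective] at htop
  have hsurj : ∀ v : V, ∃ x ∈ (P : Subgroup N), f x = v := by
    intro v
    have : v ∈ (P : Subgroup N).map f := by rw [htop]; trivial
    obtain ⟨x, hx, rfl⟩ := this
    exact ⟨x, hx, rfl⟩
  refine ⟨(P : Subgroup N).map N.subtype, P.2.map _, ?_, ?_⟩
  · intro hbot
    obtain ⟨v, hv, hv1⟩ := (Subgroup.bot_or_exists_ne_one V).resolve_left hne
    obtain ⟨x, hx, hxv⟩ := hsurj ⟨v, hv⟩
    have h1 : (x : Y) ∈ (P : Subgroup N).map N.subtype := ⟨x, hx, rfl⟩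
    rw [hbot, Subgroup.mem_bot] at h1
    apply hv1
    have h2 : ρ (x : Y) = v := congrArg Subtype.val hxv
    rw [← h2, h1, map_one]
  · intro h
    obtain ⟨y, rfl⟩ := hρ h
    have h1 := Sylow.normalizer_sup_eq_top P
    have h2 : y ∈ Subgroup.normalizer (((P : Subgroup N).map N.subtype : Subgroup Y) : Set Y) ⊔ N := by
      rw [h1]; trivial
    rw [← SetLike.mem_coe, Subgroup.mul_normal] at h2
    obtain ⟨n, hn, m, hm, rfl⟩ := h2
    obtain ⟨x, hx, hxv⟩ := hsurj ⟨ρ m, hm⟩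
    have hxm : ρ (x : Y) = ρ m := congrArg Subtype.val hxv
    refine ⟨n * x, Subgroup.mul_mem _ hn (Subgroup.le_normalizer ⟨x, hx, rfl⟩), ?_⟩
    rw [map_mul, map_mul, hxm]

/-- abstract reduction. -/
theorem pcl_of_core {p : ℕ} [Fact p.Prime] {G H : Type*} [Group G] [Finite G] [Group H]
    (hcore : ∀ Q : Subgroup G, IsPGroup p Q → Q ≠ ⊥ →
      ∀ x ∈ Subgroup.normalizer (Q : Set G), ∀ y ∈ Subgroup.normalizer (Q : Set G), PEl p x → PEl p y → PEl p (x * y))
    (Y : Subgroup G) (ρ : Y →* H) (hρ : Function.Surjective ρ) (V : Subgroup H) [V.Normal]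
    (hV : IsPGroup p V) (hne : V ≠ ⊥) (a b : H) (ha : PEl p a) (hb : PEl p b) : PEl p (a * b) := by
  obtain ⟨Q, hQ, hQne, hsurj⟩ := frattini_lift ρ hρ V hV hne
  let A : Subgroup Y := Subgroup.normalizer (Q : Set Y)
  let f : A →* H := ρ.comp A.subtype
  have hf : Function.Surjective f := by
    intro h
    obtain ⟨n, hn, rfl⟩ := hsurj h
    exact ⟨⟨n, hn⟩, rfl⟩
  obtain ⟨x, hx, rfl⟩ := lift_pel f hf a ha
  obtain ⟨y, hy, rfl⟩ := lift_pel f hf b hb
  have hmapN : ∀ z : A, ((z : Y) : G) ∈ Subgroup.normalizer (((Q.map Y.subtype : Subgroup G)) : Set G) := by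
    intro z
    exact Subgroup.le_normalizer_map Y.subtype ⟨(z : Y), z.2, rfl⟩
  have hQ' : IsPGroup p (Q.map Y.subtype) := hQ.map _
  have hQne' : Q.map Y.subtype ≠ ⊥ := by
    intro h
    apply hQne
    exact (Subgroup.map_eq_bot_iff_of_injective Q Y.subtype_injective).1 h
  have hup : ∀ z : A, PEl p z → PEl p ((z : Y) : G) := by
    rintro z ⟨k, hk⟩
    refine ⟨k, ?_⟩
    have := congrArg (fun w : A => ((w : Y) : G)) hk
    simpa using this
  obtain ⟨k, hk⟩ := hcore _ hQ' hQne' _ (hmapN x) _ (hmapN y) (hup x hx) (hup y hy)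
  refine ⟨k, ?_⟩
  rw [← map_mul, ← map_pow]
  have h1 : (x * y) ^ (p ^ k) = 1 := by
    apply Subtype.ext
    apply Subtype.ext
    simpa using hk
  rw [h1, map_one]

variable {p : ℕ} [hp : Fact p.Prime]

theorem lastRow (g : Matrix.SpecialLinearGroup (Fin 3) (ZMod p)) (hg : g ∈ Cfsg.qd p) :
    (g : Matrix (Fin 3) (Fin 3) (ZMod p)) 2 0 = 0 ∧ (g : Matrix (Fin 3) (Fin 3) (ZMod p)) 2 1 = 0 ∧
      (g : Matrix (Fin 3) (Fin 3) (ZMod p)) 2 2 = 1 := by
  induction hg using Subgroup.closure_induction with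
  | mem x hx => exact hx
  | one => simp
  | mul x y _ _ hx hy =>
    obtain ⟨a1, a2, a3⟩ := hx
    obtain ⟨b1, b2, b3⟩ := hy
    simp [Matrix.SpecialLinearGroup.coe_mul, Matrix.mul_apply, Fin.sum_univ_three, a1, a2, a3, b1, b2, b3]
  | inv x _ hx =>
    obtain ⟨a1, a2, a3⟩ := hx
    have hdet := x.2
    rw [Matrix.det_fin_three, a1, a2, a3] at hdet
    rw [Matrix.SpecialLinearGroup.coe_inv, Matrix.adjugate_fin_three]
    simp [a1, a2, a3]
    simpa using hdet

/-- the upper left block. -/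
noncomputable def blk : ↥(Cfsg.qd p) →* Matrix (Fin 2) (Fin 2) (ZMod p) where
  toFun g := !![(g.1 : Matrix (Fin 3) (Fin 3) (ZMod p)) 0 0, (g.1 : Matrix (Fin 3) (Fin 3) (ZMod p)) 0 1;
    (g.1 : Matrix (Fin 3) (Fin 3) (ZMod p)) 1 0, (g.1 : Matrix (Fin 3) (Fin 3) (ZMod p)) 1 1]
  map_one' := by
    ext i j
    fin_cases i <;> fin_cases j <;> simp
  map_mul' x y := by
    obtain ⟨b1, b2, b3⟩ := lastRow y.1 y.2
    ext i j
    fin_cases i <;> fin_cases j <;>
      simp [Matrix.SpecialLinearGroup.coe_mul, Matrix.mul_apply, Fin.sum_univ_three, Fin.sum_univ_two, b1, b2, b3]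

/-- translations. -/
noncomputable def trans (p : ℕ) [Fact p.Prime] : Subgroup ↥(Cfsg.qd p) := (blk (p := p)).toHomUnits.ker

instance : (trans p).Normal := MonoidHom.normal_ker _

theorem mem_trans (g : ↥(Cfsg.qd p)) (hg : g ∈ trans p) : g.1 ∈ CfsgLib.H9.QdSection.uni p := by
  have h1 : blk g = 1 := by
    have := (MonoidHom.mem_ker).1 hg
    exact congrArg Units.val this
  have e00 := congrFun (congrFun h1 0) 0
  have e01 := congrFun (congrFun h1 0) 1
  have e10 := congrFun (congrFun h1 1) 0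
  have e11 := congrFun (congrFun h1 1) 1
  simp [blk] at e00 e01 e10 e11
  obtain ⟨a1, a2, a3⟩ := lastRow g.1 g.2
  exact ⟨e10, a1, a2, e00, e11, a3⟩

theorem trans_p (hp2 : p ≠ 2) : IsPGroup p (trans p) := by
  intro g
  refine ⟨1, ?_⟩
  apply Subtype.ext
  apply Subtype.ext
  simp only [pow_one]
  exact CfsgLib.H9.QdSection.uni_pow p hp2 g.1.1 (mem_trans g.1 g.2)

theorem ec_mem : CfsgLib.H9.QdSection.ec p ∈ Cfsg.qd p :=
  Subgroup.subset_closure (show _ ∧ _ ∧ _ by simp [CfsgLib.H9.QdSection.ec])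

theorem trans_ne : trans p ≠ ⊥ := by
  intro h
  have h1 : (⟨CfsgLib.H9.QdSection.ec p, ec_mem⟩ : ↥(Cfsg.qd p)) ∈ trans p := by
    rw [trans, MonoidHom.mem_ker]
    apply Units.ext
    change blk _ = 1
    ext i j
    fin_cases i <;> fin_cases j <;> simp [blk, CfsgLib.H9.QdSection.ec]
  rw [h, Subgroup.mem_bot] at h1
  have h2 := congrArg (fun g : ↥(Cfsg.qd p) => (g.1 : Matrix (Fin 3) (Fin 3) (ZMod p)) 1 2) h1
  simp [CfsgLib.H9.QdSection.ec] at h2

/-- The elementary matrix `1 + E₁₀`. -/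
def eb (p : ℕ) [Fact p.Prime] : Matrix.SpecialLinearGroup (Fin 3) (ZMod p) :=
  ⟨!![1, 0, 0; 1, 1, 0; 0, 0, 1], by simp [Matrix.det_fin_three]⟩

theorem eb_mem : eb p ∈ Cfsg.qd p :=
  Subgroup.subset_closure (show _ ∧ _ ∧ _ by simp [eb])

theorem ea_mem : CfsgLib.H9.QdSection.ea p ∈ Cfsg.qd p :=
  Subgroup.subset_closure (show _ ∧ _ ∧ _ by simp [CfsgLib.H9.QdSection.ea])

theorem pow_of_cube (hp3 : 3 ≤ p) (M : Matrix (Fin 3) (Fin 3) (ZMod p)) (h : (M - 1) ^ 3 = 0) : M ^ p = 1 := by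
  set N : Matrix (Fin 3) (Fin 3) (ZMod p) := M - 1 with hN
  have hGN : M = N + 1 := by rw [hN]; abel
  have hNp : N ^ p = 0 := by
    have h4 : N ^ p = N ^ (p - 3) * N ^ 3 := by
      rw [← pow_add, Nat.sub_add_cancel hp3]
    rw [h4, h, mul_zero]
  haveI : CharP (Matrix (Fin 3) (Fin 3) (ZMod p)) p := inferInstance
  rw [hGN]
  have := add_pow_char_of_commute (R := Matrix (Fin 3) (Fin 3) (ZMod p)) p (Commute.one_right N)
  rw [this, hNp]
  simp

theorem not_pcl (hp2 : p ≠ 2)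
    (h : ∀ a b : ↥(Cfsg.qd p), PEl p a → PEl p b → PEl p (a * b)) : False := by
  have hp3 : 3 ≤ p := by
    have := (Fact.out : p.Prime).two_le
    omega
  have hap : PEl p (⟨CfsgLib.H9.QdSection.ea p, ea_mem⟩ : ↥(Cfsg.qd p)) := by
    refine ⟨1, ?_⟩
    apply Subtype.ext
    apply Subtype.ext
    simp only [pow_one]
    change ((CfsgLib.H9.QdSection.ea p ^ p : Matrix.SpecialLinearGroup (Fin 3) (ZMod p)) : Matrix (Fin 3) (Fin 3) (ZMod p)) = 1
    rw [Matrix.SpecialLinearGroup.coe_pow]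
    apply pow_of_cube hp3
    rw [pow_succ, pow_two]
    ext i j
    fin_cases i <;> fin_cases j <;> simp [CfsgLib.H9.QdSection.ea, Matrix.mul_apply, Fin.sum_univ_three, Matrix.one_apply]
  have hbp : PEl p (⟨eb p, eb_mem⟩ : ↥(Cfsg.qd p)) := by
    refine ⟨1, ?_⟩
    apply Subtype.ext
    apply Subtype.ext
    simp only [pow_one]
    change ((eb p ^ p : Matrix.SpecialLinearGroup (Fin 3) (ZMod p)) : Matrix (Fin 3) (Fin 3) (ZMod p)) = 1
    rw [Matrix.SpecialLinearGroup.coe_pow]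
    apply pow_of_cube hp3
    rw [pow_succ, pow_two]
    ext i j
    fin_cases i <;> fin_cases j <;> simp [eb, Matrix.mul_apply, Fin.sum_univ_three, Matrix.one_apply]
  obtain ⟨k, hk⟩ := h _ _ hap hbp
  have h1 : ((CfsgLib.H9.QdSection.ea p * eb p : Matrix.SpecialLinearGroup (Fin 3) (ZMod p)) : Matrix (Fin 3) (Fin 3) (ZMod p)) ^ (p ^ k) = 1 := by
    have := congrArg (fun g : ↥(Cfsg.qd p) => ((g.1 : Matrix.SpecialLinearGroup (Fin 3) (ZMod p)) : Matrix (Fin 3) (Fin 3) (ZMod p))) hk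
    simpa using this
  set M : Matrix (Fin 3) (Fin 3) (ZMod p) := ((CfsgLib.H9.QdSection.ea p * eb p : Matrix.SpecialLinearGroup (Fin 3) (ZMod p)) : Matrix (Fin 3) (Fin 3) (ZMod p)) with hM
  have h2 : IsNilpotent (M - 1) := by
    refine ⟨p ^ k, ?_⟩
    haveI : CharP (Matrix (Fin 3) (Fin 3) (ZMod p)) p := inferInstance
    rw [sub_pow_char_pow_of_commute p k (Commute.one_right M), h1, one_pow, sub_self]
  have h3 := (Matrix.isNilpotent_trace_of_isNilpotent h2).eq_zero
  have h4 : (M - 1).trace = 1 := by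
    rw [Matrix.trace_fin_three, hM, Matrix.SpecialLinearGroup.coe_mul]
    simp [CfsgLib.H9.QdSection.ea, eb, Matrix.mul_apply, Fin.sum_univ_three, Matrix.one_apply]
  rw [h4] at h3
  exact one_ne_zero h3

/-- The statement. -/
theorem main {K : Type*} [Field K] [Fintype K] [CharP K p] (hp2 : p ≠ 2) (n : ℕ)
    (hK : Fintype.card K = (p ^ n) ^ 2) : ¬ Cfsg.Involves ↥(Cfsg.qd p) (Cfsg.PSU 3 K (p ^ n)) := by
  rintro ⟨K', R, hR, ⟨e⟩⟩
  haveI := hR
  have hp3 : 3 ≤ p := by
    have := (Fact.out : p.Prime).two_le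
    omega
  let π : ↥(SU 3 K (p ^ n)) →* Cfsg.PSU 3 K (p ^ n) := QuotientGroup.mk' _
  have hπ : Function.Surjective π := QuotientGroup.mk'_surjective _
  let Y : Subgroup ↥(SU 3 K (p ^ n)) := K'.comap π
  let π₁ : Y →* K' := π.subgroupComap K'
  have hπ₁ : Function.Surjective π₁ := π.subgroupComap_surjective_of_surjective K' hπ
  let ρ : Y →* ↥(Cfsg.qd p) := e.toMonoidHom.comp ((QuotientGroup.mk' (R.subgroupOf K')).comp π₁)
  have hρ : Function.Surjective ρ :=
    e.surjective.comp ((QuotientGroup.mk'_surjective _).comp hπ₁)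
  apply not_pcl hp2
  apply pcl_of_core (G := ↥(SU 3 K (p ^ n))) _ Y ρ hρ (trans p) (trans_p hp2) trans_ne
  intro Q hQ hne x hx y hy ⟨a, ha⟩ ⟨b, hb⟩
  exact ⟨1, by simpa using core p hp3 hK Q hQ hne x y hx hy a b ha hb⟩

end CfsgLib.H9.QdU
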