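import Cfsg.Agent.Lib.Solv.Core
import Cfsg.Prelude.Def_Local

/-! Sylow conditions for a subgroup in the preimage of `O_p(N(H)/C(H))`. -/

set_option autoImplicit false
set_option linter.unusedVariables false
set_option linter.unusedSectionVars false
set_option linter.style.haveILetI false

namespace CfsgLib.H9.RadCen

open Cfsg CfsgLib.Solv

variable {X : Type*} [Group X] [Finite X] {p : ℕ} [hp : Fact p.Prime]

/-- The preimage of the `p`-core of a quotient. -/
def core (p : ℕ) (N : Subgroup X) [N.Normal] : Subgroup X :=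
  (pCore p (X ⧸ N)).comap (QuotientGroup.mk' N)

instance core_normal (N : Subgroup X) [N.Normal] : (core p N).Normal := by
  unfold core
  exact Subgroup.Normal.comap inferInstance _

theorem le_core (N : Subgroup X) [N.Normal] (W : Subgroup X) [hW : W.Normal]
    (h : ∀ w ∈ W, ∃ k : ℕ, w ^ (p ^ k) ∈ N) : W ≤ core p N := by
  have hn : (W.map (QuotientGroup.mk' N)).Normal :=
    Subgroup.Normal.map hW _ (QuotientGroup.mk'_surjective N)
  have hpg : IsPGroup p (W.map (QuotientGroup.mk' N)) := by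
    rintro ⟨g, w, hw, rfl⟩
    obtain ⟨k, hk⟩ := h w hw
    refine ⟨k, ?_⟩
    apply Subtype.ext
    show (QuotientGroup.mk' N w) ^ (p ^ k) = 1
    rw [← map_pow]
    exact (QuotientGroup.eq_one_iff _).2 hk
  have h1 := le_pCore' _ hpg
  intro w hw
  exact h1 ⟨w, hw, rfl⟩

theorem core_pow (N : Subgroup X) [N.Normal] {x : X} (hx : x ∈ core p N) : ∃ k : ℕ, x ^ (p ^ k) ∈ N := by
  have h1 : IsPGroup p (pCore p (X ⧸ N)) := pCore_isPGroup p
  obtain ⟨k, hk⟩ := h1 ⟨QuotientGroup.mk' N x, hx⟩
  refine ⟨k, ?_⟩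
  have h2 := congrArg Subtype.val hk
  have h3 : (QuotientGroup.mk' N x) ^ (p ^ k) = 1 := h2
  rw [← map_pow] at h3
  exact (QuotientGroup.eq_one_iff _).1 h3

theorem K_le_C (H C : Subgroup X) [hH : H.Normal] (hmem : ∀ x, x ∈ C ↔ ∀ h ∈ H, x * h = h * x)
    (hHp : IsPGroup p H) : pPrimeCore p X ≤ C := by
  have hdis : Disjoint (pPrimeCore p X) H := by
    rw [Subgroup.disjoint_def]
    intro y hy1 hy2
    obtain ⟨k, hk⟩ := hHp ⟨y, hy2⟩
    have h1 : y ^ (p ^ k) = 1 := congrArg Subtype.val hk
    have h2 : orderOf y ∣ p ^ k := orderOf_dvd_of_pow_eq_one h1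
    have h3 : orderOf y ∣ Nat.card (pPrimeCore p X) := Subgroup.orderOf_dvd_natCard _ hy1
    have h4 : (Nat.card (pPrimeCore p X)).Coprime (p ^ k) := (pPrimeCore_coprime p).pow_right k
    have h5 : orderOf y = 1 := Nat.eq_one_of_dvd_coprimes h4 h3 h2
    exact orderOf_eq_one_iff.1 h5
  intro x hx
  rw [hmem]
  intro h hh
  exact Subgroup.commute_of_normal_of_disjoint _ _ inferInstance hH hdis x h hx hh

/-- A central Sylow subgroup of a normal subgroup gives a normal `p`-complement. -/
theorem key (H C : Subgroup X) [hC : C.Normal] (hcen : ∀ c ∈ C, ∀ h ∈ H, c * h = h * c)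
    (hHp : IsPGroup p H) (hidx : ¬ p ∣ H.relIndex C) :
    ∀ c ∈ C, ∃ k : ℕ, c ^ (p ^ k) ∈ pPrimeCore p X := by
  have hZp : IsPGroup p (H.subgroupOf C) := hHp.comap_of_injective C.subtype C.subtype_injective
  let P₀ : Sylow p C := hZp.toSylow hidx
  have hP₀ : ∀ z : C, z ∈ (P₀ : Subgroup C) ↔ (z : X) ∈ H := by
    intro z
    rfl
  have hP : Subgroup.normalizer ((P₀ : Subgroup C) : Set C) ≤ Subgroup.centralizer ((P₀ : Subgroup C) : Set C) := by
    intro g _
    rw [Subgroup.mem_centralizer_iff]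
    intro z hz
    apply Subtype.ext
    exact (hcen g g.2 z ((hP₀ z).1 hz)).symm
  have hcompl := MonoidHom.ker_transferSylow_isComplement' P₀ hP
  set W₀ := (MonoidHom.transferSylow P₀ hP).ker with hW₀
  have hcard : (Nat.card W₀).Coprime p := by
    have h1 : Nat.card W₀ = (P₀ : Subgroup C).index := hcompl.index_eq_card.symm
    rw [h1]
    exact ((Nat.Prime.coprime_iff_not_dvd hp.out).2 hidx).symm
  let W : Subgroup X := W₀.map C.subtype
  have hcardW : (Nat.card W).Coprime p := by
    have : Nat.card W = Nat.card W₀ :=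
      (Nat.card_congr (W₀.equivMapOfInjective _ C.subtype_injective).toEquiv).symm
    rw [this]
    exact hcard
  have hmemW : ∀ w : X, w ∈ W ↔ w ∈ C ∧ (orderOf w).Coprime p := by
    intro w
    constructor
    · rintro ⟨⟨w', hw'⟩, hw1, rfl⟩
      refine ⟨hw', ?_⟩
      have h1 : orderOf ((⟨w', hw'⟩ : C) : X) = orderOf (⟨w', hw'⟩ : C) := Subgroup.orderOf_coe _
      have h2 : orderOf (⟨w', hw'⟩ : C) ∣ Nat.card W₀ := Subgroup.orderOf_dvd_natCard _ hw1
      show (orderOf ((⟨w', hw'⟩ : C) : X)).Coprime p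
      rw [h1]
      exact Nat.Coprime.coprime_dvd_left h2 hcard
    · rintro ⟨hw, hcop⟩
      refine ⟨⟨w, hw⟩, ?_, rfl⟩
      show (MonoidHom.transferSylow P₀ hP) ⟨w, hw⟩ = 1
      set v := (MonoidHom.transferSylow P₀ hP) ⟨w, hw⟩ with hv
      have h1 : orderOf v ∣ orderOf w := by
        have h2 : orderOf (⟨w, hw⟩ : C) = orderOf w := Subgroup.orderOf_mk _ _
        rw [← h2]
        exact orderOf_map_dvd _ _
      obtain ⟨k, hk⟩ := IsPGroup.iff_orderOf.1 P₀.isPGroup' v
      rw [hk] at h1
      have h3 : (p ^ k).Coprime (orderOf w) :=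
        Nat.Coprime.coprime_dvd_left (dvd_refl _) (hcop.symm.pow_left k)
      have h4 : p ^ k = 1 := Nat.Coprime.eq_one_of_dvd h3 h1
      rw [h4] at hk
      exact orderOf_eq_one_iff.1 hk
  have hWn : W.Normal := by
    constructor
    intro w hw x
    rw [hmemW] at hw ⊢
    refine ⟨hC.conj_mem _ hw.1 x, ?_⟩
    have : orderOf (x * w * x⁻¹) = orderOf w := by
      have := MulEquiv.orderOf_eq (MulAut.conj x) w
      simpa [MulAut.conj_apply] using this
    rw [this]
    exact hw.2
  have hle : W ≤ pPrimeCore p X := le_pPrimeCore' W hcardW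
  intro c hc
  obtain ⟨⟨w, z⟩, hwz⟩ := hcompl.2 ⟨c, hc⟩
  obtain ⟨k, hk⟩ := P₀.isPGroup' z
  have hk' : (z : C) ^ (p ^ k) = 1 := congrArg Subtype.val hk
  have hcomm : Commute (w : C) (z : C) := by
    apply Subtype.ext
    exact hcen _ (w : C).2 _ ((hP₀ (z : C)).1 z.2)
  refine ⟨k, ?_⟩
  have hc' : (⟨c, hc⟩ : C) ^ (p ^ k) = (w : C) ^ (p ^ k) := by
    rw [← hwz]
    show ((w : C) * (z : C)) ^ (p ^ k) = _
    rw [hcomm.mul_pow, hk', mul_one]
  have hc'' : c ^ (p ^ k) = ((w : C) ^ (p ^ k) : C) := congrArg Subtype.val hc'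
  rw [hc'']
  apply hle
  refine ⟨(w : C) ^ (p ^ k), ?_, rfl⟩
  exact W₀.pow_mem w.2 _

theorem relIndex_dvd_of_normal (Q C : Subgroup X) [hC : C.Normal] : Q.relIndex C ∣ Q.index := by
  obtain ⟨t, ht⟩ : C.relIndex Q ∣ C.index := Subgroup.relIndex_dvd_index_of_normal _ _
  have h1 : (Q ⊓ C).relIndex Q * Q.index = (Q ⊓ C).index := Subgroup.relIndex_mul_index inf_le_left
  have h2 : (Q ⊓ C).relIndex C * C.index = (Q ⊓ C).index := Subgroup.relIndex_mul_index inf_le_right
  rw [Subgroup.inf_relIndex_left] at h1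
  rw [Subgroup.inf_relIndex_right] at h2
  have h3 : C.relIndex Q * Q.index = C.relIndex Q * (Q.relIndex C * t) := by
    rw [h1, ← h2, ht]
    ring
  have h0 : C.relIndex Q ≠ 0 := Subgroup.index_ne_zero_of_finite
  have h4 := Nat.eq_of_mul_eq_mul_left (Nat.pos_of_ne_zero h0) h3
  exact Dvd.intro _ h4.symm

/-- The abstract form. -/
theorem main_abs (H C Q : Subgroup X) [hH : H.Normal] [hC : C.Normal]
    (hmem : ∀ x, x ∈ C ↔ ∀ h ∈ H, x * h = h * x) (hHp : IsPGroup p H) (hQp : IsPGroup p Q)
    (hHQ : H ≤ Q) (hQi : ¬ p ∣ Q.index) :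
    (H ≤ core p C ∧ ¬ p ∣ H.relIndex (core p C)) ↔
      (Q ⊓ C ≤ H ∧ pPrimePCore p X = H ⊔ C) := by
  have hKC := K_le_C (p := p) H C hmem hHp
  have hY : (pPrimePCore p X) = core p (pPrimeCore p X) := rfl
  haveI hYn : (pPrimePCore p X).Normal := by
    rw [hY]
    exact core_normal _
  have hHO : ∀ (N : Subgroup X) [N.Normal], H ≤ core p N := by
    intro N _
    apply le_core N H
    intro w hw
    obtain ⟨k, hk⟩ := hHp ⟨w, hw⟩
    refine ⟨k, ?_⟩
    have : w ^ (p ^ k) = 1 := congrArg Subtype.val hk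
    rw [this]
    exact Subgroup.one_mem _
  have hCO : C ≤ core p C := by
    apply le_core C C
    intro w hw
    exact ⟨0, by simpa using hw⟩
  have hYO : pPrimePCore p X ≤ core p C := by
    apply le_core C (pPrimePCore p X)
    intro w hw
    obtain ⟨k, hk⟩ := core_pow (p := p) (pPrimeCore p X) (x := w) hw
    exact ⟨k, hKC hk⟩
  have hcen : ∀ c ∈ C, ∀ h ∈ H, c * h = h * c := fun c hc => (hmem c).1 hc
  constructor
  · rintro ⟨-, hidx⟩
    constructor
    · -- the `p`-part
      have hR1 : H ⊔ (Q ⊓ C) ≤ Q := sup_le hHQ inf_le_left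
      have hR2 : H ⊔ (Q ⊓ C) ≤ core p C := sup_le (hHO C) (inf_le_right.trans hCO)
      have hdvd : H.relIndex (H ⊔ (Q ⊓ C)) ∣ H.relIndex (core p C) :=
        Dvd.intro _ (Subgroup.relIndex_mul_relIndex _ _ _ le_sup_left hR2)
      have hcardp : IsPGroup p (H ⊔ (Q ⊓ C) : Subgroup X) := hQp.to_le hR1
      obtain ⟨m, hm⟩ := IsPGroup.iff_card.1 hcardp
      have hd2 : H.relIndex (H ⊔ (Q ⊓ C)) ∣ p ^ m := by
        rw [← hm]
        exact Subgroup.relIndex_dvd_card _ _
      obtain ⟨i, hi, hi2⟩ := (Nat.dvd_prime_pow hp.out).1 hd2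
      have hone : H.relIndex (H ⊔ (Q ⊓ C)) = 1 := by
        rcases Nat.eq_zero_or_pos i with h0 | h0
        · rw [hi2, h0, pow_zero]
        · exfalso
          apply hidx
          refine dvd_trans ?_ hdvd
          rw [hi2]
          exact dvd_pow_self p (by omega)
      have hle := Subgroup.relIndex_eq_one.1 hone
      exact le_sup_right.trans hle
    · -- the core
      apply le_antisymm
      · -- `O_{p',p} ≤ O ≤ H C`
        have hA : H ⊔ C ≤ core p C := sup_le (hHO C) hCO
        have hd1 : (H ⊔ C).relIndex (core p C) ∣ H.relIndex (core p C) :=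
          Subgroup.relIndex_dvd_of_le_left _ le_sup_left
        have hd2 : (H ⊔ C).relIndex (core p C) ∣ C.relIndex (core p C) :=
          Subgroup.relIndex_dvd_of_le_left _ le_sup_right
        have hd3 : C.relIndex (core p C) = Nat.card ((core p C).map (QuotientGroup.mk' C)) := by
          have := Subgroup.relIndex_ker (K := core p C) (QuotientGroup.mk' C)
          rwa [QuotientGroup.ker_mk'] at this
        have hmapp : IsPGroup p ((core p C).map (QuotientGroup.mk' C)) := by
          have h1 : IsPGroup p (pCore p (X ⧸ C)) := pCore_isPGroup p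
          refine h1.to_le ?_
          rintro _ ⟨x, hx, rfl⟩
          exact hx
        obtain ⟨m, hm⟩ := IsPGroup.iff_card.1 hmapp
        rw [hd3, hm] at hd2
        obtain ⟨i, hi, hi2⟩ := (Nat.dvd_prime_pow hp.out).1 hd2
        have hone : (H ⊔ C).relIndex (core p C) = 1 := by
          rcases Nat.eq_zero_or_pos i with h0 | h0
          · rw [hi2, h0, pow_zero]
          · exfalso
            apply hidx
            refine dvd_trans ?_ hd1
            rw [hi2]
            exact dvd_pow_self p (by omega)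
        exact hYO.trans (Subgroup.relIndex_eq_one.1 hone)
      · -- `H C ≤ O_{p',p}`
        have hcidx : ¬ p ∣ H.relIndex C := by
          intro hd
          apply hidx
          have h1 : H.relIndex (H ⊔ C) = H.relIndex C := Subgroup.relIndex_sup_left C H
          have h2 : H.relIndex (H ⊔ C) ∣ H.relIndex (core p C) :=
            Dvd.intro _ (Subgroup.relIndex_mul_relIndex _ _ _ le_sup_left (sup_le (hHO C) hCO))
          rw [h1] at h2
          exact dvd_trans hd h2
        have hk := key H C hcen hHp hcidx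
        refine sup_le (hHO _) ?_
        rw [hY]
        exact le_core _ C hk
  · rintro ⟨hsub, hYeq⟩
    refine ⟨hHO C, ?_⟩
    have hCY : C ≤ pPrimePCore p X := hYeq ▸ le_sup_right
    have hOY : core p C ≤ pPrimePCore p X := by
      rw [hY]
      apply le_core
      intro w hw
      obtain ⟨k, hk⟩ := core_pow (p := p) C (x := w) hw
      have h1 := hCY hk
      rw [hY] at h1
      obtain ⟨l, hl⟩ := core_pow (p := p) (pPrimeCore p X) (x := w ^ (p ^ k)) h1
      refine ⟨k + l, ?_⟩
      rw [pow_add, pow_mul]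
      exact hl
    have hOeq : core p C = H ⊔ C := le_antisymm (hOY.trans hYeq.le) (sup_le (hHO C) hCO)
    rw [hOeq, Subgroup.relIndex_sup_left, ← Subgroup.inf_relIndex_right]
    intro hd
    have h1 : (H ⊓ C).relIndex C ∣ (Q ⊓ C).relIndex C :=
      Subgroup.relIndex_dvd_of_le_left _ (le_inf hsub inf_le_right)
    rw [Subgroup.inf_relIndex_right Q C] at h1
    exact hQi (dvd_trans (dvd_trans hd h1) (relIndex_dvd_of_normal Q C))

theorem main {G : Type*} [Group G] [Finite G] {p : ℕ} [Fact p.Prime]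
    (P : Sylow p G) (H : Subgroup G) (hHP : H ≤ (P : Subgroup G))
    (hSyl : ¬ p ∣ ((P : Subgroup G) ⊓ Subgroup.normalizer (H : Set G)).relIndex (Subgroup.normalizer (H : Set G)))
    [hC : ((Subgroup.centralizer (H : Set G)).subgroupOf (Subgroup.normalizer (H : Set G))).Normal] :
    (H ≤ ((Cfsg.pCore p (↥(Subgroup.normalizer (H : Set G)) ⧸
              (Subgroup.centralizer (H : Set G)).subgroupOf (Subgroup.normalizer (H : Set G)))).comap
            (QuotientGroup.mk' _)).map (Subgroup.normalizer (H : Set G)).subtype ∧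
      ¬ p ∣ H.relIndex (((Cfsg.pCore p (↥(Subgroup.normalizer (H : Set G)) ⧸
              (Subgroup.centralizer (H : Set G)).subgroupOf (Subgroup.normalizer (H : Set G)))).comap
            (QuotientGroup.mk' _)).map (Subgroup.normalizer (H : Set G)).subtype)) ↔
    ((P : Subgroup G) ⊓ Subgroup.centralizer (H : Set G) ≤ H ∧
      (Cfsg.pPrimePCore p ↥(Subgroup.normalizer (H : Set G))).map (Subgroup.normalizer (H : Set G)).subtype =
        H ⊔ Subgroup.centralizer (H : Set G)) := by
  have hHN : H ≤ Subgroup.normalizer (H : Set G) := Subgroup.le_normalizer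
  have hCN : Subgroup.centralizer (H : Set G) ≤ Subgroup.normalizer (H : Set G) := by
    apply Subgroup.le_normalizer_iff.2
    intro c hc k hk
    rw [Subgroup.mem_centralizer_iff] at hc
    have h1 := hc k hk
    rw [← h1, mul_assoc, mul_inv_cancel, mul_one]
    exact hk
  haveI hH' : (H.subgroupOf (Subgroup.normalizer (H : Set G))).Normal :=
    (Subgroup.normal_subgroupOf_iff_le_normalizer hHN).2 le_rfl
  set N := Subgroup.normalizer (H : Set G) with hNdef
  set C' := (Subgroup.centralizer (H : Set G)).subgroupOf N with hC'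
  set H' := H.subgroupOf N with hH'def
  set Q := ((P : Subgroup G) ⊓ N).subgroupOf N with hQ
  have hmem : ∀ x : N, x ∈ C' ↔ ∀ h ∈ H', x * h = h * x := by
    intro x
    constructor
    · intro hx h hh
      apply Subtype.ext
      have h1 : (x : G) ∈ Subgroup.centralizer (H : Set G) := hx
      rw [Subgroup.mem_centralizer_iff] at h1
      exact (h1 h hh).symm
    · intro hx
      show (x : G) ∈ Subgroup.centralizer (H : Set G)
      rw [Subgroup.mem_centralizer_iff]
      intro h hh
      have h2 := hx ⟨h, hHN hh⟩ hh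
      exact (congrArg Subtype.val h2).symm
  have hHp : IsPGroup p H' :=
    (P.isPGroup'.to_le hHP).comap_of_injective N.subtype N.subtype_injective
  have hQp : IsPGroup p Q :=
    (P.isPGroup'.to_le inf_le_left).comap_of_injective N.subtype N.subtype_injective
  have hHQ : H' ≤ Q := fun x hx => ⟨hHP hx, x.2⟩
  have hQi : ¬ p ∣ Q.index := hSyl
  have hmain := main_abs (p := p) H' C' Q hmem hHp hQp hHQ hQi
  have e1 : H'.map N.subtype = H := Subgroup.map_subgroupOf_eq_of_le hHN
  have e2 : C'.map N.subtype = Subgroup.centralizer (H : Set G) := Subgroup.map_subgroupOf_eq_of_le hCN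
  have iff1 : ∀ O : Subgroup N, (H ≤ O.map N.subtype ↔ H' ≤ O) := by
    intro O
    constructor
    · intro h x hx
      obtain ⟨y, hy, hyx⟩ := h hx
      have : y = x := Subtype.ext hyx
      rwa [← this]
    · intro h x hx
      exact ⟨⟨x, hHN hx⟩, h hx, rfl⟩
  have iff2 : ∀ O : Subgroup N, H.relIndex (O.map N.subtype) = H'.relIndex O := by
    intro O
    calc H.relIndex (O.map N.subtype) = (H'.map N.subtype).relIndex (O.map N.subtype) := by rw [e1]
      _ = H'.relIndex O := Subgroup.relIndex_map_map_of_injective _ _ N.subtype_injective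
  have iff3 : ((P : Subgroup G) ⊓ Subgroup.centralizer (H : Set G) ≤ H) ↔ Q ⊓ C' ≤ H' := by
    constructor
    · intro h x hx
      exact h ⟨hx.1.1, hx.2⟩
    · intro h x hx
      exact h (x := ⟨x, hCN hx.2⟩) ⟨⟨hx.1, hCN hx.2⟩, hx.2⟩
  have iff4 : ∀ Y : Subgroup N, (Y.map N.subtype = H ⊔ Subgroup.centralizer (H : Set G)) ↔ Y = H' ⊔ C' := by
    intro Y
    have e3 : (H' ⊔ C').map N.subtype = H ⊔ Subgroup.centralizer (H : Set G) := by
      rw [Subgroup.map_sup, e1, e2]
    rw [← e3]
    exact (Subgroup.map_injective N.subtype_injective).eq_iff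
  rw [iff1, iff2, iff3, iff4]
  exact hmain

end CfsgLib.H9.RadCen
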