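import Mathlib.Tactic
import Mathlib.GroupTheory.Perm.Basic
import Mathlib.GroupTheory.GroupAction.Basic

/-! Sharply doubly transitive actions: the fixed point free elements together with the identity
form a regular normal elementary abelian subgroup. -/

namespace CfsgLib.H9.Sharp2

open MulAction

/-- A sharply doubly transitive action. -/
structure IsSharp2 (T X : Type*) [Group T] [MulAction T X] : Prop where
  trans : ∀ {a b c d : X}, a ≠ b → c ≠ d → ∃ g : T, g • a = c ∧ g • b = d
  sharp : ∀ (g : T) (a b : X), a ≠ b → g • a = a → g • b = b → g = 1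

/-- Fixed point free elements. -/
def Fpf (X : Type*) {T : Type*} [Group T] [MulAction T X] (g : T) : Prop := ∀ x : X, g • x ≠ x

variable {T X : Type*} [Group T] [MulAction T X]

theorem IsSharp2.eq_of_two (h : IsSharp2 T X) {g g' : T} {a b : X} (hab : a ≠ b)
    (h1 : g • a = g' • a) (h2 : g • b = g' • b) : g = g' := by
  have := h.sharp (g'⁻¹ * g) a b hab (by rw [mul_smul, h1, inv_smul_smul])
    (by rw [mul_smul, h2, inv_smul_smul])
  exact (inv_mul_eq_one.mp this).symm

theorem IsSharp2.finite [Finite X] (h : IsSharp2 T X) [Nontrivial X] : Finite T := by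
  obtain ⟨a, b, hab⟩ := exists_pair_ne X
  apply Finite.of_injective (fun g : T => (g • a, g • b))
  intro g g' hgg
  simp only [Prod.mk.injEq] at hgg
  exact h.eq_of_two hab hgg.1 hgg.2

/-- Existence and uniqueness of the fixed point free element with a given value at a point. -/
theorem IsSharp2.existsUnique_fpf [Finite X] (h : IsSharp2 T X) {c d : X} (hcd : c ≠ d) :
    ∃! g : T, Fpf X g ∧ g • c = d := by
  classical
  haveI : Nontrivial X := ⟨⟨c, d, hcd⟩⟩
  haveI := h.finite
  haveI : Fintype T := Fintype.ofFinite T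
  haveI : Fintype X := Fintype.ofFinite X
  let C : Finset T := Finset.univ.filter (fun g => g • c = d)
  -- `C` has `n - 1` elements
  have hC : C.card = Fintype.card X - 1 := by
    have : (Finset.univ.erase d : Finset X).card = Fintype.card X - 1 := by
      rw [Finset.card_erase_of_mem (Finset.mem_univ _), Finset.card_univ]
    rw [← this]
    apply Finset.card_bij (fun g _ => g • d)
    · intro g hg
      have hg' : g • c = d := by simpa [C] using hg
      rw [Finset.mem_erase]
      refine ⟨?_, Finset.mem_univ _⟩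
      intro h1
      exact hcd (MulAction.injective g (hg'.trans h1.symm))
    · intro g hg g' hg' hh
      have hg1 : g • c = d := by simpa [C] using hg
      have hg2 : g' • c = d := by simpa [C] using hg'
      exact h.eq_of_two hcd (hg1.trans hg2.symm) hh
    · intro y hy
      have hy' : y ≠ d := (Finset.mem_erase.mp hy).1
      obtain ⟨g, hg1, hg2⟩ := h.trans hcd hy'.symm
      exact ⟨g, by simpa [C] using hg1, hg2⟩
  -- the elements of `C` with a fixed point correspond to the other points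
  let D : Finset X := (Finset.univ.erase c).erase d
  have hD : D.card = Fintype.card X - 2 := by
    have h1 : d ∈ (Finset.univ.erase c : Finset X) := Finset.mem_erase.mpr ⟨hcd.symm, Finset.mem_univ _⟩
    rw [Finset.card_erase_of_mem h1, Finset.card_erase_of_mem (Finset.mem_univ _), Finset.card_univ]
    omega
  have hex : ∀ x ∈ D, ∃ g : T, g • c = d ∧ g • x = x := by
    intro x hx
    simp only [D, Finset.mem_erase, Finset.mem_univ, and_true] at hx
    exact h.trans (Ne.symm hx.2) (Ne.symm hx.1)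
  let ψ : X → T := fun x => if hx : x ∈ D then Classical.choose (hex x hx) else 1
  have hψ : ∀ x ∈ D, ψ x • c = d ∧ ψ x • x = x := by
    intro x hx
    simp only [ψ, dif_pos hx]
    exact Classical.choose_spec (hex x hx)
  let NF : Finset T := C.filter (fun g => ∃ x : X, g • x = x)
  have hNF : NF = D.image ψ := by
    ext g
    simp only [NF, C, Finset.mem_filter, Finset.mem_univ, true_and, Finset.mem_image]
    constructor
    · rintro ⟨hg, x, hx⟩
      have hxD : x ∈ D := by
        simp only [D, Finset.mem_erase, Finset.mem_univ, and_true]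
        constructor
        · intro hxd
          rw [hxd] at hx
          exact hcd (MulAction.injective g (hg.trans hx.symm))
        · intro hxc
          rw [hxc, hg] at hx
          exact hcd hx.symm
      refine ⟨x, hxD, ?_⟩
      have hxc : c ≠ x := by
        simp only [D, Finset.mem_erase, Finset.mem_univ, and_true] at hxD
        exact Ne.symm hxD.2
      exact h.eq_of_two hxc ((hψ x hxD).1.trans hg.symm) ((hψ x hxD).2.trans hx.symm)
    · rintro ⟨x, hx, rfl⟩
      exact ⟨(hψ x hx).1, x, (hψ x hx).2⟩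
  have hNFcard : NF.card = Fintype.card X - 2 := by
    rw [hNF, Finset.card_image_of_injOn, hD]
    intro x hx y hy hxy
    by_contra hne
    have h1 := hψ x hx
    have h2 := hψ y hy
    have h3 : ψ x = 1 := h.sharp _ x y hne h1.2 (by rw [hxy]; exact h2.2)
    rw [h3, one_smul] at h1
    exact hcd h1.1
  have h2le : 2 ≤ Fintype.card X := by
    rw [Nat.succ_le_iff]
    exact Fintype.one_lt_card_iff_nontrivial.mpr inferInstance
  have hsplit : (C.filter (fun g => ¬ ∃ x : X, g • x = x)).card = 1 := by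
    have := Finset.card_filter_add_card_filter_not (s := C) (fun g => ∃ x : X, g • x = x)
    change NF.card + _ = C.card at this
    omega
  obtain ⟨g, hg⟩ := Finset.card_eq_one.mp hsplit
  have hmem : ∀ g' : T, (Fpf X g' ∧ g' • c = d) ↔ g' = g := by
    intro g'
    have : g' ∈ (C.filter (fun g => ¬ ∃ x : X, g • x = x)) ↔ g' = g := by
      rw [hg, Finset.mem_singleton]
    rw [← this]
    simp only [C, Finset.mem_filter, Finset.mem_univ, true_and, Fpf, not_exists]
    tauto
  exact ⟨g, (hmem g).mpr rfl, fun g' hg' => (hmem g').mp hg'⟩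

theorem IsSharp2.fpf_unique [Finite X] (h : IsSharp2 T X) {c d : X} (hcd : c ≠ d) {g g' : T}
    (hg : Fpf X g) (hg' : Fpf X g') (h1 : g • c = d) (h2 : g' • c = d) : g = g' :=
  (h.existsUnique_fpf hcd).unique ⟨hg, h1⟩ ⟨hg', h2⟩

theorem fpf_conj {g : T} (hg : Fpf X g) (h : T) : Fpf X (h * g * h⁻¹) := by
  intro x hx
  apply hg (h⁻¹ • x)
  have : (h⁻¹ * (h * g * h⁻¹)) • x = h⁻¹ • x := by rw [mul_smul, hx]
  have e : h⁻¹ * (h * g * h⁻¹) = g * h⁻¹ := by group
  rw [e, mul_smul] at this
  exact this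

theorem IsSharp2.one_or_fpf_of_commute (h : IsSharp2 T X) {g z : T} (hg : Fpf X g)
    (hz : Commute z g) : z = 1 ∨ Fpf X z := by
  by_cases hf : Fpf X z
  · exact Or.inr hf
  left
  simp only [Fpf, not_forall, not_not] at hf
  obtain ⟨x, hx⟩ := hf
  apply h.sharp z x (g • x) (Ne.symm (hg x)) hx
  rw [← mul_smul, hz.eq, mul_smul, hx]

/-- The centraliser of a fixed point free element is transitive. -/
theorem IsSharp2.exists_commute [Finite X] (h : IsSharp2 T X) {g : T} (hg : Fpf X g) (x y : X) :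
    ∃ z : T, Commute z g ∧ z • x = y := by
  by_cases hxy : x = y
  · exact ⟨1, Commute.one_left g, by rw [one_smul, hxy]⟩
  obtain ⟨z, hz1, hz2⟩ := h.trans (Ne.symm (hg x)) (Ne.symm (hg y))
  refine ⟨z, ?_, hz1⟩
  have : z * g * z⁻¹ = g := by
    apply h.fpf_unique (Ne.symm (hg y)) (fpf_conj hg z) hg _ rfl
    have e : z⁻¹ • y = x := by rw [← hz1, inv_smul_smul]
    rw [mul_smul, mul_smul, e, hz2]
  calc z * g = z * g * z⁻¹ * z := by group
    _ = g * z := by rw [this]

theorem IsSharp2.commute_of_fpf [Finite X] [Nonempty X] (h : IsSharp2 T X) {g g' : T}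
    (hg : Fpf X g) (hg' : Fpf X g') : Commute g' g := by
  obtain ⟨c⟩ := ‹Nonempty X›
  obtain ⟨z, hz1, hz2⟩ := h.exists_commute hg c (g' • c)
  have hz3 : z = 1 ∨ Fpf X z := h.one_or_fpf_of_commute hg hz1
  rcases hz3 with rfl | hz3
  · rw [one_smul] at hz2
    exact absurd hz2.symm (hg' c)
  · have : z = g' := h.fpf_unique (Ne.symm (hg' c)) hz3 hg' hz2 rfl
    rwa [this] at hz1

/-- All fixed point free elements are conjugate. -/
theorem IsSharp2.exists_conj [Finite X] [Nonempty X] (h : IsSharp2 T X) {g g' : T}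
    (hg : Fpf X g) (hg' : Fpf X g') : ∃ u : T, u * g * u⁻¹ = g' := by
  obtain ⟨c⟩ := ‹Nonempty X›
  obtain ⟨u, hu1, hu2⟩ := h.trans (Ne.symm (hg c)) (Ne.symm (hg' c))
  refine ⟨u, ?_⟩
  apply h.fpf_unique (Ne.symm (hg' c)) (fpf_conj hg u) hg' _ rfl
  have e : u⁻¹ • c = c := by
    rw [inv_smul_eq_iff, hu1]
  rw [mul_smul, mul_smul, e, hu2]

/-- The subgroup formed by the identity and the fixed point free elements. -/
def kernel (h : IsSharp2 T X) [Finite X] [Nontrivial X] : Subgroup T where
  carrier := {g | g = 1 ∨ Fpf X g}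
  one_mem' := Or.inl rfl
  mul_mem' := by
    intro a b ha hb
    rcases ha with rfl | ha
    · simpa using hb
    rcases hb with rfl | hb
    · simpa using Or.inr ha
    have hc : Commute (a * b) a := by
      apply Commute.mul_left (Commute.refl a)
      exact h.commute_of_fpf ha hb
    exact h.one_or_fpf_of_commute ha hc
  inv_mem' := by
    intro a ha
    rcases ha with rfl | ha
    · simp
    exact h.one_or_fpf_of_commute ha (Commute.refl a).inv_left

variable (h : IsSharp2 T X) [Finite X] [Nontrivial X]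

theorem mem_kernel {g : T} : g ∈ kernel h ↔ g = 1 ∨ Fpf X g := Iff.rfl

omit [Finite X] [Nontrivial X] in
theorem exists_fpf (h : IsSharp2 T X) [Finite X] [Nontrivial X] : ∃ g : T, Fpf X g := by
  obtain ⟨c, d, hcd⟩ := exists_pair_ne X
  obtain ⟨g, hg, -⟩ := h.existsUnique_fpf hcd
  exact ⟨g, hg.1⟩

theorem kernel_comm {a b : T} (ha : a ∈ kernel h) (hb : b ∈ kernel h) : Commute a b := by
  rcases ha with rfl | ha
  · exact Commute.one_left b
  rcases hb with rfl | hb
  · exact Commute.one_right a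
  exact h.commute_of_fpf hb ha

instance kernel_normal : (kernel h).Normal := by
  constructor
  intro n hn g
  rcases hn with rfl | hn
  · left; simp
  · right; exact fpf_conj hn g

theorem kernel_regular (c d : X) : ∃! u : T, u ∈ kernel h ∧ u • c = d := by
  obtain ⟨g, hg⟩ := exists_fpf h (X := X)
  by_cases hcd : c = d
  · refine ⟨1, ⟨Or.inl rfl, by rw [one_smul, hcd]⟩, ?_⟩
    rintro y ⟨hy | hy, hy2⟩
    · exact hy
    · exact absurd (hy2.trans hcd.symm) (hy c)
  · obtain ⟨u, hu1, hu2⟩ := h.existsUnique_fpf hcd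
    refine ⟨u, ⟨Or.inr hu1.1, hu1.2⟩, ?_⟩
    rintro y ⟨rfl | hy, hy2⟩
    · rw [one_smul] at hy2
      exact absurd hy2 hcd
    · exact hu2 y ⟨hy, hy2⟩

/-- The elements of the kernel have a common prime order. -/
theorem exists_prime_exponent : ∃ p : ℕ, p.Prime ∧ ∀ g ∈ kernel h, g ≠ 1 → orderOf g = p := by
  haveI := h.finite
  obtain ⟨g, hg⟩ := exists_fpf h (X := X)
  have hg1 : g ≠ 1 := by
    rintro rfl
    obtain ⟨c⟩ : Nonempty X := inferInstance
    exact hg c (one_smul _ _)
  have hord : orderOf g ≠ 1 := fun h' => hg1 (orderOf_eq_one_iff.mp h')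
  set p := (orderOf g).minFac with hp
  have hpp : p.Prime := Nat.minFac_prime hord
  have hdvd : p ∣ orderOf g := Nat.minFac_dvd _
  have hgp : orderOf (g ^ (orderOf g / p)) = p :=
    orderOf_pow_orderOf_div (orderOf_pos g).ne' hdvd
  have hmem : g ^ (orderOf g / p) ∈ kernel h := (kernel h).pow_mem (Or.inr hg) _
  have hne : g ^ (orderOf g / p) ≠ 1 := by
    intro h'
    rw [h', orderOf_one] at hgp
    exact hpp.one_lt.ne hgp
  have hfpf : Fpf X (g ^ (orderOf g / p)) := hmem.resolve_left hne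
  refine ⟨p, hpp, ?_⟩
  rintro x (rfl | hx) hx1
  · exact absurd rfl hx1
  obtain ⟨u, hu⟩ := h.exists_conj hfpf hx
  rw [← hu]
  have : u * g ^ (orderOf g / p) * u⁻¹ = MulAut.conj u (g ^ (orderOf g / p)) := rfl
  rw [this, MulEquiv.orderOf_eq, hgp]

/-- The kernel has as many elements as there are points. -/
theorem card_kernel : Nat.card (kernel h) = Nat.card X := by
  obtain ⟨c⟩ : Nonempty X := inferInstance
  apply Nat.card_congr
  refine Equiv.ofBijective (fun u : kernel h => (u : T) • c) ⟨?_, ?_⟩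
  · intro u v huv
    apply Subtype.ext
    exact (kernel_regular h c _).unique ⟨u.2, huv⟩ ⟨v.2, rfl⟩
  · intro d
    obtain ⟨u, ⟨hu1, hu2⟩, -⟩ := kernel_regular h c d
    exact ⟨⟨u, hu1⟩, hu2⟩

/-- The kernel is a `p`-group of order `p ^ j`, `j ≥ 1`. -/
theorem exists_card_eq_prime_pow : ∃ p j : ℕ, p.Prime ∧ 1 ≤ j ∧ Nat.card X = p ^ j ∧
    ∀ g ∈ kernel h, g ≠ 1 → orderOf g = p := by
  classical
  obtain ⟨p, hp, hord⟩ := exists_prime_exponent h
  haveI : Fact p.Prime := ⟨hp⟩
  haveI := h.finite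
  have hP : IsPGroup p (kernel h) := by
    intro g
    refine ⟨1, ?_⟩
    by_cases hg : (g : T) = 1
    · apply Subtype.ext
      simp [hg]
    · apply Subtype.ext
      simp only [pow_one, Subgroup.coe_pow, Subgroup.coe_one]
      rw [← hord g g.2 hg, pow_orderOf_eq_one]
  obtain ⟨j, hj⟩ := hP.exists_card_eq
  refine ⟨p, j, hp, ?_, ?_, hord⟩
  · rcases Nat.eq_zero_or_pos j with rfl | hpos
    · exfalso
      rw [pow_zero, card_kernel h] at hj
      have := Finite.one_lt_card (α := X)
      omega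
    · exact hpos
  · rw [← card_kernel h, hj]

omit [Finite X] [Nontrivial X] in
/-- The order of a sharply doubly transitive group. -/
theorem card_group (h : IsSharp2 T X) [Finite X] [Nontrivial X] :
    Nat.card T = Nat.card X * (Nat.card X - 1) := by
  classical
  haveI := Fintype.ofFinite X
  obtain ⟨a, b, hab⟩ := exists_pair_ne X
  have h1 : Nat.card T = Nat.card {q : X × X // q ∈ (Finset.univ : Finset X).offDiag} := by
    apply Nat.card_congr
    refine Equiv.ofBijective (fun g : T => ⟨(g • a, g • b), ?_⟩) ⟨?_, ?_⟩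
    · simp only [Finset.mem_offDiag, Finset.mem_univ, true_and]
      exact fun h' => hab (MulAction.injective g h')
    · intro g g' hgg
      have := congrArg Subtype.val hgg
      simp only [Prod.mk.injEq] at this
      exact h.eq_of_two hab this.1 this.2
    · rintro ⟨⟨c, d⟩, hq⟩
      simp only [Finset.mem_offDiag, Finset.mem_univ, true_and] at hq
      obtain ⟨g, hg1, hg2⟩ := h.trans hab hq
      exact ⟨g, Subtype.ext (by simp [hg1, hg2])⟩
  rw [h1, Nat.card_eq_fintype_card, Fintype.card_coe, Finset.offDiag_card, Finset.card_univ,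
    Nat.card_eq_fintype_card, Nat.mul_sub, mul_one]

theorem index_kernel : (kernel h).index = Nat.card X - 1 := by
  haveI := h.finite
  have h1 := Subgroup.card_mul_index (kernel h)
  rw [card_kernel, card_group h] at h1
  have hpos : 0 < Nat.card X := Nat.card_pos
  exact Nat.eq_of_mul_eq_mul_left hpos h1

/-- A sharply doubly transitive group with its Sylow subgroups. -/
theorem kernel_eq_sylow {p : ℕ} [Fact p.Prime] (hord : ∀ g ∈ kernel h, g ≠ 1 → orderOf g = p)
    {j : ℕ} (hj : 1 ≤ j) (hcard : Nat.card X = p ^ j) (P : Sylow p T) :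
    kernel h = (P : Subgroup T) := by
  have hpp : p.Prime := Fact.out
  haveI := h.finite
  have hPG : IsPGroup p (kernel h) := by
    intro g
    refine ⟨1, ?_⟩
    by_cases hg : (g : T) = 1
    · apply Subtype.ext
      simp [hg]
    · apply Subtype.ext
      simp only [pow_one, Subgroup.coe_pow, Subgroup.coe_one]
      rw [← hord g g.2 hg, pow_orderOf_eq_one]
  apply P.is_maximal' hPG
  intro x hx
  obtain ⟨k, hk⟩ := P.isPGroup' ⟨x, hx⟩
  have hk' : x ^ (p ^ k) = 1 := congrArg Subtype.val hk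
  have hcop : Nat.Coprime (p ^ k) (kernel h).index := by
    apply Nat.Coprime.pow_left
    rw [index_kernel, hcard, Nat.Prime.coprime_iff_not_dvd hpp]
    intro hd
    have h1 : p ∣ p ^ j := dvd_pow_self p (by omega)
    have h2 : p ∣ 1 := by
      have hpos : 1 ≤ p ^ j := Nat.one_le_pow _ _ hpp.pos
      have := Nat.dvd_sub h1 hd
      have e : p ^ j - (p ^ j - 1) = 1 := by omega
      rwa [e] at this
    exact hpp.one_lt.ne' (Nat.dvd_one.mp h2)
  have h1 : (x : T ⧸ kernel h) ^ (kernel h).index = 1 := by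
    rw [← QuotientGroup.mk_pow, QuotientGroup.eq_one_iff]
    exact Subgroup.pow_index_mem _ x
  have h2 : (x : T ⧸ kernel h) ^ (p ^ k) = 1 := by
    rw [← QuotientGroup.mk_pow, hk', QuotientGroup.mk_one]
  have h3 := pow_gcd_eq_one.mpr ⟨h2, h1⟩
  rw [Nat.Coprime.gcd_eq_one hcop, pow_one, QuotientGroup.eq_one_iff] at h3
  exact h3

/-- A commutative group algebra identity: two commuting automorphisms of order dividing 3 all of
whose "norms" vanish force exponent 3. -/
theorem cube_eq_one_of_norms {A : Type*} [CommGroup A] (φ ψ : A →* A)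
    (comm : ∀ v, φ (ψ v) = ψ (φ v))
    (h1 : ∀ v, v * φ v * φ (φ v) = 1) (h2 : ∀ v, v * ψ v * ψ (ψ v) = 1)
    (h3 : ∀ v, v * φ (ψ v) * φ (φ (ψ (ψ v))) = 1)
    (h4 : ∀ v, v * φ (ψ (ψ v)) * φ (φ (ψ v)) = 1) (v : A) : v ^ 3 = 1 := by
  have e1 := h1 v
  have e2 := h2 v
  have e3 := h3 v
  have e4 := h4 v
  have e5 : φ (v * ψ v * ψ (ψ v)) = 1 := by rw [h2 v, map_one]
  have e6 : φ (φ (v * ψ v * ψ (ψ v))) = 1 := by rw [h2 v, map_one, map_one]
  simp only [map_mul] at e5 e6
  have key : (v * v * v) * ((v * ψ v * ψ (ψ v)) * (φ v * φ (ψ v) * φ (ψ (ψ v))) *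
      (φ (φ v) * φ (φ (ψ v)) * φ (φ (ψ (ψ v))))) =
      (v * φ v * φ (φ v)) * (v * ψ v * ψ (ψ v)) * (v * φ (ψ v) * φ (φ (ψ (ψ v)))) *
        (v * φ (ψ (ψ v)) * φ (φ (ψ v))) := by
    ac_rfl
  rw [e1, e2, e3, e4, e5, e6] at key
  simpa [pow_succ, mul_assoc] using key

theorem norm_eq_one {x : T} (hx1 : x ≠ 1) {b : X} (hxb : x • b = b) (hx3 : x ^ 3 = 1)
    {v : T} (hv : v ∈ kernel h) :
    v * (x * v * x⁻¹) * (x * (x * v * x⁻¹) * x⁻¹) = 1 := by
  set n := v * (x * v * x⁻¹) * (x * (x * v * x⁻¹) * x⁻¹) with hn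
  have hN := kernel_normal h
  have hv1 : x * v * x⁻¹ ∈ kernel h := hN.conj_mem v hv x
  have hv2 : x * (x * v * x⁻¹) * x⁻¹ ∈ kernel h := hN.conj_mem _ hv1 x
  have hnmem : n ∈ kernel h := (kernel h).mul_mem ((kernel h).mul_mem hv hv1) hv2
  have hx3' : x * (x * (x * v * x⁻¹) * x⁻¹) * x⁻¹ = v := by
    have : x * x * x = 1 := by rw [← hx3]; simp [pow_succ]
    have hi : x⁻¹ = x * x := by
      rw [inv_eq_iff_mul_eq_one]
      rw [← this]; simp [mul_assoc]
    calc x * (x * (x * v * x⁻¹) * x⁻¹) * x⁻¹ = (x * x * x) * v * (x * x * x)⁻¹ := by group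
      _ = v := by rw [this]; simp
  have hcomm : x * n * x⁻¹ = n := by
    have e : x * n * x⁻¹ = (x * v * x⁻¹) * (x * (x * v * x⁻¹) * x⁻¹) *
        (x * (x * (x * v * x⁻¹) * x⁻¹) * x⁻¹) := by
      rw [hn]; group
    rw [e, hx3']
    rw [hn, mul_assoc v, (kernel_comm h hv ((kernel h).mul_mem hv1 hv2)).eq, ]
  by_contra hne
  have hf : Fpf X n := hnmem.resolve_left hne
  have hc : Commute x n := by
    change x * n = n * x
    calc x * n = x * n * x⁻¹ * x := by group
      _ = n * x := by rw [hcomm]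
  rcases h.one_or_fpf_of_commute hf hc with h1 | h1
  · exact hx1 h1
  · exact h1 b hxb

/-- A group of type `(3,3)` in a point stabiliser forces the kernel to have exponent 3. -/
theorem kernel_cube_of_three_three {b : X} {x y : T} (hxb : x • b = b) (hyb : y • b = b)
    (hx3 : x ^ 3 = 1) (hy3 : y ^ 3 = 1) (hcomm : Commute x y)
    (hx1 : x ≠ 1) (hy1 : y ≠ 1) (hxy : x * y ≠ 1) (hxyy : x * (y * y) ≠ 1)
    {v : T} (hv : v ∈ kernel h) : v ^ 3 = 1 := by
  letI A : CommGroup (kernel h) :=
    { (inferInstance : Group (kernel h)) with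
      mul_comm := fun a b => Subtype.ext (kernel_comm h a.2 b.2).eq }
  have hN := kernel_normal h
  let φ : (kernel h) →* (kernel h) := (MulAut.conjNormal x : MulAut (kernel h)).toMonoidHom
  let ψ : (kernel h) →* (kernel h) := (MulAut.conjNormal y : MulAut (kernel h)).toMonoidHom
  have hφ : ∀ w : kernel h, ((φ w : kernel h) : T) = x * w * x⁻¹ := fun w => rfl
  have hψ : ∀ w : kernel h, ((ψ w : kernel h) : T) = y * w * y⁻¹ := fun w => rfl
  have hinvcomm : Commute x⁻¹ y⁻¹ := hcomm.inv_inv
  have := cube_eq_one_of_norms (A := kernel h) φ ψ ?_ ?_ ?_ ?_ ?_ ⟨v, hv⟩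
  · have h5 := congrArg Subtype.val this
    simpa using h5
  · intro w
    apply Subtype.ext
    simp only [hφ, hψ]
    calc x * (y * w * y⁻¹) * x⁻¹ = (x * y) * w * (y⁻¹ * x⁻¹) := by group
      _ = (y * x) * w * (x⁻¹ * y⁻¹) := by rw [hcomm.eq, hinvcomm.eq]
      _ = _ := by group
  · intro w
    apply Subtype.ext
    exact norm_eq_one h hx1 hxb hx3 w.2
  · intro w
    apply Subtype.ext
    exact norm_eq_one h hy1 hyb hy3 w.2
  · intro w
    apply Subtype.ext
    have hb' : (x * y) • b = b := by rw [mul_smul, hyb, hxb]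
    have h3 : (x * y) ^ 3 = 1 := by
      rw [hcomm.mul_pow, hx3, hy3, one_mul]
    have := norm_eq_one h hxy hb' h3 w.2
    simp only [Subgroup.coe_mul, hφ, hψ, Subgroup.coe_one]
    rw [← this]
    congr 1
    · congr 1
      group
    · calc x * (x * (y * (y * (w : T) * y⁻¹) * y⁻¹) * x⁻¹) * x⁻¹
          = x * (x * y) * y * w * y⁻¹ * (y⁻¹ * x⁻¹) * x⁻¹ := by group
        _ = x * (y * x) * y * w * y⁻¹ * (x⁻¹ * y⁻¹) * x⁻¹ := by rw [hcomm.eq, hinvcomm.eq]
        _ = _ := by group
  · intro w
    apply Subtype.ext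
    have hb' : (x * (y * y)) • b = b := by rw [mul_smul, mul_smul, hyb, hyb, hxb]
    have hcomm2 : Commute x (y * y) := hcomm.mul_right hcomm
    have h3 : (x * (y * y)) ^ 3 = 1 := by
      rw [hcomm2.mul_pow, hx3, one_mul, ← pow_two, ← pow_mul, mul_comm, pow_mul, hy3, one_pow]
    have := norm_eq_one h hxyy hb' h3 w.2
    simp only [Subgroup.coe_mul, hφ, hψ, Subgroup.coe_one]
    rw [← this]
    congr 1
    · congr 1
      group
    · -- `(x y y)^2 = x x y` since `y ^ 3 = 1`
      have hy3' : y * y * y = 1 := by rw [← hy3]; simp [pow_succ]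
      have hyi : y⁻¹ = y * y := by
        rw [inv_eq_iff_mul_eq_one, ← mul_assoc, hy3']
      have e1 : x * (y * y) * (x * (y * y)) = x * x * y := by
        have : y * y * x = x * (y * y) := (hcomm.mul_right hcomm).eq.symm
        calc x * (y * y) * (x * (y * y)) = x * ((y * y) * x) * (y * y) := by group
          _ = x * (x * (y * y)) * (y * y) := by rw [this]
          _ = x * x * (y * (y * y * y)) := by group
          _ = x * x * y := by rw [hy3', mul_one]
      calc x * (x * (y * (w : T) * y⁻¹) * x⁻¹) * x⁻¹ = (x * x * y) * w * (x * x * y)⁻¹ := by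
            have : (x * x * y)⁻¹ = y⁻¹ * x⁻¹ * x⁻¹ := by group
            rw [this]; group
        _ = (x * (y * y) * (x * (y * y))) * w * (x * (y * y) * (x * (y * y)))⁻¹ := by rw [e1]
        _ = _ := by group

/-- A point stabiliser of a sharply doubly transitive group contains no subgroup of type `(3,3)`. -/
theorem false_of_three_three (h : IsSharp2 T X) {b : X} {x y : T} (hxb : x • b = b) (hyb : y • b = b)
    (hx3 : x ^ 3 = 1) (hy3 : y ^ 3 = 1) (hcomm : Commute x y)
    (hx1 : x ≠ 1) (hy1 : y ≠ 1) (hxy : x * y ≠ 1) (hxyy : x * (y * y) ≠ 1) : False := by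
  classical
  haveI := h.finite
  obtain ⟨p, j, hp, hj, hcard, hord⟩ := exists_card_eq_prime_pow h
  obtain ⟨g, hg⟩ := exists_fpf h (X := X)
  have hg1 : g ≠ 1 := by
    rintro rfl
    exact hg b (one_smul _ _)
  have hgk : g ∈ kernel h := Or.inr hg
  have h3 := kernel_cube_of_three_three h hxb hyb hx3 hy3 hcomm hx1 hy1 hxy hxyy hgk
  have hpo := hord g hgk hg1
  have hd : p ∣ 3 := by
    rw [← hpo]
    exact orderOf_dvd_of_pow_eq_one h3
  have hp3 : p = 3 := (Nat.prime_dvd_prime_iff_eq hp Nat.prime_three).mp hd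
  subst hp3
  haveI : Fact (Nat.Prime 3) := ⟨Nat.prime_three⟩
  have hordx : orderOf x = 3 := orderOf_eq_prime hx3 hx1
  have hPG : IsPGroup 3 (Subgroup.zpowers x) := by
    apply IsPGroup.of_card (n := 1)
    rw [Nat.card_zpowers, hordx, pow_one]
  have hmod := hPG.card_modEq_card_fixedPoints X
  have hfix : Nat.card (fixedPoints (Subgroup.zpowers x) X) = 1 := by
    rw [Nat.card_eq_one_iff_unique]
    refine ⟨⟨?_⟩, ⟨⟨b, ?_⟩⟩⟩
    · rintro ⟨u, hu⟩ ⟨w, hw⟩
      apply Subtype.ext
      by_contra hne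
      apply hx1
      apply h.sharp x u w hne
      · exact hu ⟨x, Subgroup.mem_zpowers x⟩
      · exact hw ⟨x, Subgroup.mem_zpowers x⟩
    · rintro ⟨g', n, rfl⟩
      exact (fixedBy_subset_fixedBy_zpow X x n) hxb
  rw [hfix, hcard] at hmod
  have h4 : 3 ∣ 3 ^ j := dvd_pow_self 3 (by omega)
  have h5 : 3 ^ j ≡ 0 [MOD 3] := (Nat.modEq_zero_iff_dvd).mpr h4
  have h6 := h5.symm.trans hmod
  exact absurd h6 (by decide)

end CfsgLib.H9.Sharp2
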