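import Mathlib

/-! Sourour-style factorisations in `SL₃`: a non-scalar matrix is conjugate to one with
prescribed leading principal minors. -/

namespace CfsgLib.H9.Sour3

open Matrix

variable {F : Type*} [Field F]

/-- A non-scalar matrix has a row vector that is not an eigenvector. -/
lemma exists_row (A : Matrix (Fin 3) (Fin 3) F)
    (hA : ¬ ∃ c : F, A = c • (1 : Matrix (Fin 3) (Fin 3) F)) :
    ∃ l : Fin 3 → F, ∀ c : F, ∃ j, (∑ i, l i * A i j) ≠ c * l j := by
  by_contra hc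
  push Not at hc
  apply hA
  have h0 := hc ![1,0,0]
  have h1 := hc ![0,1,0]
  have h2 := hc ![0,0,1]
  have h01 := hc ![1,1,0]
  have h02 := hc ![1,0,1]
  obtain ⟨c0, h0⟩ := h0
  obtain ⟨c1, h1⟩ := h1
  obtain ⟨c2, h2⟩ := h2
  obtain ⟨c01, h01⟩ := h01
  obtain ⟨c02, h02⟩ := h02
  have e00 := h0 0
  have e01 := h0 1
  have e02 := h0 2
  have e10 := h1 0
  have e11 := h1 1
  have e12 := h1 2
  have e20 := h2 0
  have e21 := h2 1
  have e22 := h2 2
  have f0 := h01 0
  have f1 := h01 1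
  have g0 := h02 0
  have g2 := h02 2
  simp [Fin.sum_univ_three] at e00 e01 e02 e10 e11 e12 e20 e21 e22 f0 f1 g0 g2
  refine ⟨A 0 0, ?_⟩
  have h11 : A 1 1 = A 0 0 := by
    have x1 : A 0 0 = c01 := by simpa [e10] using f0
    have x2 : A 1 1 = c01 := by simpa [e01] using f1
    rw [x1, x2]
  have h22 : A 2 2 = A 0 0 := by
    have x1 : A 0 0 = c02 := by simpa [e20] using g0
    have x2 : A 2 2 = c02 := by simpa [e02] using g2
    rw [x1, x2]
  ext i j
  fin_cases i <;> fin_cases j <;> simp [e01, e02, e10, e12, e20, e21, h11, h22]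

/-- A matrix with prescribed middle row. -/
lemma exists_mid (l : Fin 3 → F) (hl : l ≠ 0) :
    ∃ S S' : Matrix (Fin 3) (Fin 3) F, S * S' = 1 ∧ ∀ j, S 1 j = l j := by
  by_cases h1 : l 1 = 0
  · by_cases h0 : l 0 = 0
    · have h2 : l 2 ≠ 0 := by
        intro h2
        apply hl
        ext i
        fin_cases i <;> simp [h0, h1, h2]
      refine ⟨!![1,0,0; l 0, l 1, l 2; 0,1,0],
        !![1,0,0; 0,0,1; 0,(l 2)⁻¹,-(l 1)*(l 2)⁻¹], ?_, ?_⟩
      · ext i j
        fin_cases i <;> fin_cases j <;> simp [Matrix.mul_apply, Fin.sum_univ_three, h0, h1, h2]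
      · intro j
        fin_cases j <;> simp
    · refine ⟨!![0,1,0; l 0, l 1, l 2; 0,0,1],
        !![-(l 1)*(l 0)⁻¹,(l 0)⁻¹,-(l 2)*(l 0)⁻¹; 1,0,0; 0,0,1], ?_, ?_⟩
      · ext i j
        fin_cases i <;> fin_cases j <;> simp [Matrix.mul_apply, Fin.sum_univ_three, h0, h1] <;>
          field_simp <;> ring
      · intro j
        fin_cases j <;> simp
  · refine ⟨!![1,0,0; l 0, l 1, l 2; 0,0,1],
      !![1,0,0; -(l 0)*(l 1)⁻¹,(l 1)⁻¹,-(l 2)*(l 1)⁻¹; 0,0,1], ?_, ?_⟩
    · ext i j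
      fin_cases i <;> fin_cases j <;> simp [Matrix.mul_apply, Fin.sum_univ_three, h1] <;>
        field_simp <;> ring
    · intro j
      fin_cases j <;> simp

/-- Independent vectors avoiding the kernels of two non-zero forms. -/
lemma exists_vecs (p q r s : F) (h1 : p ≠ 0 ∨ q ≠ 0) (h2 : r ≠ 0 ∨ s ≠ 0) :
    ∃ a b c d : F, a * d - b * c ≠ 0 ∧ a * p + b * q ≠ 0 ∧ c * r + d * s ≠ 0 := by
  rcases h1 with h | h
  · by_cases hs : s = 0
    · have hr : r ≠ 0 := by
        rcases h2 with h' | h'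
        · exact h'
        · exact absurd hs h'
      exact ⟨1, 0, 1, 1, by simp, by simpa using h, by simp [hs, hr]⟩
    · exact ⟨1, 0, 0, 1, by simp, by simpa using h, by simp [hs]⟩
  · by_cases hr : r = 0
    · have hs : s ≠ 0 := by
        rcases h2 with h' | h'
        · exact absurd hr h'
        · exact h'
      exact ⟨0, 1, 1, 1, by simp, by simpa using h, by simp [hr, hs]⟩
    · exact ⟨0, 1, 1, 0, by simp, by simpa using h, by simp [hr]⟩

/-- A non-scalar matrix is conjugate to one with a prescribed `(0,0)` entry whose inverse has a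
prescribed `(2,2)` entry. -/
lemma exists_conj (A B : Matrix (Fin 3) (Fin 3) F) (hAB : A * B = 1)
    (hA : ¬ ∃ c : F, A = c • (1 : Matrix (Fin 3) (Fin 3) F)) (d1 d2 : F) :
    ∃ P Q : Matrix (Fin 3) (Fin 3) F, P * Q = 1 ∧ (P * A * Q) 0 0 = d1 ∧ (P * B * Q) 2 2 = d2 := by
  have hBA : B * A = 1 := mul_eq_one_comm.mp hAB
  obtain ⟨l, hl⟩ := exists_row A hA
  have hl0 : l ≠ 0 := by
    rintro rfl
    obtain ⟨j, hj⟩ := hl 0
    simp at hj
  obtain ⟨S, S', hS, hSl⟩ := exists_mid l hl0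
  have hS' : S' * S = 1 := mul_eq_one_comm.mp hS
  -- the transformed matrices
  set A1 := S * A * S' with hA1
  set B1 := S * B * S' with hB1
  have hA1B1 : A1 * B1 = 1 := by
    calc A1 * B1 = S * A * (S' * S) * B * S' := by simp only [hA1, hB1, Matrix.mul_assoc]
      _ = 1 := by rw [hS', Matrix.mul_one, Matrix.mul_assoc S, hAB, Matrix.mul_one, hS]
  -- the second row of `A1` is not a multiple of `e₁`
  have key : ∀ (M M1 : Matrix (Fin 3) (Fin 3) F), M1 = S * M * S' →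
      (∀ c : F, ∃ j, (∑ i, l i * M i j) ≠ c * l j) → (M1 1 0 ≠ 0 ∨ M1 1 2 ≠ 0) := by
    intro M M1 hM1 hc
    by_contra hcon
    push Not at hcon
    obtain ⟨h10, h12⟩ := hcon
    obtain ⟨j, hj⟩ := hc (M1 1 1)
    apply hj
    have h' : M1 * S = S * M := by
      rw [hM1, Matrix.mul_assoc, hS', Matrix.mul_one]
    have h := congrFun (congrFun h' 1) j
    simp only [Matrix.mul_apply, Fin.sum_univ_three, h10, h12, zero_mul, zero_add, add_zero, hSl] at h
    rw [Fin.sum_univ_three, ← h]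
  have hlB : ∀ c : F, ∃ j, (∑ i, l i * B i j) ≠ c * l j := by
    intro c
    by_contra hcon
    push Not at hcon
    have h1 : l ᵥ* B = c • l := by
      ext j
      simpa [Matrix.vecMul, dotProduct] using hcon j
    have h2 : (c • l) ᵥ* A = l := by
      rw [← h1, Matrix.vecMul_vecMul, hBA, Matrix.vecMul_one]
    have hc0 : c ≠ 0 := by
      rintro rfl
      apply hl0
      rw [← h2]
      simp
    obtain ⟨j, hj⟩ := hl c⁻¹
    apply hj
    have h3 := congrFun h2 j
    rw [Matrix.smul_vecMul] at h3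
    simp only [Pi.smul_apply, smul_eq_mul, Matrix.vecMul, dotProduct] at h3
    rw [← h3]
    field_simp
  have hr1 := key A A1 hA1 hl
  have hr2 := key B B1 hB1 hlB
  obtain ⟨a, b, c, d, hD, hp, hq⟩ := exists_vecs _ _ _ _ hr1 hr2
  set D := a * d - b * c with hDdef
  set p1 := a * A1 1 0 + b * A1 1 2 with hp1
  set p2 := c * B1 1 0 + d * B1 1 2 with hp2
  set x := (d1 - (d / D * (A1 0 0 * a + A1 0 2 * b) - c / D * (A1 2 0 * a + A1 2 2 * b))) / p1 with hx
  set z := (d2 - (a / D * (B1 2 0 * c + B1 2 2 * d) - b / D * (B1 0 0 * c + B1 0 2 * d))) / p2 with hz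
  have hPQ : !![d / D, x, -c / D; 0, 1, 0; -b / D, z, a / D] *
      !![a, -x * a - z * c, c; 0, 1, 0; b, -x * b - z * d, d] = (1 : Matrix (Fin 3) (Fin 3) F) := by
    ext i j
    fin_cases i <;> fin_cases j <;> simp [Matrix.mul_apply, Fin.sum_univ_three] <;>
      field_simp <;> (try ring_nf) <;> (try simp only [hDdef]) <;> (try ring)
  refine ⟨!![d / D, x, -c / D; 0, 1, 0; -b / D, z, a / D] * S,
    S' * !![a, -x * a - z * c, c; 0, 1, 0; b, -x * b - z * d, d], ?_, ?_, ?_⟩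
  · calc _ = !![d / D, x, -c / D; 0, 1, 0; -b / D, z, a / D] * (S * S') *
        !![a, -x * a - z * c, c; 0, 1, 0; b, -x * b - z * d, d] := by
          simp only [Matrix.mul_assoc]
      _ = 1 := by rw [hS, Matrix.mul_one, hPQ]
  · have e : !![d / D, x, -c / D; 0, 1, 0; -b / D, z, a / D] * S * A *
        (S' * !![a, -x * a - z * c, c; 0, 1, 0; b, -x * b - z * d, d]) =
        !![d / D, x, -c / D; 0, 1, 0; -b / D, z, a / D] * A1 *
        !![a, -x * a - z * c, c; 0, 1, 0; b, -x * b - z * d, d] := by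
      simp only [hA1, Matrix.mul_assoc]
    rw [e]
    simp only [Matrix.mul_apply, Fin.sum_univ_three]
    simp
    have hx' : x * p1 = d1 - (d / D * (A1 0 0 * a + A1 0 2 * b) - c / D * (A1 2 0 * a + A1 2 2 * b)) := by
      rw [hx]; field_simp
    linear_combination hx'
  · have e : !![d / D, x, -c / D; 0, 1, 0; -b / D, z, a / D] * S * B *
        (S' * !![a, -x * a - z * c, c; 0, 1, 0; b, -x * b - z * d, d]) =
        !![d / D, x, -c / D; 0, 1, 0; -b / D, z, a / D] * B1 *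
        !![a, -x * a - z * c, c; 0, 1, 0; b, -x * b - z * d, d] := by
      simp only [hB1, Matrix.mul_assoc]
    rw [e]
    simp only [Matrix.mul_apply, Fin.sum_univ_three]
    simp
    have hz' : z * p2 = d2 - (a / D * (B1 2 0 * c + B1 2 2 * d) - b / D * (B1 0 0 * c + B1 0 2 * d)) := by
      rw [hz]; field_simp
    linear_combination hz'

/-- LU decomposition with prescribed diagonals `1, t, t⁻¹`. -/
lemma lu_split (A B : Matrix (Fin 3) (Fin 3) F) (hAB : A * B = 1) (hdet : A.det = 1) (t : F)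
    (ht : t ≠ 0) (h0 : A 0 0 = 1) (h2 : B 2 2 = t ^ 2) :
    A = !![1, 0, 0; A 1 0, t, 0; A 2 0, (A 2 1 - A 2 0 * A 0 1) / t, t⁻¹] *
      !![1, A 0 1, A 0 2; 0, t, (A 1 2 - A 1 0 * A 0 2) / t; 0, 0, t⁻¹] := by
  have hB : B = A.adjugate := by
    have h1 : A.adjugate * A = 1 := by rw [Matrix.adjugate_mul, hdet, one_smul]
    calc B = (A.adjugate * A) * B := by rw [h1, Matrix.one_mul]
      _ = A.adjugate := by rw [Matrix.mul_assoc, hAB, Matrix.mul_one]
  have he : A 1 1 - A 0 1 * A 1 0 = t ^ 2 := by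
    rw [hB, Matrix.adjugate_fin_three] at h2
    simp [h0] at h2
    rw [← h2]
  have hd := hdet
  rw [Matrix.det_fin_three, h0] at hd
  have hi : A 2 2 = (A 2 0 * A 0 2) + (A 2 1 - A 2 0 * A 0 1) / t * ((A 1 2 - A 1 0 * A 0 2) / t) + t⁻¹ * t⁻¹ := by
    have h11 : A 1 1 = t ^ 2 + A 0 1 * A 1 0 := by rw [← he]; ring
    rw [h11] at hd
    field_simp
    linear_combination hd
  ext i j
  fin_cases i <;> fin_cases j <;> simp [Matrix.mul_apply, Fin.sum_univ_three, h0]
  · have h11 : A 1 1 = t ^ 2 + A 0 1 * A 1 0 := by rw [← he]; ring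
    rw [h11]; ring
  · field_simp; try ring
  · field_simp; try ring
  · rw [hi]

/-- The diagonal matrix `diag(1, t, t⁻¹)`. -/
def dM (t : F) : Matrix (Fin 3) (Fin 3) F := !![1, 0, 0; 0, t, 0; 0, 0, t⁻¹]

lemma dM_det (t : F) (ht : t ≠ 0) : (dM t).det = 1 := by
  simp [dM, Matrix.det_fin_three, ht]

lemma lower_conj (t : F) (ht : t ≠ 0) (ht1 : t ≠ 1) (ht2 : t ^ 2 ≠ 1) (d g l : F) :
    ∃ G G1 : Matrix (Fin 3) (Fin 3) F, G * G1 = 1 ∧ G.det = 1 ∧
      !![1, 0, 0; d, t, 0; g, l, t⁻¹] = G * dM t * G1 := by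
  have h1 : 1 - t ≠ 0 := sub_ne_zero.mpr (Ne.symm ht1)
  have h2 : t - t⁻¹ ≠ 0 := by
    intro h
    apply ht2
    field_simp at h
    linear_combination h
  have h3 : 1 - t⁻¹ ≠ 0 := by
    intro h
    apply ht1
    field_simp at h
    first | linear_combination h | linear_combination -h
  set x := d / (1 - t) with hx
  set z := l / (t - t⁻¹) with hz
  set y := (g + l * x) / (1 - t⁻¹) with hy
  have ex : d + t * x = x := by rw [hx]; field_simp; ring
  have ez : l + t⁻¹ * z = z * t := by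
    have : z * (t - t⁻¹) = l := by rw [hz]; field_simp
    linear_combination -this
  have ey : g + l * x + t⁻¹ * y = y := by
    have : y * (1 - t⁻¹) = g + l * x := by rw [hy]; field_simp
    linear_combination -this
  refine ⟨!![1, 0, 0; x, 1, 0; y, z, 1], !![1, 0, 0; -x, 1, 0; x * z - y, -z, 1], ?_, ?_, ?_⟩
  · ext i j
    fin_cases i <;> fin_cases j <;> simp [Matrix.mul_apply, Fin.sum_univ_three] <;> ring
  · simp [Matrix.det_fin_three]
  · have e : !![1, 0, 0; d, t, 0; g, l, t⁻¹] * !![1, 0, 0; x, 1, 0; y, z, 1] =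
        !![1, 0, 0; x, 1, 0; y, z, 1] * dM t := by
      ext i j
      fin_cases i <;> fin_cases j <;> simp [Matrix.mul_apply, Fin.sum_univ_three, dM] <;>
        first
          | linear_combination ex
          | linear_combination ez
          | linear_combination ey
          | ring
    rw [← e, Matrix.mul_assoc]
    have : !![1, 0, 0; x, 1, 0; y, z, 1] * !![1, 0, 0; -x, 1, 0; x * z - y, -z, 1] =
        (1 : Matrix (Fin 3) (Fin 3) F) := by
      ext i j
      fin_cases i <;> fin_cases j <;> simp [Matrix.mul_apply, Fin.sum_univ_three] <;> ring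
    rw [this, Matrix.mul_one]

lemma upper_conj (t : F) (ht : t ≠ 0) (ht1 : t ≠ 1) (ht2 : t ^ 2 ≠ 1) (b c f : F) :
    ∃ G G1 : Matrix (Fin 3) (Fin 3) F, G * G1 = 1 ∧ G.det = 1 ∧
      !![1, b, c; 0, t, f; 0, 0, t⁻¹] = G * dM t * G1 := by
  have h1 : t - 1 ≠ 0 := sub_ne_zero.mpr ht1
  have h2 : t⁻¹ - t ≠ 0 := by
    intro h
    apply ht2
    field_simp at h
    linear_combination -h
  have h3 : t⁻¹ - 1 ≠ 0 := by
    intro h
    apply ht1
    field_simp at h
    first | linear_combination h | linear_combination -h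
  set x := b / (t - 1) with hx
  set z := f / (t⁻¹ - t) with hz
  set y := (b * z + c) / (t⁻¹ - 1) with hy
  have ex : x + b = x * t := by
    have : x * (t - 1) = b := by rw [hx]; field_simp
    linear_combination -this
  have ez : t * z + f = z * t⁻¹ := by
    have : z * (t⁻¹ - t) = f := by rw [hz]; field_simp
    linear_combination -this
  have ey : y + b * z + c = y * t⁻¹ := by
    have : y * (t⁻¹ - 1) = b * z + c := by rw [hy]; field_simp
    linear_combination -this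
  refine ⟨!![1, x, y; 0, 1, z; 0, 0, 1], !![1, -x, x * z - y; 0, 1, -z; 0, 0, 1], ?_, ?_, ?_⟩
  · ext i j
    fin_cases i <;> fin_cases j <;> simp [Matrix.mul_apply, Fin.sum_univ_three] <;> ring
  · simp [Matrix.det_fin_three]
  · have e : !![1, b, c; 0, t, f; 0, 0, t⁻¹] * !![1, x, y; 0, 1, z; 0, 0, 1] =
        !![1, x, y; 0, 1, z; 0, 0, 1] * dM t := by
      ext i j
      fin_cases i <;> fin_cases j <;> simp [Matrix.mul_apply, Fin.sum_univ_three, dM] <;>
        first
          | linear_combination ex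
          | linear_combination ez
          | linear_combination ey
          | ring
    rw [← e, Matrix.mul_assoc]
    have : !![1, x, y; 0, 1, z; 0, 0, 1] * !![1, -x, x * z - y; 0, 1, -z; 0, 0, 1] =
        (1 : Matrix (Fin 3) (Fin 3) F) := by
      ext i j
      fin_cases i <;> fin_cases j <;> simp [Matrix.mul_apply, Fin.sum_univ_three] <;> ring
    rw [this, Matrix.mul_one]

/-- Adjust a conjugator to have determinant one, using the torus. -/
lemma adjust (t : F) (R R1 : Matrix (Fin 3) (Fin 3) F) (h : R * R1 = 1) :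
    ∃ M N : Matrix (Fin 3) (Fin 3) F, M * N = 1 ∧ M.det = 1 ∧ M * dM t * N = R * dM t * R1 := by
  have hdet : R.det * R1.det = 1 := by rw [← Matrix.det_mul, h, Matrix.det_one]
  have hd0 : R.det ≠ 0 := left_ne_zero_of_mul_eq_one hdet
  set δ := R.det with hδ
  have e1 : !![δ⁻¹, 0, 0; 0, 1, 0; 0, 0, 1] * !![δ, 0, 0; 0, 1, 0; 0, 0, 1] =
      (1 : Matrix (Fin 3) (Fin 3) F) := by
    ext i j
    fin_cases i <;> fin_cases j <;> simp [Matrix.mul_apply, Fin.sum_univ_three, hd0]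
  have e2 : !![δ⁻¹, 0, 0; 0, 1, 0; 0, 0, 1] * dM t * !![δ, 0, 0; 0, 1, 0; 0, 0, 1] = dM t := by
    ext i j
    fin_cases i <;> fin_cases j <;> simp [Matrix.mul_apply, Fin.sum_univ_three, dM, hd0]
  refine ⟨R * !![δ⁻¹, 0, 0; 0, 1, 0; 0, 0, 1], !![δ, 0, 0; 0, 1, 0; 0, 0, 1] * R1, ?_, ?_, ?_⟩
  · calc _ = R * (!![δ⁻¹, 0, 0; 0, 1, 0; 0, 0, 1] * !![δ, 0, 0; 0, 1, 0; 0, 0, 1]) * R1 := by
          simp only [Matrix.mul_assoc]
      _ = 1 := by rw [e1, Matrix.mul_one, h]
  · rw [Matrix.det_mul, ← hδ]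
    simp [Matrix.det_fin_three, hd0]
  · calc _ = R * (!![δ⁻¹, 0, 0; 0, 1, 0; 0, 0, 1] * dM t * !![δ, 0, 0; 0, 1, 0; 0, 0, 1]) * R1 := by
          simp only [Matrix.mul_assoc]
      _ = _ := by rw [e2]

/-- Matrix form of the factorisation. -/
theorem main_mat (A B : Matrix (Fin 3) (Fin 3) F) (hAB : A * B = 1) (hdet : A.det = 1)
    (hA : ¬ ∃ c : F, A = c • (1 : Matrix (Fin 3) (Fin 3) F))
    (t : F) (ht : t ≠ 0) (ht1 : t ≠ 1) (ht2 : t ^ 2 ≠ 1) :
    ∃ M N M' N' : Matrix (Fin 3) (Fin 3) F, M * N = 1 ∧ M.det = 1 ∧ M' * N' = 1 ∧ M'.det = 1 ∧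
      A = (M * dM t * N) * (M' * dM t * N') := by
  obtain ⟨P, Q, hPQ, h0, h2⟩ := exists_conj A B hAB hA 1 (t ^ 2)
  have hQP : Q * P = 1 := mul_eq_one_comm.mp hPQ
  have hA'B' : (P * A * Q) * (P * B * Q) = 1 := by
    calc _ = P * A * (Q * P) * B * Q := by simp only [Matrix.mul_assoc]
      _ = 1 := by rw [hQP, Matrix.mul_one, Matrix.mul_assoc P, hAB, Matrix.mul_one, hPQ]
  have hdet' : (P * A * Q).det = 1 := by
    rw [Matrix.det_mul, Matrix.det_mul, hdet, mul_one, ← Matrix.det_mul, hPQ, Matrix.det_one]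
  have hlu := lu_split _ _ hA'B' hdet' t ht h0 h2
  obtain ⟨G, G1, hG, -, hGe⟩ := lower_conj t ht ht1 ht2 ((P * A * Q) 1 0) ((P * A * Q) 2 0)
    (((P * A * Q) 2 1 - (P * A * Q) 2 0 * (P * A * Q) 0 1) / t)
  obtain ⟨H, H1, hH, -, hHe⟩ := upper_conj t ht ht1 ht2 ((P * A * Q) 0 1) ((P * A * Q) 0 2)
    (((P * A * Q) 1 2 - (P * A * Q) 1 0 * (P * A * Q) 0 2) / t)
  rw [hGe, hHe] at hlu
  have hr1 : (Q * G) * (G1 * P) = 1 := by
    calc _ = Q * (G * G1) * P := by simp only [Matrix.mul_assoc]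
      _ = 1 := by rw [hG, Matrix.mul_one, hQP]
  have hr2 : (Q * H) * (H1 * P) = 1 := by
    calc _ = Q * (H * H1) * P := by simp only [Matrix.mul_assoc]
      _ = 1 := by rw [hH, Matrix.mul_one, hQP]
  obtain ⟨M, N, hMN, hM, hMe⟩ := adjust t _ _ hr1
  obtain ⟨M', N', hMN', hM', hMe'⟩ := adjust t _ _ hr2
  refine ⟨M, N, M', N', hMN, hM, hMN', hM', ?_⟩
  rw [hMe, hMe']
  calc A = Q * P * A * (Q * P) := by rw [hQP, Matrix.one_mul, Matrix.mul_one]
    _ = Q * (P * A * Q) * P := by simp only [Matrix.mul_assoc]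
    _ = Q * (G * dM t * G1 * (H * dM t * H1)) * P := by rw [← hlu]
    _ = _ := by
      have e : Q * G * dM t * (G1 * P) * (Q * H * dM t * (H1 * P)) =
          Q * G * dM t * G1 * (P * Q) * H * dM t * H1 * P := by simp only [Matrix.mul_assoc]
      rw [e, hPQ]
      simp only [Matrix.mul_one, Matrix.mul_assoc]

/-- Inverse in `SL` from a right inverse. -/
lemma coe_inv_of {n : Type*} [Fintype n] [DecidableEq n] (u : Matrix.SpecialLinearGroup n F)
    (N : Matrix n n F) (h : (u : Matrix n n F) * N = 1) :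
    ((u⁻¹ : Matrix.SpecialLinearGroup n F) : Matrix n n F) = N := by
  have h1 : N * (u : Matrix n n F) = 1 := mul_eq_one_comm.mp h
  have h2 : (u : Matrix n n F) * ((u⁻¹ : Matrix.SpecialLinearGroup n F) : Matrix n n F) = 1 := by
    rw [← Matrix.SpecialLinearGroup.coe_mul, mul_inv_cancel, Matrix.SpecialLinearGroup.coe_one]
  calc ((u⁻¹ : Matrix.SpecialLinearGroup n F) : Matrix n n F)
      = N * (u : Matrix n n F) * ((u⁻¹ : Matrix.SpecialLinearGroup n F) : Matrix n n F) := by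
        rw [h1, Matrix.one_mul]
    _ = N := by rw [Matrix.mul_assoc, h2, Matrix.mul_one]

/-- Passage from the matrix statement to `SL`. -/
lemma to_sl (x A : Matrix.SpecialLinearGroup (Fin 3) F) (M N M' N' : Matrix (Fin 3) (Fin 3) F)
    (h1 : M * N = 1) (h2 : M.det = 1) (h3 : M' * N' = 1) (h4 : M'.det = 1)
    (h : (A : Matrix (Fin 3) (Fin 3) F) =
      (M * (x : Matrix (Fin 3) (Fin 3) F) * N) * (M' * (x : Matrix (Fin 3) (Fin 3) F) * N')) :
    ∃ u v : Matrix.SpecialLinearGroup (Fin 3) F, A = (u * x * u⁻¹) * (v * x * v⁻¹) := by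
  refine ⟨⟨M, h2⟩, ⟨M', h4⟩, ?_⟩
  apply Subtype.ext
  have e1 := coe_inv_of (⟨M, h2⟩ : Matrix.SpecialLinearGroup (Fin 3) F) N h1
  have e2 := coe_inv_of (⟨M', h4⟩ : Matrix.SpecialLinearGroup (Fin 3) F) N' h3
  change (A : Matrix (Fin 3) (Fin 3) F) = _
  rw [h]
  simp only [Matrix.SpecialLinearGroup.coe_mul, e1, e2]
  rfl

end CfsgLib.H9.Sour3
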