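import Mathlib
import Cfsg.Agent.Lib.H9.Sour3
import Cfsg.Agent.Lib.H9.Sour3Tab

/-! Thompson-type factorisation in `PSL₃(q)`. -/

namespace CfsgLib.H9.Sour32

open Matrix CfsgLib.H9.Sour3 CfsgLib.H9.Sour3Tab

variable {F : Type*} [Field F]

/-- The case of a field with three elements. -/
theorem main_three (e : ZMod 3 →+* F) (he : Function.Bijective e)
    (A B : Matrix (Fin 3) (Fin 3) F) (hAB : A * B = 1) (hdet : A.det = 1)
    (hA : ¬ ∃ c : F, A = c • (1 : Matrix (Fin 3) (Fin 3) F)) :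
    ∃ M N M' N' : Matrix (Fin 3) (Fin 3) F, M * N = 1 ∧ M.det = 1 ∧ M' * N' = 1 ∧ M'.det = 1 ∧
      A = (M * e.mapMatrix xT.toM * N) * (M' * e.mapMatrix xT.toM * N') := by
  obtain ⟨P, Q, hPQ, h0, h2⟩ := exists_conj A B hAB hA 1 1
  have hQP : Q * P = 1 := mul_eq_one_comm.mp hPQ
  have hA'B' : (P * A * Q) * (P * B * Q) = 1 := by
    calc _ = P * A * (Q * P) * B * Q := by simp only [Matrix.mul_assoc]
      _ = 1 := by rw [hQP, Matrix.mul_one, Matrix.mul_assoc P, hAB, Matrix.mul_one, hPQ]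
  have hdet' : (P * A * Q).det = 1 := by
    rw [Matrix.det_mul, Matrix.det_mul, hdet, mul_one, ← Matrix.det_mul, hPQ, Matrix.det_one]
  have hlu := lu_split _ _ hA'B' hdet' 1 one_ne_zero h0 (by rw [h2, one_pow])
  -- abbreviations
  set A' := P * A * Q with hA'
  obtain ⟨a, ha⟩ := he.2 (A' 1 0)
  obtain ⟨b, hb⟩ := he.2 (A' 2 0)
  obtain ⟨c, hc⟩ := he.2 ((A' 2 1 - A' 2 0 * A' 0 1) / 1)
  obtain ⟨d, hd⟩ := he.2 (A' 0 1)
  obtain ⟨f, hf⟩ := he.2 (A' 0 2)
  obtain ⟨g, hg⟩ := he.2 ((A' 1 2 - A' 1 0 * A' 0 2) / 1)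
  have hmap : A' = e.mapMatrix ((lT a b c).toM * (uT d f g).toM) := by
    rw [hlu]
    rw [map_mul]
    congr 1
    · ext i j
      fin_cases i <;> fin_cases j <;> simp [T9.toM, lT, ha, hb, hc]
    · ext i j
      fin_cases i <;> fin_cases j <;> simp [T9.toM, uT, hd, hf, hg]
  have hne : ¬ (a = 0 ∧ b = 0 ∧ c = 0 ∧ d = 0 ∧ f = 0 ∧ g = 0) := by
    rintro ⟨rfl, rfl, rfl, rfl, rfl, rfl⟩
    apply hA
    refine ⟨1, ?_⟩
    have h1 : (lT 0 0 0).toM * (uT 0 0 0).toM = 1 := by
      ext i j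
      fin_cases i <;> fin_cases j <;> simp [T9.toM, lT, uT, Matrix.mul_apply, Fin.sum_univ_three]
    rw [h1, map_one] at hmap
    rw [one_smul]
    calc A = Q * P * A * (Q * P) := by rw [hQP, Matrix.one_mul, Matrix.mul_one]
      _ = Q * A' * P := by simp only [hA', Matrix.mul_assoc]
      _ = 1 := by rw [hmap, Matrix.mul_one, hQP]
  obtain ⟨u, v, hu, hv, huv⟩ := exists_wit a b c d f g hne
  rw [huv] at hmap
  simp only [map_mul, RingHom.map_adjugate] at hmap
  -- the sign of `det Q`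
  have hdQ : Q.det = 1 ∨ Q.det = -1 := by
    have h1 : Q.det ≠ 0 := by
      intro h
      have := congrArg Matrix.det hQP
      rw [Matrix.det_mul, h, zero_mul, Matrix.det_one] at this
      exact zero_ne_one this
    obtain ⟨w, hw⟩ := he.2 Q.det
    rw [← hw] at h1 ⊢
    have : w ≠ 0 := by
      rintro rfl
      simp at h1
    have key : ∀ w : ZMod 3, w ≠ 0 → w = 1 ∨ w = -1 := by decide
    have h3 := key w this
    rcases h3 with rfl | rfl
    · left; simp
    · right; simp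
  have hu' : (e.mapMatrix u).det = 1 := by
    have := RingHom.map_det e u
    rw [← this, hu, map_one]
  have hv' : (e.mapMatrix v).det = 1 := by
    have := RingHom.map_det e v
    rw [← this, hv, map_one]
  have hu1 : e.mapMatrix u * (e.mapMatrix u).adjugate = 1 := by
    rw [Matrix.mul_adjugate, hu', one_smul]
  have hv1 : e.mapMatrix v * (e.mapMatrix v).adjugate = 1 := by
    rw [Matrix.mul_adjugate, hv', one_smul]
  -- assemble
  have hAe : A = Q * A' * P := by
    calc A = Q * P * A * (Q * P) := by rw [hQP, Matrix.one_mul, Matrix.mul_one]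
      _ = Q * A' * P := by simp only [hA', Matrix.mul_assoc]
  set U := e.mapMatrix u with hU
  set V := e.mapMatrix v with hV
  set X := e.mapMatrix xT.toM with hX
  rcases hdQ with hdQ | hdQ
  · refine ⟨Q * U, U.adjugate * P, Q * V, V.adjugate * P, ?_, ?_, ?_, ?_, ?_⟩
    · calc _ = Q * (U * U.adjugate) * P := by simp only [Matrix.mul_assoc]
        _ = 1 := by rw [hu1, Matrix.mul_one, hQP]
    · rw [Matrix.det_mul, hdQ, hu', one_mul]
    · calc _ = Q * (V * V.adjugate) * P := by simp only [Matrix.mul_assoc]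
        _ = 1 := by rw [hv1, Matrix.mul_one, hQP]
    · rw [Matrix.det_mul, hdQ, hv', one_mul]
    · rw [hAe, hmap]
      have e1 : Q * U * X * (U.adjugate * P) * (Q * V * X * (V.adjugate * P)) =
          Q * U * X * U.adjugate * (P * Q) * V * X * V.adjugate * P := by
        simp only [Matrix.mul_assoc]
      rw [e1, hPQ]
      simp only [Matrix.mul_one, Matrix.mul_assoc]
  · refine ⟨(-Q) * U, U.adjugate * (-P), (-Q) * V, V.adjugate * (-P), ?_, ?_, ?_, ?_, ?_⟩
    · calc _ = Q * (U * U.adjugate) * P := by simp only [Matrix.neg_mul, Matrix.mul_neg, neg_neg, Matrix.mul_assoc]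
        _ = 1 := by rw [hu1, Matrix.mul_one, hQP]
    · rw [Matrix.det_mul, Matrix.det_neg, hu', hdQ]
      simp
      ring
    · calc _ = Q * (V * V.adjugate) * P := by simp only [Matrix.neg_mul, Matrix.mul_neg, neg_neg, Matrix.mul_assoc]
        _ = 1 := by rw [hv1, Matrix.mul_one, hQP]
    · rw [Matrix.det_mul, Matrix.det_neg, hv', hdQ]
      simp
      ring
    · rw [hAe, hmap]
      have e1 : Q * U * X * (U.adjugate * P) * (Q * V * X * (V.adjugate * P)) =
          Q * U * X * U.adjugate * (P * Q) * V * X * V.adjugate * P := by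
        simp only [Matrix.mul_assoc]
      simp only [Matrix.neg_mul, Matrix.mul_neg, neg_neg]
      rw [e1, hPQ]
      simp only [Matrix.mul_one, Matrix.mul_assoc]

/-- Transfer to the projective group. -/
lemma psl_of_sl (x : Matrix.SpecialLinearGroup (Fin 3) F)
    (h : ∀ A : Matrix.SpecialLinearGroup (Fin 3) F,
      (¬ ∃ c : F, (A : Matrix (Fin 3) (Fin 3) F) = c • (1 : Matrix (Fin 3) (Fin 3) F)) →
      ∃ u v : Matrix.SpecialLinearGroup (Fin 3) F, A = (u * x * u⁻¹) * (v * x * v⁻¹))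
    (g : Matrix.ProjectiveSpecialLinearGroup (Fin 3) F) (hg : g ≠ 1) :
    ∃ u v : Matrix.ProjectiveSpecialLinearGroup (Fin 3) F,
      g = (u * (QuotientGroup.mk x) * u⁻¹) * (v * (QuotientGroup.mk x) * v⁻¹) := by
  obtain ⟨A, rfl⟩ := QuotientGroup.mk_surjective g
  have hns : ¬ ∃ c : F, (A : Matrix (Fin 3) (Fin 3) F) = c • (1 : Matrix (Fin 3) (Fin 3) F) := by
    rintro ⟨c, hc⟩
    apply hg
    rw [QuotientGroup.eq_one_iff, Matrix.SpecialLinearGroup.mem_center_iff]
    refine ⟨c, ?_, ?_⟩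
    · have := A.2
      rw [hc] at this
      simpa [Matrix.det_smul] using this
    · rw [hc, Matrix.smul_one_eq_diagonal]
      rfl
  obtain ⟨u, v, huv⟩ := h A hns
  refine ⟨QuotientGroup.mk u, QuotientGroup.mk v, ?_⟩
  rw [huv]
  rfl

end CfsgLib.H9.Sour32
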