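import Mathlib

/-! Tools for stem extensions: transfer and commutators of central extensions. -/

set_option autoImplicit false
set_option linter.unusedVariables false
set_option linter.unusedSectionVars false
set_option linter.unusedSimpArgs false
set_option linter.style.haveILetI false

namespace CfsgLib.H9.Stem

open scoped commutatorElement

section Transfer

variable {Γ : Type*} [Group Γ] [Finite Γ]

/-- transfer: a central element in the commutator subgroup lies in the commutator subgroup of any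
subgroup of coprime index containing it. -/
theorem mem_comm_of_coprime (H : Subgroup Γ) (z : Γ) (hzH : z ∈ H) (hzc : z ∈ Subgroup.center Γ)
    (hz' : z ∈ commutator Γ) (hcop : Nat.Coprime (orderOf z) H.index) :
    (⟨z, hzH⟩ : H) ∈ commutator H := by
  let ϕ : H →* Abelianization H := Abelianization.of
  have h1 : ϕ.transfer z = 1 := Abelianization.commutator_subset_ker ϕ.transfer hz'
  have key : ∀ (k : ℕ) (g₀ : Γ), g₀⁻¹ * z ^ k * g₀ ∈ H → g₀⁻¹ * z ^ k * g₀ = z ^ k := by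
    intro k g₀ _
    have hc : z ^ k ∈ Subgroup.center Γ := pow_mem hzc k
    have := Subgroup.mem_center_iff.mp hc g₀
    rw [mul_assoc, ← this]
    group
  rw [MonoidHom.transfer_eq_pow ϕ z key] at h1
  have h2 : (⟨z ^ H.index, MonoidHom.transfer_eq_pow_aux z key⟩ : H) ∈ commutator H := by
    have h3 : ϕ _ = 1 := h1
    have h4 := (QuotientGroup.eq_one_iff _).mp h3
    exact h4
  set w : H := ⟨z, hzH⟩ with hw
  have h5 : (⟨z ^ H.index, MonoidHom.transfer_eq_pow_aux z key⟩ : H) = w ^ H.index := by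
    apply Subtype.ext
    simp [hw]
  rw [h5] at h2
  have hord : orderOf w = orderOf z := by
    rw [hw, Subgroup.orderOf_mk]
  obtain ⟨m, hm⟩ := exists_pow_eq_self_of_coprime (x := w) (n := H.index) (by rw [hord]; exact hcop.symm)
  rw [← hm]
  exact pow_mem h2 m

end Transfer

section Ab

variable {E : Type*} [Group E]

/-- the commutator subgroup of a group with abelian normal subgroup and cyclic quotient. -/
theorem comm_form (A : Subgroup E) [hN : A.Normal] (hA : ∀ a ∈ A, ∀ b ∈ A, a * b = b * a) (t : E)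
    (hgen : ∀ e : E, ∃ n : ℕ, ∃ a ∈ A, e = t ^ n * a) :
    ∀ x ∈ commutator E, ∃ a ∈ A, x = t * a * t⁻¹ * a⁻¹ := by
  have hconj : ∀ a ∈ A, t * a * t⁻¹ ∈ A := fun a ha => hN.conj_mem a ha t
  let D : Subgroup E :=
    { carrier := {x | ∃ a ∈ A, x = t * a * t⁻¹ * a⁻¹}
      mul_mem' := by
        rintro _ _ ⟨a, ha, rfl⟩ ⟨b, hb, rfl⟩
        refine ⟨a * b, A.mul_mem ha hb, ?_⟩
        have h1 : a⁻¹ * (t * b * t⁻¹) = (t * b * t⁻¹) * a⁻¹ := hA _ (A.inv_mem ha) _ (hconj b hb)
        have h2 : b⁻¹ * a⁻¹ = a⁻¹ * b⁻¹ := hA _ (A.inv_mem hb) _ (A.inv_mem ha)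
        calc t * a * t⁻¹ * a⁻¹ * (t * b * t⁻¹ * b⁻¹)
            = (t * a * t⁻¹) * (a⁻¹ * (t * b * t⁻¹)) * b⁻¹ := by group
          _ = (t * a * t⁻¹) * ((t * b * t⁻¹) * a⁻¹) * b⁻¹ := by rw [h1]
          _ = (t * a * t⁻¹) * (t * b * t⁻¹) * (a⁻¹ * b⁻¹) := by group
          _ = (t * a * t⁻¹) * (t * b * t⁻¹) * (b⁻¹ * a⁻¹) := by rw [h2]
          _ = t * (a * b) * t⁻¹ * (a * b)⁻¹ := by group
      one_mem' := ⟨1, A.one_mem, by group⟩
      inv_mem' := by
        rintro _ ⟨a, ha, rfl⟩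
        refine ⟨a⁻¹, A.inv_mem ha, ?_⟩
        have h1 : a * (t * a⁻¹ * t⁻¹) = (t * a⁻¹ * t⁻¹) * a := hA _ ha _ (hconj _ (A.inv_mem ha))
        calc (t * a * t⁻¹ * a⁻¹)⁻¹ = a * (t * a⁻¹ * t⁻¹) := by group
          _ = (t * a⁻¹ * t⁻¹) * a := h1
          _ = t * a⁻¹ * t⁻¹ * (a⁻¹)⁻¹ := by group }
  have hDA : ∀ x ∈ D, x ∈ A := by
    rintro _ ⟨a, ha, rfl⟩
    exact A.mul_mem (hconj a ha) (A.inv_mem ha)
  have hconjt : ∀ (n : ℕ) (x : E), x ∈ D → t ^ n * x * (t ^ n)⁻¹ ∈ D := by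
    intro n
    induction n with
    | zero =>
      intro x hx
      simpa using hx
    | succ n ih =>
      intro x hx
      have h1 : t ^ n * x * (t ^ n)⁻¹ ∈ D := ih x hx
      obtain ⟨a, ha, h2⟩ := h1
      have h3 : t ^ (n + 1) * x * (t ^ (n + 1))⁻¹ = t * (t ^ n * x * (t ^ n)⁻¹) * t⁻¹ := by
        rw [pow_succ']
        group
      rw [h3, h2]
      refine ⟨t * a * t⁻¹, hconj a ha, ?_⟩
      group
  haveI hDn : D.Normal := by
    constructor
    intro x hx g
    obtain ⟨n, a, ha, rfl⟩ := hgen g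
    have h1 : a * x = x * a := hA _ ha _ (hDA x hx)
    have h2 : t ^ n * a * x * (t ^ n * a)⁻¹ = t ^ n * x * (t ^ n)⁻¹ := by
      rw [mul_assoc (t ^ n), h1]
      group
    rw [h2]
    exact hconjt n x hx
  let π := QuotientGroup.mk' D
  have hker : ∀ x, π x = 1 → x ∈ D := fun x hx => (QuotientGroup.eq_one_iff x).mp hx
  have hta : ∀ a ∈ A, Commute (π t) (π a) := by
    intro a ha
    have h1 : t * a * t⁻¹ * a⁻¹ ∈ D := ⟨a, ha, rfl⟩
    have h2 : π (t * a * t⁻¹ * a⁻¹) = 1 := (QuotientGroup.eq_one_iff _).mpr h1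
    simp only [map_mul, map_inv] at h2
    show π t * π a = π a * π t
    have h3 : π t * π a * (π t)⁻¹ = π a := mul_inv_eq_one.mp h2
    exact mul_inv_eq_iff_eq_mul.mp h3
  have haa : ∀ a ∈ A, ∀ b ∈ A, Commute (π a) (π b) := by
    intro a ha b hb
    show π a * π b = π b * π a
    rw [← map_mul, ← map_mul, hA a ha b hb]
  have hcomm : ∀ e f : E, Commute (π e) (π f) := by
    intro e f
    obtain ⟨n, a, ha, rfl⟩ := hgen e
    obtain ⟨m, b, hb, rfl⟩ := hgen f
    rw [map_mul, map_mul, map_pow, map_pow]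
    apply Commute.mul_left
    · apply Commute.mul_right
      · exact (Commute.refl (π t)).pow_pow n m
      · exact (hta b hb).pow_left n
    · apply Commute.mul_right
      · exact ((hta a ha).pow_left m).symm
      · exact haa a ha b hb
  have hle : commutator E ≤ D := by
    rw [commutator_def, Subgroup.commutator_le]
    intro g _ h _
    apply hker
    rw [commutatorElement_def]
    simp only [map_mul, map_inv]
    have := (hcomm g h).eq
    rw [this]
    group
  intro x hx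
  exact hle hx

variable {G : Type*} [Group G]

/-- Dicyclic computation. -/
theorem dic_key (σ : E →* G) (hker : σ.ker ≤ Subgroup.center E) (τ x : G) (m' : ℕ)
    (hord : orderOf τ = 2 * m') (hxτ : x * τ * x⁻¹ = τ⁻¹) (hx2 : x * x = τ ^ m')
    (α β : E) (hα : σ α = τ) (hβ : σ β = x) (a : E) (j : ℕ) (haj : σ a = τ ^ j)
    (h1 : σ (β * a * β⁻¹ * a⁻¹) = 1) : β * a * β⁻¹ * a⁻¹ = 1 := by
  have central : ∀ y : E, σ y = 1 → ∀ e : E, y * e = e * y := by
    intro y hy e
    have := Subgroup.mem_center_iff.mp (hker (MonoidHom.mem_ker.mpr hy)) e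
    exact this.symm
  -- `w`
  set w : E := α * (β * α * β⁻¹) with hw
  have hwσ : σ w = 1 := by
    simp only [hw, map_mul, map_inv, hα, hβ]
    rw [hxτ]
    simp
  have hbα : β * α * β⁻¹ = α⁻¹ * w := by rw [hw]; group
  have hbαn : ∀ n : ℕ, β * α ^ n * β⁻¹ = (α⁻¹ * w) ^ n := by
    intro n
    rw [← hbα, conj_pow]
  have hcαw : Commute α⁻¹ w := (central w hwσ α⁻¹).symm
  -- `y`
  set y : E := (α ^ j)⁻¹ * a with hy
  have hyσ : σ y = 1 := by
    simp only [hy, map_mul, map_inv, map_pow, hα, haj]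
    simp
  have ha : a = α ^ j * y := by rw [hy]; group
  -- `y₁`
  set y₁ : E := (α ^ m')⁻¹ * (β * β) with hy₁
  have hy₁σ : σ y₁ = 1 := by
    simp only [hy₁, map_mul, map_inv, map_pow, hα, hβ]
    rw [hx2]
    simp
  have hbb : β * β = α ^ m' * y₁ := by rw [hy₁]; group
  -- commutator form
  set c : E := α⁻¹ * w * α⁻¹ with hc
  have hcc : Commute (α⁻¹ * w) α⁻¹ := by
    show α⁻¹ * w * α⁻¹ = α⁻¹ * (α⁻¹ * w)
    rw [mul_assoc, (central w hwσ α⁻¹)]
  have hform : ∀ n : ℕ, (α⁻¹ * w) ^ n * (α ^ n)⁻¹ = c ^ n := by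
    intro n
    rw [hc, hcc.mul_pow, inv_pow]
  have hcomm : β * a * β⁻¹ * a⁻¹ = c ^ j := by
    have h2 : β * (α ^ j * y) * β⁻¹ = (β * α ^ j * β⁻¹) * y := by
      have := central y hyσ β⁻¹
      calc β * (α ^ j * y) * β⁻¹ = β * α ^ j * (y * β⁻¹) := by group
        _ = β * α ^ j * (β⁻¹ * y) := by rw [this]
        _ = (β * α ^ j * β⁻¹) * y := by group
    rw [ha, h2, hbαn, ← hform j]
    group
  -- `c ^ m' = 1`
  have hcm : c ^ m' = 1 := by
    have h3 : β * (β * β) * β⁻¹ = β * β := by group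
    rw [hbb] at h3
    have h4 : β * (α ^ m' * y₁) * β⁻¹ = (β * α ^ m' * β⁻¹) * y₁ := by
      have := central y₁ hy₁σ β⁻¹
      calc β * (α ^ m' * y₁) * β⁻¹ = β * α ^ m' * (y₁ * β⁻¹) := by group
        _ = β * α ^ m' * (β⁻¹ * y₁) := by rw [this]
        _ = (β * α ^ m' * β⁻¹) * y₁ := by group
    rw [h4, hbαn] at h3
    have h5 : (α⁻¹ * w) ^ m' = α ^ m' := mul_right_cancel h3
    rw [← hform, h5]
    group
  rw [hcomm] at h1 ⊢
  have h6 : σ c = τ⁻¹ * τ⁻¹ := by
    simp only [hc, map_mul, map_inv, hα, hwσ, mul_one]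
  rw [map_pow, h6] at h1
  have h7 : τ ^ (2 * j) = 1 := by
    have h8 : (τ⁻¹ * τ⁻¹) ^ j = (τ ^ (2 * j))⁻¹ := by
      have : τ⁻¹ * τ⁻¹ = (τ ^ 2)⁻¹ := by group
      rw [this, inv_pow, pow_mul]
    rw [h8] at h1
    exact inv_eq_one.mp h1
  have h9 : m' ∣ j := by
    have := orderOf_dvd_of_pow_eq_one h7
    rw [hord] at this
    exact Nat.dvd_of_mul_dvd_mul_left (by norm_num) this
  obtain ⟨k, rfl⟩ := h9
  rw [pow_mul, hcm, one_pow]

end Ab

section Comm

variable {E : Type*} [Group E] {G : Type*} [Group G]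

/-- central extensions of cyclic groups are abelian. -/
theorem comm_of_cyclic (σ : E →* G) (hker : σ.ker ≤ Subgroup.center E) (τ : G) (α : E) (hα : σ α = τ)
    (a b : E) (i j : ℕ) (ha : σ a = τ ^ i) (hb : σ b = τ ^ j) : a * b = b * a := by
  have central : ∀ y : E, σ y = 1 → ∀ e : E, y * e = e * y := by
    intro y hy e
    have := Subgroup.mem_center_iff.mp (hker (MonoidHom.mem_ker.mpr hy)) e
    exact this.symm
  set y : E := (α ^ i)⁻¹ * a with hy
  have hyσ : σ y = 1 := by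
    simp only [hy, map_mul, map_inv, map_pow, hα, ha]
    simp
  set y' : E := (α ^ j)⁻¹ * b with hy'
  have hy'σ : σ y' = 1 := by
    simp only [hy', map_mul, map_inv, map_pow, hα, hb]
    simp
  have ha' : a = α ^ i * y := by rw [hy]; group
  have hb' : b = α ^ j * y' := by rw [hy']; group
  rw [ha', hb']
  have h1 : Commute (α ^ i) (α ^ j) := (Commute.refl α).pow_pow i j
  have h2 : Commute y (α ^ j) := central y hyσ _
  have h3 : Commute y' (α ^ i) := central y' hy'σ _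
  have h4 : Commute y y' := central y hyσ _
  exact (Commute.mul_left (Commute.mul_right h1 h3.symm) (Commute.mul_right h2 h4)).eq

end Comm

end CfsgLib.H9.Stem
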