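import Mathlib
import Cfsg.Agent.Lib.H9.SylOrb
import Cfsg.Agent.Lib.H9.SylPair

/-! A Sylow 2-subgroup of a symmetric group is normalised by no non-trivial element of odd order. -/

namespace CfsgLib.H9.SylNorm

open Equiv Equiv.Perm CfsgLib.H9.SylOrb

set_option linter.unusedSectionVars false
set_option linter.unusedVariables false

universe u

variable {α : Type u} [Fintype α] [DecidableEq α]

/-- A 2-subgroup of the largest possible order. -/
structure IsFull (T : Subgroup (Perm α)) : Prop where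
  p : IsPGroup 2 T
  card : Nat.card T = 2 ^ V (Fintype.card α)

lemma pgroup_card_le (Q : Subgroup (Perm α)) (hQ : IsPGroup 2 Q) :
    Nat.card Q ≤ 2 ^ V (Fintype.card α) := by
  obtain ⟨j, hj⟩ := IsPGroup.iff_card.mp hQ
  have h1 : Nat.card Q ∣ (Fintype.card α).factorial := by
    have := Subgroup.card_subgroup_dvd_card Q
    rw [Nat.card_perm] at this
    rwa [Nat.card_eq_fintype_card (α := α)] at this
  rw [hj] at h1 ⊢
  have h2 : j ≤ V (Fintype.card α) :=
    (padicValNat_dvd_iff_le (p := 2) (Nat.factorial_ne_zero _)).mp h1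
  exact Nat.pow_le_pow_right (by norm_num) h2

lemma IsFull.eq_of_le {T Q : Subgroup (Perm α)} (hT : IsFull T) (hle : T ≤ Q) (hQ : IsPGroup 2 Q) :
    Q = T := by
  symm
  apply Subgroup.eq_of_le_of_card_ge hle
  rw [hT.card]
  exact pgroup_card_le Q hQ

/-- Moves within the pairs of an involution. -/
def pairGroup (τ : Perm α) (hτ2 : ∀ x, τ (τ x) = x) : Subgroup (Perm α) where
  carrier := {g | ∀ y, g y = y ∨ g y = τ y}
  mul_mem' := by
    rintro a b ha hb y
    rw [Perm.mul_apply]
    rcases hb y with h | h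
    · rw [h]
      exact ha y
    · rw [h]
      rcases ha (τ y) with h2 | h2
      · exact Or.inr h2
      · left
        rw [h2, hτ2]
  one_mem' := fun y => Or.inl rfl
  inv_mem' := by
    rintro a ha y
    have h1 : a (a⁻¹ y) = y := by simp
    rcases ha (a⁻¹ y) with h | h
    · left
      rw [h] at h1
      exact h1
    · right
      rw [h] at h1
      calc a⁻¹ y = τ (τ (a⁻¹ y)) := (hτ2 _).symm
        _ = τ y := by rw [h1]

lemma pairGroup_sq (τ : Perm α) (hτ2 : ∀ x, τ (τ x) = x) {g : Perm α}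
    (hg : g ∈ pairGroup τ hτ2) : g ^ 2 = 1 := by
  ext y
  rw [sq, Perm.mul_apply, Perm.one_apply]
  rcases hg y with h | h
  · rw [h, h]
  · rw [h]
    rcases hg (τ y) with h2 | h2
    · have : τ y = y := by
        apply g.injective
        rw [h2, h]
      rw [h2, this]
    · rw [h2, hτ2]

lemma pairGroup_pgroup (τ : Perm α) (hτ2 : ∀ x, τ (τ x) = x) : IsPGroup 2 (pairGroup τ hτ2) := by
  rintro ⟨g, hg⟩
  refine ⟨1, Subtype.ext ?_⟩
  have h1 := pairGroup_sq τ hτ2 hg
  simpa using h1

/-- A full subgroup contains all moves along a commuting involution. -/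
lemma pairGroup_le {T : Subgroup (Perm α)} (hT : IsFull T) (τ : Perm α) (hτ2 : ∀ x, τ (τ x) = x)
    (hc : ∀ r ∈ T, ∀ x, r (τ x) = τ (r x)) : pairGroup τ hτ2 ≤ T := by
  have key : ∀ t ∈ T, ∀ k ∈ pairGroup τ hτ2, t * k * t⁻¹ ∈ pairGroup τ hτ2 := by
    intro t ht k hk y
    rw [Perm.mul_apply, Perm.mul_apply]
    have h1 : t (t⁻¹ y) = y := by simp
    rcases hk (t⁻¹ y) with h | h
    · left
      rw [h, h1]
    · right
      rw [h, hc t ht, h1]
  have hN : T ≤ Subgroup.normalizer ((pairGroup τ hτ2 : Subgroup (Perm α)) : Set (Perm α)) := by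
    intro t ht
    rw [Subgroup.mem_normalizer_iff]
    intro k
    refine ⟨key t ht k, fun h => ?_⟩
    have := key t⁻¹ (T.inv_mem ht) _ h
    convert this using 1
    group
  have hsup := IsPGroup.to_sup_of_normal_right' hT.p (pairGroup_pgroup τ hτ2) hN
  have := hT.eq_of_le le_sup_left hsup
  rw [← this]
  exact le_sup_right

lemma swap_mem_pairGroup (τ : Perm α) (hτ2 : ∀ x, τ (τ x) = x) (x : α) :
    swap x (τ x) ∈ pairGroup τ hτ2 := by
  intro y
  by_cases h1 : y = x
  · subst h1
    right
    rw [swap_apply_left]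
  by_cases h2 : y = τ x
  · subst h2
    right
    rw [swap_apply_right, hτ2]
  left
  exact swap_apply_of_ne_of_ne h1 h2

/-- Every point moved by a full subgroup lies in a transposition of it. -/
lemma exists_swap {T : Subgroup (Perm α)} (hT : IsFull T) {x : α} (hx : ∃ r ∈ T, r x ≠ x) :
    ∃ y, y ≠ x ∧ swap x y ∈ T := by
  obtain ⟨τ, hτ2, hΩ, hO, hc⟩ := CfsgLib.H9.SylPair.pair_on_orbit T hT.p x hx
  refine ⟨τ x, (hΩ x (MulAction.mem_orbit_self x)).2, pairGroup_le hT τ hτ2 hc ?_⟩
  exact swap_mem_pairGroup τ hτ2 x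

/-- There are no three-cycles in a 2-group. -/
lemma no_three {T : Subgroup (Perm α)} (hT : IsPGroup 2 T) {c : Perm α} (hc : IsThreeCycle c)
    (hm : c ∈ T) : False := by
  obtain ⟨k, hk⟩ := hT ⟨c, hm⟩
  have h1 : c ^ (2 ^ k) = 1 := by
    have := congrArg Subtype.val hk
    simpa using this
  have h2 := orderOf_dvd_of_pow_eq_one h1
  rw [hc.orderOf] at h2
  have := Nat.Prime.dvd_of_dvd_pow Nat.prime_three h2
  omega

lemma swap_unique {T : Subgroup (Perm α)} (hT : IsPGroup 2 T) {x y y' : α} (hy : y ≠ x)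
    (hy' : y' ≠ x) (h1 : swap x y ∈ T) (h2 : swap x y' ∈ T) : y = y' := by
  by_contra hne
  exact no_three hT (isThreeCycle_swap_mul_swap_same hy.symm hy'.symm hne) (T.mul_mem h1 h2)

open Classical in
/-- The partner of a point. -/
noncomputable def nu (T : Subgroup (Perm α)) (x : α) : α :=
  if h : ∃ y, y ≠ x ∧ swap x y ∈ T then h.choose else x

lemma nu_of_moved {T : Subgroup (Perm α)} (hT : IsFull T) {x : α} (hx : ∃ r ∈ T, r x ≠ x) :
    nu T x ≠ x ∧ swap x (nu T x) ∈ T := by
  have h := exists_swap hT hx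
  rw [nu, dif_pos h]
  exact h.choose_spec

lemma nu_eq_of_swap {T : Subgroup (Perm α)} (hT : IsFull T) {x y : α} (hy : y ≠ x)
    (hs : swap x y ∈ T) : nu T x = y := by
  have hx : ∃ r ∈ T, r x ≠ x := ⟨_, hs, by rw [swap_apply_left]; exact hy⟩
  obtain ⟨h1, h2⟩ := nu_of_moved hT hx
  exact swap_unique hT.p h1 hy h2 hs

lemma nu_of_fixed {T : Subgroup (Perm α)} {x : α} (hx : ∀ r ∈ T, r x = x) : nu T x = x := by
  have h : ¬ ∃ y, y ≠ x ∧ swap x y ∈ T := by
    rintro ⟨y, hy, hs⟩
    have := hx _ hs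
    rw [swap_apply_left] at this
    exact hy this
  rw [nu, dif_neg h]

lemma nu_ne_iff {T : Subgroup (Perm α)} (hT : IsFull T) {x : α} :
    nu T x ≠ x ↔ ∃ r ∈ T, r x ≠ x := by
  constructor
  · intro h
    by_contra hn
    push Not at hn
    exact h (nu_of_fixed hn)
  · intro h
    exact (nu_of_moved hT h).1

lemma nu_nu {T : Subgroup (Perm α)} (hT : IsFull T) (x : α) : nu T (nu T x) = x := by
  by_cases hx : ∃ r ∈ T, r x ≠ x
  · obtain ⟨h1, h2⟩ := nu_of_moved hT hx
    apply nu_eq_of_swap hT h1.symm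
    rwa [swap_comm]
  · push Not at hx
    rw [nu_of_fixed hx, nu_of_fixed hx]

lemma nu_conj {T : Subgroup (Perm α)} (hT : IsFull T) {g : Perm α}
    (hg : ∀ t ∈ T, g * t * g⁻¹ ∈ T) (hg' : ∀ t ∈ T, g⁻¹ * t * g ∈ T) (x : α) :
    nu T (g x) = g (nu T x) := by
  by_cases hx : ∃ r ∈ T, r x ≠ x
  · obtain ⟨h1, h2⟩ := nu_of_moved hT hx
    apply nu_eq_of_swap hT (fun e => h1 (g.injective e))
    rw [swap_apply_apply]
    exact hg _ h2
  · push Not at hx
    rw [nu_of_fixed hx, nu_of_fixed]
    intro r hr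
    have h1 := hx _ (hg' r hr)
    have h2 : g (g⁻¹ (r (g x))) = r (g x) := by simp
    have h3 : (g⁻¹ * r * g) x = g⁻¹ (r (g x)) := rfl
    rw [h3] at h1
    rw [← h2, h1]

/-- A full subgroup has at most one fixed point. -/
lemma fixed_unique {T : Subgroup (Perm α)} (hT : IsFull T) {x x' : α} (hx : ∀ r ∈ T, r x = x)
    (hx' : ∀ r ∈ T, r x' = x') : x = x' := by
  by_contra hne
  have h2 : ∀ y, swap x x' (swap x x' y) = y := fun y => by simp
  have hc : ∀ r ∈ T, ∀ y, r (swap x x' y) = swap x x' (r y) := by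
    intro r hr y
    by_cases h1 : y = x
    · subst h1
      rw [swap_apply_left, hx' r hr, hx r hr, swap_apply_left]
    by_cases h3 : y = x'
    · subst h3
      rw [swap_apply_right, hx r hr, hx' r hr, swap_apply_right]
    rw [swap_apply_of_ne_of_ne h1 h3, swap_apply_of_ne_of_ne]
    · intro e
      apply h1
      apply r.injective
      rw [e, hx r hr]
    · intro e
      apply h3
      apply r.injective
      rw [e, hx' r hr]
  have := pairGroup_le hT _ h2 hc (by
    have := swap_mem_pairGroup (swap x x') h2 x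
    rwa [swap_apply_left] at this)
  have h5 := hx _ this
  rw [swap_apply_left] at h5
  exact hne h5.symm

lemma fixed_iff {T : Subgroup (Perm α)} (hT : IsFull T) {x : α} :
    nu T x = x ↔ ∀ r ∈ T, r x = x := by
  constructor
  · intro h
    by_contra hn
    push Not at hn
    exact (nu_ne_iff hT).mpr hn h
  · exact nu_of_fixed

/-- The set of pairs. -/
noncomputable def pairSet (T : Subgroup (Perm α)) : Finset (Finset α) :=
  (Finset.univ.filter (fun x => nu T x ≠ x)).image (fun x => {x, nu T x})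

lemma mem_pairSet {T : Subgroup (Perm α)} {s : Finset α} :
    s ∈ pairSet T ↔ ∃ x, nu T x ≠ x ∧ {x, nu T x} = s := by
  simp [pairSet]

lemma card_filter_moved {T : Subgroup (Perm α)} (hT : IsFull T) :
    (Finset.univ.filter (fun x => nu T x ≠ x)).card = 2 * (pairSet T).card := by
  classical
  rw [Finset.card_eq_sum_card_image (fun x => ({x, nu T x} : Finset α))
    (Finset.univ.filter (fun x => nu T x ≠ x))]
  have : ∀ b ∈ pairSet T, (Finset.filter (fun x => ({x, nu T x} : Finset α) = b)
      (Finset.univ.filter (fun x => nu T x ≠ x))).card = 2 := by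
    intro b hb
    obtain ⟨x₀, h0, rfl⟩ := mem_pairSet.mp hb
    have h2 : Finset.filter (fun x => ({x, nu T x} : Finset α) = {x₀, nu T x₀})
        (Finset.univ.filter (fun x => nu T x ≠ x)) = {x₀, nu T x₀} := by
      ext x
      simp only [Finset.mem_filter, Finset.mem_univ, true_and, Finset.mem_insert,
        Finset.mem_singleton]
      constructor
      · rintro ⟨_, e⟩
        have : x ∈ ({x₀, nu T x₀} : Finset α) := by
          rw [← e]
          simp
        simpa using this
      · rintro (rfl | rfl)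
        · exact ⟨h0, rfl⟩
        · refine ⟨?_, ?_⟩
          · rw [nu_nu hT]
            exact h0.symm
          · rw [nu_nu hT, Finset.pair_comm]
    rw [h2, Finset.card_pair h0.symm]
  change ∑ b ∈ pairSet T, _ = _
  rw [Finset.sum_congr rfl this]
  simp [mul_comm]

/-- `n = 2 m` or `n = 2 m + 1`. -/
lemma card_decomp {T : Subgroup (Perm α)} (hT : IsFull T) :
    Fintype.card α = 2 * (pairSet T).card ∨ Fintype.card α = 2 * (pairSet T).card + 1 := by
  have h1 : (Finset.univ.filter (fun x => nu T x ≠ x)).card +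
      (Finset.univ.filter (fun x => ¬ nu T x ≠ x)).card = Fintype.card α := by
    rw [Finset.card_filter_add_card_filter_not]
    rfl
  rw [card_filter_moved hT] at h1
  have h2 : (Finset.univ.filter (fun x => ¬ nu T x ≠ x)).card ≤ 1 := by
    rw [Finset.card_le_one]
    intro a ha b hb
    simp only [Finset.mem_filter, Finset.mem_univ, true_and, not_not] at ha hb
    exact fixed_unique hT ((fixed_iff hT).mp ha) ((fixed_iff hT).mp hb)
  omega

end CfsgLib.H9.SylNorm
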