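import Mathlib
import Cfsg.Agent.Lib.H9.SylNorm

/-! Passing to the action on pairs, and the normaliser theorem. -/

namespace CfsgLib.H9.SylNorm

open Equiv Equiv.Perm CfsgLib.H9.SylOrb

set_option linter.unusedSectionVars false
set_option linter.unusedVariables false

universe u

variable {α : Type u} [Fintype α] [DecidableEq α]

/-- The elements commuting with the pairing. -/
noncomputable def Cnu (T : Subgroup (Perm α)) : Subgroup (Perm α) where
  carrier := {c | ∀ x, nu T (c x) = c (nu T x)}
  mul_mem' := by
    intro a b ha hb x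
    rw [Perm.mul_apply, ha, hb, Perm.mul_apply]
  one_mem' := fun x => rfl
  inv_mem' := by
    intro a ha x
    apply a.injective
    rw [← ha]
    simp

lemma image_mem {T : Subgroup (Perm α)} {c : Perm α} (hc : c ∈ Cnu T) {s : Finset α}
    (hs : s ∈ pairSet T) : s.image c ∈ pairSet T := by
  obtain ⟨x, hx, rfl⟩ := mem_pairSet.mp hs
  refine mem_pairSet.mpr ⟨c x, ?_, ?_⟩
  · rw [hc x]
    exact fun e => hx (c.injective e)
  · rw [hc x, Finset.image_insert, Finset.image_singleton]

/-- The action on pairs. -/
noncomputable def pairPerm (T : Subgroup (Perm α)) : Cnu T →* Perm ↥(pairSet T) :=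
  MonoidHom.mk' (fun c =>
    { toFun := fun s => ⟨s.1.image c.1, image_mem c.2 s.2⟩
      invFun := fun s => ⟨s.1.image ⇑(c.1⁻¹ : Perm α), image_mem (Subgroup.inv_mem _ c.2) s.2⟩
      left_inv := by
        intro s
        apply Subtype.ext
        change (s.1.image c.1).image ⇑(c.1⁻¹ : Perm α) = s.1
        rw [Finset.image_image]
        have : (⇑(c.1⁻¹ : Perm α) ∘ ⇑c.1) = id := by
          ext x
          simp
        rw [this, Finset.image_id]
      right_inv := by
        intro s
        apply Subtype.ext
        change (s.1.image ⇑(c.1⁻¹ : Perm α)).image c.1 = s.1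
        rw [Finset.image_image]
        have : (⇑c.1 ∘ ⇑(c.1⁻¹ : Perm α)) = id := by
          ext x
          simp
        rw [this, Finset.image_id] })
    (by
      intro a b
      apply Equiv.ext
      intro s
      apply Subtype.ext
      change s.1.image ((a * b : Cnu T).1) = (s.1.image b.1).image a.1
      rw [Finset.image_image]
      rfl)

lemma pairPerm_apply (T : Subgroup (Perm α)) (c : Cnu T) (s : ↥(pairSet T)) :
    ((pairPerm T c) s).1 = s.1.image c.1 := rfl

lemma le_Cnu {T : Subgroup (Perm α)} (hT : IsFull T) : T ≤ Cnu T := by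
  intro t ht x
  exact nu_conj hT (fun r hr => T.mul_mem (T.mul_mem ht hr) (T.inv_mem ht))
    (fun r hr => T.mul_mem (T.mul_mem (T.inv_mem ht) hr) ht) x

/-- An element of `Cnu` preserving all pairs moves each point within its pair. -/
lemma apply_mem_of_image {T : Subgroup (Perm α)} {c : Perm α} {x : α}
    (h : ({x, nu T x} : Finset α).image c = {x, nu T x}) : c x = x ∨ c x = nu T x := by
  have : c x ∈ ({x, nu T x} : Finset α) := by
    rw [← h]
    exact Finset.mem_image_of_mem _ (by simp)
  simpa using this

/-- The image on pairs is again full. -/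
theorem full_image {T : Subgroup (Perm α)} (hT : IsFull T) :
    IsFull ((pairPerm T).comp (Subgroup.inclusion (le_Cnu hT))).range := by
  set ψ := (pairPerm T).comp (Subgroup.inclusion (le_Cnu hT)) with hψ
  have hp : IsPGroup 2 ψ.range := hT.p.of_surjective ψ.rangeRestrict ψ.rangeRestrict_surjective
  refine ⟨hp, ?_⟩
  have h1 : Nat.card ψ.range ≤ 2 ^ V (Fintype.card ↥(pairSet T)) := pgroup_card_le _ hp
  set m := Fintype.card ↥(pairSet T) with hm
  have hm' : m = (pairSet T).card := Fintype.card_coe _
  -- the kernel
  have h2 : Nat.card ψ.ker ≤ 2 ^ m := by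
    let b : ψ.ker → (↥(pairSet T) → Bool) := fun t s =>
      @decide (∀ x ∈ s.1, (t.1 : Perm α) x = x) (Classical.dec _)
    have hb : Function.Injective b := by
      intro t t' e
      apply Subtype.ext
      apply Subtype.ext
      apply Equiv.ext
      intro x
      by_cases hx : nu T x = x
      · have hf := (fixed_iff hT).mp hx
        rw [hf _ t.1.2, hf _ t'.1.2]
      · have hs : ({x, nu T x} : Finset α) ∈ pairSet T := mem_pairSet.mpr ⟨x, hx, rfl⟩
        have key : ∀ t : ψ.ker, ((t.1 : Perm α) x = x ∧ ∀ y ∈ ({x, nu T x} : Finset α),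
            (t.1 : Perm α) y = y) ∨ ((t.1 : Perm α) x = nu T x ∧
            ¬ ∀ y ∈ ({x, nu T x} : Finset α), (t.1 : Perm α) y = y) := by
          intro t
          have h0 : ψ t.1 = 1 := t.2
          have h3 := congrArg (fun f => ((f ⟨_, hs⟩ : ↥(pairSet T)) : Finset α)) h0
          have h4 : ({x, nu T x} : Finset α).image (t.1 : Perm α) = {x, nu T x} := h3
          rcases apply_mem_of_image h4 with h5 | h5
          · left
            refine ⟨h5, fun y hy => ?_⟩
            simp only [Finset.mem_insert, Finset.mem_singleton] at hy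
            rcases hy with rfl | rfl
            · exact h5
            · have := le_Cnu hT t.1.2 x
              rw [← this, h5]
          · right
            refine ⟨h5, fun hall => ?_⟩
            have := hall x (by simp)
            rw [h5] at this
            exact hx this
        have e' := congrFun e ⟨_, hs⟩
        have e'' : (∀ y ∈ ({x, nu T x} : Finset α), (t.1 : Perm α) y = y) ↔
            (∀ y ∈ ({x, nu T x} : Finset α), (t'.1 : Perm α) y = y) := by
          exact (@decide_eq_decide _ _ (Classical.dec _) (Classical.dec _)).mp e'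
        rcases key t with ⟨h5, h6⟩ | ⟨h5, h6⟩ <;> rcases key t' with ⟨h7, h8⟩ | ⟨h7, h8⟩
        · rw [h5, h7]
        · exact absurd (e''.mp h6) h8
        · exact absurd (e''.mpr h8) h6
        · rw [h5, h7]
    have := Nat.card_le_card_of_injective b hb
    rwa [Nat.card_eq_fintype_card (α := ↥(pairSet T) → Bool), Fintype.card_fun, Fintype.card_bool]
      at this
  have h3 : Nat.card ψ.ker * Nat.card ψ.range = 2 ^ V (Fintype.card α) := by
    rw [← hT.card, ← Subgroup.index_ker, Subgroup.card_mul_index]
  -- numerics
  have h4 : m + V m ≤ V (Fintype.card α) := by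
    have h5 : V (2 * m) = V m + m := padicValNat_factorial_mul m
    have h6 := card_decomp hT
    rw [← hm'] at h6
    rcases h6 with h6 | h6
    · rw [h6]
      omega
    · rw [h6]
      have := V_add (2 * m) 1
      omega
  have h5 : 2 ^ m * 2 ^ V m ≤ Nat.card ψ.ker * Nat.card ψ.range := by
    rw [h3, ← pow_add]
    exact Nat.pow_le_pow_right (by norm_num) h4
  apply le_antisymm h1
  by_contra hlt
  push Not at hlt
  have h6 : 0 < 2 ^ m := by positivity
  have h7 : Nat.card ψ.ker * Nat.card ψ.range < 2 ^ m * 2 ^ V m := by
    calc Nat.card ψ.ker * Nat.card ψ.range ≤ 2 ^ m * Nat.card ψ.range :=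
          Nat.mul_le_mul_right _ h2
      _ < 2 ^ m * 2 ^ V m := Nat.mul_lt_mul_of_pos_left hlt h6
  omega

/-- The theorem: no non-trivial element of odd order normalises a full subgroup. -/
theorem eq_one_of_normalizes (n : ℕ) : ∀ (α : Type u) [Fintype α] [DecidableEq α],
    Fintype.card α = n → ∀ T : Subgroup (Perm α), IsFull T → ∀ (g : Perm α) (k : ℕ), Odd k →
      g ^ k = 1 → (∀ t ∈ T, g * t * g⁻¹ ∈ T) → g = 1 := by
  induction n using Nat.strong_induction_on with
  | _ n ih =>
    intro α _ _ hn T hT g k hk hgk hg
    have hpow : ∀ j : ℕ, ∀ t ∈ T, g ^ j * t * (g ^ j)⁻¹ ∈ T := by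
      intro j
      induction j with
      | zero => simp
      | succ j hj =>
        intro t ht
        have := hg _ (hj t ht)
        convert this using 1
        group
    have hg' : ∀ t ∈ T, g⁻¹ * t * g ∈ T := by
      intro t ht
      obtain ⟨j, rfl⟩ := hk
      have h1 : g ^ (2 * j) = g⁻¹ := by
        rw [eq_inv_iff_mul_eq_one, ← pow_succ]
        exact hgk
      have := hpow (2 * j) t ht
      rw [h1] at this
      simpa using this
    by_cases hn0 : n = 0
    · have : IsEmpty α := by
        rw [← Fintype.card_eq_zero_iff, hn, hn0]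
      exact Subsingleton.elim _ _
    have hgC : g ∈ Cnu T := fun x => nu_conj hT hg hg' x
    have hfull := full_image hT
    have hdec := card_decomp hT
    have hlt : Fintype.card ↥(pairSet T) < n := by
      rw [Fintype.card_coe]
      omega
    set g₀ : Cnu T := ⟨g, hgC⟩ with hg₀
    have h1 : pairPerm T g₀ = 1 := by
      apply ih _ hlt ↥(pairSet T) rfl _ hfull (pairPerm T g₀) k hk
      · rw [← map_pow]
        have : g₀ ^ k = 1 := Subtype.ext hgk
        rw [this, map_one]
      · rintro _ ⟨t, rfl⟩
        refine ⟨⟨g * t.1 * g⁻¹, hg _ t.2⟩, ?_⟩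
        have e : (Subgroup.inclusion (le_Cnu hT) ⟨g * t.1 * g⁻¹, hg _ t.2⟩ : Cnu T) =
            g₀ * Subgroup.inclusion (le_Cnu hT) t * g₀⁻¹ := rfl
        simp only [MonoidHom.comp_apply]
        rw [e, map_mul, map_mul, map_inv]
    have hfix : ∀ x, g x = x := by
      intro x
      by_cases hx : nu T x = x
      · have hf := (fixed_iff hT).mp hx
        apply fixed_unique hT _ hf
        intro r hr
        have h2 := hf _ (hg' r hr)
        have h3 : g (g⁻¹ (r (g x))) = r (g x) := by simp
        have h4 : (g⁻¹ * r * g) x = g⁻¹ (r (g x)) := rfl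
        rw [h4] at h2
        rw [← h3, h2]
      · have hs : ({x, nu T x} : Finset α) ∈ pairSet T := mem_pairSet.mpr ⟨x, hx, rfl⟩
        have h3 := congrArg (fun f => ((f ⟨_, hs⟩ : ↥(pairSet T)) : Finset α)) h1
        have h4 : ({x, nu T x} : Finset α).image g = {x, nu T x} := h3
        rcases apply_mem_of_image h4 with h5 | h5
        · exact h5
        · exfalso
          have h6 : (g ^ 2) x = x := by
            rw [sq, Perm.mul_apply, h5, ← hgC x, h5, nu_nu hT]
          have h7 : ∀ j : ℕ, (g ^ (2 * j)) x = x := by
            intro j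
            rw [pow_mul]
            induction j with
            | zero => simp
            | succ j hj =>
              rw [pow_succ, Perm.mul_apply, h6, hj]
          obtain ⟨j, rfl⟩ := hk
          have h8 : (g ^ (2 * j + 1)) x = g x := by
            rw [add_comm, pow_add, pow_one, Perm.mul_apply, h7]
          rw [hgk] at h8
          apply hx
          rw [← h5]
          exact h8.symm
    exact Equiv.ext hfix

end CfsgLib.H9.SylNorm
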