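import Mathlib
import Cfsg.Agent.Lib.H9.SylNorm2
import Cfsg.Agent.Lib.H9.SylFinal

/-! The normaliser of a Sylow 2-subgroup of an alternating group. -/

namespace CfsgLib.H9.SylNorm

open Equiv Equiv.Perm CfsgLib.H9.SylOrb CfsgLib.H9.SylFinal CfsgLib.H9.SylUp

set_option linter.unusedSectionVars false
set_option linter.unusedVariables false

universe u

variable {α : Type u} [Fintype α] [DecidableEq α]

lemma exists_moved_avoid {T : Subgroup (Perm α)} (hT : IsFull T) (l : List α)
    (hl : l.length + 1 < Fintype.card α) : ∃ c, c ∉ l ∧ nu T c ≠ c := by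
  by_contra hn
  push Not at hn
  obtain ⟨c₀, h0⟩ := avoid l (by omega)
  obtain ⟨c₁, h1⟩ := avoid (c₀ :: l) (by simpa using hl)
  simp only [List.mem_cons, not_or] at h1
  have e0 := hn c₀ h0
  have e1 := hn c₁ h1.2
  exact h1.1 (fixed_unique hT ((fixed_iff hT).mp e1) ((fixed_iff hT).mp e0))

/-- Products of two pairs are even elements of the full group. -/
lemma dbl_mem_T {T : Subgroup (Perm α)} (hT : IsFull T) {a c : α} (ha : nu T a ≠ a)
    (hc : nu T c ≠ c) : swap a (nu T a) * swap c (nu T c) ∈ T :=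
  T.mul_mem (nu_of_moved hT ((nu_ne_iff hT).mp ha)).2 (nu_of_moved hT ((nu_ne_iff hT).mp hc)).2

/-- If a double transposition of the full group moves `A` to `B`, and `B` is not the partner of
`A`, then the partner of `A` lies in the other transposition. -/
lemma partner_in {T : Subgroup (Perm α)} (hT : IsFull T) {A B C D : α} (hAB : A ≠ B)
    (hAC : A ≠ C) (hAD : A ≠ D) (hBC : B ≠ C) (hBD : B ≠ D)
    (hm : swap A B * swap C D ∈ T) (hn : nu T A ≠ B) : nu T A = C ∨ nu T A = D := by
  by_contra hno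
  push Not at hno
  set x := swap A B * swap C D with hx
  have h1 : x A = B := by
    rw [hx, Perm.mul_apply, swap_apply_of_ne_of_ne hAC hAD, swap_apply_left]
  have hA : nu T A ≠ A := (nu_ne_iff hT).mpr ⟨x, hm, by rw [h1]; exact hAB.symm⟩
  have h2 : x (nu T A) = nu T A := by
    rw [hx, Perm.mul_apply, swap_apply_of_ne_of_ne hno.1 hno.2, swap_apply_of_ne_of_ne hA hn]
  have h3 := le_Cnu hT hm A
  rw [h1, h2] at h3
  have h4 : B = A := by
    rw [← nu_nu hT B, h3, nu_nu hT]
  exact hAB h4.symm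

variable (R : Sylow 2 ↥(alternatingGroup α))

/-- Even elements of a full group above the image of `R` lie in that image. -/
lemma even_mem_img {T : Subgroup (Perm α)} (hT : IsFull T) (hle : img R ≤ T) {t : Perm α}
    (ht : t ∈ T) (he : t ∈ alternatingGroup α) : t ∈ img R := by
  let Q : Subgroup ↥(alternatingGroup α) := T.comap (alternatingGroup α).subtype
  have hQ : IsPGroup 2 Q := by
    rintro ⟨g, hg⟩
    obtain ⟨k, hk⟩ := hT.p ⟨g.1, hg⟩
    refine ⟨k, Subtype.ext (Subtype.ext ?_)⟩
    have := congrArg Subtype.val hk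
    simpa using this
  have hRQ : (R : Subgroup _) ≤ Q := fun r hr => hle ⟨r, hr, rfl⟩
  have e := R.is_maximal' hQ hRQ
  have hm : (⟨t, he⟩ : ↥(alternatingGroup α)) ∈ Q := ht
  rw [e] at hm
  exact ⟨_, hm, rfl⟩

/-- The partner is preserved by elements normalising the image of `R`. -/
lemma nu_conj_moved {T : Subgroup (Perm α)} (hT : IsFull T) (hle : img R ≤ T)
    (h6 : 6 ≤ Fintype.card α) {h : Perm α} (hh : ∀ r ∈ img R, h * r * h⁻¹ ∈ img R) {a : α}
    (ha : nu T a ≠ a) : nu T (h a) = h (nu T a) := by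
  set ν := nu T with hν
  have hνν : ∀ x, ν (ν x) = x := nu_nu hT
  obtain ⟨c, hc, hcm⟩ := exists_moved_avoid hT [a, ν a] (by simp; omega)
  simp only [List.mem_cons, List.not_mem_nil, or_false, not_or] at hc
  obtain ⟨c', hc', hcm'⟩ := exists_moved_avoid hT [a, ν a, c, ν c] (by simp; omega)
  simp only [List.mem_cons, List.not_mem_nil, or_false, not_or] at hc'
  have even2 : ∀ {u v : α}, ν u ≠ u → ν v ≠ v →
      swap u (ν u) * swap v (ν v) ∈ alternatingGroup α := by
    intro u v hu hv
    rw [mem_alternatingGroup, Perm.sign_mul, sign_swap hu.symm, sign_swap hv.symm]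
    simp
  have hm1 := even_mem_img R hT hle (dbl_mem_T hT ha hcm) (even2 ha hcm)
  have hm2 := even_mem_img R hT hle (dbl_mem_T hT ha hcm') (even2 ha hcm')
  have hνinj : Function.Injective ν := fun x y e => by rw [← hνν x, e, hνν]
  -- distinctness
  have d1 : ν c ≠ a := by
    intro e
    apply hc.2
    rw [← e, hνν]
  have d2 : ν c ≠ ν a := fun e => hc.1 (hνinj e)
  have d3 : ν c' ≠ a := by
    intro e
    apply hc'.2.1
    rw [← e, hνν]
  have d4 : ν c' ≠ ν a := fun e => hc'.1 (hνinj e)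
  have d5 : ν c' ≠ c := by
    intro e
    apply hc'.2.2.2
    rw [← e, hνν]
  have d6 : ν c' ≠ ν c := fun e => hc'.2.2.1 (hνinj e)
  have hi : ∀ {x y : α}, x ≠ y → h x ≠ h y := fun hxy e => hxy (h.injective e)
  have conj2 : ∀ u v : α, h * (swap u (ν u) * swap v (ν v)) * h⁻¹ =
      swap (h u) (h (ν u)) * swap (h v) (h (ν v)) := by
    intro u v
    rw [swap_apply_apply, swap_apply_apply]
    group
  have hx1 := hh _ hm1
  have hx2 := hh _ hm2
  rw [conj2] at hx1 hx2
  by_contra hne
  have hAB : h a ≠ h (ν a) := hi ha.symm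
  have r1 := partner_in hT hAB (hi (Ne.symm hc.1)) (hi (Ne.symm d1)) (hi (Ne.symm hc.2))
    (hi (Ne.symm d2)) (hle hx1) hne
  have r2 := partner_in hT hAB (hi (Ne.symm hc'.1)) (hi (Ne.symm d3)) (hi (Ne.symm hc'.2.1))
    (hi (Ne.symm d4)) (hle hx2) hne
  rcases r1 with r1 | r1 <;> rcases r2 with r2 | r2 <;> rw [r1] at r2
  · exact hc'.2.2.1 (h.injective r2).symm
  · exact d5 (h.injective r2).symm
  · exact hc'.2.2.2 (h.injective r2).symm
  · exact d6 (h.injective r2).symm

/-- No non-trivial element of odd order normalises a Sylow 2-subgroup of `A_n`, `n ≥ 6`. -/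
theorem eq_one_alt (h6 : 6 ≤ Fintype.card α) (g : Perm α) (k : ℕ) (hk : Odd k) (hgk : g ^ k = 1)
    (hg : ∀ r ∈ img R, g * r * g⁻¹ ∈ img R) : g = 1 := by
  obtain ⟨T₀, hT₀⟩ := (img_pgroup R).exists_le_sylow
  set T : Subgroup (Perm α) := (T₀ : Subgroup (Perm α)) with hTdef
  have hT : IsFull T := ⟨T₀.isPGroup', perm_card T₀⟩
  have hle : img R ≤ T := hT₀
  have hpow : ∀ j : ℕ, ∀ t ∈ img R, g ^ j * t * (g ^ j)⁻¹ ∈ img R := by
    intro j
    induction j with
    | zero => simp
    | succ j hj =>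
      intro t ht
      have := hg _ (hj t ht)
      convert this using 1
      group
  have hg' : ∀ t ∈ img R, g⁻¹ * t * g⁻¹⁻¹ ∈ img R := by
    intro t ht
    obtain ⟨j, rfl⟩ := hk
    have h1 : g ^ (2 * j) = g⁻¹ := by
      rw [eq_inv_iff_mul_eq_one, ← pow_succ]
      exact hgk
    have := hpow (2 * j) t ht
    rwa [h1] at this
  have hC : g ∈ Cnu T := by
    intro x
    by_cases hx : nu T x = x
    · rw [hx]
      by_contra hne
      have h1 := nu_conj_moved R hT hle h6 hg' (a := g x) hne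
      have e0 : g⁻¹ (g x) = x := by simp
      rw [e0, hx] at h1
      apply hne
      have h2 : g (g⁻¹ (nu T (g x))) = nu T (g x) := by simp
      rw [← h2, ← h1]
    · exact nu_conj_moved R hT hle h6 hg hx
  obtain ⟨a, ha⟩ := exists_moved_avoid hT [] (by simp; omega)
  have ham : nu T a ≠ a := ha.2
  have hs := (nu_of_moved hT ((nu_ne_iff hT).mp ham)).2
  have hgT : ∀ t ∈ T, g * t * g⁻¹ ∈ T := by
    intro t ht
    have hs' : g * swap a (nu T a) * g⁻¹ ∈ T := by
      rw [← swap_apply_apply]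
      have h1 := hC a
      rw [← h1]
      have hm : nu T (g a) ≠ g a := by
        rw [h1]
        exact fun e => ham (g.injective e)
      exact (nu_of_moved hT ((nu_ne_iff hT).mp hm)).2
    by_cases he : t ∈ alternatingGroup α
    · exact hle (hg _ (even_mem_img R hT hle ht he))
    · have he2 : t * swap a (nu T a) ∈ alternatingGroup α := by
        rw [mem_alternatingGroup, Perm.sign_mul, sign_swap ham.symm]
        rcases Int.units_eq_one_or (Perm.sign t) with h1 | h1
        · exact absurd h1 he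
        · rw [h1]
          rfl
      have h3 := hle (hg _ (even_mem_img R hT hle (T.mul_mem ht hs) he2))
      have h4 := T.mul_mem h3 (T.inv_mem hs')
      convert h4 using 1
      have h5 : swap a (nu T a) * (swap a (nu T a))⁻¹ = 1 := mul_inv_cancel _
      group
  exact eq_one_of_normalizes _ α rfl T hT g k hk hgk hgT

/-- The normaliser of a Sylow 2-subgroup of `A_n`, `n ≥ 6`, is itself. -/
theorem normalizer_le (h6 : 6 ≤ Fintype.card α) :
    Subgroup.normalizer ((R : Subgroup ↥(alternatingGroup α)) : Set ↥(alternatingGroup α)) ≤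
      (R : Subgroup ↥(alternatingGroup α)) := by
  intro u hu
  set N := Subgroup.normalizer ((R : Subgroup ↥(alternatingGroup α)) : Set ↥(alternatingGroup α))
    with hN
  have hne : orderOf u ≠ 0 := (orderOf_pos u).ne'
  obtain ⟨e, k, hk, ho⟩ := Nat.exists_eq_two_pow_mul_odd hne
  have hpow : ∀ j : ℕ, u ^ j ∈ N := fun j => N.pow_mem hu j
  have h1 : ((u ^ (2 ^ e) : ↥(alternatingGroup α)) : Perm α) = 1 := by
    apply eq_one_alt R h6 _ k hk
    · have : (u ^ (2 ^ e)) ^ k = 1 := by
        rw [← pow_mul, ← ho, pow_orderOf_eq_one]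
      have h2 := congrArg Subtype.val this
      simpa using h2
    · rintro _ ⟨r, hr, rfl⟩
      have h3 := (Subgroup.mem_normalizer_iff.mp (hpow (2 ^ e)) r).mp hr
      exact ⟨_, h3, rfl⟩
  have h2 : u ^ (2 ^ e) = 1 := Subtype.ext h1
  have hp : IsPGroup 2 (Subgroup.zpowers u) := by
    rintro ⟨x, hx⟩
    obtain ⟨i, rfl⟩ := Subgroup.mem_zpowers_iff.mp hx
    refine ⟨e, Subtype.ext ?_⟩
    simp only [SubmonoidClass.coe_pow, OneMemClass.coe_one]
    rw [← zpow_natCast, ← zpow_mul, mul_comm, zpow_mul, zpow_natCast, h2, one_zpow]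
  have hle : Subgroup.zpowers u ≤
      Subgroup.normalizer ((R : Subgroup ↥(alternatingGroup α)) : Set ↥(alternatingGroup α)) := by
    rw [Subgroup.zpowers_le]
    exact hu
  have hsup := IsPGroup.to_sup_of_normal_left' R.isPGroup' hp hle
  have := R.is_maximal' hsup le_sup_left
  have hmem : u ∈ (R : Subgroup ↥(alternatingGroup α)) ⊔ Subgroup.zpowers u :=
    (le_sup_right : Subgroup.zpowers u ≤ _) (Subgroup.mem_zpowers u)
  rwa [this] at hmem

end CfsgLib.H9.SylNorm
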