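import Mathlib
import Cfsg.Agent.Lib.H9.SylNorm3
import Cfsg.Prelude.Def_HallClasses

/-! Pronormality of the overgroups of Sylow subgroups with small normalisers. -/

namespace CfsgLib.H9.SylPron

open Equiv Equiv.Perm CfsgLib.H9.SylOrb CfsgLib.H9.SylFinal CfsgLib.H9.SylUp CfsgLib.H9.SylCase

set_option linter.unusedSectionVars false
set_option linter.unusedVariables false

universe u

section general

variable {G : Type u} [Group G] [Finite G]

theorem exists_sylow_le (H : Subgroup G) (hH : Odd H.index) :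
    ∃ S : Sylow 2 G, (S : Subgroup G) ≤ H := by
  obtain ⟨Q⟩ : Nonempty (Sylow 2 H) := inferInstance
  have h1 : Nat.card ((Q : Subgroup H).map H.subtype) = Nat.card Q :=
    Subgroup.card_map_of_injective (Subgroup.subtype_injective _)
  have h2 : (Nat.card G).factorization 2 = (Nat.card H).factorization 2 := by
    rw [← Subgroup.card_mul_index H, Nat.factorization_mul Nat.card_pos.ne' hH.pos.ne']
    have : H.index.factorization 2 = 0 :=
      Nat.factorization_eq_zero_of_not_dvd (fun h => by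
        rcases hH with ⟨j, hj⟩
        omega)
    simp [this]
  refine ⟨Sylow.ofCard ((Q : Subgroup H).map H.subtype) (by rw [h1, Q.card_eq_multiplicity, h2]), ?_⟩
  rw [Sylow.coe_ofCard]
  exact Subgroup.map_subtype_le _

lemma mem_conj (H : Subgroup G) (g y : G) :
    y ∈ H.map (MulAut.conj g).toMonoidHom ↔ g⁻¹ * y * g ∈ H := by
  constructor
  · rintro ⟨h, hh, rfl⟩
    have : g⁻¹ * (MulAut.conj g).toMonoidHom h * g = h := by
      simp [MulAut.conj_apply, mul_assoc]
    rw [this]
    exact hh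
  · intro h
    exact ⟨_, h, by simp [MulAut.conj_apply, mul_assoc]⟩

theorem pronormal_of (H : Subgroup G) (S : Sylow 2 G) (hS : (S : Subgroup G) ≤ H)
    (hN : ∀ n ∈ Subgroup.normalizer ((S : Subgroup G) : Set G), ∀ y ∈ H, n * y * n⁻¹ ∈ H) :
    Cfsg.IsPronormal H := by
  intro g
  set H' := H.map (MulAut.conj g).toMonoidHom with hH'
  set K := H ⊔ H' with hK
  have hSK : (S : Subgroup G) ≤ K := hS.trans le_sup_left
  have hS'K : ((g • S : Sylow 2 G) : Subgroup G) ≤ K := by
    intro x hx
    rw [CfsgLib.H9.mem_smul_sylow] at hx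
    apply (le_sup_right : H' ≤ K)
    rw [hH', mem_conj]
    exact hS hx
  obtain ⟨k, hk⟩ := MulAction.exists_smul_eq K ((g • S).subtype hS'K) (S.subtype hSK)
  have hn : (k : G) * g ∈ Subgroup.normalizer ((S : Subgroup G) : Set G) := by
    apply (Sylow.smul_eq_iff_mem_normalizer (P := S)).mp
    apply Sylow.ext
    symm
    apply ((((k : G) * g) • S).is_maximal' S.isPGroup')
    intro x hx
    rw [CfsgLib.H9.mem_smul_sylow] at hx
    have hx' : (k : G)⁻¹ * x * k ∈ ((g • S : Sylow 2 G) : Subgroup G) := by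
      rw [CfsgLib.H9.mem_smul_sylow]
      convert hx using 1
      group
    have hxK : x ∈ K := by
      have h1 := hS'K hx'
      have h2 := K.mul_mem (K.mul_mem k.2 h1) (K.inv_mem k.2)
      convert h2 using 1
      group
    have h3 : (⟨x, hxK⟩ : K) ∈ ((k • ((g • S).subtype hS'K) : Sylow 2 K) : Subgroup K) := by
      rw [CfsgLib.H9.mem_smul_sylow, Sylow.coe_subtype, Subgroup.mem_subgroupOf]
      exact hx'
    rw [hk, Sylow.coe_subtype, Subgroup.mem_subgroupOf] at h3
    exact h3
  refine ⟨(k : G)⁻¹, K.inv_mem k.2, ?_⟩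
  ext y
  rw [mem_conj, mem_conj, inv_inv]
  have e : g⁻¹ * y * g = ((k : G) * g)⁻¹ * ((k : G) * y * (k : G)⁻¹) * ((k : G) * g) := by group
  rw [e]
  constructor
  · intro h
    have := hN _ hn _ h
    convert this using 1
    group
  · intro h
    have := hN _ (Subgroup.inv_mem _ hn) _ h
    convert this using 1
    group

end general

variable {α : Type u} [Fintype α] [DecidableEq α]

/-- Degree at least six. -/
theorem pronormal_six (h6 : 6 ≤ Fintype.card α) (H : Subgroup ↥(alternatingGroup α))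
    (hH : Odd H.index) : Cfsg.IsPronormal H := by
  obtain ⟨S, hS⟩ := exists_sylow_le H hH
  apply pronormal_of H S hS
  intro n hn y hy
  have := CfsgLib.H9.SylNorm.normalizer_le S h6 hn
  exact H.mul_mem (H.mul_mem (hS this) hy) (H.inv_mem (hS this))

/-- Degree five. -/
theorem pronormal_five (H : Subgroup ↥(alternatingGroup (Fin 5))) (hH : Odd H.index) :
    Cfsg.IsPronormal H := by
  obtain ⟨S, hS⟩ := exists_sylow_le H hH
  by_cases htop : H = ⊤
  · apply pronormal_of H S hS
    intro n hn y hy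
    rw [htop]
    exact Subgroup.mem_top _
  have hcard : Fintype.card (Fin 5) = 5 := Fintype.card_fin 5
  obtain ⟨x, hfix, htr⟩ := fix_of_big (img S) (img_pgroup S) (alt_big S (by rw [hcard]))
    (k := 2) le_rfl (by rw [hcard]; norm_num)
  have hprim : MulAction.IsPreprimitive ↥(alternatingGroup (Fin 5)) (Fin 5) :=
    alternatingGroup.isPreprimitive_of_three_le_card (Fin 5) (by simp)
  have hM₀ : IsCoatom (MulAction.stabilizer ↥(alternatingGroup (Fin 5)) x) :=
    MulAction.IsPreprimitive.isCoatom_stabilizer_of_isPreprimitive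
      (G := ↥(alternatingGroup (Fin 5))) x
  have hSM₀ : (S : Subgroup _) ≤ MulAction.stabilizer ↥(alternatingGroup (Fin 5)) x :=
    fun r hr => hfix _ ⟨r, hr, rfl⟩
  have hu := unique_alt S x hfix (by rw [hcard]; norm_num)
    (fun M hRM h hhM hx => five_case S x hfix htr M hRM hhM hx)
  obtain ⟨M, hM, hHM⟩ := (eq_top_or_exists_le_coatom H).resolve_left htop
  have hMe : M = MulAction.stabilizer ↥(alternatingGroup (Fin 5)) x :=
    hu.unique ⟨hM, hS.trans hHM⟩ ⟨hM₀, hSM₀⟩
  subst hMe
  -- orders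
  have hA : Nat.card ↥(alternatingGroup (Fin 5)) = 60 := by
    rw [nat_card_alternatingGroup]
    simp
    rfl
  have horb : Nat.card (MulAction.orbit ↥(alternatingGroup (Fin 5)) x) = 5 := by
    rw [MulAction.orbit_eq_univ]
    simp
  have hstab := CfsgLib.H9.card_orbit_mul_card_stabilizer' (H := ↥(alternatingGroup (Fin 5))) x
  rw [horb, hA] at hstab
  have h12 : Nat.card (MulAction.stabilizer ↥(alternatingGroup (Fin 5)) x) = 12 := by omega
  have hS4 : 4 ∣ Nat.card S := by
    have h1 := alt_card S (by simp)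
    have h2 := four_le_V (n := Fintype.card (Fin 5)) (by simp)
    have h0 : Nat.card (img S) = Nat.card S :=
      Subgroup.card_map_of_injective (Subgroup.subtype_injective _)
    rw [h0] at h1
    obtain ⟨j, hj⟩ := Nat.exists_eq_add_of_le h2
    rw [hj, pow_add, show (2:ℕ) ^ 3 = 2 * 4 by norm_num, mul_assoc] at h1
    have := Nat.eq_of_mul_eq_mul_left (by norm_num) h1
    rw [this]
    exact dvd_mul_right _ _
  have hH12 : Nat.card H ∣ 12 := by
    rw [← h12]
    exact Subgroup.card_dvd_of_le hHM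
  have hSH : Nat.card S ∣ Nat.card H := Subgroup.card_dvd_of_le hS
  have hH4 : 4 ∣ Nat.card H := hS4.trans hSH
  have hcases : Nat.card H = 4 ∨ Nat.card H = 12 := by
    have hle := Nat.le_of_dvd (by norm_num) hH12
    obtain ⟨c, hc⟩ := hH4
    rw [hc] at hH12 hle ⊢
    have : c ≤ 3 := by omega
    interval_cases c <;> simp_all
  have hfixN : ∀ n ∈ Subgroup.normalizer (((S : Subgroup ↥(alternatingGroup (Fin 5)))) :
      Set ↥(alternatingGroup (Fin 5))),
      (n : Perm (Fin 5)) x = x := by
    intro n hn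
    by_contra hne
    have hne' : (n : Perm (Fin 5)) x ≠ x := hne
    obtain ⟨y, hy⟩ := avoid [x, (n : Perm (Fin 5)) x] (by simp)
    simp only [List.mem_cons, List.not_mem_nil, or_false, not_or] at hy
    obtain ⟨r, hr, e⟩ := htr _ y hne' hy.1
    obtain ⟨r₀, hr₀, rfl⟩ := hr
    have h3 := (Subgroup.mem_normalizer_iff.mp (Subgroup.inv_mem _ hn) r₀).mp hr₀
    have h4 : ((n⁻¹ * r₀ * n⁻¹⁻¹ : ↥(alternatingGroup (Fin 5))) : Perm (Fin 5)) x = x :=
      hfix _ ⟨_, h3, rfl⟩
    have h5 : ((n⁻¹ * r₀ * n⁻¹⁻¹ : ↥(alternatingGroup (Fin 5))) : Perm (Fin 5)) x =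
        (n : Perm (Fin 5))⁻¹ ((r₀ : Perm (Fin 5)) ((n : Perm (Fin 5)) x)) := by
      simp
    have h6 : (n : Perm (Fin 5)) ((n : Perm (Fin 5))⁻¹ y) = y := by simp
    rw [h5] at h4
    change (r₀ : Perm (Fin 5)) ((n : Perm (Fin 5)) x) = y at e
    rw [e] at h4
    apply hy.2
    rw [← h6, h4]
  apply pronormal_of H S hS
  intro n hn y hy
  rcases hcases with h4' | h12'
  · -- `H = S`
    have hSeq : (S : Subgroup _) = H := by
      apply Subgroup.eq_of_le_of_card_ge hS
      rw [h4']
      exact Nat.le_of_dvd Nat.card_pos hS4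
    rw [← hSeq] at hy ⊢
    exact (Subgroup.mem_normalizer_iff.mp hn y).mp hy
  · -- `H` is the stabiliser
    have hHeq : H = MulAction.stabilizer ↥(alternatingGroup (Fin 5)) x := by
      apply Subgroup.eq_of_le_of_card_ge hHM
      rw [h12, h12']
    have hnH : n ∈ H := by
      rw [hHeq]
      exact hfixN n hn
    exact H.mul_mem (H.mul_mem hnH hy) (H.inv_mem hnH)

theorem main (n : ℕ) (hn : 5 ≤ n) (H : Subgroup ↥(alternatingGroup (Fin n))) (hH : Odd H.index) :
    Cfsg.IsPronormal H := by
  by_cases h5 : n = 5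
  · subst h5
    exact pronormal_five H hH
  · exact pronormal_six (by rw [Fintype.card_fin]; omega) H hH

end CfsgLib.H9.SylPron
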