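import Mathlib

/-! Non-trivial words are not laws in large alternating groups. -/

namespace CfsgLib.H9.Words

open Equiv Equiv.Perm

/-- Partial action of a generator on a finite subset of the free group. -/
def genEquiv (B : Finset (FreeGroup ℕ)) (i : ℕ) :
    {y : B // FreeGroup.of i * y.1 ∈ B} ≃ {y : B // (FreeGroup.of i)⁻¹ * y.1 ∈ B} :=
  { toFun := fun y => ⟨⟨FreeGroup.of i * y.1.1, y.2⟩, by
      change (FreeGroup.of i)⁻¹ * (FreeGroup.of i * y.1.1) ∈ B
      simp⟩
    invFun := fun y => ⟨⟨(FreeGroup.of i)⁻¹ * y.1.1, y.2⟩, by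
      change FreeGroup.of i * ((FreeGroup.of i)⁻¹ * y.1.1) ∈ B
      simp⟩
    left_inv := fun y => by
      apply Subtype.ext; apply Subtype.ext
      simp
    right_inv := fun y => by
      apply Subtype.ext; apply Subtype.ext
      simp }

/-- The extension to a permutation. -/
noncomputable def genPerm (B : Finset (FreeGroup ℕ)) (i : ℕ) : Perm B := by
  classical
  exact (genEquiv B i).extendSubtype

theorem genPerm_apply (B : Finset (FreeGroup ℕ)) (i : ℕ) (y : B) (h : FreeGroup.of i * y.1 ∈ B) :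
    genPerm B i y = ⟨FreeGroup.of i * y.1, h⟩ := by
  classical
  unfold genPerm
  rw [Equiv.extendSubtype_apply_of_mem (genEquiv B i) y h]
  rfl

theorem genPerm_inv_apply (B : Finset (FreeGroup ℕ)) (i : ℕ) (y : B) (h : (FreeGroup.of i)⁻¹ * y.1 ∈ B) :
    (genPerm B i)⁻¹ y = ⟨(FreeGroup.of i)⁻¹ * y.1, h⟩ := by
  rw [Equiv.Perm.inv_eq_iff_eq, genPerm_apply B i _ (by simpa using y.2)]
  apply Subtype.ext
  simp

theorem prod_apply_one (B : Finset (FreeGroup ℕ)) (h1 : (1 : FreeGroup ℕ) ∈ B) (L : List (ℕ × Bool))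
    (hL : ∀ t ∈ L.tails, FreeGroup.mk t ∈ B) (hw : FreeGroup.mk L ∈ B) :
    (L.map fun x => cond x.2 (genPerm B x.1) (genPerm B x.1)⁻¹).prod ⟨1, h1⟩ = ⟨FreeGroup.mk L, hw⟩ := by
  induction L with
  | nil => rfl
  | cons a l ih =>
    have hl : ∀ t ∈ l.tails, FreeGroup.mk t ∈ B := by
      intro t ht
      refine hL t ?_
      rw [List.tails_cons]
      exact List.mem_cons_of_mem _ ht
    have hlB : FreeGroup.mk l ∈ B := hL l (by simp [List.tails_cons])
    rw [List.map_cons, List.prod_cons, Equiv.Perm.mul_apply, ih hl hlB]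
    obtain ⟨i, b⟩ := a
    have hm : FreeGroup.mk ((i, b) :: l) = FreeGroup.mk [(i, b)] * FreeGroup.mk l := by
      rw [FreeGroup.mul_mk]; rfl
    cases b with
    | true =>
      have e1 : FreeGroup.mk [(i, true)] = FreeGroup.of i := rfl
      have h2 : FreeGroup.of i * FreeGroup.mk l ∈ B := by
        rw [← e1, ← hm]; exact hw
      simp only [cond_true]
      rw [genPerm_apply B i _ h2]
      apply Subtype.ext
      change FreeGroup.of i * FreeGroup.mk l = FreeGroup.mk ((i, true) :: l)
      rw [hm, e1]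
    | false =>
      have e1 : FreeGroup.mk [(i, false)] = (FreeGroup.of i)⁻¹ := rfl
      have h2 : (FreeGroup.of i)⁻¹ * FreeGroup.mk l ∈ B := by
        rw [← e1, ← hm]; exact hw
      simp only [cond_false]
      rw [genPerm_inv_apply B i _ h2]
      apply Subtype.ext
      change (FreeGroup.of i)⁻¹ * FreeGroup.mk l = FreeGroup.mk ((i, false) :: l)
      rw [hm, e1]

/-- A nontrivial word acts nontrivially on a finite set. -/
theorem exists_perm (w : FreeGroup ℕ) (hw : w ≠ 1) :
    ∃ (B : Finset (FreeGroup ℕ)) (σ : ℕ → Perm B), FreeGroup.lift σ w ≠ 1 := by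
  classical
  let L := w.toWord
  have hmk : FreeGroup.mk L = w := FreeGroup.mk_toWord
  let B : Finset (FreeGroup ℕ) := (L.tails.map FreeGroup.mk).toFinset
  have hB : ∀ t ∈ L.tails, FreeGroup.mk t ∈ B := fun t ht => by
    simp only [B, List.mem_toFinset, List.mem_map]
    exact ⟨t, ht, rfl⟩
  have h1 : (1 : FreeGroup ℕ) ∈ B := by
    have : FreeGroup.mk ([] : List (ℕ × Bool)) ∈ B := hB [] (by simp)
    exact this
  have hwB : FreeGroup.mk L ∈ B := hB L (by simp)
  refine ⟨B, genPerm B, fun h => ?_⟩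
  have h2 := prod_apply_one B h1 L hB hwB
  have h3 : (FreeGroup.lift (genPerm B)) w = (L.map fun x => cond x.2 (genPerm B x.1) (genPerm B x.1)⁻¹).prod := by
    rw [← hmk, FreeGroup.lift_mk]
  rw [← h3, h] at h2
  have h4 : (1 : FreeGroup ℕ) = FreeGroup.mk L := congrArg Subtype.val h2
  rw [hmk] at h4
  exact hw h4.symm

/-- Embedding a symmetric group into a big alternating group. -/
theorem exists_embed {B : Type*} [Fintype B] (n : ℕ) (hn : 2 * Fintype.card B ≤ n) :
    ∃ φ : Perm B →* alternatingGroup (Fin n), Function.Injective φ := by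
  classical
  let Y := (B ⊕ B) ⊕ Fin (n - 2 * Fintype.card B)
  have hY : Fintype.card Y = n := by
    simp only [Y, Fintype.card_sum, Fintype.card_fin]
    omega
  let e : Y ≃ Fin n := Fintype.equivFinOfCardEq hY
  let φ0 : Perm B →* Perm Y :=
    { toFun := fun s => Equiv.Perm.sumCongr (Equiv.Perm.sumCongr s s) 1
      map_one' := by
        ext x
        rcases x with (x | x) | x <;> rfl
      map_mul' := fun a b => by
        ext x
        rcases x with (x | x) | x <;> rfl }
  have hsign : ∀ s, sign (φ0 s) = 1 := by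
    intro s
    change sign (Equiv.Perm.sumCongr (Equiv.Perm.sumCongr s s) 1) = 1
    rw [sign_sumCongr, sign_sumCongr, Equiv.Perm.sign_one, mul_one, Int.units_mul_self]
  let φ : Perm B →* alternatingGroup (Fin n) :=
    MonoidHom.codRestrict (e.permCongrHom.toMonoidHom.comp φ0) (alternatingGroup (Fin n)) (fun s => by
      rw [mem_alternatingGroup]
      change sign (e.permCongr (φ0 s)) = 1
      rw [sign_permCongr]
      exact hsign s)
  refine ⟨φ, fun a b hab => ?_⟩
  have h1 : e.permCongrHom (φ0 a) = e.permCongrHom (φ0 b) := congrArg Subtype.val hab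
  have h2 : φ0 a = φ0 b := e.permCongrHom.injective h1
  ext x
  have h3 : ((Sum.inl (Sum.inl (a x))) : Y) = Sum.inl (Sum.inl (b x)) :=
    congrArg (fun f : Perm Y => f (Sum.inl (Sum.inl x))) h2
  simpa using h3

theorem main_2352 (w : FreeGroup ℕ) (hw : w ≠ 1) :
    ∃ N : ℕ, ∀ n : ℕ, N ≤ n → ∃ f : ℕ → alternatingGroup (Fin n), FreeGroup.lift f w ≠ 1 := by
  classical
  obtain ⟨B, σ, hσ⟩ := exists_perm w hw
  refine ⟨2 * Fintype.card B, fun n hn => ?_⟩
  obtain ⟨φ, hφ⟩ := exists_embed (B := B) n hn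
  refine ⟨fun i => φ (σ i), fun h => hσ ?_⟩
  have h1 : (φ.comp (FreeGroup.lift σ)) = FreeGroup.lift (fun i => φ (σ i)) := by
    ext i
    simp
  have h2 : φ (FreeGroup.lift σ w) = 1 := by
    have := congrArg (fun ψ => ψ w) h1
    simp only [MonoidHom.comp_apply] at this
    rw [this, h]
  exact hφ (by rw [h2, map_one])

end CfsgLib.H9.Words
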