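import Mathlib

/-! Non-trivial words are not laws in `PSL₂` over large finite fields. -/

namespace CfsgLib.H9.Words2

open Polynomial Matrix

variable {F : Type*} [Field F]

/-- The projection onto `(1,s)` along `(1,u)`. -/
def Pm (s u : F) : Matrix (Fin 2) (Fin 2) F := (s - u)⁻¹ • !![-u, 1; -s * u, s]

/-- The element acting as `t` on `(1,s)` and `t⁻¹` on `(1,u)`. -/
def Xm (s u t : F) : Matrix (Fin 2) (Fin 2) F := t • Pm s u + t⁻¹ • Pm u s

theorem Xm_mul {s u t : F} (h : s ≠ u) (ht : t ≠ 0) : Xm s u t * Xm u s t = 1 := by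
  have h1 : s - u ≠ 0 := sub_ne_zero.2 h
  have h2 : u - s ≠ 0 := sub_ne_zero.2 h.symm
  ext i j
  fin_cases i <;> fin_cases j <;>
    simp [Xm, Pm, Matrix.mul_apply, Fin.sum_univ_two] <;> field_simp <;> ring

theorem det_Xm {s u t : F} (h : s ≠ u) (ht : t ≠ 0) : (Xm s u t).det = 1 := by
  have h1 : s - u ≠ 0 := sub_ne_zero.2 h
  have h2 : u - s ≠ 0 := sub_ne_zero.2 h.symm
  rw [Matrix.det_fin_two]
  simp [Xm, Pm]
  field_simp
  ring

theorem Pm_mulVec {s u : F} (h : s ≠ u) (z : F) :
    Pm s u *ᵥ ![1, z] = ((z - u) / (s - u)) • ![1, s] := by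
  have h1 : s - u ≠ 0 := sub_ne_zero.2 h
  ext i
  fin_cases i <;>
    simp [Pm, Matrix.mulVec, dotProduct, Fin.sum_univ_two] <;> field_simp <;> ring

theorem smul_Xm {s u t : F} (ht : t ≠ 0) : t • Xm s u t = (t ^ 2) • Pm s u + Pm u s := by
  simp [Xm, smul_add, smul_smul, ht, sq]

theorem deg_aux {a b c d : F} {P R : F[X]} {m : ℕ} (hP : P.natDegree ≤ m) (hR : R.natDegree ≤ m) :
    ((X * C a + C b) * P + (X * C c + C d) * R).natDegree ≤ m + 1 := by
  have h1 : (X * C a + C b : F[X]).natDegree ≤ 1 := by compute_degree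
  have h2 : (X * C c + C d : F[X]).natDegree ≤ 1 := by compute_degree
  refine natDegree_add_le_of_degree_le ?_ ?_
  · rw [add_comm m 1]; exact natDegree_mul_le_of_le h1 hP
  · rw [add_comm m 1]; exact natDegree_mul_le_of_le h2 hR

theorem coeff_aux {a b c d : F} {P R : F[X]} {m : ℕ} (hP : P.natDegree ≤ m) (hR : R.natDegree ≤ m) :
    ((X * C a + C b) * P + (X * C c + C d) * R).coeff (m + 1) = a * P.coeff m + c * R.coeff m := by
  have e1 : (X * C a + C b) * P = X * (C a * P) + C b * P := by ring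
  have e2 : (X * C c + C d) * R = X * (C c * R) + C d * R := by ring
  rw [e1, e2]
  simp only [coeff_add, coeff_X_mul, coeff_C_mul]
  rw [coeff_eq_zero_of_natDegree_lt (show P.natDegree < m + 1 by omega),
    coeff_eq_zero_of_natDegree_lt (show R.natDegree < m + 1 by omega)]
  ring

/-- Expansion of a product of linear matrix polynomials. -/
theorem expandProd (L : List (Matrix (Fin 2) (Fin 2) F × Matrix (Fin 2) (Fin 2) F)) :
    ∃ Q : Matrix (Fin 2) (Fin 2) F[X],
      (∀ s i j, (Q i j).eval s = ((L.map fun p : Matrix (Fin 2) (Fin 2) F × Matrix (Fin 2) (Fin 2) F => s • p.1 + p.2).prod) i j) ∧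
      (∀ i j, (Q i j).natDegree ≤ L.length) ∧
      (∀ i j, (Q i j).coeff L.length = ((L.map Prod.fst).prod) i j) := by
  induction L with
  | nil =>
    refine ⟨(1 : Matrix (Fin 2) (Fin 2) F).map C, ?_, ?_, ?_⟩
    · intro s i j
      simp
    · intro i j
      simp
    · intro i j
      simp
  | cons p L ih =>
    obtain ⟨Q', h1, h2, h3⟩ := ih
    refine ⟨Matrix.of fun i j => (X * C (p.1 i 0) + C (p.2 i 0)) * Q' 0 j +
      (X * C (p.1 i 1) + C (p.2 i 1)) * Q' 1 j, ?_, ?_, ?_⟩
    · intro s i j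
      simp only [Matrix.of_apply, eval_add, eval_mul, eval_X, eval_C, h1, List.map_cons,
        List.prod_cons, Matrix.mul_apply, Fin.sum_univ_two, Matrix.add_apply, Matrix.smul_apply,
        smul_eq_mul]
    · intro i j
      exact deg_aux (h2 0 j) (h2 1 j)
    · intro i j
      rw [List.length_cons]
      simp only [Matrix.of_apply]
      rw [coeff_aux (h2 0 j) (h2 1 j), h3, h3]
      simp [Matrix.mul_apply, Fin.sum_univ_two]

/-- The chain computation for the top coefficient. -/
theorem key (a : ℕ × Bool → F) (l : ℕ × Bool) (L : List (ℕ × Bool))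
    (hinj : ∀ x ∈ l :: L, ∀ y ∈ l :: L, ∀ b, a x = a (y.1, b) → x = (y.1, b))
    (hne : ∀ x ∈ l :: L, a x ≠ a (x.1, !x.2))
    (hred : FreeGroup.IsReduced (l :: L)) :
    ∃ z : ℕ × Bool, ∃ κ : F, κ ≠ 0 ∧
      (((l :: L).map fun x => Pm (a x) (a (x.1, !x.2))).prod) *ᵥ ![1, a z] = κ • ![1, a l] ∧
      (((l :: L).map fun x => Pm (a x) (a (x.1, !x.2))).prod) *ᵥ ![1, a (z.1, !z.2)] = 0 := by
  induction L generalizing l with
  | nil =>
    refine ⟨l, 1, one_ne_zero, ?_, ?_⟩
    · have h := hne l (by simp)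
      simp only [List.map_cons, List.map_nil, List.prod_cons, List.prod_nil, mul_one]
      rw [Pm_mulVec h, div_self (sub_ne_zero.2 h)]
    · have h := hne l (by simp)
      simp only [List.map_cons, List.map_nil, List.prod_cons, List.prod_nil, mul_one]
      rw [Pm_mulVec h]
      simp
  | cons l' L ih =>
    have hred' : FreeGroup.IsReduced (l' :: L) := (FreeGroup.isReduced_cons_cons.1 hred).2
    obtain ⟨z, κ, hκ, h1, h2⟩ := ih l'
      (fun x hx y hy => hinj x (List.mem_cons_of_mem _ hx) y (List.mem_cons_of_mem _ hy))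
      (fun x hx => hne x (List.mem_cons_of_mem _ hx)) hred'
    have hl := hne l (by simp)
    have hchain : a l' ≠ a (l.1, !l.2) := by
      intro h
      have h3 := hinj l' (by simp) l (by simp) _ h
      have h4 := (FreeGroup.isReduced_cons_cons.1 hred).1
      rw [h3] at h4
      have := h4 rfl
      simp at this
    refine ⟨z, κ * ((a l' - a (l.1, !l.2)) / (a l - a (l.1, !l.2))), ?_, ?_, ?_⟩
    · exact mul_ne_zero hκ (div_ne_zero (sub_ne_zero.2 hchain) (sub_ne_zero.2 hl))
    · rw [List.map_cons, List.prod_cons, ← Matrix.mulVec_mulVec, h1, Matrix.mulVec_smul,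
        Pm_mulVec hl, smul_smul]
    · rw [List.map_cons, List.prod_cons, ← Matrix.mulVec_mulVec, h2, Matrix.mulVec_zero]

theorem not_scalar (a : ℕ × Bool → F) (l : ℕ × Bool) (L : List (ℕ × Bool))
    (hinj : ∀ x ∈ l :: L, ∀ y ∈ l :: L, ∀ b, a x = a (y.1, b) → x = (y.1, b))
    (hne : ∀ x ∈ l :: L, a x ≠ a (x.1, !x.2))
    (hred : FreeGroup.IsReduced (l :: L))
    (h01 : (((l :: L).map fun x => Pm (a x) (a (x.1, !x.2))).prod) 0 1 = 0)
    (h10 : (((l :: L).map fun x => Pm (a x) (a (x.1, !x.2))).prod) 1 0 = 0)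
    (h00 : (((l :: L).map fun x => Pm (a x) (a (x.1, !x.2))).prod) 0 0 =
      (((l :: L).map fun x => Pm (a x) (a (x.1, !x.2))).prod) 1 1) : False := by
  obtain ⟨z, κ, hκ, h1, h2⟩ := key a l L hinj hne hred
  set C := ((l :: L).map fun x => Pm (a x) (a (x.1, !x.2))).prod with hC
  have h3 : C 0 0 = 0 := by
    have := congrFun h2 0
    simpa [Matrix.mulVec, dotProduct, Fin.sum_univ_two, h01] using this
  have h4 : κ = 0 := by
    have := congrFun h1 0
    simp only [Matrix.mulVec, dotProduct, Fin.sum_univ_two, h3, h01] at this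
    simpa using this.symm
  exact hκ h4

open Matrix.SpecialLinearGroup in
/-- The main theorem: no law in `PSL₂` over large fields. -/
theorem main_2353 (w : FreeGroup ℕ) (hw : w ≠ 1) :
    ∃ N : ℕ, ∀ (F : Type*) [Field F] [Fintype F], N ≤ Fintype.card F →
      ∃ f : ℕ → Matrix.ProjectiveSpecialLinearGroup (Fin 2) F, FreeGroup.lift f w ≠ 1 := by
  classical
  set L := w.toWord with hL
  have hmk : FreeGroup.mk L = w := FreeGroup.mk_toWord
  have hred : FreeGroup.IsReduced L := FreeGroup.isReduced_toWord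
  refine ⟨2 * L.length + 2, ?_⟩
  intro F _ _ hN
  by_contra hcon
  push Not at hcon
  -- the set of letters
  let T : Finset (ℕ × Bool) := (L.map Prod.fst).toFinset ×ˢ Finset.univ
  have hT : T.card ≤ Fintype.card F := by
    have h1 : T.card = (L.map Prod.fst).toFinset.card * 2 := by
      simp [T, Finset.card_product]
    have h2 : (L.map Prod.fst).toFinset.card ≤ L.length := by
      have := List.toFinset_card_le (L.map Prod.fst)
      simpa using this
    omega
  obtain ⟨e⟩ : Nonempty (T ↪ F) := Function.Embedding.nonempty_of_card_le (by simpa using hT)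
  let a : ℕ × Bool → F := fun x => if h : x ∈ T then e ⟨x, h⟩ else 0
  have ha : ∀ x ∈ T, ∀ y ∈ T, a x = a y → x = y := by
    intro x hx y hy h
    simp only [a, dif_pos hx, dif_pos hy] at h
    exact congrArg Subtype.val (e.injective h)
  have hmemT : ∀ x ∈ L, ∀ b, (x.1, b) ∈ T := by
    intro x hx b
    simp only [T, Finset.mem_product, List.mem_toFinset, List.mem_map, Finset.mem_univ, and_true]
    exact ⟨x, hx, rfl⟩
  have hself : ∀ x ∈ L, x ∈ T := fun x hx => by
    have := hmemT x hx x.2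
    simpa using this
  have hne : ∀ x ∈ L, a x ≠ a (x.1, !x.2) := by
    intro x hx h
    have := ha _ (hself x hx) _ (hmemT x hx _) h
    have h2 : x.2 = !x.2 := congrArg Prod.snd this
    simp at h2
  -- the generators
  let x : F → ℕ → Matrix.SpecialLinearGroup (Fin 2) F := fun t i =>
    if h : a (i, true) ≠ a (i, false) ∧ t ≠ 0 then ⟨Xm (a (i, true)) (a (i, false)) t, det_Xm h.1 h.2⟩
    else 1
  have hxdef : ∀ t i, ∀ (h : a (i, true) ≠ a (i, false)) (ht : t ≠ 0),
      x t i = (⟨Xm (a (i, true)) (a (i, false)) t, det_Xm h ht⟩ : Matrix.SpecialLinearGroup (Fin 2) F) := by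
    intro t i h ht
    exact dif_pos ⟨h, ht⟩
  have hxval : ∀ t, t ≠ 0 → ∀ l ∈ L,
      ((cond l.2 (x t l.1) (x t l.1)⁻¹ : Matrix.SpecialLinearGroup (Fin 2) F)).1 =
        Xm (a l) (a (l.1, !l.2)) t := by
    intro t ht l hl
    obtain ⟨i, b⟩ := l
    cases b with
    | true =>
      have h1 := hne _ hl
      simp only [Bool.not_true] at h1
      simp only [cond_true]
      rw [hxdef t i h1 ht]
      rfl
    | false =>
      have h1 := hne _ hl
      simp only [Bool.not_false] at h1
      have h2 : a (i, true) ≠ a (i, false) := h1.symm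
      simp only [cond_false]
      rw [hxdef t i h2 ht]
      let y : Matrix.SpecialLinearGroup (Fin 2) F :=
        ⟨Xm (a (i, false)) (a (i, true)) t, det_Xm h2.symm ht⟩
      let z : Matrix.SpecialLinearGroup (Fin 2) F := ⟨Xm (a (i, true)) (a (i, false)) t, det_Xm h2 ht⟩
      have hy : z * y = 1 := by
        apply Subtype.ext
        exact Xm_mul h2 ht
      have hz : z⁻¹ = y := inv_eq_of_mul_eq_one_right hy
      change (z⁻¹).1 = _
      rw [hz]
      rfl
  have hprod : ∀ t, t ≠ 0 → ∀ L' : List (ℕ × Bool), (∀ l ∈ L', l ∈ L) →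
      ((L'.map fun y => cond y.2 (x t y.1) (x t y.1)⁻¹).prod : Matrix.SpecialLinearGroup (Fin 2) F).1 =
        (L'.map fun y => Xm (a y) (a (y.1, !y.2)) t).prod := by
    intro t ht L'
    induction L' with
    | nil => intro _; rfl
    | cons l L' ih =>
      intro h
      rw [List.map_cons, List.prod_cons, List.map_cons, List.prod_cons,
        ← ih (fun y hy => h y (List.mem_cons_of_mem _ hy)), ← hxval t ht l (h l (by simp))]
      rfl
  have hscal : ∀ L' : List (ℕ × Bool), ∀ t : F, t ≠ 0 →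
      t ^ L'.length • (L'.map fun y => Xm (a y) (a (y.1, !y.2)) t).prod =
        (L'.map fun y => (t ^ 2) • Pm (a y) (a (y.1, !y.2)) + Pm (a (y.1, !y.2)) (a y)).prod := by
    intro L' t ht
    induction L' with
    | nil => simp
    | cons l L' ih =>
      rw [List.map_cons, List.prod_cons, List.map_cons, List.prod_cons, ← ih, ← smul_Xm ht,
        List.length_cons, pow_succ', mul_smul, smul_mul_smul_comm]
      simp [mul_smul]
  -- expansion
  obtain ⟨Q, hQ1, hQ2, hQ3⟩ := expandProd (L.map fun y => (Pm (a y) (a (y.1, !y.2)), Pm (a (y.1, !y.2)) (a y)))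
  simp only [List.length_map, List.map_map] at hQ2 hQ3
  have hQ1' : ∀ s i j, (Q i j).eval s =
      ((L.map fun y => s • Pm (a y) (a (y.1, !y.2)) + Pm (a (y.1, !y.2)) (a y)).prod) i j := by
    intro s i j
    rw [hQ1]
    simp only [List.map_map]
    rfl
  -- scalar values
  have hsc : ∀ t : F, t ≠ 0 →
      (Q 0 1).eval (t ^ 2) = 0 ∧ (Q 1 0).eval (t ^ 2) = 0 ∧ (Q 0 0).eval (t ^ 2) = (Q 1 1).eval (t ^ 2) := by
    intro t ht
    have h1 := hcon (fun i => QuotientGroup.mk (x t i))
    have h2 : (FreeGroup.lift fun i => (QuotientGroup.mk (x t i) :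
        Matrix.ProjectiveSpecialLinearGroup (Fin 2) F)) =
        (QuotientGroup.mk' _).comp (FreeGroup.lift (x t)) := by
      ext i
      simp
    rw [h2, MonoidHom.comp_apply] at h1
    have h3 : FreeGroup.lift (x t) w ∈ Subgroup.center (Matrix.SpecialLinearGroup (Fin 2) F) :=
      (QuotientGroup.eq_one_iff _).1 h1
    rw [Matrix.SpecialLinearGroup.mem_center_iff] at h3
    obtain ⟨r, -, hr⟩ := h3
    have h4 : (FreeGroup.lift (x t) w).1 = (L.map fun y => Xm (a y) (a (y.1, !y.2)) t).prod := by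
      rw [← hmk, FreeGroup.lift_mk]
      exact hprod t ht L (fun _ h => h)
    have h5 := hscal L t ht
    rw [← h4] at h5
    have h6 : (FreeGroup.lift (x t) w).1 = Matrix.scalar (Fin 2) r := hr.symm
    rw [h6] at h5
    have e01 := hQ1' (t ^ 2) 0 1
    have e10 := hQ1' (t ^ 2) 1 0
    have e00 := hQ1' (t ^ 2) 0 0
    have e11 := hQ1' (t ^ 2) 1 1
    rw [← h5] at e01 e10 e00 e11
    refine ⟨?_, ?_, ?_⟩
    · rw [e01]; simp
    · rw [e10]; simp
    · rw [e00, e11]; simp
  -- vanishing of polynomials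
  have hvan : ∀ p : F[X], p.natDegree ≤ L.length → (∀ t : F, t ≠ 0 → p.eval (t ^ 2) = 0) → p = 0 := by
    intro p hp h
    have h1 : Polynomial.expand F 2 p = 0 := by
      refine Polynomial.eq_zero_of_natDegree_lt_card_of_eval_eq_zero' _ (Finset.univ.erase 0) ?_ ?_
      · intro t ht
        rw [expand_eval]
        exact h t (Finset.ne_of_mem_erase ht)
      · rw [natDegree_expand, Finset.card_erase_of_mem (Finset.mem_univ _), Finset.card_univ]
        omega
    exact (expand_eq_zero (by norm_num)).1 h1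
  have h01 : Q 0 1 = 0 := hvan _ (hQ2 0 1) (fun t ht => (hsc t ht).1)
  have h10 : Q 1 0 = 0 := hvan _ (hQ2 1 0) (fun t ht => (hsc t ht).2.1)
  have h00 : Q 0 0 - Q 1 1 = 0 := hvan _
    ((natDegree_sub_le_of_le (hQ2 0 0) (hQ2 1 1)).trans (by simp)) (fun t ht => by
      rw [eval_sub, (hsc t ht).2.2, sub_self])
  -- conclusion
  have hLne : L ≠ [] := by
    intro h
    apply hw
    rw [← hmk, h]
    rfl
  obtain ⟨l, L', hLL⟩ := List.exists_cons_of_ne_nil hLne
  have hc01 := hQ3 0 1
  have hc10 := hQ3 1 0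
  have hc00 := hQ3 0 0
  have hc11 := hQ3 1 1
  rw [h01, coeff_zero] at hc01
  rw [h10, coeff_zero] at hc10
  have h00' : Q 0 0 = Q 1 1 := sub_eq_zero.1 h00
  rw [h00', hc11] at hc00
  rw [hLL] at hc01 hc10 hc00 hred
  have hinj : ∀ x ∈ l :: L', ∀ y ∈ l :: L', ∀ b, a x = a (y.1, b) → x = (y.1, b) := by
    intro x' hx' y' hy' b h
    rw [← hLL] at hx' hy'
    exact ha _ (hself _ hx') _ (hmemT _ hy' _) h
  have hne' : ∀ x ∈ l :: L', a x ≠ a (x.1, !x.2) := by
    intro x' hx'
    rw [← hLL] at hx'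
    exact hne _ hx'
  exact not_scalar a l L' hinj hne' hred
    (by simpa [Function.comp_def, hLL] using hc01.symm)
    (by simpa [Function.comp_def, hLL] using hc10.symm)
    (by simpa [Function.comp_def, hLL] using hc00.symm)

end CfsgLib.H9.Words2
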